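import Cfsg.Agent.H16.RU2
import Cfsg.Agent.H0.RU2

/-! S2196, chunks POP and FO2: class sums of transvections, the spectrum of `opA`. -/

set_option autoImplicit false
set_option linter.unusedSectionVars false

open Module H12 H0.RU Finset H13.R3
open H11 (hermT frob)

namespace H16.RU

universe u
attribute [-simp] H11.frob_apply
variable {F : Type u} [Field F] [Fintype F] {q : ℕ} {hF : Fintype.card F = q ^ 2}
  {V : Type u} [AddCommGroup V] [Module F V] [Fintype V] {C : CForm (hermT hF) V}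
  {G : Type u} [Group G] [Fintype G] [DistribMulAction G V] [SMulCommClass G F V]

open Classical in
/-- normalised parametrisation of the transvections with centre not perpendicular to `y` -/
theorem tn (un : Un C G) (y : V) (f : G → ℂ) (Φ : V → F → ℂ)
    (h0 : ∀ t z a, Is C z → Tr C t z a → C.B z y = 0 → f t = 0)
    (h1 : ∀ t z a, Is C z → a ≠ 0 → Tr C t z a → C.B z y = 1 → f t = Φ z a) :
    ∑ t ∈ TS C G, f t = ∑ a : F, if a ≠ 0 ∧ a + frob hF a = 0 then
      ∑ z, (if C.B z z = 0 ∧ C.B z y = 1 then Φ z a else 0) else 0 := by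
  let P : F × V → Prop := fun x => (x.1 ≠ 0 ∧ x.1 + frob hF x.1 = 0) ∧ C.B x.2 x.2 = 0 ∧ C.B x.2 y = 1
  have : ∀ x, ∃ t : G, P x → Tr C t x.2 x.1 := fun x => by
    by_cases h : P x
    · exact (un.ex_tr h.2.1 h.1.2).imp fun _ k _ => k
    · exact ⟨1, fun k => absurd k h⟩
  choose T hT using this
  have iz : ∀ x, P x → Is C x.2 := fun x h => ⟨fun e => by simpa [e] using h.2.2, h.2.1⟩
  rw [← sum_of_injOn (s := univ.filter P) (f := fun x => Φ x.2 x.1) T (fun x hx x' hx' e => ?_)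
    (fun x hx => ?_) (fun t ht hn => ?_) fun x hx => ?_, sum_filter, Fintype.sum_prod_type]
  · refine sum_congr rfl fun a _ => ?_
    split_ifs with h
    · simp only [h, true_and, ne_eq, not_false_iff, and_self]
    · simp only [h, false_and, if_false, sum_const_zero]
  · have k := (mem_filter.1 hx).2
    have k' := (mem_filter.1 hx').2
    have e1 := (hT x k y).symm.trans (e ▸ hT x' k' y)
    rw [k.2.2, k'.2.2, mul_one, mul_one, add_right_inj] at e1
    have e2 := congrArg (C.B · y) e1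
    simp only [Bl, k.2.2, k'.2.2, mul_one] at e2
    have e3 := (frob hF).injective e2
    exact Prod.ext e3 (smul_right_injective V k'.1.1 (e3 ▸ e1))
  · have k := (mem_filter.1 hx).2
    exact mem_TS.2 ⟨_, _, iz x k, k.1.1, hT x k⟩
  · obtain ⟨v, c, hv, hc, h⟩ := mem_TS.1 ht
    refine h0 t v c hv h (by_contra fun e => hn ?_)
    have d0 := inv_ne_zero (H0.RU.fr_ne (hF := hF) e)
    set d := (frob hF (C.B v y))⁻¹ with hd
    have n0 := mul_ne_zero d0 (H0.RU.fr_ne (hF := hF) d0)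
    have h2 : Tr C t (d • v) (c / (d * frob hF d)) := Tr.sml.2 (by rwa [div_mul_cancel₀ _ n0])
    have k : P (c / (d * frob hF d), d • v) := ⟨⟨div_ne_zero hc n0, un.tr_trc h2 (hv.sml d0)⟩,
      (hv.sml d0).2, by change C.B (d • v) y = 1; rw [Bl, hd, map_inv₀, ff, inv_mul_cancel₀ e]⟩
    exact ⟨_, mem_filter.2 ⟨mem_univ _, k⟩, un.tr_unique (hT _ k) h2⟩
  · have k := (mem_filter.1 hx).2
    exact (h1 _ _ _ (iz x k) k.1.1 (hT x k) k.2.2).symm

theorem iso_sh {z v : V} {a : F} (hv : C.B v v = 0) (h : C.B z v = 1) (ha : a + frob hF a = 0) :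
    C.B (z + a⁻¹ • v) (z + a⁻¹ • v) = C.B z z := by
  have : frob hF a = -a := eq_neg_of_add_eq_zero_right ha
  simp [hv, h, Bone h, this]

open Classical in
theorem sum_th (c : ℂ) : ∑ a : F, (if a ≠ 0 ∧ a + frob hF a = 0 then c else 0) = (q - 1) * c := by
  rw [sum_ite, theta]

theorem pop : POP C G := by
  classical
  intro un μ φ h v hv
  rw [tn un v _ (fun z a => φ v - μ a * φ (z + a⁻¹ • v)) (fun t z a _ ht e => by
    rw [ht.fix e, sub_self]) fun t z a _ a0 ht e => by
      rw [ht v, e, mul_one, ← h.2 a _ a0, smul_add, smul_inv_smul₀ a0, add_comm],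
    mul_assoc, ← sum_th (hF := hF), Mu, sum_mul, ← sum_sub_distrib]
  refine sum_congr rfl fun a _ => ?_
  split_ifs with ha
  swap; · simp
  rw [← Nat.cast_pow, ← cnt2 un.nd (by have := un.n6; omega) hv, ← sum_ite, opK_is _ hv, mul_sum,
    ← Equiv.sum_comp (Equiv.addRight (a⁻¹ • v)) fun u => μ a * _, ← sum_sub_distrib]
  refine sum_congr rfl fun z _ => ?_
  rw [Equiv.coe_addRight, show C.B (z + a⁻¹ • v) v = C.B z v by simp [hv.2]]
  by_cases e : C.B z v = 1
  · by_cases e' : C.B z z = 0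
    · simp only [e, e', and_self, if_true]
    · simp [e', h.1 _ fun k => e' ((iso_sh hv.2 e ha.2).symm.trans k.2)]
  · simp [e]

variable {φ : V × V → ℂ}

theorem ff2 (h : φ ∈ FF C) (x y : V) {b : F} (hb : b ≠ 0) : φ (x, b • y) = φ (x, y) := by
  simpa using h.2 1 b 0 x y one_ne_zero hb

theorem ff1 (h : φ ∈ FF C) (x y : V) {b : F} (hb : b ≠ 0) : φ (b • x, y) = φ (x, y) := by
  simpa using h.2 b 1 0 x y hb one_ne_zero

theorem ff3 (h : φ ∈ FF C) (x y : V) (c : F) : φ (x, y + c • x) = φ (x, y) := by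
  simpa using h.2 1 1 c x y one_ne_zero one_ne_zero

open Classical in
theorem opS_ap (φ : V × V → ℂ) (x y : V) :
    opS C φ (x, y) = ∑ c : F, if Fl C x y then φ (y + c • x, x) else 0 := rfl

open Classical in
theorem opA_ap (φ : V × V → ℂ) (x y : V) :
    opA C φ (x, y) = ∑ z, if Fl C x y ∧ C.B z y = 1 then ((q : ℂ) ^ 2)⁻¹ * φ (x, z) else 0 := rfl

theorem qq (hF : Fintype.card F = q ^ 2) : (q : ℂ) ^ 2 ≠ 0 :=
  pow_ne_zero 2 (by exact_mod_cast q_ne hF)

open Classical in
theorem opA_fl (φ : V × V → ℂ) {x y : V} (hb : Fl C x y) :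
    q ^ 2 * opA C φ (x, y) = ∑ z, if C.B z y = 1 then φ (x, z) else 0 := by
  simp only [opA_ap, hb, true_and, mul_sum, mul_ite, mul_zero, mul_inv_cancel_left₀ (qq hF)]

theorem opA_mem (h : φ ∈ FF C) : opA C φ ∈ FF C := by
  classical
  refine ⟨fun x y n => by simp [opA_ap, n], fun a b c x y ha hb => ?_⟩
  have h1 := inv_ne_zero (H0.RU.fr_ne (hF := hF) hb)
  rw [opA_ap, opA_ap, ← sum_sm h1]
  refine sum_congr rfl fun z _ => ?_
  rw [fl_tr c ha hb, ff1 h _ _ ha, ff2 h _ _ h1]
  by_cases k : Fl C x z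
  · simp [Bsw k.2.2.1, hb]
  · simp [h.1 x z k]

open Classical in
theorem cnt4 (hG : Ge C) {x y : V} (hb : Fl C x y) (c : ℂ) :
    ∑ z, (if C.B z z = 0 ∧ C.B z y = 1 ∧ C.B x z = 0 then c else 0) =
      q ^ 2 * q ^ (2 * finrank F V - 7) * c := by
  have := hG.n6
  rw [sum_ite, (cnt hG.nd (by omega)).2.2.2.1 y x 0 hb.symm, Nat.cast_pow, ← pow_add]
  congr 2; omega

theorem fl_of {x y z : V} (hb : Fl C x y) (e : C.B z y = 1) :
    Fl C x z ↔ C.B z z = 0 ∧ C.B x z = 0 :=
  ⟨fun k => ⟨k.2.1, k.2.2.1⟩, fun k => ⟨hb.1, k.1, k.2, fun m => by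
    obtain ⟨c, rfl⟩ := Submodule.mem_span_singleton.1 m
    simp [hb.2.2.1] at e⟩⟩

theorem sum_W {x x' : V} (hx : Is C x) (e : C.B x' x = 1)
    [Fintype (C.perp (ln F x x'))] (g : V → ℂ) (h0 : ∀ z, C.B x z ≠ 0 → g z = 0)
    (h1 : ∀ z (c : F), g (z + c • x) = g z) :
    ∑ z, g z = q ^ 2 * ∑ w : C.perp (ln F x x'), g w := by
  rw [← Fintype.sum_of_injective (fun p : F × C.perp (ln F x x') => (p.2 : V) + p.1 • x)
    (fun p p' k => ?_) (fun p => g p.2) g (fun z hz => h0 z fun k => hz ?_) fun p => (h1 _ _).symm,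
    Fintype.sum_prod_type]
  · simp only [sum_const, card_univ, hF, nsmul_eq_mul, Nat.cast_pow]
  · have k' := congrArg (C.B x') k
    simp only [map_add, map_smul, (mem_pp_ln.1 p.2.2).2, (mem_pp_ln.1 p'.2.2).2, e, zero_add,
      smul_eq_mul, mul_one] at k'
    exact Prod.ext k' (Subtype.ext (add_right_cancel (k.trans (by rw [k']))))
  · exact ⟨(C.B x' z, ⟨z - C.B x' z • x, mem_pp_ln.2 ⟨by simp [k, hx.2], by simp [e]⟩⟩),
      sub_add_cancel _ _⟩

theorem fo2 : FO2 C := by
  classical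
  intro hG φ h
  have n6 := hG.n6
  refine ⟨fun hP => funext fun ⟨x, y⟩ => ?_, ?_, fun x y y' hy hy' => ?_⟩
  · by_cases hb : Fl C x y
    · refine mul_left_cancel₀ (qq hF) ?_
      rw [opA_fl _ hb, Pi.smul_apply, smul_eq_mul, ← mul_assoc, ← cnt4 hG hb]
      refine sum_congr rfl fun z _ => ?_
      by_cases e : C.B z y = 1
      · by_cases k : Fl C x z
        · simp only [e, k.2.1, k.2.2.1, and_self, if_true, hP x z y k hb]
        · simp only [e, true_and, ← fl_of hb e, k, if_true, if_false, h.1 x z k]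
      · simp [e]
    · rw [(opA_mem h).1 x y hb, Pi.smul_apply, h.1 x y hb, smul_zero]
  · simp only [Fintype.sum_prod_type, opA_ap, mul_sum]
    refine sum_congr rfl fun x _ => ?_
    rw [sum_comm]
    refine sum_congr rfl fun z _ => ?_
    by_cases k : Fl C x z
    · refine Eq.trans (sum_congr rfl fun y _ => ?_) ((cnt4 hG k (((q : ℂ) ^ 2)⁻¹ * φ (x, z))).trans
        (by rw [mul_right_comm, mul_inv_cancel_left₀ (qq hF), mul_comm]))
      by_cases e : C.B y z = 1
      · simp only [e, Bone e, true_and, and_true, fl_of k e]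
      · simp only [e, mt Bone e, and_false, false_and, if_false]
    · simp [h.1 x z k]
  · obtain ⟨x', hx', e⟩ := ex_par hG.nd hy.1
    have e' : C.B x x' ≠ 0 := by rw [Bone e]; exact one_ne_zero
    let W := C.perp (ln F x x')
    have hW : finrank F W + 2 = finrank F V := fr_pp_ln hG.nd (ind_of_ne hy.1.2 e')
    have k1 : ∀ w : W, Fl C x w ↔ Is (C.restrict W) w := fun w =>
      ⟨fun k => ⟨fun m => k.isr.1 (congrArg Subtype.val m), k.2.1⟩, fun k =>
        ⟨hy.1, k.2, (mem_pp_ln.1 w.2).1, fun m => by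
          obtain ⟨c, hc⟩ := Submodule.mem_span_singleton.1 m
          have := (mem_pp_ln.1 w.2).2
          rw [← hc, map_smul, e, smul_eq_mul, mul_one] at this
          exact k.1 (Subtype.ext (by rw [← hc, this, zero_smul]; rfl))⟩⟩
    have k2 : ∀ ψ ∈ FF C, (fun w : W => opA C ψ (x, w)) = opK (C.restrict W) fun w => ψ (x, w) :=
      fun ψ hψ => funext fun w => by
        by_cases k : Fl C x w
        · refine mul_left_cancel₀ (qq hF) ?_
          rw [opA_fl _ k, opK_is _ ((k1 w).1 k), sum_W hy.1 e _ (fun z hz => ?_) fun z c => ?_]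
          · rfl
          · rw [hψ.1 x z fun m => hz m.2.2.1, ite_self]
          · simp [ff3 hψ, k.2.2.1]
        · rw [(opA_mem hψ).1 _ _ k]
          simp [opK_ap, mt (k1 w).2 k]
    obtain ⟨-, -, -, c, hc⟩ := srg (C := C.restrict W) (C.restrict_nondeg_iff.2
      (nd_pp_ln hG.nd hy.1.2 hx'.2 e')) (by omega) (fun w : W => φ (x, w))
      ⟨fun w n => h.1 _ _ (mt (k1 w).1 n), fun a w ha => by simp [ff2 h _ _ ha]⟩
    rw [← k2 φ h, ← k2 _ (opA_mem h)] at hc
    have k3 : ∀ y, Fl C x y → _ = c * ∑ w : W, φ (x, w) := fun y hy => by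
      have m : y - C.B x' y • x ∈ W := mem_pp_ln.2 ⟨by simp [hy.2.2.1, hy.1.2], by simp [e]⟩
      have := hc ⟨_, m⟩ ((k1 _).1 (by simpa [sub_eq_add_neg] using hy.add (-C.B x' y)))
      simp only [sub_eq_add_neg, ← neg_smul, ff3 h, ff3 (opA_mem h), ff3 (opA_mem (opA_mem h))] at this
      exact this
    have := (k3 y hy).trans (k3 y' hy').symm
    rwa [show finrank F W - 2 = finrank F V - 4 by omega, show finrank F W - 3 = finrank F V - 5 by
      omega, show 2 * finrank F W - 5 = 2 * finrank F V - 9 by omega] at this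

end H16.RU
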