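import Cfsg.Agent.H16.DG3

/-! S4984: the Hecke hypotheses, frames of two hyperbolic pairs. -/

set_option autoImplicit false
set_option linter.unusedSectionVars false

open Cfsg Module H12 H5 Finset Submodule
open scoped ComplexConjugate Classical

namespace H16.DG

section
variable {F : Type} [Field F] [Finite F] {T : FormType F} {V : Type} [AddCommGroup V] [Module F V]
  [Finite V] {C : CForm T V} {W W' : Submodule F V} {w u : C.isom} {σ : (W ≃ₗ[F] W) → ℂ}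
  {τ : C.isom → ℂ}

theorem q_B (hu : u ∈ QW C W) {e : V} (he : e ∈ W) (x : V) : C.B e (u.1 x) = C.B e x := by
  conv_lhs => rw [← hu.1 e he, CForm.isom_B u.2]

theorem q_rho (hW : C.TS W) (hu : u ∈ QW C W) : rho C W u = 1 :=
  rho_eq (hu.2.mem hW) fun y => (hu.1 y y.2).symm

theorem Op.q_one (hC : C.Nondeg) (h : Op C W W') (hu : u ∈ QW C W) (h1 : u ∈ St C W') : u = 1 := by
  have h2 : ∀ y ∈ W', u.1 y = y := fun y hy => sub_eq_zero.1 ((h.symm hC).zero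
    (sub_mem ((mem_St.1 h1 y).1 hy) hy) (C.mem_perp.2 fun e he => by simp [q_B hu he]))
  obtain ⟨b, b1, -⟩ := (h.symm hC).proj hC
  refine Subtype.ext (LinearEquiv.ext fun x => ?_)
  have := h.zero (hu.2 _ (b1 x)) (C.mem_perp.2 fun y hy => by
    rw [map_sub]; nth_rw 1 [← h2 y hy]; rw [CForm.isom_B u.2, sub_self])
  rw [map_sub, h2 _ (b x).2, sub_sub_sub_cancel_right] at this
  exact sub_eq_zero.1 this

variable (C W W' w) in
/-- a Weyl element for a pair of opposite subspaces -/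
structure Wy : Prop where
  nd : C.Nondeg
  op : Op C W W'
  im : im C w W = W'
  fix : ∀ x ∈ C.perp (W ⊔ W'), w.1 x = x
  sq : w * w ∈ St C W

theorem Wy.st (h : Wy C W W' w) {l : C.isom} : w⁻¹ * l * w ∈ St C W ↔ l ∈ St C W' := by
  rw [conj_mem_St, h.im]

theorem Wy.dc (h : Wy C W W' w) {x : C.isom} (h0 : W ⊓ C.perp (DG.im C x W) = ⊥) :
    ∃ p ∈ QW C W, ∃ p' ∈ St C W, x = p * w * p' := by
  obtain ⟨p, hp, e⟩ := h.op.qt h.nd ⟨h.op.1, ts_im h.op.1, finrank_im, h0⟩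
  refine ⟨p, hp, w⁻¹ * p⁻¹ * x, mem_St_im.2 ?_, by group⟩
  rw [im_mul, ← e, ← h.im, ← im_mul, ← im_mul]
  simp [im_one]

theorem Wy.inv (h : Wy C W W' w) {z : V} (hz : z ∈ W) : w⁻¹.1 z ∈ W' := by
  rw [← h.im, mem_im, ← mem_St_im.1 (inv_mem h.sq)]
  exact ⟨z, hz, rfl⟩

theorem Wy.rth (h : Wy C W W' w) (hT : OS T) (v : VAN) (h0 : W ≠ ⊥) (hσ : Cu σ) (hτ : Ta C W τ)
    (hM : Mid C W τ) (h1 : σ (rho C W (w * w)) = σ 1)
    (h2 : ∀ l ∈ St C W, l ∈ St C W' → σ (rho C W (w⁻¹ * l * w * l⁻¹)) = σ 1) :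
    RTH (St C W) (QW C W) (psi C W σ τ) w := by
  have hW := h.op.1
  refine ⟨v3a F T V C hT h.nd W σ τ hW hσ.irr hτ, fun u hu => hu.2.mem hW, fun p hp u hu => ⟨fun x hx => ?_, ?_⟩,
    fun u hu => ?_, fun p hp => ?_, fun u hu h3 => h.op.q_one h.nd hu (h.st.1 h3), fun l hl h3 => ?_,
    h.sq, ?_, fun e => h0 ?_, fun x hx h3 => v F T V C hT h.nd W σ τ x hW hσ hτ hM hx fun e => ?_⟩
  · change p.1 (u.1 (p⁻¹.1 x)) = x
    rw [hu.1 _ ((mem_St.1 (inv_mem hp) x).1 hx)]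
    exact apply_inv_apply _ _
  · simpa using KW.conj (x := p⁻¹) (W := W) (by rw [mem_St_im.1 (inv_mem hp)]; exact hu.2)
  · rw [psi_one, psi, q_rho hW hu, hτ.inv u hu.2]
  · obtain ⟨u, hu, e⟩ := h.op.qt h.nd (h.op.im hp)
    exact ⟨u, hu, h.st.2 (mem_St_im.2 (by rw [im_mul, ← e, ← im_mul, inv_mul_cancel, im_one]))⟩
  · have h4 := h.st.1 h3
    rw [psi_one, psi, h2 l hl h4, hτ.inv _ (h.op.kw h.nd (mul_mem h3 (inv_mem hl)) fun x hx => ?_)]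
    have : l⁻¹.1 x ∈ C.perp (W ⊔ W') := by
      rw [← mem_im, C.perp_sup, DG.im, Submodule.map_inf _ l.1.injective, ← DG.im, ← DG.im,
        ← perp_im, ← perp_im, mem_St_im.1 hl, mem_St_im.1 h4, ← C.perp_sup]
      exact hx
    change w.1⁻¹ (l.1 (w.1 (l⁻¹.1 x))) = x
    rw [h.fix _ this]
    change w.1⁻¹ (l.1 (l.1⁻¹ x)) = x
    rw [apply_inv_apply]
    conv_lhs => rw [← h.fix x hx, inv_apply_apply]
  · rw [psi_one, psi, h1, hτ.inv _ (h.op.kw h.nd h.sq fun x hx => ?_)]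
    change w.1 (w.1 x) = x
    rw [h.fix x hx, h.fix x hx]
  · rw [← h.op.2.2.2, ← h.im, mem_St_im.1 e, inf_eq_left.2 hW.le_perp]
  · obtain ⟨p, hp, p', hp', e⟩ := h.dc e
    exact h3 ⟨p, hp.2.mem hW, p', hp', e⟩

theorem Wy.proj (h : Wy C W W' w) {p p' : C.isom} (hp : p ∈ QW C W)
    (e : w * u * w = p * w * p') (y : V) : u.1 (w.1 y) - p'.1 y ∈ C.perp W' := by
  refine C.mem_perp.2 fun z hz => ?_
  have h1 : w.1 z ∈ W := by
    rw [← h.im] at hz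
    obtain ⟨z, hz, rfl⟩ := hz
    exact (mem_St.1 h.sq z).1 hz
  rw [map_sub, ← CForm.isom_B w.2 z, ← CForm.isom_B w.2 z, ← q_B hp h1 (w.1 (p'.1 y)), sub_eq_zero]
  exact congrArg (fun g : C.isom => C.B (w.1 z) (g.1 y)) e

theorem Wy.dc' (h : Wy C W W' w) (H : RTH (St C W) (QW C W) (psi C W σ τ) w)
    (h1 : DC (St C W) w (w * u * w)) : ∃ k : W ≃ₗ[F] W, ∀ y : W, u.1 (w.1 y) - k y ∈ C.perp W' := by
  obtain ⟨p, hp, p', hp', e⟩ := h1
  obtain ⟨a, ha, h2⟩ := H.dec p hp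
  refine ⟨rho C W _, fun y => rho_apply (mul_mem h2 hp') y ▸ h.proj ha (by rw [e]; group) y⟩

theorem Wy.cc (h : Wy C W W' w) (H : RTH (St C W) (QW C W) (psi C W σ τ) w)
    {k : W ≃ₗ[F] W} (hk : ∀ y : W, u.1 (w.1 y) - k y ∈ C.perp W') : ∃ p ∈ QW C W, ∃ p' ∈ St C W,
      w * u * w = p * w * p' ∧ cc (St C W) (psi C W σ τ) w u = σ k * τ p' := by
  have hW := h.op.1
  obtain ⟨p, hp, p', hp', e⟩ := h.dc (x := w * u * w) (eq_bot_iff.2 fun z ⟨z1, z2⟩ => by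
    have h1 : w⁻¹.1 z = 0 := (h.op.symm h.nd).zero (h.inv z1) (C.mem_perp'.2 fun y hy => by
      have h2 := C.mem_perp.1 (hk (k.symm ⟨y, hy⟩)) _ (h.inv z1)
      have h3 := C.mem_perp'.1 z2 _ (apply_mem_im.2 (k.symm ⟨y, hy⟩).2)
      rw [map_sub, k.apply_symm_apply, sub_eq_zero] at h2
      rw [← h2, ← h3, ← CForm.isom_B w.2]
      exact congrArg (C.B · _) (apply_inv_apply _ _))
    simpa using h1)
  refine ⟨p, hp, p', hp', e, ?_⟩
  rw [H.cc_eq (H.le hp) hp' e, H.irr.ch.ker_mul (H.le hp) (H.ker p hp) hp', psi,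
    rho_eq hp' fun y => sub_eq_zero.1 (h.op.zero (sub_mem (k y).2 ((mem_St.1 hp' _).1 y.2)) ?_)]
  simpa using sub_mem (h.proj hp e y) (hk y)

variable {e₁ e₂ f₁ f₂ : V}

theorem op2 (hT : OS T) (n1 : C.N e₁ = 0) (n2 : C.N e₂ = 0) (m1 : C.N f₁ = 0) (m2 : C.N f₂ = 0)
    (e12 : C.B e₁ e₂ = 0) (f12 : C.B f₁ f₂ = 0) (b11 : C.B e₁ f₁ = 1) (b12 : C.B e₁ f₂ = 0)
    (b21 : C.B e₂ f₁ = 0) (b22 : C.B e₂ f₂ = 1) :
    finrank F (span F {e₁, e₂}) = 2 ∧ Op C (span F {e₁, e₂}) (span F {f₁, f₂}) := by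
  have ts : ∀ {a b : V}, C.N a = 0 → C.N b = 0 → C.B a b = 0 → C.TS (span F {a, b}) :=
    fun h1 h2 h3 => CForm.ts_span (by simp [h1, h2]) (by
      simp [C.B_self_of_zero h1, C.B_self_of_zero h2, h3, C.B_swap_zero h3])
  have fr : ∀ {a b : V}, LinearIndependent F ![a, b] → finrank F (span F {a, b}) = 2 := fun h => by
    rw [← CForm.range_pair, finrank_span_eq_card h]; simp
  have k : ∀ s t : F, C.B (s • e₁ + t • e₂) f₁ = 0 → C.B (s • e₁ + t • e₂) f₂ = 0 → s = 0 ∧ t = 0 :=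
    fun s t h1 h2 => by simpa [hT.σ, b11, b12, b21, b22] using And.intro h1 h2
  have h1 := fr (a := e₁) (b := e₂) (LinearIndependent.pair_iff.2 fun s t h => k s t (by simp [h])
    (by simp [h]))
  refine ⟨h1, ts n1 n2 e12, ts m1 m2 f12, (fr (LinearIndependent.pair_iff.2 fun s t h => ?_)).trans
    h1.symm, eq_bot_iff.2 fun x ⟨x1, x2⟩ => ?_⟩
  · simpa [b11, b12, b21, b22] using And.intro (congrArg (C.B e₁) h) (congrArg (C.B e₂) h)
  · obtain ⟨s, t, rfl⟩ := mem_span_pair.1 x1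
    obtain ⟨rfl, rfl⟩ := k s t (C.B_swap_zero (C.mem_perp_pair.1 x2).1)
      (C.B_swap_zero (C.mem_perp_pair.1 x2).2)
    simp

theorem mem_l {a b : V} : a ∈ span F {a, b} := subset_span (by simp)
theorem mem_r {a b : V} : b ∈ span F {a, b} := subset_span (by simp)
theorem im_pair {g : C.isom} {a b : V} : im C g (span F {a, b}) = span F {g.1 a, g.1 b} := by
  simp [im, map_span, Set.image_pair]

namespace Fr2
variable (h : Fr2 C e₁ e₂ f₁ f₂ w) (hT : OS T) (hC : C.Nondeg)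
include h hT

theorem op : finrank F (span F {e₁, e₂}) = 2 ∧ Op C (span F {e₁, e₂}) (span F {f₁, f₂}) :=
  op2 hT h.n1 h.n2 h.m1 h.m2 h.e12 h.f12 h.b11 h.b12 h.b21 h.b22

omit hT in
theorem ww {y : V} (hy : y ∈ span F {e₁, e₂}) : w.1 (w.1 y) = (-T.ε) • y := by
  obtain ⟨s, t, rfl⟩ := mem_span_pair.1 hy
  simp only [map_add, map_smul, map_neg, h.w1, h.w2, h.v1, h.v2]; module

include hC
theorem wy : Wy C (span F {e₁, e₂}) (span F {f₁, f₂}) w := by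
  refine ⟨hC, (h.op hT).2, ?_, fun x hx => ?_, mem_St_of fun y hy => ?_⟩
  · rw [im_pair, h.w1, h.w2, Set.pair_comm, span_insert, span_insert, ← Set.neg_singleton, span_neg]
  · rw [C.perp_sup, Submodule.mem_inf, C.mem_perp_pair, C.mem_perp_pair] at hx
    exact h.wf x hx.1.1 hx.1.2 hx.2.1 hx.2.2
  · exact (h.ww hy).symm ▸ smul_mem _ _ hy

theorem inj {u u' : C.isom} (hu : u ∈ QW C (span F {e₁, e₂})) (hu' : u' ∈ QW C (span F {e₁, e₂}))
    (h1 : u.1 f₁ = u'.1 f₁) (h2 : u.1 f₂ = u'.1 f₂) : u = u' :=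
  (inv_mul_eq_one.1 ((h.op hT).2.q_one hC (mul_mem (inv_mem hu') hu) (mem_St_im.2 (by
    rw [im_mul, im_pair, h1, h2, ← im_pair, ← im_mul, inv_mul_cancel, im_one])))).symm

theorem sur {y₁ y₂ : V} (a1 : C.N y₁ = 0) (a2 : C.N y₂ = 0) (a3 : C.B y₁ y₂ = 0)
    (a4 : C.B e₁ y₁ = 1) (a5 : C.B e₁ y₂ = 0) (a6 : C.B e₂ y₁ = 0) (a7 : C.B e₂ y₂ = 1) :
    ∃ u ∈ QW C (span F {e₁, e₂}), u.1 f₁ = y₁ ∧ u.1 f₂ = y₂ := by
  have h1 := (op2 hT h.n1 h.n2 a1 a2 h.e12 a3 a4 a5 a6 a7).2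
  obtain ⟨u, hu, e⟩ := (h.op hT).2.qt hC h1
  rw [im_pair] at e
  exact ⟨u, hu, sub_eq_zero.1 ((h1.symm hC).zero (sub_mem (e ▸ mem_l) mem_l) (C.mem_perp_pair.2
    (by simp [q_B hu mem_l, q_B hu mem_r, *, h.b11, h.b21]))), sub_eq_zero.1 ((h1.symm hC).zero
    (sub_mem (e ▸ mem_r) mem_r) (C.mem_perp_pair.2
    (by simp [q_B hu mem_l, q_B hu mem_r, *, h.b12, h.b22])))⟩

theorem rth (v : VAN) {σ : (span F {e₁, e₂} ≃ₗ[F] span F {e₁, e₂}) → ℂ} (hσ : Cu σ) (hS : Sc σ)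
    (hτ : Ta C (span F {e₁, e₂}) τ) (hM : Mid C (span F {e₁, e₂}) τ) :
    RTH (St C (span F {e₁, e₂})) (QW C (span F {e₁, e₂})) (psi C _ σ τ) w := by
  have hw := h.wy hT hC
  refine hw.rth hT v (fun e => by have := (h.op hT).1; rw [e] at this; simp at this) hσ hτ hM
    (hS _ (-T.ε) fun y => Subtype.ext ((rho_apply hw.sq y).trans (h.ww y.2))) fun l hl h1 => ?_
  have h2 := mul_mem (hw.st.2 h1) (inv_mem hl)
  have h3 : ∀ y ∈ span F {e₁, e₂}, C.B y (w.1 ((w⁻¹ * l * w * l⁻¹).1 y)) = 0 := fun y hy => by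
    change C.B y (w.1 (w.1⁻¹ (l.1 (w.1 (l⁻¹.1 y))))) = 0
    obtain ⟨s, t, e⟩ := mem_span_pair.1 ((mem_St.1 (inv_mem hl) y).1 hy)
    rw [apply_inv_apply, ← CForm.isom_B l⁻¹.2, ← e]
    change C.B _ (l.1⁻¹ (l.1 _)) = 0
    simp [h.w1, h.w2, hT.σ, h.b11, h.b12, h.b21, h.b22]; ring
  generalize w⁻¹ * l * w * l⁻¹ = k at *
  obtain ⟨a, b, e1⟩ := mem_span_pair.1 ((mem_St.1 h2 _).1 mem_l)
  obtain ⟨c, d, e2⟩ := mem_span_pair.1 ((mem_St.1 h2 _).1 mem_r)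
  have k1 := h3 _ mem_l
  have k2 := h3 _ mem_r
  have k3 := h3 _ (add_mem mem_l mem_r)
  simp [← e1, ← e2, h.w1, h.w2, h.b11, h.b12, h.b21, h.b22] at k1 k2 k3
  refine hS _ a fun y => Subtype.ext ((rho_apply h2 y).trans ?_)
  obtain ⟨s, t, e⟩ := mem_span_pair.1 y.2
  rw [Submodule.coe_smul, ← e, map_add, map_smul, map_smul, ← e1, ← e2, k1, k2,
    show d = a by linear_combination k2 - k1 - k3]
  module

end Fr2

theorem card_aff (hC : C.Nondeg) (U : Submodule F V) {p : V → Prop} (y : V)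
    (h : ∀ x, p x ↔ x - y ∈ C.perp U) :
    Nat.card {x // p x} * Nat.card F ^ finrank F U = Nat.card F ^ finrank F V := by
  rw [← hC.finrank_add_finrank_perp U, pow_add, mul_comm, ← Module.natCard_eq_pow_finrank (V := C.perp U)]
  congr 1
  exact Nat.card_congr ((Equiv.subRight y).subtypeEquiv h)

theorem card_sing {C : CForm (quadType F) V} {p : V → Prop} {e : V} (he : C.N e = 0)
    (h : ∀ x, p x → C.B e x = 1 ∧ ∀ c : F, p (x + c • e)) :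
    Nat.card {x // C.N x = 0 ∧ p x} * Nat.card F = Nat.card {x // p x} := by
  have k : ∀ x (c : F), p x → C.N (x + c • e) = C.N x + c := fun x c hx => by
    rw [add_comm, C.N_add, C.N_smul_of_zero he, C.B_smul_left, (h x hx).1]
    simp [quadType]
  rw [← Nat.card_prod]
  exact Nat.card_congr ⟨fun a => ⟨a.1.1 + a.2 • e, (h _ a.1.2.2).2 _⟩,
    fun x => (⟨x.1 + (-C.N x.1) • e, by rw [k _ _ x.2, add_neg_cancel], (h _ x.2).2 _⟩, C.N x.1),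
    fun a => by simp [k _ _ a.1.2.2, a.1.2.1], fun x => by simp⟩

theorem Fr2.card (h : Fr2 C e₁ e₂ f₁ f₂ w) (hT : OS T) (hC : C.Nondeg) {i : ℕ}
    (hi : ∀ (p : V → Prop) (e : V), C.N e = 0 → (∀ x, p x → C.B e x = 1 ∧ ∀ c : F, p (x + c • e)) →
      Nat.card {x // C.N x = 0 ∧ p x} * Nat.card F ^ i = Nat.card {x // p x}) :
    Nat.card (QW C (span F {e₁, e₂})) * Nat.card F ^ (5 + 2 * i) = Nat.card F ^ (2 * finrank F V) := by
  let S := {x // C.N x = 0 ∧ C.B e₁ x = 1 ∧ C.B e₂ x = 0}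
  let R (y : S) := {x // C.N x = 0 ∧ C.B y.1 x = 0 ∧ C.B e₁ x = 0 ∧ C.B e₂ x = 1}
  have := Fintype.ofFinite S
  have s1 := C.B_self_of_zero h.n1
  have s2 := C.B_self_of_zero h.n2
  have s3 := C.B_swap_zero h.e12
  have h1 : Nat.card (QW C (span F {e₁, e₂})) = Nat.card (Σ y, R y) :=
    Nat.card_eq_of_bijective (fun u => ⟨⟨u.1.1 f₁, by
      simp [CForm.isom_N u.1.2, q_B u.2 mem_l, q_B u.2 mem_r, h.m1, h.b11, h.b21]⟩, u.1.1 f₂, by
      simp [CForm.isom_N u.1.2, CForm.isom_B u.1.2, q_B u.2 mem_l, q_B u.2 mem_r, h.m2, h.b12,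
        h.b22, h.f12]⟩) ⟨fun u u' e => Subtype.ext (h.inj hT hC u.2 u'.2
        (congrArg (fun a : Σ y, R y => a.1.1) e) (congrArg (fun a : Σ y, R y => a.2.1) e)), by
      rintro ⟨⟨y, a1, a2, a3⟩, z, b1, b2, b3, b4⟩
      obtain ⟨u, hu, rfl, rfl⟩ := h.sur hT hC a1 b1 b2 a2 b3 a3 b4
      exact ⟨⟨u, hu⟩, rfl⟩⟩
  have h2 : Nat.card S * Nat.card F ^ (2 + i) = Nat.card F ^ finrank F V := by
    rw [add_comm, pow_add, ← mul_assoc, hi _ e₁ h.n1 fun x hx => ⟨hx.1, by simp [hx, s1, s3]⟩,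
      ← card_aff hC _ f₁ fun x => ?_, (h.op hT).1]
    simp [C.mem_perp_pair, h.b11, h.b21, sub_eq_zero]
  have h3 : ∀ y, Nat.card (R y) * Nat.card F ^ (3 + i) = Nat.card F ^ finrank F V := by
    rintro ⟨y, a1, a2, a3⟩
    have a4 : C.B y e₁ = T.ε := by rw [hT.symm, a2, mul_one]
    have a5 : y ∉ span F {e₁, e₂} := fun e => by simp [(h.op hT).2.1.2 _ mem_l y e] at a2
    rw [add_comm, pow_add, ← mul_assoc, hi _ e₂ h.n2 fun x hx => ⟨hx.2.2, by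
      simp [hx, s2, h.e12, C.B_swap_zero a3]⟩, ← card_aff hC (span F {e₁, e₂} ⊔ F ∙ y)
      (f₂ - (T.ε * C.B y f₂) • e₁) fun x => ?_, finrank_sup_span_singleton a5, (h.op hT).1]
    simp [C.perp_sup, C.mem_perp_pair, C.mem_perp_singleton, h.b12, h.b22, sub_eq_zero, s1, s3, a4,
      mul_right_comm T.ε, hT.εε, and_comm, and_assoc]
  rw [h1, Nat.card_sigma, two_mul (finrank F V), pow_add _ (finrank F V), sum_mul,
    show 5 + 2 * i = 3 + i + (2 + i) by ring]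
  simp only [pow_add _ (3 + i), ← mul_assoc, h3]
  rw [sum_const, card_univ, ← Nat.card_eq_fintype_card, smul_eq_mul, mul_left_comm, h2]

end

theorem fr2 : FR2 := by
  intro F _ _ T V _ _ _ C hT hC ⟨W, hW, hd⟩
  let b := Module.finBasisOfFinrankEq F W hd
  have li := LinearIndependent.pair_iff.1 ((show W.subtype ∘ b = ![(b 0).1, (b 1).1] by
    ext i; fin_cases i <;> rfl) ▸ b.linearIndependent.map' W.subtype W.ker_subtype)
  have n1 := hW.1 _ (b 0).2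
  have n2 := hW.1 _ (b 1).2
  have e12 := hW.2 _ (b 0).2 _ (b 1).2
  generalize (b 0).1 = e₁ at *
  generalize (b 1).1 = e₂ at *
  have e21 := C.B_swap_zero e12
  obtain ⟨f₁, b21, m1, b11⟩ := hC.exists_partner (Z := F ∙ e₂) (fun e => by
    obtain ⟨c, rfl⟩ := mem_span_singleton.1 e
    simpa using li 1 (-c) (by simp)) n1 (C.mem_perp_singleton.2 e21)
  rw [C.mem_perp_singleton] at b21
  obtain ⟨f₂, h2, m2, b22⟩ := hC.exists_partner (Z := span F {e₁, f₁}) (fun e => by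
    obtain ⟨s, t, rfl⟩ := mem_span_pair.1 e
    simp [b11, C.B_self_of_zero n1] at e12
    simpa using li s (-1) (by simp [e12])) n2 (C.mem_perp_pair.2 ⟨e12, C.B_swap_zero b21⟩)
  obtain ⟨b12, f12⟩ := C.mem_perp_pair.1 h2
  have s1 := C.B_self_of_zero n1
  have s2 := C.B_self_of_zero n2
  have s3 := C.B_self_of_zero m1
  have s4 := C.B_self_of_zero m2
  have c11 : C.B f₁ e₁ = T.ε := by rw [hT.symm, b11, mul_one]
  have c22 : C.B f₂ e₂ = T.ε := by rw [hT.symm, b22, mul_one]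
  have c12 := C.B_swap_zero b21
  have c21 := C.B_swap_zero b12
  have f21 := C.B_swap_zero f12
  have ee := hT.εε
  have ho := (op2 hT n1 n2 m1 m2 e12 f12 b11 b12 b21 b22).2
  obtain ⟨g, g1, g2, g3, g4, g5⟩ : ∃ g : V →ₗ[F] V, g e₁ = f₂ ∧ g e₂ = -f₁ ∧ g f₁ = T.ε • e₂ ∧
      g f₂ = -(T.ε • e₁) ∧ ∀ x, C.B e₁ x = 0 → C.B e₂ x = 0 → C.B f₁ x = 0 → C.B f₂ x = 0 → g x = x :=
    ⟨LinearMap.id + (T.ε • C.B f₁).smulRight (f₂ - e₁) - (T.ε • C.B f₂).smulRight (f₁ + e₂) +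
      (C.B e₁).smulRight (T.ε • e₂ - f₁) - (C.B e₂).smulRight (T.ε • e₁ + f₂), by simp [*],
      by simp [*], by simp [*], by simp [*], fun x a1 a2 a3 a4 => by simp [a1, a2, a3, a4]⟩
  let M := C.perp (span F {e₁, e₂} ⊔ span F {f₁, f₂})
  have k : ∀ x ∈ (M : Set V), (C.B e₁ x = 0 ∧ C.B e₂ x = 0 ∧ C.B f₁ x = 0 ∧ C.B f₂ x = 0 ∧ g x = x) ∧
      C.B x e₁ = 0 ∧ C.B x e₂ = 0 ∧ C.B x f₁ = 0 ∧ C.B x f₂ = 0 := fun x hx => by
    simp only [M, SetLike.mem_coe, C.perp_sup, Submodule.mem_inf, C.mem_perp_pair] at hx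
    exact ⟨⟨hx.1.1, hx.1.2, hx.2.1, hx.2.2, g5 x hx.1.1 hx.1.2 hx.2.1 hx.2.2⟩, C.B_swap_zero hx.1.1,
      C.B_swap_zero hx.1.2, C.B_swap_zero hx.2.1, C.B_swap_zero hx.2.2⟩
  have h1 := CForm.isom_on_span (C := C) (C' := C) g ({e₁, e₂} ∪ {f₁, f₂} ∪ M) (by
    clear li h2 g5 ho hW
    rintro x (((rfl | rfl) | rfl | rfl) | hx) y (((rfl | rfl) | rfl | rfl) | hy) <;>
      (try replace hx := k _ hx) <;> (try replace hy := k _ hy) <;> clear k <;>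
      simp only [hT.smul, map_neg, map_smul, LinearMap.neg_apply, smul_eq_mul, mul_zero, neg_zero,
        neg_neg, mul_neg, mul_one, *]) (by
    clear li h2 g5 ho hW
    rintro x (((rfl | rfl) | rfl | rfl) | hx) <;> (try replace hx := k _ hx) <;> clear k <;>
      simp only [C.N_neg, C.N_smul_of_zero, *])
  have h3 : span F ({e₁, e₂} ∪ {f₁, f₂} ∪ (M : Set V)) = ⊤ := eq_top_iff.2 fun x _ => by
    obtain ⟨b, b1, -⟩ := (ho.symm hC).proj hC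
    obtain ⟨y, y1, y2⟩ := ((opk F T V C hT hC _).2 _ ho).2 _ (b1 x)
    rw [span_union, span_union, span_eq, show x = y + b x + (x - b x - y) by abel]
    exact add_mem_sup (add_mem_sup y1 (b x).2) y2
  rw [h3] at h1
  obtain ⟨w, hw, e⟩ := hC.exists_isom g ⟨fun x y => h1.1 x trivial y trivial, fun x => h1.2 x trivial⟩
  exact ⟨e₁, e₂, f₁, f₂, ⟨w, hw⟩, n1, n2, m1, m2, e12, f12, b11, b12, b21, b22, (e _).trans g1,
    (e _).trans g2, (e _).trans g3, (e _).trans g4, fun x a b c d => (e _).trans (g5 x a b c d)⟩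

theorem rg2 (v : VAN) : RG2 := by
  rintro F _ _ T V _ _ _ C hT hC e₁ e₂ f₁ f₂ w _ σ τ h rfl hσ hS hτ hM
  exact h.rth hT hC v hσ hS hτ hM

theorem qp2 : QP2 := by
  rintro F _ _ T V _ _ _ C hT hC e₁ e₂ f₁ f₂ w _ h rfl
  refine ⟨(h.op hT).2.1, (h.op hT).1, (h.op hT).2, fun u hu u' hu' => h.inj hT hC hu hu',
    fun _ _ => h.sur hT hC, ?_, ?_⟩
  · rintro rfl
    exact h.card hT hC (i := 0) fun p e _ _ => by simp [H11.alt_N]
  · rintro rfl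
    exact h.card hT hC (i := 1) fun p e h1 h2 => by rw [pow_one, card_sing h1 h2]

end H16.DG
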