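import Cfsg.Agent.H0.RU0

/-! S2196, chunk CNT: counting isotropic vectors. -/

set_option autoImplicit false
set_option linter.unusedSectionVars false

open Module H12 H11 H0.RU

namespace H16.RU

universe u
variable {F : Type u} [Field F] [Fintype F] {q : ℕ} {hF : Fintype.card F = q ^ 2}
  {V : Type u} [AddCommGroup V] [Module F V] [Fintype V] {C : CForm (hermT hF) V}

theorem q_ne (hF : Fintype.card F = q ^ 2) : (q : ℤ) ≠ 0 := by
  have := two_le_of_card_sq hF; omega

theorem sw (C : CForm (hermT hF) V) (u v : V) : C.B v u = frob hF (C.B u v) := herm_symm C u v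

theorem sw1 {u v : V} : C.B u v = 1 ↔ C.B v u = 1 :=
  ⟨fun h => by rw [sw C, h, map_one], fun h => by rw [sw C, h, map_one]⟩

open Classical in
theorem cntZ (hC : C.Nondeg) {n : ℕ} (h : finrank F V = n + 1) {c : F} (hc : c ^ q = c) :
    (cnt C c : ℤ) = q ^ n * aa q (n + 1) + if c = 0 then (-q : ℤ) ^ (n + 1) else 0 := by
  refine mul_left_cancel₀ (q_ne hF) ?_
  rw [cnt_herm _ hC h c hc, aa, neg_pow (q : ℤ)]
  split_ifs <;> ring

theorem isoZ (hC : C.Nondeg) {n : ℕ} (h : finrank F V = n + 1) :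
    (Nat.card {v // Is C v} : ℤ) = aa q (n + 1) * aa q n := by
  have h1 := cntZ hC h (c := 0) (zero_pow (by have := q_ne hF; omega))
  have h2 : cnt C 0 = Nat.card {v // Is C v} + 1 := by
    change Set.ncard {v | C.N v = 0} = Set.ncard {v | Is C v} + 1
    rw [← Set.ncard_insert_of_notMem (a := 0) fun h => h.1 rfl]
    congr 1; ext v
    by_cases hv : v = 0 <;> simp [Is, hv, H11.herm_B_self]
  rw [if_pos rfl, h2, aa, neg_pow (q : ℤ)] at h1
  push_cast at h1
  rw [aa, aa]
  rcases neg_one_pow_eq_or ℤ n with e | e <;> rw [pow_succ (-1 : ℤ), e] at h1 ⊢ <;>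
    linear_combination h1

theorem hyp {e f : V} (he : C.B e e = 0) (hf : C.B f f = 0) (h : C.B e f = 1) : IsHypPair C e f :=
  ⟨by rw [← H11.herm_B_self, he], by rw [← H11.herm_B_self, hf], h⟩

theorem card_dec {e f : V} (h : IsHypPair C e f) {α : Type*} (P : V → Prop) (Q : α → Prop)
    (i : α → (F × F) × C.perp (Submodule.span F {e, f})) (hi : Function.Injective i)
    (hP : ∀ a b z, P (a • e + b • f + (z : C.perp (Submodule.span F {e, f}))) ↔
      ∃ x, Q x ∧ i x = ((a, b), z)) : {v | P v}.ncard = Nat.card {x // Q x} := by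
  change _ = Set.ncard {x | Q x}
  rw [← Set.ncard_image_of_injective _ (h.decomp.injective.comp hi)]
  congr 1; ext v
  obtain ⟨⟨⟨a, b⟩, z⟩, rfl⟩ := h.decomp.surjective v
  exact (hP a b z).trans (exists_congr fun x => and_congr_right fun _ =>
    h.decomp.injective.eq_iff.symm)

theorem true_and_iff' (p : Prop) : True ∧ p ↔ p := iff_of_eq (true_and p)

theorem cnt2 (hC : C.Nondeg) (h2 : 2 ≤ finrank F V) {v : V} (hv : Is C v) :
    {u | C.B u u = 0 ∧ C.B u v = 1}.ncard = q ^ (2 * finrank F V - 3) := by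
  have := card_partners hC hv.1 ((H11.herm_B_self C v).symm.trans hv.2)
  rw [card_ker_hermT, hF, ← pow_mul, ← pow_succ'] at this
  rw [show 2 * finrank F V - 3 = 2 * (finrank F V - 2) + 1 by omega, ← this]
  exact congrArg Set.ncard (Set.ext fun u => ⟨fun h => hyp hv.2 h.1 (sw1.1 h.2),
    fun h => ⟨h.B_ff, sw1.1 h.pair⟩⟩)

theorem cnt : CNT C := by
  classical
  intro hC h4
  obtain ⟨n, hn⟩ : ∃ n, finrank F V = n + 4 := ⟨_, (Nat.sub_add_cancel h4).symm⟩
  have dp : ∀ {e f : V}, IsHypPair C e f →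
      finrank F (C.perp (Submodule.span F {e, f})) = n + 1 + 1 := fun h => by
    have := h.finrank_perp hC; omega
  refine ⟨hn ▸ isoZ hC hn, fun v => cnt2 hC (by omega), fun v w β hv hw h => ?_,
    fun v w β ⟨hv, hw, h0, h1⟩ => ?_, fun x hx => ?_⟩
  · have hp := hyp hw.2 hv.2 h
    rw [card_dec hp _ (fun z => (C.restrict _).N z = -(β + frob hF β)) (fun z => ((1, β), z))
      (fun _ _ e => congrArg Prod.snd e) fun a b z => ?_, hn]
    · have := cntZ (hp.nondeg_perp hC) (dp hp) (c := -(β + frob hF β)) (by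
        change frob hF _ = _
        rw [map_neg, map_add, frob_frob, add_comm])
      simp only [neg_eq_zero] at this
      exact this
    · rw [H11.herm_B_self, hp.N_comb_perp _ _ z.2, sw1, hp.B_left_comb _ _ z.2,
        hp.B_right_comb _ _ z.2]
      change _ ∧ a * 1 = 1 ∧ _ ↔ _
      rw [mul_one]
      constructor
      · rintro ⟨h1, rfl, rfl⟩
        rw [map_one, one_mul] at h1
        exact ⟨z, eq_neg_of_add_eq_zero_right h1, rfl⟩
      · rintro ⟨x, h1, h2⟩
        obtain ⟨⟨rfl, rfl⟩, rfl⟩ := h2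
        rw [map_one, one_mul]
        exact ⟨add_eq_zero_iff_eq_neg'.2 h1, rfl, rfl⟩
  · have hvw : v ∉ Submodule.span F {w} := fun e => by
      obtain ⟨c, rfl⟩ := Submodule.mem_span_singleton.1 e
      exact h1 (Submodule.mem_span_singleton.2 ⟨c⁻¹, by
        rw [smul_smul, inv_mul_cancel₀ (left_ne_zero_of_smul hv.1), one_smul]⟩)
    obtain ⟨f, f1, f2, f3⟩ := hC.exists_partner hvw ((H11.herm_B_self C v).symm.trans hv.2)
      ((C.mem_perp_singleton).2 (C.B_swap_zero h0))
    have hp : IsHypPair C v f := ⟨(H11.herm_B_self C v).symm.trans hv.2, f2, f3⟩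
    rw [C.mem_perp_singleton] at f1
    let w' : C.perp (Submodule.span F {v, f}) := ⟨w, C.mem_perp_pair.2 ⟨h0, C.B_swap_zero f1⟩⟩
    have w0 : w' ≠ 0 := fun e => h1 (by rw [show w = 0 from congrArg Subtype.val e]; exact zero_mem _)
    rw [card_dec hp _ (fun x : F × C.perp (Submodule.span F {v, f}) =>
      C.B w x.2 = β ∧ (hermT hF).τ ((hermT hF).σ x.1 * 1) = -C.N x.2) (fun x => ((x.1, 1), x.2))
      (fun _ _ e => Prod.ext (congrArg (·.1.1) e :) (congrArg Prod.snd e :)) fun a b z => ?_]
    · rw [card_subtype_prod fun (a : F) (z : C.perp (Submodule.span F {v, f})) =>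
        C.B w z = β ∧ (hermT hF).τ ((hermT hF).σ a * 1) = -C.N z]
      have e : ∀ z : C.perp (Submodule.span F {v, f}), Nat.card {a : F // C.B w z = β ∧
          (hermT hF).τ ((hermT hF).σ a * 1) = -C.N z} = (if C.B w z = β then 1 else 0) * q :=
        fun z => by
          split_ifs with h
          · obtain ⟨c, hc⟩ := C.N_mem z
            simp only [h, true_and, one_mul q]
            rw [card_tau_sigma_mul one_ne_zero ⟨-c, by rw [map_neg, hc]⟩, card_ker_hermT]
          · simp [h]
      simp only [e]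
      rw [← Finset.sum_mul, ← card_subtype_eq_sum]
      have h3 := card_fiber_addMonoidHom ((C.restrict _).B w').toAddMonoidHom
        ((hp.nondeg_perp hC).exists_eq w0 β)
      have h4 := finrank_perp_singleton (hp.nondeg_perp hC) w0
      have h5 := card_submodule ((C.restrict _).perp (Submodule.span F {w'}))
      rw [show Nat.card {z : C.perp (Submodule.span F {v, f}) // C.B w z = β} = _ from h3.trans
        ((Nat.card_congr (Equiv.subtypeEquivRight fun z =>
          (C.restrict _).mem_perp_singleton.symm)).trans h5), hF, ← pow_mul, ← pow_succ, hn]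
      congr 1
      have := dp hp
      omega
    · rw [H11.herm_B_self, hp.N_comb_perp _ _ z.2, sw1, hp.B_left_comb _ _ z.2, map_add, map_add,
        C.B_smul_right, C.B_smul_right, C.B_swap_zero h0, f1, mul_zero, mul_zero, zero_add, zero_add]
      constructor
      · rintro ⟨h1, rfl, h2⟩
        exact ⟨(a, z), ⟨h2, eq_neg_of_add_eq_zero_left h1⟩, rfl⟩
      · rintro ⟨x, ⟨h1, h3⟩, h2⟩
        obtain ⟨⟨rfl, rfl⟩, rfl⟩ := h2
        exact ⟨add_eq_zero_iff_eq_neg.2 h3, rfl, h1⟩
  · obtain ⟨f, hp⟩ := exists_hypPair hC hx.1 ((H11.herm_B_self C x).symm.trans hx.2)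
    rw [card_dec hp _ (fun y : F × C.perp (Submodule.span F {x, f}) => Is (C.restrict _) y.2)
      (fun y => ((y.1, 0), y.2))
      (fun _ _ e => Prod.ext (congrArg (·.1.1) e :) (congrArg Prod.snd e :)) fun a b z => ?_]
    · rw [Nat.card_congr ((Equiv.subtypeEquivRight fun _ => (true_and_iff' _).symm).trans
        (Equiv.subtypeProdEquivProd (p := fun _ => True))), Nat.card_prod, Nat.cast_mul,
        isoZ (hp.nondeg_perp hC) (dp hp), Nat.card_subtype_true, Nat.card_eq_fintype_card, hF, hn]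
      push_cast; rfl
    · rw [Fl, H11.herm_B_self, hp.N_comb_perp _ _ z.2, hp.B_left_comb _ _ z.2]
      have k : a • x + (0 : F) • f + z ∈ F ∙ x ↔ z = 0 := by
        rw [zero_smul, add_zero, (F ∙ x).add_mem_iff_right (Submodule.smul_mem _ _
          (Submodule.mem_span_singleton_self x))]
        refine ⟨fun e => Subtype.ext ((hp.isCompl hC).disjoint.eq_bot.le
          ⟨Submodule.span_mono (by simp) e, z.2⟩), fun e => by rw [e]; exact zero_mem _⟩
      constructor
      · rintro ⟨-, h1, rfl, h2⟩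
        rw [mul_zero, map_zero, zero_add] at h1
        exact ⟨(a, z), ⟨mt k.2 h2, (H11.herm_B_self C _).trans h1⟩, rfl⟩
      · rintro ⟨y, h1, h2⟩
        obtain ⟨⟨rfl, rfl⟩, rfl⟩ := h2
        rw [mul_zero, map_zero, zero_add]
        exact ⟨hx, (H11.herm_B_self C _).symm.trans h1.2, rfl, mt k.1 h1.1⟩

end H16.RU
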