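import Cfsg.Agent.H29.AH0
import Cfsg.Agent.H0.BC.B
import Cfsg.Agent.H24.FrobStruct
import Cfsg.Agent.H18.Rep2
import Cfsg.Agent.H7.Quot

/-! S4162, chunk G11: a rational group has no faithful coprime module over `F_p`, `p ≥ 11`,
with the eigenvector property. -/

set_option autoImplicit false

namespace H16.AH
open Cfsg H5 H7 H8 H0.BC Finset Module Subgroup H29.AH
open scoped TensorProduct

universe u

section Ch
variable {p : ℕ} {M : Ideal AlgInt} {H X : Type*} [Group H] [Finite H] [AddCommGroup X]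
  [Module (kk M) X] {ρ : H →* End (kk M) X} {β : H → ℂ}

/-- multiplicities of the characters of a cyclic section -/
theorem cyc (h : IsBC ρ β) (hM : IsPModular p M) (hr : Rat H) (hp : ¬ p ∣ Nat.card H)
    {A C : Type*} [Group A] [Fintype A] [Group C] (f : A →* H) (hf : Function.Injective f)
    (π : A →* C) (hπ : Function.Surjective π) (χ : C →* ℂ) (hχ : Function.Injective χ)
    (h0 : ∀ (D : Subgroup A) [Fintype D], π.ker < D → ∑ d : D, ρ (f d) = 0) [Fintype π.ker] :
    rnk (∑ b : π.ker, ρ (f b)) =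
      (Nat.card C).totient * rnk (∑ a, red M (χ (π a)) • ρ (f a)) := by
  classical
  have := Finite.of_surjective π hπ
  have hA : Nat.card A ∣ Nat.card H := card_dvd_of_injective f hf
  have hA' : ∀ (D : Subgroup A) [Fintype D], ¬ p ∣ Fintype.card D := fun D _ e =>
    hp ((Nat.card_eq_fintype_card (α := D) ▸ e).trans ((card_subgroup_dvd_card D).trans hA))
  have hA2 : ¬ p ∣ Fintype.card A := fun e => hp ((Nat.card_eq_fintype_card (α := A) ▸ e).trans hA)
  set m := Nat.card C with hm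
  have m0 : m ≠ 0 := Nat.card_pos.ne'
  set l : A →* ℂ := χ.comp π
  have lm : ∀ a, l a ^ m = 1 := fun a => by
    change χ (π a) ^ m = 1
    rw [← map_pow, hm, pow_card_eq_one', map_one]
  have l1 : ∀ a, l a = 1 ↔ π a = 1 := fun a => (injective_iff_map_eq_one' χ).1 hχ _
  set d : ℕ → ℕ := fun j => rnk (∑ a, red M (l a ^ j) • ρ (f a)) with hd
  have F : ∀ j, ∑ a, l a ^ j * β (f a) = Fintype.card A * d j := fun j => h.lin hM hA2 f (l ^ j)
  have A0 : (Fintype.card A : ℂ) ≠ 0 := Nat.cast_ne_zero.2 Fintype.card_ne_zero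
  have d1 : ∀ j, j.Coprime m → d j = d 1 := fun j hj => by
    have hmH : m ∣ Nat.card H := (card_dvd_of_surjective π hπ).trans hA
    obtain ⟨k, h1, h2⟩ := ex_cop Nat.card_pos.ne' hmH hj
    have e : ∑ a, l a ^ j * β (f a) = ∑ a, l a ^ 1 * β (f a) := by
      refine Fintype.sum_equiv (powCoprime (G := A) (n := k) (h1.symm.coprime_dvd_left hA)) _ _
        fun a => ?_
      obtain ⟨c, hc⟩ := isConj_iff.1 (hr (f a) k (h1.coprime_dvd_right (orderOf_dvd_natCard _)))
      rw [powCoprime_apply, map_pow, map_pow, pow_one, ← hc, h.cl,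
        pow_eq_pow_of_modEq h2 (lm a)]
    rw [F, F] at e
    exact_mod_cast mul_left_cancel₀ A0 e
  have d0 : ∀ j, ¬ j.Coprime m → d j = 0 := fun j hj => by
    obtain ⟨r, hr, h1, h2⟩ := Nat.Prime.not_coprime_iff_dvd.1 hj
    have := Fact.mk hr
    obtain ⟨c, hc⟩ := exists_prime_orderOf_dvd_card' r h2
    obtain ⟨a, rfl⟩ := hπ c
    have h3 := h0 (l ^ j).ker (lt_of_le_of_ne (fun b hb => by
      change l b ^ j = 1
      rw [(l1 b).2 hb, one_pow]) fun e => by
        have : a ∈ π.ker := by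
          rw [e]
          change χ (π a) ^ j = 1
          rw [← map_pow, orderOf_dvd_iff_pow_eq_one.1 (hc ▸ h1), map_one]
        rw [show π a = 1 from this, orderOf_one] at hc
        exact hr.one_lt.ne hc)
    set E := ∑ a, red M (l a ^ j) • ρ (f a) with hE
    have h4 : ∀ b : (l ^ j).ker, ρ (f b) * E = E := fun b => by
      rw [hE, mul_sum]
      refine Fintype.sum_equiv (Equiv.mulLeft (b : A)) _ _ fun x => ?_
      rw [Equiv.coe_mulLeft, map_mul l, mul_pow, show l b ^ j = 1 from b.2, one_mul, map_mul,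
        map_mul, mul_smul_comm]
    have h5 : (Fintype.card (l ^ j).ker : kk M) • E = 0 := by
      rw [← zero_mul E, ← h3, sum_mul]
      simp only [h4, sum_const, card_univ, Nat.cast_smul_eq_nsmul]
    change rnk E = 0
    rw [(smul_eq_zero.1 h5).resolve_left (natCast_ne hM (hA' _))]
    rw [rnk, show LinearMap.range (0 : End (kk M) X) = ⊥ from LinearMap.range_zero, finrank_bot]
  have s1 : ∑ j ∈ range m, d j = m.totient * d 1 := by
    rw [← sum_filter_add_sum_filter_not (range m) fun j => m.Coprime j,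
      sum_eq_zero (s := filter (fun j => ¬ m.Coprime j) _) fun j hj =>
        d0 j fun e => (mem_filter.1 hj).2 e.symm,
      sum_congr rfl fun j hj => d1 j (mem_filter.1 hj).2.symm, sum_const, add_zero, smul_eq_mul,
      Nat.totient_eq_card_coprime]
  have s2 := h.lin hM (hA' π.ker) (f.comp π.ker.subtype) 1
  simp only [MonoidHom.one_apply, one_mul, red_one, one_smul, MonoidHom.comp_apply,
    subtype_apply] at s2
  have s3 : ∑ j ∈ range m, ∑ a, l a ^ j * β (f a) = m * ∑ b : π.ker, β (f b) := by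
    rw [sum_comm, ← sum_subtype (univ.filter (· ∈ π.ker)) (by simp) fun a => β (f a), sum_filter,
      mul_sum]
    refine sum_congr rfl fun a _ => ?_
    rw [← sum_mul]
    split_ifs with ha
    · simp [(l1 a).2 ha]
    · rw [geom_sum_eq (mt (l1 a).1 ha), lm]; simp
  have s4 : Fintype.card A = m * Fintype.card π.ker := by
    rw [← Nat.card_eq_fintype_card, ← Nat.card_eq_fintype_card, ← π.ker.index_mul_card, index_ker,
      π.range_eq_top_of_surjective hπ, card_top]
  simp only [F] at s3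
  rw [← mul_sum, s2, ← mul_assoc, ← Nat.cast_mul m, ← s4, ← Nat.cast_sum, s1] at s3
  have s5 := Nat.cast_injective (mul_left_cancel₀ A0 s3)
  simp only [hd, pow_one] at s5
  exact s5.symm

end Ch

section Md
variable {p : ℕ} [hp : Fact p.Prime] {H V : Type*} [Group H] [Finite H] [AddCommGroup V]
  [Module (ZMod p) V] [Finite V] {ρ : H →* End (ZMod p) V} {N K : Type*} [Group N] [Group K]
  [Finite N] {f : N →* H} {π : N →* K} {U : Submodule (ZMod p) V}

omit [Finite H] [Finite V] [Finite N] in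
theorem sum_fix (D : Subgroup N) [Fintype D] (v : V) {b : N} (hb : b ∈ D) :
    ρ (f b) ((∑ d : D, ρ (f d)) v) = (∑ d : D, ρ (f d)) v := by
  rw [← End.mul_apply, mul_sum]
  refine congrFun (congrArg _ (Fintype.sum_equiv (Equiv.mulLeft (⟨b, hb⟩ : D)) _ _ fun x => ?_)) v
  exact ((map_mul ρ _ _).symm.trans (congrArg ρ (map_mul f _ _).symm))

omit [Finite H] [Finite V] [Finite N] in
theorem mem_range {ι : Type*} [Fintype ι] (h : ¬ p ∣ Fintype.card ι) (e : ι → End (ZMod p) V)
    {v : V} (hv : ∀ i, e i v = v) : v ∈ LinearMap.range (∑ i, e i) := by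
  refine ⟨(Fintype.card ι : ZMod p)⁻¹ • v, ?_⟩
  rw [map_smul, LinearMap.sum_apply]
  simp only [hv, sum_const, card_univ]
  rw [← Nat.cast_smul_eq_nsmul (ZMod p), smul_smul,
    inv_mul_cancel₀ (mt (ZMod.natCast_eq_zero_iff _ _).1 h), one_smul]

theorem phi0 (hρ : RM p ρ) (hf : Function.Injective f) (hπ : Function.Surjective π)
    (hU : ∀ v, v ∈ U ↔ ∀ b, π b = 1 → ρ (f b) v = v)
    (fp : ∀ a, π a ≠ 1 → ∀ v ∈ U, ρ (f a) v = v → v = 0) (g : N) (hg : ∀ y, y ∈ zpowers (π g)) :
    (orderOf (π g)).totient ∣ finrank (ZMod p) U ∧ ∀ α : ZMod p, IsPrimitiveRoot α (orderOf (π g)) →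
      ∀ W : Submodule (ZMod p) V, W ≤ U → (∀ v ∈ W, ρ (f g) v = α • v) →
      (orderOf (π g)).totient * finrank (ZMod p) W ≤ finrank (ZMod p) U := by
  classical
  have := Fintype.ofFinite N
  have := Finite.of_surjective π hπ
  obtain ⟨M, hM⟩ := exists_isPModular hp.out
  have := charP_kk hM
  let := ZMod.algebra (kk M) p
  let bc := End.baseChangeHom (ZMod p) (kk M) V
  let ρ' : H →* End (kk M) (kk M ⊗[ZMod p] V) := (bc : End (ZMod p) V →* _).comp ρ
  obtain ⟨β, hβ, -⟩ := exists_bc hM ρ'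
  have rk : ∀ e : End (ZMod p) V, rnk (bc e) = finrank (ZMod p) (LinearMap.range e) := fun e =>
    H18.finrank_range_baseChange e
  have sm : ∀ (D : Subgroup N) [Fintype D], ∑ b : D, ρ' (f b) = bc (∑ b : D, ρ (f b)) :=
    fun D _ => by rw [map_sum]; rfl
  have hN : Nat.card N ∣ Nat.card H := card_dvd_of_injective f hf
  have hD : ∀ (D : Subgroup N) [Fintype D], ¬ p ∣ Fintype.card D := fun D _ e =>
    hρ.cop ((Nat.card_eq_fintype_card (α := D) ▸ e).trans ((card_subgroup_dvd_card D).trans hN))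
  set m := orderOf (π g) with hm
  have cm : Nat.card K = m := (orderOf_eq_card_of_forall_mem_zpowers hg).symm
  have m0 : m ≠ 0 := (orderOf_pos _).ne'
  have := NeZero.mk m0
  have key : ∀ ζ : ℂ, IsPrimitiveRoot ζ m → ∃ χ : K →* ℂ, χ (π g) = ζ ∧
      finrank (ZMod p) U = m.totient * rnk (∑ a, red M (χ (π a)) • ρ' (f a)) := fun ζ hζ => by
    have ho : orderOf (hζ.isUnit m0).unit = m := by
      rw [← orderOf_units, IsUnit.unit_spec, ← hζ.eq_orderOf]
    let χ := (Units.coeHom ℂ).comp (monoidHomOfForallMemZpowers hg ho.dvd)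
    have hχ : χ (π g) = ζ := by
      change ((monoidHomOfForallMemZpowers hg ho.dvd (π g) : ℂˣ) : ℂ) = ζ
      rw [monoidHomOfForallMemZpowers_apply_gen, IsUnit.unit_spec]
    refine ⟨χ, hχ, ?_⟩
    have c := cyc hβ hM hρ.rat hρ.cop f hf π hπ χ ((injective_iff_map_eq_one χ).2 fun y hy => by
      obtain ⟨i, rfl⟩ := (mem_powers_iff_mem_zpowers.2 (hg y))
      rw [map_pow, hχ] at hy
      exact orderOf_dvd_iff_pow_eq_one.1 (hζ.dvd_of_pow_eq_one i hy)) fun D _ hD => by
        obtain ⟨a, h1, h2⟩ := SetLike.exists_of_lt hD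
        have h3 : ∑ b : D, ρ (f b) = 0 := LinearMap.ext fun v => by
          have := fun b (hb : b ∈ D) => sum_fix (ρ := ρ) (f := f) D v hb
          exact fp a h2 _ ((hU _).2 fun b hb => this b (hD.le hb)) (this a h1)
        rw [sm, h3, map_zero]
    rw [cm, sm, rk] at c
    refine Eq.trans (congrArg (fun W : Submodule (ZMod p) V => finrank (ZMod p) W) (le_antisymm
      (fun v hv => mem_range (hD _) _ fun b => (hU v).1 hv b b.2) ?_)) c
    rintro _ ⟨v, rfl⟩
    exact (hU _).2 fun b hb => sum_fix (ρ := ρ) (f := f) π.ker v hb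
  have z0 := Complex.isPrimitiveRoot_exp m m0
  refine ⟨?_, fun α hα W h1 h2 => ?_⟩
  · obtain ⟨χ, -, e⟩ := key _ z0
    exact ⟨_, e⟩
  have pm : ¬ p ∣ m := fun e => hρ.cop (e.trans (cm ▸ (card_dvd_of_surjective π hπ).trans hN))
  obtain ⟨i, -, hi, e⟩ := ((red_prim hM pm z0).isPrimitiveRoot_iff).1
    (hα.inv.map_of_injective (algebraMap (ZMod p) (kk M)).injective)
  obtain ⟨χ, hχ, e2⟩ := key _ (z0.pow_of_coprime i hi)
  have α0 : α ≠ 0 := hα.ne_zero m0
  have : ∀ a : N, ∃ c : ZMod p, red M (χ (π a)) = algebraMap _ _ c ∧ ∀ v ∈ W,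
      (c • ρ (f a)) v = v := fun a => by
    obtain ⟨t, ht⟩ := (mem_powers_iff_mem_zpowers.2 (hg (π a)))
    refine ⟨α⁻¹ ^ t, ?_, fun v hv => ?_⟩
    · rw [← ht, map_pow, hχ, red_pow (mem_V_of_pow m0 (z0.pow_of_coprime i hi).pow_eq_one),
        red_pow (mem_V_of_pow m0 z0.pow_eq_one), e, map_pow]
    · have h3 : ∀ s : ℕ, ρ (f (g ^ s)) v = α ^ s • v := fun s => by
        induction s with
        | zero => simp
        | succ s ih => rw [pow_succ', map_mul, map_mul, End.mul_apply, ih, map_smul, h2 v hv,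
            smul_smul, pow_succ]
      rw [LinearMap.smul_apply, ← mul_inv_cancel_left (g ^ t) a, map_mul, map_mul, End.mul_apply,
        (hU v).1 (h1 hv) _ (by rw [map_mul, map_inv, map_pow, ← ht, inv_mul_cancel]), h3, smul_smul,
        ← mul_pow, inv_mul_cancel₀ α0, one_pow, one_smul]
  choose c hc hc' using this
  rw [e2, show ∑ a, red M (χ (π a)) • ρ' (f a) = bc (∑ a, c a • ρ (f a)) by
    rw [map_sum]
    exact sum_congr rfl fun a _ => by rw [hc, map_smul, algebraMap_smul]; rfl, rk]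
  exact Nat.mul_le_mul_left _ (Submodule.finrank_mono fun v hv => mem_range
    (fun e => hρ.cop ((Nat.card_eq_fintype_card (α := N) ▸ e).trans hN)) _ fun a => hc' a v hv)

theorem phi (hρ : RM p ρ) (hf : Function.Injective f) (hπ : Function.Surjective π)
    (hU : ∀ v, v ∈ U ↔ ∀ b, π b = 1 → ρ (f b) v = v)
    (fp : ∀ a, π a ≠ 1 → ∀ v ∈ U, ρ (f a) v = v → v = 0) (g : N) :
    (orderOf (π g)).totient ∣ finrank (ZMod p) U ∧ ∀ α : ZMod p, IsPrimitiveRoot α (orderOf (π g)) →
      ∀ W : Submodule (ZMod p) V, W ≤ U → (∀ v ∈ W, ρ (f g) v = α • v) →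
      (orderOf (π g)).totient * finrank (ZMod p) W ≤ finrank (ZMod p) U := by
  have := phi0 (f := f.comp ((zpowers (π g)).comap π).subtype) (π := π.subgroupComap (zpowers (π g)))
    (U := U) hρ (hf.comp Subtype.val_injective) (π.subgroupComap_surjective_of_surjective _ hπ)
    (fun v => (hU v).trans ⟨fun h b hb => h b (congrArg Subtype.val hb),
      fun h b hb => h ⟨b, by rw [mem_comap, hb]; exact one_mem _⟩ (Subtype.ext hb)⟩)
    (fun a ha => fp a fun e => ha (Subtype.ext e)) ⟨g, mem_zpowers _⟩ (by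
      rintro ⟨_, i, rfl⟩; exact ⟨i, rfl⟩)
  rwa [← orderOf_coe] at this

end Md

theorem tot4 {m : ℕ} (h : 10 ≤ m) (h2 : Even m) : 4 ≤ m.totient := by
  obtain ⟨x, h1, h3⟩ : ∃ x, Odd x ∧ (m = 2 + 2 * x ∨ m = 2 ^ 2 + 2 * x) := by
    obtain ⟨t, rfl⟩ := h2
    rcases t.even_or_odd' with ⟨s, rfl | rfl⟩
    · exact ⟨2 * s - 1, ⟨s - 1, by omega⟩, Or.inl (by omega)⟩
    · exact ⟨2 * s - 1, ⟨s - 1, by omega⟩, Or.inr (by omega)⟩
  have h4 : m.Coprime x := by
    rcases h3 with rfl | rfl <;> rw [Nat.coprime_add_mul_right_left]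
    exacts [Nat.coprime_two_left.2 h1, (Nat.coprime_two_left.2 h1).pow_left 2]
  have h5 : #({1, x, m - 1} : Finset ℕ) ≤ m.totient := by
    rw [Nat.totient_eq_card_coprime]
    refine card_le_card fun y hy => ?_
    simp only [Finset.mem_insert, Finset.mem_singleton] at hy
    rw [mem_filter, Finset.mem_range]
    rcases hy with rfl | rfl | rfl
    exacts [⟨by omega, by simp⟩, ⟨by omega, h4⟩,
      ⟨by omega, (Nat.coprime_self_sub_right (by omega)).2 (by simp)⟩]
  rw [card_eq_three.2 ⟨1, x, m - 1, by omega, by omega, by omega, rfl⟩] at h5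
  obtain ⟨t, ht⟩ := Nat.totient_even (n := m) (by omega)
  omega

theorem num1 {n : ℕ} (h : 1 ≤ n) : 2 * n * primorial (n + 1) < 6 ^ n := by
  rcases lt_or_ge n 12 with h1 | h1
  · interval_cases n <;> decide +kernel
  · refine lt_of_le_of_lt (Nat.mul_le_mul_left _ (primorial_le_four_pow _)) ?_
    induction n, h1 using Nat.le_induction with
    | base => norm_num
    | succ n hn ih =>
      have := ih (by omega)
      rw [pow_succ 4 (n + 1), pow_succ 6]
      nlinarith [Nat.pow_pos (n := n + 1) (show 0 < 4 by norm_num)]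

theorem num2 {k : ℕ} (h : 3 ≤ k) : 6 ^ (k + 1) ≤ 11 ^ k := by
  induction k, h using Nat.le_induction with
  | base => norm_num
  | succ n _ ih => rw [pow_succ 6, pow_succ 11]; omega

/-- order of a fixed-point-free group all of whose element orders `m` have `φ(m) ∣ n` -/
theorem ord_dvd {K W : Type*} [Group K] [Group W] [Finite K] [Finite W] [Nontrivial W]
    (φ : K →* MulAut W) (h : ∀ a : K, a ≠ 1 → ∀ v : W, φ a v = v → v = 1) {n : ℕ} (n1 : 1 ≤ n)
    (hn : ∀ y : K, (orderOf y).totient ∣ n) : Nat.card K ∣ 2 * n * primorial (n + 1) := by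
  refine (Nat.dvd_iff_prime_pow_dvd_dvd _ _).2 fun l k hl hk => ?_
  have := Fact.mk hl
  obtain ⟨P, hP⟩ := Sylow.exists_subgroup_card_pow_prime l hk
  rcases H24.cyclic_or_quaternion_of_fpf φ h (IsPGroup.of_card hP) with h1 | ⟨rfl, j, -, ⟨e⟩⟩
  · obtain ⟨y, hy⟩ := IsCyclic.exists_ofOrder_eq_natCard (α := P)
    rcases k with _ | k
    · simp
    have h2 := hn y
    rw [orderOf_coe, hy, hP, Nat.totient_prime_pow_succ hl] at h2
    have h3 := Nat.le_of_dvd n1 (dvd_of_mul_left_dvd h2)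
    rw [pow_succ]
    exact Nat.mul_dvd_mul ((dvd_of_mul_right_dvd h2).mul_left 2)
      (hl.dvd_primorial_iff.2 (by omega))
  · have h2 := hn (e.symm (QuaternionGroup.a 1))
    rw [orderOf_coe, MulEquiv.orderOf_eq, QuaternionGroup.orderOf_a_one, ← pow_succ',
      Nat.totient_prime_pow_succ hl] at h2
    rw [← hP, Nat.card_congr e.toEquiv, Nat.card_eq_fintype_card, QuaternionGroup.card,
      show 4 * 2 ^ j = 2 * 2 ^ j * 2 by ring]
    exact Nat.mul_dvd_mul (Nat.mul_dvd_mul_left 2 (dvd_of_mul_right_dvd h2))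
      (hl.dvd_primorial_iff.2 (by omega))

theorem g11 : G11.{u} := by
  intro p hp H V _ _ _ _ _ ρ hρ
  classical
  by_contra hp11
  have := hρ.nt
  let St : V → Subgroup H := fun v =>
    { carrier := {g | ρ g v = v}
      one_mem' := by simp
      mul_mem' := fun {a b} ha hb => by
        change ρ (a * b) v = v
        rw [map_mul, End.mul_apply, hb, ha]
      inv_mem' := fun {a} ha => by
        change ρ a⁻¹ v = v
        rw [← show ρ a v = v from ha, ← End.mul_apply, ← map_mul, inv_mul_cancel, map_one,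
          End.one_apply, ha] }
  have mS : ∀ v g, g ∈ St v ↔ ρ g v = v := fun _ _ => Iff.rfl
  obtain ⟨v0, h0, hmax⟩ := Set.exists_max_image {v : V | v ≠ 0} (fun v => Nat.card (St v))
    (Set.toFinite _) (exists_ne 0)
  let U : Submodule (ZMod p) V :=
    { carrier := {v | ∀ b ∈ St v0, ρ b v = v}
      zero_mem' := fun b _ => map_zero _
      add_mem' := fun {a b} ha hb g hg => by rw [map_add, ha g hg, hb g hg]
      smul_mem' := fun c a ha g hg => by rw [map_smul, ha g hg] }
  have mU : ∀ v, v ∈ U ↔ ∀ b ∈ St v0, ρ b v = v := fun _ => Iff.rfl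
  have sU : ∀ v ∈ U, v ≠ 0 → St v0 = St v := fun v hv h =>
    eq_of_le_of_card_ge (fun b hb => hv b hb) (hmax v h)
  let N : Subgroup H := normalizer (St v0 : Set H)
  have hN : ∀ g : N, ∀ v ∈ U, ρ g v ∈ U := fun g v hv b hb => by
    rw [← End.mul_apply, ← map_mul, show b * g = g * ((g : H)⁻¹ * b * g) by group, map_mul,
      End.mul_apply, hv _ ((mem_normalizer_iff''.1 g.2 b).1 hb)]
  let : MulDistribMulAction N (Multiplicative U) :=
    { smul := fun g v => Multiplicative.ofAdd ⟨ρ g v.toAdd, hN g _ v.toAdd.2⟩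
      one_smul := fun v => Subtype.ext (by change ρ 1 _ = _; rw [map_one]; rfl)
      mul_smul := fun a b v => Subtype.ext (by change ρ (a * b) _ = _; rw [map_mul]; rfl)
      smul_mul := fun a v w => Subtype.ext (map_add (ρ a) _ _)
      smul_one := fun a => Subtype.ext (map_zero (ρ a)) }
  let τ := MulDistribMulAction.toMulAut N (Multiplicative U)
  have p1 : ∀ b : N, τ.rangeRestrict b = 1 ↔ ∀ v ∈ U, ρ b v = v := fun b =>
    ⟨fun h v hv => congrArg Subtype.val (MulEquiv.congr_fun (congrArg Subtype.val h)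
      (Multiplicative.ofAdd ⟨v, hv⟩)),
     fun h => Subtype.ext (MulEquiv.ext fun v => Subtype.ext (h _ v.toAdd.2))⟩
  have fp : ∀ a : N, τ.rangeRestrict a ≠ 1 → ∀ v ∈ U, ρ (N.subtype a) v = v → v = 0 :=
    fun a ha v hv h => by_contra fun e => ha ((p1 a).2 fun w hw => hw _ (sU v hv e ▸ h))
  have ph := phi (f := N.subtype) (U := U) hρ N.subtype_injective τ.rangeRestrict_surjective
    (fun v => ⟨fun hv b hb => (p1 b).1 hb v hv, fun h b hb =>
      h ⟨b, le_normalizer hb⟩ ((p1 _).2 fun w hw => hw b hb)⟩) fp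
  have v0U : v0 ∈ U := fun _ hb => hb
  have : Nontrivial U := ⟨⟨v0, v0U⟩, 0, fun e => h0 (congrArg Subtype.val e)⟩
  set n := finrank (ZMod p) U with hn
  have n1 : 1 ≤ n := finrank_pos
  have k1 : Nat.card τ.range < 6 ^ n := lt_of_le_of_lt (Nat.le_of_dvd
    (Nat.mul_pos (by omega) (primorial_pos _)) (ord_dvd τ.range.subtype (fun a ha v hv => by
      obtain ⟨a, rfl⟩ := τ.rangeRestrict_surjective a
      exact Subtype.ext (fp a ha _ v.toAdd.2 (congrArg Subtype.val hv))) n1 fun y => by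
      obtain ⟨a, rfl⟩ := τ.rangeRestrict_surjective y
      exact (ph a).1)) (num1 n1)
  have := NeZero.mk (show p - 1 ≠ 0 by omega)
  obtain ⟨α, hα⟩ := HasEnoughRootsOfUnity.exists_primitiveRoot (ZMod p) (p - 1)
  have α0 : α ≠ 0 := hα.ne_zero (NeZero.ne _)
  have od : ∀ g : N, ∀ v ∈ U, v ≠ 0 → ρ g v = α • v → orderOf (τ.rangeRestrict g) = p - 1 :=
    fun g v hv h e => by
      have h3 : ∀ s : ℕ, ρ (g ^ s : N) v = α ^ s • v := fun s => by
        induction s with
        | zero => simp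
        | succ s ih => rw [pow_succ', Subgroup.coe_mul, map_mul, End.mul_apply, ih, map_smul, e,
            smul_smul, pow_succ]
      rw [hα.eq_orderOf, orderOf_eq_orderOf_iff]
      refine fun s => ⟨fun h1 => ?_, fun h1 => by_contra fun h2 => h (fp (g ^ s) ?_ v hv ?_)⟩
      · have := (p1 (g ^ s)).1 ((map_pow _ g s).trans h1) v hv
        rw [h3] at this
        exact smul_left_injective _ h (this.trans (one_smul _ v).symm)
      · rwa [map_pow]
      · exact (h3 s).trans (by rw [h1, one_smul])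
  have ex : ∀ v ∈ U, v ≠ 0 → ∃ g : N, ρ g v = α • v := fun v hv h => by
    obtain ⟨g, -, hg⟩ := hρ.ev 1 v (by simp) α α0
    refine ⟨⟨g, mem_normalizer_iff''.2 fun b => ?_⟩, hg⟩
    have h1 : ρ g⁻¹ (α • v) = v := by
      rw [← hg, ← End.mul_apply, ← map_mul, inv_mul_cancel, map_one, End.one_apply]
    rw [sU v hv h, mS, mS, map_mul, map_mul, End.mul_apply,
      End.mul_apply, hg, map_smul]
    refine ⟨fun e => by rw [e, h1], fun e => smul_right_injective _ α0 ?_⟩
    have := congrArg (ρ g) e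
    rwa [← End.mul_apply, ← map_mul, mul_inv_cancel, map_one, End.one_apply, hg] at this
  choose s hs using τ.rangeRestrict_surjective
  obtain ⟨k, hk⟩ : ∃ k, (p - 1).totient = k + 1 := ⟨(p - 1).totient - 1, by
    have := Nat.totient_pos.2 (show 0 < p - 1 by omega); omega⟩
  have k3 := tot4 (m := p - 1) (by omega) (hp.out.even_sub_one (by omega))
  obtain ⟨g0, hg0⟩ := ex v0 v0U h0
  obtain ⟨d, hd⟩ := (ph g0).1
  rw [od g0 v0 v0U h0 hg0, hk] at hd
  let W : τ.range → Submodule (ZMod p) V := fun y => U ⊓ End.eigenspace (ρ (s y)) α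
  have cW : ∀ y, Nat.card (W y) ≤ p ^ d := fun y => by
    rw [Module.natCard_eq_pow_finrank (K := ZMod p), Nat.card_zmod]
    refine Nat.pow_le_pow_right hp.out.pos ?_
    rcases eq_or_ne (W y) ⊥ with e | e
    · rw [e, finrank_bot]; exact Nat.zero_le _
    obtain ⟨v, hv, h⟩ := Submodule.exists_mem_ne_zero_of_ne_bot e
    have h1 := od _ v hv.1 h (End.mem_eigenspace_iff.1 hv.2)
    have := (ph (s y)).2 α (h1 ▸ hα) (W y) inf_le_left fun v hv => End.mem_eigenspace_iff.1 hv.2
    rw [h1, hk, hd] at this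
    exact Nat.le_of_mul_le_mul_left this k.succ_pos
  have cv : ∀ v : U, ∃ y, (v : V) ∈ W y := fun v => by
    rcases eq_or_ne (v : V) 0 with e | e
    · exact ⟨1, e ▸ zero_mem _⟩
    obtain ⟨g, hg⟩ := ex v v.2 e
    refine ⟨τ.rangeRestrict g, v.2, End.mem_eigenspace_iff.2 (Eq.trans ?_ hg)⟩
    exact congrArg Subtype.val (MulEquiv.congr_fun (congrArg Subtype.val (hs (τ.rangeRestrict g)))
      (Multiplicative.ofAdd v))
  choose y hy using cv
  have := Fintype.ofFinite τ.range
  have c1 := Nat.card_le_card_of_injective (fun v : U => (⟨y v, v, hy v⟩ : Σ y, W y)) fun a b h =>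
    Subtype.ext (congrArg (fun x : Σ y, W y => (x.2 : V)) h)
  rw [Nat.card_sigma, Module.natCard_eq_pow_finrank (K := ZMod p), Nat.card_zmod, ← hn] at c1
  have c2 := c1.trans (sum_le_card_nsmul _ _ _ fun y _ => cW y)
  rw [card_univ, ← Nat.card_eq_fintype_card, smul_eq_mul, hd, add_mul, one_mul, pow_add] at c2
  have c3 := (Nat.le_of_mul_le_mul_right c2 (Nat.pow_pos hp.out.pos)).trans_lt k1
  rw [hd, pow_mul, pow_mul] at c3
  exact absurd (lt_of_pow_lt_pow_left₀ d (Nat.zero_le _) c3)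
    (not_lt.2 ((num2 (by omega)).trans (Nat.pow_le_pow_left (by omega) k)))

end H16.AH
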