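import Mathlib.LinearAlgebra.Matrix.GeneralLinearGroup.Card
import Mathlib.GroupTheory.Perm.Cycle.Type
import Mathlib.GroupTheory.Index
import Mathlib.Data.ZMod.Basic
import Mathlib.Algebra.Field.ZMod
import Mathlib.Tactic

/-! Linear groups over the field with three elements with a strongly embedded subgroup. -/

set_option autoImplicit false
set_option linter.unusedSectionVars false
set_option maxRecDepth 100000

namespace H16.C9
open Subgroup Matrix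

abbrev K3 := ZMod 3
abbrev Mt (n : ℕ) := Matrix (Fin n) (Fin n) K3
abbrev Vc (n : ℕ) := Fin n → K3
abbrev P3 := K3 × K3 × K3

instance fact3 : Fact (Nat.Prime 3) := ⟨by decide⟩

variable {G : Type*} [Group G] [Finite G] {n : ℕ} {ρ : G →* Mt n} {B H : Subgroup G} {g : G}
  {x : Vc n} {m : P3 → Mt n} {h : P3 → G}

/-- a subgroup from a set closed under products -/
def sgp (S : Set G) (h1 : 1 ∈ S) (h2 : ∀ a ∈ S, ∀ b ∈ S, a * b ∈ S) : Subgroup G where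
  carrier := S
  one_mem' := h1
  mul_mem' := fun {a b} ha hb => h2 a ha b hb
  inv_mem' := fun {a} ha => by
    have h3 : ∀ k : ℕ, a ^ k ∈ S := fun k => by
      induction k with
      | zero => simpa using h1
      | succ k ih => rw [pow_succ]; exact h2 _ ih _ ha
    rw [inv_eq_of_mul_eq_one_right (b := a ^ (orderOf a - 1)) (by
      rw [← pow_succ', Nat.sub_add_cancel (orderOf_pos a), pow_orderOf_eq_one])]
    exact h3 _

theorem mv_mul (ρ : G →* Mt n) (a b : G) (x : Vc n) : ρ (a * b) *ᵥ x = ρ a *ᵥ (ρ b *ᵥ x) := by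
  rw [map_mul, mulVec_mulVec]

theorem mv_inv (ρ : G →* Mt n) (a : G) (x : Vc n) : ρ a⁻¹ *ᵥ (ρ a *ᵥ x) = x := by
  rw [← mv_mul]; simp

theorem mv_inv' (ρ : G →* Mt n) (a : G) (x : Vc n) : ρ a *ᵥ (ρ a⁻¹ *ᵥ x) = x := by
  rw [← mv_mul]; simp

theorem mv_inj (ρ : G →* Mt n) (a : G) {x y : Vc n} (e : ρ a *ᵥ x = ρ a *ᵥ y) : x = y := by
  rw [← mv_inv ρ a x, e, mv_inv]

theorem mv_ne (ρ : G →* Mt n) (a : G) (h : x ≠ 0) : ρ a *ᵥ x ≠ 0 := fun e =>
  h (mv_inj ρ a (e.trans (mulVec_zero _).symm))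

/-- stabilizer -/
def st (ρ : G →* Mt n) (x : Vc n) : Subgroup G :=
  sgp {g | ρ g *ᵥ x = x} (by simp) fun a ha b hb => by
    rw [Set.mem_ofPred_eq] at *; rw [mv_mul, hb, ha]

theorem mem_st : g ∈ st ρ x ↔ ρ g *ᵥ x = x := Iff.rfl

/-- orbit -/
def ob (ρ : G →* Mt n) (H : Subgroup G) (x : Vc n) : Set (Vc n) := {y | ∃ g ∈ H, ρ g *ᵥ x = y}

theorem rel_st (ρ : G →* Mt n) (H : Subgroup G) (x : Vc n) :
    (st ρ x).relIndex H = (ob ρ H x).ncard := by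
  let : MulAction H (Vc n) :=
    { smul := fun g x => ρ g *ᵥ x
      one_smul := fun x => by show ρ 1 *ᵥ x = x; simp
      mul_smul := fun a b x => mv_mul ρ a b x }
  have : ob ρ H x = MulAction.orbit H x :=
    Set.ext fun y => ⟨fun ⟨g, h1, h2⟩ => ⟨⟨g, h1⟩, h2⟩, fun ⟨g, h2⟩ => ⟨g, g.2, h2⟩⟩
  rw [this, ← MulAction.index_stabilizer]
  rfl

theorem semireg {ι : Type*} [Fintype ι] (hk : ρ.ker ≤ B) (h : ι → G) (hB : ∀ i, h i ∈ B)
    (h0 : ∃ i, ρ (h i) = 1) (h1 : ∀ i j, ∃ k, ρ (h i) * ρ (h j) = ρ (h k))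
    (h2 : ∀ i j, ρ (h i) = ρ (h j) → i = j)
    (h3 : ∀ g i, g * h i * g⁻¹ ∈ B → g ∈ B ∨ ρ (h i) = 1) : B.index ≡ 1 [MOD Fintype.card ι] := by
  classical
  let R : Subgroup G := sgp {g | ∃ i, ρ g = ρ (h i)} (h0.imp fun i e => by rw [e, map_one])
    (by rintro a ⟨i, ha⟩ b ⟨j, hb⟩; rw [Set.mem_ofPred_eq, map_mul, ha, hb]; exact h1 i j)
  have a1 : ∀ a b g : G, ρ a = ρ b → (a * g)⁻¹ * (b * g) ∈ B := fun a b g e => hk (by
    rw [MonoidHom.mem_ker, map_mul, map_mul ρ b, ← e, ← map_mul, ← map_mul]; simp)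
  have a2 : ∀ ω : G ⧸ B, ω ≠ ((1 : G) : G ⧸ B) → Nat.card (MulAction.orbit R ω) = Fintype.card ι := by
    intro ω hω
    obtain ⟨g, rfl⟩ := QuotientGroup.mk_surjective ω
    rw [← Nat.card_eq_fintype_card]
    refine (Nat.card_eq_of_bijective (fun i => ⟨((h i * g : G) : G ⧸ B), ⟨h i, i, rfl⟩, rfl⟩)
      ⟨fun i j e => ?_, ?_⟩).symm
    · have e1 := QuotientGroup.eq.1 (congrArg Subtype.val e)
      obtain ⟨k, e2⟩ : (h i)⁻¹ * h j ∈ R := mul_mem (inv_mem ⟨i, rfl⟩) ⟨j, rfl⟩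
      have e3 := mul_mem (inv_mem e1) (inv_mem (a1 _ _ g e2))
      rcases h3 g⁻¹ k (by
        have := mul_mem e1 (hk (MonoidHom.normal_ker ρ |>.conj_mem' _ (show ((h i)⁻¹ * h j)⁻¹ * h k ∈ ρ.ker by
          rw [MonoidHom.mem_ker, map_mul, ← e2, ← map_mul]; simp) g))
        convert this using 1; group) with e4 | e4
      · exact absurd (QuotientGroup.eq.2 (by simpa using e4)) hω
      · refine h2 i j ?_
        rw [← mul_inv_cancel_left (h i) (h j), map_mul, e2, e4, mul_one]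
    · rintro ⟨_, ⟨r, i, e⟩, rfl⟩
      exact ⟨i, Subtype.ext (QuotientGroup.eq.2 (a1 _ _ g e.symm))⟩
  have a3 : ∀ r : R, r • ((1 : G) : G ⧸ B) = ((1 : G) : G ⧸ B) := by
    rintro ⟨r, i, e⟩
    exact QuotientGroup.eq.2 (by simpa using mul_mem (a1 _ _ 1 e) (inv_mem (hB i)))
  have := Fintype.ofFinite (MulAction.orbitRel.Quotient R (G ⧸ B))
  rw [index, Nat.card_congr (MulAction.selfEquivSigmaOrbits R _), Nat.card_sigma,
    ← Finset.add_sum_erase _ _ (Finset.mem_univ (Quotient.mk'' ((1 : G) : G ⧸ B)))]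
  have a4 : MulAction.orbit R (Quotient.out (s := MulAction.orbitRel R (G ⧸ B))
      (Quotient.mk'' ((1 : G) : G ⧸ B))) = {((1 : G) : G ⧸ B)} := by
    rw [← MulAction.orbitRel.Quotient.orbit_eq_orbit_out _ Quotient.out_eq',
      MulAction.orbitRel.Quotient.orbit_mk]
    exact Set.eq_singleton_iff_unique_mem.2 ⟨MulAction.mem_orbit_self _, by rintro _ ⟨r, rfl⟩; exact a3 r⟩
  rw [a4, Nat.card_unique]
  refine (Nat.ModEq.add_left 1 ((Nat.modEq_zero_iff_dvd).2 (Finset.dvd_sum fun q hq => ?_)))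
  rw [a2 _ fun e => (Finset.mem_erase.1 hq).1 (by rw [← e, Quotient.out_eq'])]

theorem inj_card (X T : Set (Vc n)) (h1 : ∀ g, ∀ x ∈ X, ρ g *ᵥ x ∈ X → g ∈ B)
    (h2 : ∀ g, g ∉ B → ∀ x ∈ X, ρ g *ᵥ x ∈ T) : (B.index - 1) * X.ncard ≤ T.ncard := by
  have := Nat.card_le_card_of_injective (fun z : {ω : G ⧸ B // ω ≠ ((1 : G) : G ⧸ B)} × X =>
    (⟨ρ z.1.1.out *ᵥ z.2, h2 _ (fun h => z.1.2 (by
      rw [← z.1.1.out_eq]; exact QuotientGroup.eq.2 (by simpa using h))) _ z.2.2⟩ : T)) (by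
    rintro ⟨⟨a, ha⟩, x⟩ ⟨⟨b, hb⟩, y⟩ e
    have e1 : ρ a.out *ᵥ x.1 = ρ b.out *ᵥ y.1 := congrArg Subtype.val e
    obtain rfl : b = a := by
      rw [← a.out_eq, ← b.out_eq]
      exact QuotientGroup.eq.2 (h1 _ _ x.2 (by rw [mv_mul, e1, mv_inv]; exact y.2))
    rw [Subtype.ext (mv_inj ρ _ e1)])
  classical
  have _ := Fintype.ofFinite (G ⧸ B)
  rwa [Nat.card_prod, Nat.card_eq_fintype_card, Fintype.card_subtype_compl, Fintype.card_subtype_eq,
    ← Nat.card_eq_fintype_card] at this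

theorem idx_dvd (hk : ρ.ker ≤ B) : B.index ∣ ∏ i : Fin n, (3 ^ n - 3 ^ (i : ℕ)) := by
  have h1 := card_GL_field (𝔽 := K3) n
  rw [ZMod.card] at h1
  rw [← h1]
  refine (index_dvd_of_le (H := ρ.toHomUnits.ker) fun g hg => hk (congrArg Units.val hg)).trans ?_
  rw [index_ker]
  exact card_subgroup_dvd_card _

/-- a set permuted by a map of prime order without fixed points -/
theorem dvd_ncard {p : ℕ} [Fact p.Prime] (X : Set (Vc n)) (f : Vc n → Vc n) (h1 : ∀ x ∈ X, f x ∈ X)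
    (h2 : ∀ x, f^[p] x = x) (h3 : ∀ x ∈ X, f x ≠ x) : p ∣ X.ncard := by
  classical
  have := Fintype.ofFinite X
  let F : Function.End X := fun x => ⟨f x, h1 _ x.2⟩
  have a1 : ∀ k (x : X), ((F ^ k) x).1 = f^[k] x := fun k => by
    induction k with
    | zero => intro x; rfl
    | succ k ih => intro x; rw [pow_succ, Function.iterate_succ_apply, ← ih (F x)]; rfl
  have a2 := Equiv.Perm.card_fixedPoints_modEq (f := F) (p := p) (n := 1)
    (funext fun x => Subtype.ext (by rw [pow_one, a1, h2]; rfl))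
  rw [Fintype.card_eq_zero_iff.2 ⟨fun x : F.fixedPoints => h3 _ x.1.2 (congrArg Subtype.val x.2)⟩,
    ← Nat.card_eq_fintype_card] at a2
  exact Nat.modEq_zero_iff_dvd.1 a2

theorem even_ncard (X : Set (Vc n)) (h1 : ∀ x ∈ X, -x ∈ X) (h3 : 0 ∉ X) : 2 ∣ X.ncard :=
  dvd_ncard X Neg.neg h1 (fun x => neg_neg x) fun x hx e => h3 (by
    rwa [show x = 0 from funext fun i => (by decide : ∀ a : K3, -a = a → a = 0) _ (congrFun e i)] at hx)

/-- a strongly embedded subgroup -/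
structure St (m : P3 → Mt n) (ρ : G →* Mt n) (B : Subgroup G) (h : P3 → G) : Prop where
  ne : B ≠ ⊤
  hB : ∀ p, h p ∈ B
  hm : ∀ p, ρ (h p) = m p
  pair : ∀ D : Subgroup G, (∀ k ∈ D, ∃ i, ρ k ^ 3 ^ i = 1) → ∀ g p q, p ≠ 0 → q ≠ 0 → h p ∈ D →
    g * h q * g⁻¹ ∈ D → g ∈ B
  conj : ∀ g p, p ≠ 0 → g * h p * g⁻¹ ∈ B → g ∈ B

/-- the Heisenberg group -/
structure Hs (m : P3 → Mt n) : Prop where
  mul : ∀ p q, m p * m q = m (p.1 + q.1, p.2.1 + q.2.1, p.2.2 + q.2.2 + p.1 * q.2.1)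
  inj : ∀ p q, m p = m q → p = q
  one : m 0 = 1

theorem St.ker (s : St m ρ B h) (t : Hs m) : ρ.ker ≤ B := fun k hk => by
  refine s.pair (sgp {g | ∃ p, ρ g = m p} ⟨0, by rw [t.one, map_one]⟩ ?_) ?_ k (0, 0, 1) (0, 0, 1)
    (by decide) (by decide) ⟨_, s.hm _⟩ ⟨(0, 0, 1), ?_⟩
  · rintro a ⟨p, ha⟩ b ⟨q, hb⟩; exact ⟨_, by rw [map_mul, ha, hb, t.mul]⟩
  · rintro k ⟨p, e⟩
    refine ⟨1, ?_⟩
    rw [e, pow_one, pow_three, t.mul, t.mul, ← t.one]
    congr 1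
    clear e; revert p; decide
  · rw [map_mul, map_mul, MonoidHom.mem_ker.1 hk, MonoidHom.mem_ker.1 (inv_mem hk), s.hm]; simp

theorem St.mod (s : St m ρ B h) (t : Hs m) : B.index % 27 = 1 ∧ B.index ≠ 1 :=
  ⟨semireg (s.ker t) h s.hB ⟨0, by rw [s.hm, t.one]⟩ (fun i j => ⟨_, (congrArg₂ _ (s.hm i) (s.hm j)).trans ((t.mul i j).trans (s.hm _).symm)⟩)
    (fun i j e => t.inj i j (by rwa [s.hm, s.hm] at e)) fun g i e => by
      by_cases h0 : i = 0
      exacts [Or.inr (by rw [h0, s.hm, t.one]), Or.inl (s.conj g i h0 e)],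
    fun e => s.ne (index_eq_one.1 e)⟩

end H16.C9
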