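import Cfsg.Agent.H16.C9m

/-! The Heisenberg group acting on ternary quadratic forms. -/

set_option autoImplicit false
set_option linter.unusedSectionVars false
set_option maxRecDepth 100000
set_option Elab.async false

namespace H16.C9
open Subgroup Matrix

variable {G : Type*} [Group G] [Finite G] {B H : Subgroup G} {g : G} {h : P3 → G}

/-- the action on quadratic forms -/
def Mx (p : P3) : Mt 6 :=
  !![1, 0, 0, 0, 0, 0;
     p.2.1, 1, 0, 0, 0, 0;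
     p.2.2, p.1, 1, 0, 0, 0;
     p.2.1 * p.2.1, 2 * p.2.1, 0, 1, 0, 0;
     p.2.1 * p.2.2, p.2.2 + p.1 * p.2.1, p.2.1, p.1, 1, 0;
     p.2.2 * p.2.2, 2 * p.1 * p.2.2, 2 * p.2.2, p.1 * p.1, 2 * p.1, 1]

/-- the action on the quotient by the fixed vector -/
def M5 (p : P3) : Mt 5 := (Mx p).submatrix Fin.castSucc Fin.castSucc

theorem hs6 : Hs Mx := by
  refine ⟨fun p q => ?_, fun p q e => ?_, by decide +kernel⟩
  · ext i j
    fin_cases i <;> fin_cases j <;> simp [Mx, Matrix.mul_apply, Fin.sum_univ_succ] <;> ring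
  · exact Prod.ext (congrFun (congrFun e 2) 1) (Prod.ext (congrFun (congrFun e 1) 0)
      (congrFun (congrFun e 2) 0))

theorem hs5 : Hs M5 := by
  refine ⟨fun p q => ?_, fun p q e => ?_, by decide +kernel⟩
  · ext i j
    fin_cases i <;> fin_cases j <;> simp [M5, Mx, Matrix.mul_apply, Fin.sum_univ_succ] <;> ring
  · exact Prod.ext (congrFun (congrFun e 2) 1) (Prod.ext (congrFun (congrFun e 1) 0)
      (congrFun (congrFun e 2) 0))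

theorem M5_mv (a c : K3) (x : Vc 5) :
    M5 (a, 0, c) *ᵥ x - x = ![0, 0, c * x 0 + a * x 1, 0, c * x 1 + a * x 3] := by
  ext i
  fin_cases i <;> simp [M5, Mx, Matrix.mulVec, dotProduct, Fin.sum_univ_succ] <;> ring

/-- the commutator space -/
def Y5 : Set (Vc 5) := {x | x ≠ 0 ∧ x 0 = 0 ∧ x 1 = 0 ∧ x 3 = 0}

instance instY5 : DecidablePred (· ∈ Y5) := fun x => by unfold Y5; infer_instance

theorem y5e {y : Vc 5} (h : y ∈ Y5) : y = ![0, 0, y 2, 0, y 4] ∧ (y 2, y 4) ≠ 0 := by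
  have : y = ![0, 0, y 2, 0, y 4] := by
    ext i; fin_cases i; exacts [h.2.1, h.2.2.1, rfl, h.2.2.2, rfl]
  refine ⟨this, fun e => h.1 ?_⟩
  rw [this, show y 2 = 0 from congrArg Prod.fst e, show y 4 = 0 from congrArg Prod.snd e]
  decide

theorem y5a (y : Vc 5) (h : y ∈ Y5) (x : Vc 5) : ∃ a c : K3, ((a, 0, c) : P3) ≠ 0 ∧ ∃ i : K3,
    M5 (a, 0, c) *ᵥ x - x = i • y := by
  obtain ⟨a, c, h1, i, h2, h3⟩ := (by decide : ∀ s t x0 x1 x3 : K3, (s, t) ≠ 0 → ∃ a c : K3,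
    ((a, 0, c) : P3) ≠ 0 ∧ ∃ i : K3, c * x0 + a * x1 = i * s ∧ c * x1 + a * x3 = i * t) _ _ (x 0) (x 1) (x 3)
    (y5e h).2
  refine ⟨a, c, h1, i, ?_⟩
  rw [M5_mv, (y5e h).1, h2, h3]; simp

theorem y5b (y : Vc 5) (h : y ∈ Y5) : ∃ w ∈ Y5, ∀ a c : K3, M5 (a, 0, c) *ᵥ y = y ∧
    M5 (a, 0, c) *ᵥ w = w ∧ ∀ x : Vc 5, ∃ i j : K3, M5 (a, 0, c) *ᵥ x - x = i • y + j • w := by
  obtain ⟨s', t', h1, h2⟩ := (by decide : ∀ s t : K3, (s, t) ≠ 0 → ∃ s' t' : K3,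
    ![0, 0, s', 0, t'] ∈ Y5 ∧ ∀ u v : K3, ∃ i j : K3, u = i * s + j * s' ∧ v = i * t + j * t') _ _ (y5e h).2
  have h3 : ∀ y ∈ Y5, ∀ a c : K3, M5 (a, 0, c) *ᵥ y = y := fun y h a c => by
    rw [← sub_eq_zero, M5_mv, h.2.1, h.2.2.1, h.2.2.2]; simp
  refine ⟨_, h1, fun a c => ⟨h3 y h a c, h3 _ h1 a c, fun x => ?_⟩⟩
  obtain ⟨i, j, h4, h5⟩ := h2 (c * x 0 + a * x 1) (c * x 1 + a * x 3)
  refine ⟨i, j, ?_⟩
  rw [M5_mv, (y5e h).1, h4, h5]; simp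

theorem y5c : Y5.ncard = 8 := by
  rw [Set.ncard_eq_toFinset_card']; decide +kernel

theorem flag3 {n : ℕ} (ρ : G →* Mt n) (y w' w : Vc n) : ∃ D : Subgroup G,
    (∀ k ∈ D, ∃ i, ρ k ^ 3 ^ i = 1) ∧ ∀ k, ρ k *ᵥ y = y → (∃ i : K3, ρ k *ᵥ w' = w' + i • y) →
    (∃ i : K3, ρ k *ᵥ w = w + i • y) → (∀ x, ∃ i j l : K3,
      ρ k *ᵥ x = x + (i • y + j • w' + l • w)) → k ∈ D := by
  refine ⟨sgp {k | ρ k *ᵥ y = y ∧ (∃ i : K3, ρ k *ᵥ w' = w' + i • y) ∧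
    (∃ i : K3, ρ k *ᵥ w = w + i • y) ∧ ∀ x, ∃ i j l : K3, ρ k *ᵥ x = x + (i • y + j • w' + l • w)}
    ⟨by simp, ⟨0, by simp⟩, ⟨0, by simp⟩, fun x => ⟨0, 0, 0, by simp⟩⟩ ?_, ?_,
    fun k h1 h2 h3 h4 => ⟨h1, h2, h3, h4⟩⟩
  · rintro k ⟨k1, ⟨i2, k2⟩, ⟨i3, k3⟩, k4⟩ l ⟨l1, ⟨j2, l2⟩, ⟨j3, l3⟩, l4⟩
    refine ⟨by rw [mv_mul, l1, k1], ⟨i2 + j2, ?_⟩, ⟨i3 + j3, ?_⟩, fun x => ?_⟩
    · rw [mv_mul, l2, mulVec_add, mulVec_smul, k1, k2]; module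
    · rw [mv_mul, l3, mulVec_add, mulVec_smul, k1, k3]; module
    · obtain ⟨a, b, c, e⟩ := k4 x
      obtain ⟨a', b', c', e'⟩ := l4 x
      refine ⟨a + a' + b' * i2 + c' * i3, b + b', c + c', ?_⟩
      simp only [mv_mul, e', mulVec_add, mulVec_smul, k1, k2, k3, e]; module
  · rintro k ⟨k1, ⟨i2, k2⟩, ⟨i3, k3⟩, k4⟩
    refine ⟨1, Matrix.ext_of_mulVec_single fun i => ?_⟩
    generalize (Pi.single i 1 : Vc n) = x
    obtain ⟨a, b, c, e⟩ := k4 x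
    have h3 : (3 : K3) = 0 := rfl
    simp only [pow_one, pow_three, ← mulVec_mulVec, e, mulVec_add, mulVec_smul, k1, k2, k3, one_mulVec]
    linear_combination (norm := module) h3 • (a • y + b • w' + c • w + (b * i2 + c * i3) • y)

theorem St.no5 {ρ : G →* Mt 5} (s : St M5 ρ B h) : False := by
  have a1 := inj_card (ρ := ρ) (B := B) Y5 Set.univ (fun g y hy hy' => ?_) fun _ _ _ _ => trivial
  · obtain ⟨a2, a3⟩ := s.mod hs5
    have a4 := idx_dvd (s.ker hs5)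
    rw [y5c, Set.ncard_univ, Nat.card_fun, Nat.card_zmod, Nat.card_eq_fintype_card, Fintype.card_fin] at a1
    rw [show B.index = 28 by omega] at a4
    revert a4; decide
  obtain ⟨w, -, b1⟩ := y5b _ hy
  obtain ⟨w', -, b2⟩ := y5b _ hy'
  obtain ⟨a, c, c1, i, c2⟩ := y5a _ hy' (ρ g *ᵥ w)
  obtain ⟨a', c', c3, i', c4⟩ := y5a _ hy (ρ g⁻¹ *ᵥ w')
  obtain ⟨d1, d2, d3⟩ := b1 a' c'
  obtain ⟨e1, e2, e3⟩ := b2 a c
  have f0 : ∀ x, ρ (g * h (a', 0, c') * g⁻¹) *ᵥ (ρ g *ᵥ x) = ρ g *ᵥ (M5 (a', 0, c') *ᵥ x) := fun x => by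
    rw [mv_mul, mv_mul, mv_inv, s.hm]
  obtain ⟨D, D1, D2⟩ := flag3 ρ (ρ g *ᵥ y) w' (ρ g *ᵥ w)
  refine s.pair D D1 g _ _ c1 c3
    (D2 _ (by rw [s.hm, e1]) ⟨0, by simp [s.hm, e2]⟩ ⟨i, by rw [s.hm, ← c2]; abel⟩ fun x => ?_)
    (D2 _ (by rw [f0, d1]) ⟨i', ?_⟩ ⟨0, by rw [f0, d2]; simp⟩ fun x => ?_)
  · obtain ⟨i, j, e⟩ := e3 x
    exact ⟨i, j, 0, by rw [s.hm, zero_smul, add_zero, ← e]; abel⟩
  · rw [← mv_inv' ρ g w', f0, ← mulVec_smul, ← c4, ← mulVec_add]; congr 1; abel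
  · obtain ⟨i, j, e⟩ := d3 (ρ g⁻¹ *ᵥ x)
    refine ⟨i, 0, j, ?_⟩
    rw [← mv_inv' ρ g x, f0, zero_smul, add_zero, ← mulVec_smul, ← mulVec_smul, ← mulVec_add, ← e,
      ← mulVec_add]
    congr 1; abel

/-- the fixed vector -/
def z6 : Vc 6 := Pi.single (Fin.last 5) 1

theorem Mx_mv (p : P3) (x : Vc 6) : Mx p *ᵥ x = ![x 0, p.2.1 * x 0 + x 1, p.2.2 * x 0 + p.1 * x 1 + x 2,
    p.2.1 * p.2.1 * x 0 + 2 * p.2.1 * x 1 + x 3,
    p.2.1 * p.2.2 * x 0 + (p.2.2 + p.1 * p.2.1) * x 1 + p.2.1 * x 2 + p.1 * x 3 + x 4,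
    p.2.2 * p.2.2 * x 0 + 2 * p.1 * p.2.2 * x 1 + 2 * p.2.2 * x 2 + p.1 * p.1 * x 3 + 2 * p.1 * x 4 + x 5] := by
  ext i
  fin_cases i <;> simp [Mx, Matrix.mulVec, dotProduct, Fin.sum_univ_succ] <;> ring

theorem Mx_z : ∀ p, Mx p *ᵥ z6 = z6 := by simp only [Mx_mv]; decide

variable {ρ : G →* Mt 6}

theorem St.stz (s : St Mx ρ B h) : st ρ z6 ≤ B := by
  by_contra hn
  have a1 : ∀ g : st ρ z6, ∀ i, ρ g i (Fin.last 5) = z6 i := fun g i => by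
    have := congrFun (mem_st.1 g.2) i
    rw [← this]; simp [z6]
  have a2 : ∀ i : Fin 5, z6 i.castSucc = 0 := by decide
  let σ : st ρ z6 →* Mt 5 :=
    { toFun := fun g => (ρ g).submatrix Fin.castSucc Fin.castSucc
      map_one' := by ext i j; simp [one_apply]
      map_mul' := fun a b => by
        ext i j
        simp only [coe_mul, map_mul, submatrix_apply, mul_apply]
        rw [Fin.sum_univ_castSucc, a1, a2, zero_mul, add_zero] }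
  refine St.no5 (ρ := σ) (B := B.subgroupOf _) (h := fun p => ⟨h p, by rw [mem_st, s.hm, Mx_z]⟩)
    ⟨fun e => hn (subgroupOf_eq_top.1 e), s.hB, fun p => congrArg (submatrix · _ _) (s.hm p),
      fun D h1 g p q hp hq h2 h3 => s.pair (D.map (st ρ z6).subtype) ?_ g p q hp hq ⟨_, h2, rfl⟩
        ⟨_, h3, rfl⟩, fun g p hp => s.conj g p hp⟩
  rintro _ ⟨k, hk, rfl⟩
  obtain ⟨i, e⟩ := h1 k hk
  refine ⟨i + 1, ?_⟩
  rw [← map_pow] at e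
  rw [pow_succ, pow_mul, ← map_pow, ← map_pow (st ρ z6).subtype]
  generalize k ^ 3 ^ i = g at e
  refine Matrix.ext_of_mulVec_single fun i => ?_
  generalize (Pi.single i 1 : Vc 6) = x
  have b1 : ρ g *ᵥ x = x + (ρ g *ᵥ x - x) (Fin.last 5) • z6 := by
    ext j
    refine Fin.lastCases (by simp [z6]) (fun j => ?_) j
    have b2 : ∀ l : Fin 5, ρ g j.castSucc l.castSucc = (1 : Mt 5) j l := fun l => congrFun (congrFun e j) l
    simp only [mulVec, dotProduct, Pi.add_apply, Pi.smul_apply, a2, smul_zero, add_zero]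
    rw [Fin.sum_univ_castSucc, a1, a2]
    simp [b2, one_apply]
  generalize (ρ g *ᵥ x - x) (Fin.last 5) = t at b1
  have h3 : (3 : K3) = 0 := rfl
  have b2 : ρ g *ᵥ z6 = z6 := g.2
  simp only [coe_subtype, pow_three, ← mulVec_mulVec, b1, b2, mulVec_add, mulVec_smul, one_mulVec]
  linear_combination (norm := module) h3 • (t • z6)

theorem St.pm (s : St Mx ρ B h) (e : ρ g *ᵥ z6 = z6 ∨ ρ g *ᵥ z6 = -z6) : g ∈ B := by
  refine inv_mem_iff.1 (s.conj _ (0, 0, 1) (by decide) (s.stz ?_))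
  rw [mem_st, mv_mul, mv_mul, inv_inv, s.hm]
  rcases e with e | e
  · rw [e, Mx_z, ← e, mv_inv, e]
  · rw [e, mulVec_neg, Mx_z, ← e, mv_inv]

/-- contains the vectors with trivial stabilizer -/
def Rg : Set (Vc 6) := {x | ¬ (x 0 = 0 ∧ x 1 = 0 ∧ x 2 = 0) ∧ x ≠ ![1, 0, 0, 0, 0, 0]}

instance instRg : DecidablePred (· ∈ Rg) := fun x => by unfold Rg; infer_instance

theorem rgc : Rg.ncard = 701 := by
  rw [Set.ncard_eq_toFinset_card']; decide +kernel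

theorem St.reg (s : St Mx ρ B h) {x : Vc 6} (hx : st ρ x ≤ B) (hg : g ∉ B) : ρ g *ᵥ x ∈ Rg := by
  have a : ∀ p, p ≠ 0 → Mx p *ᵥ (ρ g *ᵥ x) ≠ ρ g *ᵥ x := fun p hp e =>
    hg (inv_mem_iff.1 (s.conj _ p hp (hx (by rw [mem_st, mv_mul, mv_mul, inv_inv, s.hm, e, mv_inv]))))
  refine ⟨fun ⟨h0, h1, h2⟩ => a (0, 0, 1) (by decide) ?_, fun e => a (1, 0, 0) (by decide) ?_⟩
  · rw [Mx_mv, h0, h1, h2]
    ext i; fin_cases i <;> simp [h0, h1, h2]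
  · rw [e, Mx_mv]; decide

theorem St.orb (s : St Mx ρ B h) (X : Set (Vc 6))
    (hX : ∀ x ∈ X, ∃ b ∈ B, ρ b *ᵥ z6 = x ∨ ρ b *ᵥ z6 = -x) : (B.index - 1) * X.ncard ≤ 701 := by
  have a : ∀ x ∈ X, ∃ b ∈ B, ρ b *ᵥ z6 = x ∨ ρ b *ᵥ z6 = -x := hX
  have a1 : ∀ g, ∀ x ∈ X, ρ g *ᵥ x ∈ X → g ∈ B := fun g x hx hy => by
    obtain ⟨b, hb, e⟩ := a x hx
    obtain ⟨c, hc, e'⟩ := a _ hy
    refine (mul_mem_cancel_left (inv_mem hc)).1 ((mul_mem_cancel_right hb).1 (s.pm ?_))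
    rw [mv_mul, mv_mul]
    rcases e with e | e <;> rcases e' with e' | e'
    · left; rw [e, ← e', mv_inv]
    · right; rw [e, ← neg_neg (ρ g *ᵥ x), ← e', mulVec_neg, mv_inv]
    · right; rw [e, mulVec_neg, ← e', mulVec_neg, mv_inv]
    · left; rw [e, mulVec_neg, ← e', mv_inv]
  exact rgc ▸ inj_card X Rg a1 fun g hg x hx => s.reg (fun k hk => a1 k x hx (by rw [mem_st.1 hk]; exact hx)) hg

theorem St.idx (s : St Mx ρ B h) : B.index = 28 ∨ B.index = 55 := by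
  obtain ⟨a2, a3⟩ := s.mod hs6
  have a4 := idx_dvd (s.ker hs6)
  have a5 := s.orb {z6, -z6} (by
    rintro _ (rfl | rfl)
    exacts [⟨1, one_mem _, Or.inl (by simp)⟩, ⟨1, one_mem _, Or.inr (by simp)⟩])
  rw [Set.ncard_pair (by decide)] at a5
  obtain ⟨k, hk⟩ : ∃ k, B.index = 27 * k + 1 := ⟨B.index / 27, by omega⟩
  rw [hk] at a3 a4 a5 ⊢
  have : k < 13 := by omega
  interval_cases k <;> first | omega | exact absurd a4 (by decide)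

theorem St.no26 (s : St Mx ρ B h) (X : Set (Vc 6))
    (hX : ∀ x ∈ X, ∃ b ∈ B, ρ b *ᵥ z6 = x ∨ ρ b *ᵥ z6 = -x) : X.ncard < 26 := by
  have := s.orb X hX
  rcases s.idx with e | e <;> rw [e] at this <;> omega

end H16.C9
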