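import Cfsg.Agent.H16.C9m2

/-! Strongly embedded subgroups normalizing a subgroup of order nine. -/

set_option autoImplicit false
set_option linter.unusedSectionVars false
set_option maxRecDepth 100000
set_option Elab.async false

namespace H16.C9
open Subgroup Matrix

variable {G : Type*} [Group G] [Finite G] {B H : Subgroup G} {g : G} {h : P3 → G}

theorem St.neg {n : ℕ} {m : P3 → Mt n} {ρ : G →* Mt n} (s : St m ρ B h) : ∃ σ : G × K3ˣ →* Mt n,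
    St m σ (B.prod ⊤) (fun p => (h p, 1)) ∧ ∀ g, σ g = (g.2 : K3) • ρ g.1 := by
  refine ⟨⟨⟨fun g => (g.2 : K3) • ρ g.1, by simp⟩, fun a b => by simp [smul_smul, mul_comm]⟩,
    ⟨fun e => s.ne (eq_top_iff.2 fun g _ => (e.ge (mem_top (g, 1))).1), fun p => ⟨s.hB p, trivial⟩,
    fun p => by simp [s.hm], fun D h1 g p q hp hq h2 h3 => ⟨s.pair (D.comap (MonoidHom.inl G K3ˣ))
      (fun k hk => by simpa using h1 _ hk) g.1 p q hp hq h2 ?_, trivial⟩,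
    fun g p hp h1 => ⟨s.conj g.1 p hp h1.1, trivial⟩⟩, fun _ => rfl⟩
  rw [mem_comap]
  convert h3 using 1
  ext <;> simp

theorem St.dual {n : ℕ} {m m' : P3 → Mt n} {ρ : G →* Mt n} (s : St m ρ B h) (Q Q' : Mt n)
    (hQ : Q' * Q = 1) (θ : P3 → P3) (h1 : ∀ p, p ≠ 0 → θ p ≠ 0) (h2 : ∀ p, Q * (m (θ p))ᵀ * Q' = m' p) :
    ∃ σ : G →* Mt n, St m' σ B (fun p => (h (θ p))⁻¹) ∧ ∀ g, σ g = Q * (ρ g⁻¹)ᵀ * Q' := by
  have hQ' := mul_eq_one_comm.1 hQ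
  let σ : G →* Mt n := ⟨⟨fun g => Q * (ρ g⁻¹)ᵀ * Q', by simp [hQ']⟩, fun a b => by
    simp only [_root_.mul_inv_rev, map_mul, transpose_mul, Matrix.mul_assoc]
    rw [← Matrix.mul_assoc Q', hQ, Matrix.one_mul]⟩
  have a : ∀ g, σ g = Q * (ρ g⁻¹)ᵀ * Q' := fun _ => rfl
  refine ⟨σ, ⟨s.ne, fun p => inv_mem (s.hB _), fun p => by rw [a, inv_inv, s.hm, h2],
    fun D h3 g p q hp hq h4 h5 => s.pair D (fun k hk => (h3 _ (inv_mem hk)).imp fun i e => ?_) g _ _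
      (h1 p hp) (h1 q hq) (inv_mem_iff.1 h4) (by simpa [mul_assoc] using inv_mem h5),
    fun g p hp h3 => s.conj g _ (h1 p hp) (by simpa [mul_assoc] using inv_mem h3)⟩, a⟩
  rw [← map_pow, a, inv_pow, inv_inv] at e
  have := congrArg (fun x => (Q' * x * Q)ᵀ) e
  simp only [Matrix.mul_assoc, hQ, Matrix.mul_one] at this
  rwa [← Matrix.mul_assoc Q', hQ, Matrix.one_mul, transpose_transpose, transpose_one, map_pow] at this

/-- the nonzero fixed vectors of the centre -/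
def W6 : Set (Vc 6) := {x | x ≠ 0 ∧ x 0 = 0 ∧ x 1 = 0 ∧ x 2 = 0}
/-- the conic -/
def Cn : Set (Vc 6) := {x | x ≠ 0 ∧ ∃ b c t : K3, x = ![0, 0, 0, t * b * b, t * b * c, t * c * c]}

instance instW6 : DecidablePred (· ∈ W6) := fun x => by unfold W6; infer_instance
instance instCn : DecidablePred (· ∈ Cn) := fun x => by unfold Cn; infer_instance

theorem w6c : W6.ncard = 26 ∧ Cn.ncard = 8 ∧ (W6 \ Cn).ncard = 18 := by
  simp only [Set.ncard_eq_toFinset_card']; decide +kernel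

theorem w6e {x : Vc 6} (h : x ∈ W6) : x = ![0, 0, 0, x 3, x 4, x 5] := by
  ext i; fin_cases i; exacts [h.2.1, h.2.2.1, h.2.2.2, rfl, rfl, rfl]

theorem w6_fix {x : Vc 6} (h : x ∈ W6) (b c : K3) : Mx (0, b, c) *ᵥ x = x := by
  rw [w6e h, Mx_mv]; simp

theorem w6_of {x : Vc 6} (h : x ≠ 0) (e : Mx (0, 0, 1) *ᵥ x = x) : x ∈ W6 := by
  rw [Mx_mv] at e
  have a2 := congrFun e 2
  have a4 := congrFun e 4
  have a5 := congrFun e 5
  simp at a2 a4 a5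
  rw [a2] at a5
  exact ⟨h, a2, a4, (by decide : ∀ a : K3, 0 + 2 * a = 0 → a = 0) _ a5⟩

theorem cn_sq (b c : K3) (x : Vc 6) : Mx (0, b, c) *ᵥ (Mx (0, b, c) *ᵥ x - x) - (Mx (0, b, c) *ᵥ x - x) =
    ![0, 0, 0, 2 * x 0 * b * b, 2 * x 0 * b * c, 2 * x 0 * c * c] := by
  simp only [Mx_mv]
  ext i; fin_cases i <;> simp [vecHead, vecTail] <;> ring

theorem w6a {x : Vc 6} (h : x ∈ W6) : (∃ i j k : K3, z6 = i • x + j • Mx (1, 0, 0) *ᵥ x +
    k • Mx (1, 0, 0) *ᵥ (Mx (1, 0, 0) *ᵥ x)) ∧ (Mx (1, 0, 0) *ᵥ x = x → x = z6 ∨ x = -z6) := by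
  have h0 := h.1
  rw [w6e h] at h0 ⊢
  simp only [Mx_mv]
  revert h0
  generalize x 3 = a; generalize x 4 = b; generalize x 5 = c
  revert a b c; decide +kernel

variable {ρ : G →* Mt 6}

theorem orb_eq {n : ℕ} (ρ : G →* Mt n) (B : Subgroup G) (x : Vc n) :
    (ob ρ ⊤ x).ncard * B.relIndex (st ρ x) = B.index * (ob ρ B x).ncard := by
  rw [← rel_st, ← rel_st, relIndex_top_right, mul_comm, ← inf_relIndex_right,
    relIndex_mul_index inf_le_right, mul_comm B.index, ← inf_relIndex_right (st ρ x),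
    relIndex_mul_index inf_le_right, inf_comm]

theorem ob_mem {n : ℕ} {ρ : G →* Mt n} {x y : Vc n} (hy : y ∈ ob ρ B x) (hg : g ∈ B) :
    ρ g *ᵥ y ∈ ob ρ B x := by
  obtain ⟨b, hb, rfl⟩ := hy
  exact ⟨g * b, mul_mem hg hb, mv_mul _ _ _ _⟩

theorem St.sW' (s : St Mx ρ B h) (hε : ∃ b ∈ B, ρ b = -1)
    (hn : ∀ b ∈ B, ∀ β γ, ∃ β' γ', ρ b * Mx (0, β, γ) = Mx (0, β', γ') * ρ b) : False := by
  obtain ⟨c26, c8, c18⟩ := w6c
  obtain ⟨ε, hε, hε'⟩ := hε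
  have a1 : ∀ b ∈ B, ∀ x ∈ W6, ρ b *ᵥ x ∈ W6 := fun b hb x hx => w6_of (mv_ne ρ b hx.1) (by
    obtain ⟨β, γ, e⟩ := hn _ (inv_mem hb) 0 1
    refine mv_inj ρ b⁻¹ ?_
    rw [mulVec_mulVec, e, ← mulVec_mulVec, mv_inv, w6_fix hx])
  have a2 : ∀ b ∈ B, ∀ x ∈ Cn, ρ b *ᵥ x ∈ Cn := by
    rintro b hb _ ⟨hx, β, γ, t, rfl⟩
    refine ⟨mv_ne ρ b hx, ?_⟩
    obtain ⟨β', γ', e⟩ := hn b hb β γ
    have e1 := cn_sq β γ ![2 * t, 0, 0, 0, 0, 0]
    have e2 : ∀ x, ρ b *ᵥ (Mx (0, β, γ) *ᵥ x) = Mx (0, β', γ') *ᵥ (ρ b *ᵥ x) := fun x => by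
      rw [mulVec_mulVec, e, mulVec_mulVec]
    simp only [cons_val_zero, (by decide : ∀ t : K3, 2 * (2 * t) = t)] at e1
    rw [← e1, mulVec_sub, e2, mulVec_sub, e2, cn_sq]
    exact ⟨_, _, _, rfl⟩
  have a3 : ∀ H, ε ∈ H → ∀ x ∈ W6, 2 ∣ (ob ρ H x).ncard := fun H hH x hx => even_ncard _
    (fun y hy => by simpa [hε', neg_mulVec] using ob_mem hy hH)
    fun ⟨g, _, e⟩ => mv_ne ρ g hx.1 e
  have a4 : ∀ x ∈ W6, ¬ st ρ x ≤ B → B.index = 55 ∧ (ob ρ B x).ncard = 12 ∧ ob ρ B x ⊆ W6 \ Cn := by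
    intro x hx hx'
    have b1 : ob ρ B x ⊆ W6 := by rintro _ ⟨b, hb, rfl⟩; exact a1 b hb x hx
    have b2 : B.relIndex (st ρ x) ≡ 1 [MOD 9] := semireg (ι := K3 × K3) (ρ := ρ.comp (st ρ x).subtype)
      (fun k hk => s.ker hs6 hk) (fun i => ⟨h (0, i), by rw [mem_st, s.hm, w6_fix hx]⟩)
      (fun i => s.hB _) ⟨0, (s.hm _).trans hs6.one⟩
      (fun i j => ⟨i + j, by simp [s.hm, hs6.mul]; rfl⟩)
      (fun i j e => by simpa [s.hm] using hs6.inj _ _ ((s.hm _).symm.trans (e.trans (s.hm _))))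
      fun g i e => by
        by_cases h0 : i = 0
        exacts [Or.inr (by rw [h0]; exact (s.hm _).trans hs6.one),
          Or.inl (s.conj g _ (fun e => h0 (congrArg Prod.snd e)) e)]
    have b3 := orb_eq ρ B x
    have b4 := mt relIndex_eq_one.1 hx'
    have b5 : (ob ρ B x).ncard < (ob ρ ⊤ x).ncard := Set.ncard_lt_ncard ⟨fun y ⟨g, _, e⟩ => ⟨g, trivial, e⟩,
      fun hs => by
        obtain ⟨g, -, hg⟩ := SetLike.exists_of_lt (lt_top_iff_ne_top.2 s.ne)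
        obtain ⟨i, j, k, e⟩ := (w6a hx).1
        have c1 := fun g => b1 (hs ⟨g, trivial, rfl⟩)
        have c2 := c1 g
        have c3 := c1 (g * h (1, 0, 0))
        have c4 := c1 (g * h (1, 0, 0) * h (1, 0, 0))
        simp only [mv_mul, s.hm] at c3 c4
        refine (s.reg s.stz hg).1 ?_
        simp [e, mulVec_add, mulVec_smul, c2.2, c3.2, c4.2, -mulVec_mulVec]⟩
    have b6 : 3 ∣ (ob ρ B x).ncard := dvd_ncard _ (Mx (1, 0, 0) *ᵥ ·)
      (fun y hy => s.hm _ ▸ ob_mem hy (s.hB _)) (fun y => by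
        simp only [Function.iterate_succ, Function.iterate_zero, Function.comp, id, mulVec_mulVec, hs6.mul]
        exact (congrArg (Mx · *ᵥ y) (show _ = 0 by decide)).trans (by rw [hs6.one, one_mulVec]))
      fun y hy e => hx' fun k hk => by
        obtain ⟨b, hb, rfl⟩ := hy
        refine (mul_mem_cancel_left hb).1 ((mul_mem_cancel_right (inv_mem hb)).1 (s.stz ?_))
        have c1 : ρ (b * k * b⁻¹) *ᵥ (ρ b *ᵥ x) = ρ b *ᵥ x := by rw [mv_mul, mv_mul, mv_inv, mem_st.1 hk]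
        rcases (w6a (a1 b hb x hx)).2 e with e | e <;> rw [e] at c1
        exacts [c1, neg_injective (by rwa [mulVec_neg] at c1)]
    have b7 := a3 B hε x hx
    obtain ⟨N, b8⟩ := a3 ⊤ trivial x hx
    have b9 : 0 < (ob ρ B x).ncard := (Set.ncard_pos).2 ⟨x, 1, one_mem _, by simp⟩
    have key : (ob ρ B x).ncard ≤ 18 → B.index = 55 ∧ (ob ρ B x).ncard = 12 := fun b10 => by
      rw [b8] at b3 b5
      generalize (ob ρ B x).ncard = m at *
      generalize B.relIndex _ = r at *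
      obtain ⟨k, rfl⟩ : ∃ k, r = 9 * k + 1 := ⟨r / 9, by unfold Nat.ModEq at b2; omega⟩
      obtain rfl | rfl | rfl : m = 6 ∨ m = 12 ∨ m = 18 := by omega
      all_goals rcases s.idx with e | e <;> rw [e] at b3 ⊢ <;>
        (have : k < 6 := by nlinarith) <;> interval_cases k <;> omega
    by_cases hc : x ∈ Cn
    · have := Set.ncard_le_ncard (show ob ρ B x ⊆ Cn by rintro _ ⟨b, hb, rfl⟩; exact a2 b hb x hc)
      have := key (by omega); omega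
    · have b10 : ob ρ B x ⊆ W6 \ Cn := by
        rintro _ ⟨b, hb, rfl⟩
        exact ⟨a1 b hb x hx, fun e => hc (mv_inv ρ b x ▸ a2 _ (inv_mem hb) _ e)⟩
      obtain ⟨c1, c2⟩ := key (c18 ▸ Set.ncard_le_ncard b10)
      exact ⟨c1, c2, b10⟩
  have a5 := rgc ▸ inj_card (ρ := ρ) (B := B) {x ∈ W6 | st ρ x ≤ B} Rg (fun g x hx hy =>
    s.conj g (0, 0, 1) (by decide) (hy.2 (by rw [mem_st, mv_mul, mv_mul, mv_inv, s.hm, w6_fix hx.1])))
    fun g hg x hx => s.reg hx.2 hg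
  by_cases hc : ∀ x ∈ W6, st ρ x ≤ B
  · rw [show {x ∈ W6 | st ρ x ≤ B} = W6 from Set.ext fun x => and_iff_left_of_imp (hc x), c26] at a5
    rcases s.idx with e | e <;> omega
  push Not at hc
  obtain ⟨x, hx, hx'⟩ := hc
  obtain ⟨b1, b2, b3⟩ := a4 x hx hx'
  have a6 : W6 ⊆ {x ∈ W6 | st ρ x ≤ B} ∪ ob ρ B x := fun y hy => or_iff_not_imp_left.2 fun h0 => by
    obtain ⟨-, c2, c3⟩ := a4 y hy fun h1 => h0 ⟨hy, h1⟩
    obtain ⟨_, ⟨b, hb, rfl⟩, hw⟩ := Set.not_disjoint_iff.1 fun d : Disjoint (ob ρ B y) (ob ρ B x) => by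
      have := Set.ncard_le_ncard (Set.union_subset c3 b3)
      rw [Set.ncard_union_eq d] at this; omega
    exact mv_inv ρ b y ▸ ob_mem hw (inv_mem hb)
  have a7 := (Set.ncard_le_ncard a6).trans (Set.ncard_union_le _ _)
  rw [b1] at a5
  omega

theorem St.sW (s : St Mx ρ B h)
    (hn : ∀ b ∈ B, ∀ β γ, ∃ β' γ', ρ b * Mx (0, β, γ) = Mx (0, β', γ') * ρ b) : False := by
  obtain ⟨σ, t, e⟩ := s.neg
  refine t.sW' ⟨(1, -1), ⟨one_mem _, trivial⟩, by simp [e]⟩ fun b hb β γ => ?_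
  obtain ⟨β', γ', e'⟩ := hn b.1 hb.1 β γ
  exact ⟨β', γ', by rw [e, smul_mul_assoc, e', mul_smul_comm]⟩

end H16.C9
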