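import Cfsg.Agent.H16.C9u

/-! Verification of the multiplication tables. -/

set_option autoImplicit false
set_option maxRecDepth 100000
set_option maxHeartbeats 0
set_option Elab.async false

namespace H16.C9
open H26 (frc frc_eq)

noncomputable def r1 (r : ℕ) : ℕ := Nat.land (Nat.shiftRight T1 (Nat.mul r (nat_lit 3888))) M1
noncomputable def r2 (r : ℕ) : ℕ := Nat.land (Nat.shiftRight T2 (Nat.mul r (nat_lit 1944))) M2
noncomputable def r3 (r : ℕ) : ℕ := Nat.land (Nat.shiftRight T3 (Nat.mul r (nat_lit 1944))) M2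
noncomputable def ri (r : ℕ) : ℕ := Nat.land (Nat.shiftRight TI (Nat.mul r (nat_lit 3888))) M1
noncomputable def mul (a b : ℕ) : ℕ :=
  Nat.rec (motive := fun _ => ℕ) (nat_lit 0) (fun q _ =>
  Nat.rec (motive := fun _ => ℕ) (nat_lit 0) (fun q' _ =>
  Nat.rec (motive := fun _ => ℕ) (nat_lit 0) (fun r _ =>
  Nat.rec (motive := fun _ => ℕ) (nat_lit 0) (fun w _ =>
  Nat.rec (motive := fun _ => ℕ) (nat_lit 0) (fun s _ =>
    Nat.add (Nat.sub r w) (Nat.land (Nat.shiftRight (r3 s) (Nat.mul (Nat.mod b (nat_lit 243)) (nat_lit 8))) (nat_lit 255)))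
  (Nat.succ (Nat.land (Nat.shiftRight (r3 w) (Nat.mul (Nat.land (Nat.shiftRight (r2 q') (Nat.mul (Nat.mod a (nat_lit 243)) (nat_lit 8))) (nat_lit 255)) (nat_lit 8))) (nat_lit 255))))
  (Nat.succ (Nat.mod r (nat_lit 243))))
  (Nat.succ (Nat.land (Nat.shiftRight (r1 q) (Nat.mul q' (nat_lit 16))) (nat_lit 65535))))
  (Nat.succ (Nat.div b (nat_lit 243))))
  (Nat.succ (Nat.div a (nat_lit 243)))
noncomputable def inv (a : ℕ) : ℕ :=
  Nat.rec (motive := fun _ => ℕ) (nat_lit 0) (fun q _ =>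
    Nat.land (Nat.shiftRight (ri q) (Nat.mul (Nat.mod a (nat_lit 243)) (nat_lit 16))) (nat_lit 65535))
  (Nat.succ (Nat.div a (nat_lit 243)))
theorem mul_eq (a b : ℕ) : mul a b = fm T1 T2 T3 M1 M2 a b := rfl
theorem ci0 : allZ (iEnt mul inv) 0 19683 = true := by decide +kernel

variable {Γ : Type*} [Group Γ] {y : ℕ → Γ}

/-- the defining relations -/
structure Rl (y : ℕ → Γ) : Prop where
  cj : ∀ k < 9, ∀ j < k, y j * y k = y k * ev y (tg TR (10 * k + j))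
  pw : ∀ k < 9, y k ^ 3 = ev y (tg TP k)

theorem Rl.rel (r : Rl y) : Rel y (cc TC M1) (tg TP) :=
  ⟨fun k hk j hj => by rw [(ckP k hk).2.2 j hj]; exact r.cj k hk j hj, r.pw⟩

theorem Rl.sm (r : Rl y) {k : ℕ} (hk : k ≤ 9) : ∀ a < 3 ^ k, ∀ b < 3 ^ k, ∃ c < 3 ^ k,
    ev y c = ev y a * ev y b := fun a ha b hb => ⟨_, sm_ok cok r.rel k hk a ha b hb⟩

theorem Rl.pw' (r : Rl y) {k : ℕ} (hk : k < 9) : ∃ c < 3 ^ k, y k ^ 3 = ev y c :=
  ⟨_, (ckP k hk).1, r.pw k hk⟩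

theorem Rl.ops (r : Rl y) : Ops y mul inv := by
  refine ops_of (fun a ha b hb => ?_) (allZ_sound0 ci0)
  rw [mul_eq]
  refine fm_ok cok r.rel (fun q hq => ?_) (fun q hq => ?_) a ha b hb
  · rcases (by omega : q < 27 ∨ (27 ≤ q ∧ q < 54) ∨ (54 ≤ q ∧ q < 81)) with h | h | h
    exacts [ckT_ok ct0 q (Nat.zero_le _) h, ckT_ok ct1 q h.1 h.2, ckT_ok ct2 q h.1 h.2]
  · rcases (by omega : q < 81 ∨ (81 ≤ q ∧ q < 162) ∨ (162 ≤ q ∧ q < 243)) with h | h | h
    exacts [ck3_ok ct3 q (Nat.zero_le _) h, ck3_ok ct4 q h.1 h.2, ck3_ok ct5 q h.1 h.2]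

attribute [irreducible] mul inv

/-- the commutator `a⁻¹ b⁻¹ a b` -/
noncomputable def cm (a b : ℕ) : ℕ :=
  frc (mul b a) fun x => frc (inv x) fun x' => frc (mul a b) (mul x')

/-- the cube -/
noncomputable def cu (a : ℕ) : ℕ := frc (mul a a) (mul a)

/-- the conjugate `s⁻¹ a s` -/
noncomputable def cjn (a s : ℕ) : ℕ := frc (inv s) fun s' => frc (mul a s) (mul s')

/-- some commutator is a nonzero code `< n` -/
noncomputable def zEnt (n w : ℕ) : ℕ := frc (Nat.add n w) fun e =>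
  frc (cm e (nat_lit 6561)) fun c => cond (Nat.beq c (nat_lit 0))
    (frc (cm e (nat_lit 2187)) fun c => cond (Nat.beq c (nat_lit 0))
      (frc (cm e (nat_lit 243)) fun c => cond (Nat.beq c (nat_lit 0)) (nat_lit 1)
        (Nat.sub (Nat.succ c) n)) (Nat.sub (Nat.succ c) n)) (Nat.sub (Nat.succ c) n)

theorem cz8 : ∀ k < 9, k = 0 ∨ allZ (zEnt (3 ^ k)) 0 (3 ^ k) = true := by decide +kernel
theorem ccen : ∀ k < 9, ∀ m < 9, cm (3 ^ k) (3 ^ m) < 3 ^ k := by decide +kernel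

end H16.C9
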