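import Cfsg.Agent.H24.ND0

/-! S4780, chunk DA: fixed vectors of complements and constancy of the stabilizer image. -/

set_option autoImplicit false
set_option linter.unusedSectionVars false
set_option linter.unusedVariables false

open Subgroup MulAction H19 H20 H6 Cfsg
namespace H16.DA

universe u
variable {G : Type u} [Group G] [Finite G] {B : Subgroup G} [hBn : B.Normal] {V : Type u}
  [AddCommGroup V] [Finite V] [Nontrivial V] [DistribMulAction G V]

theorem cm (ha : Ab B) {a b : G} (h1 : a ∈ B) (h2 : b ∈ B) : a * b = b * a :=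
  congrArg Subtype.val (ha.is_comm.comm (⟨a, h1⟩ : B) ⟨b, h2⟩)

theorem cmB {x b : G} (h : b ∈ B) : b * x * b⁻¹ * x⁻¹ ∈ B := by
  have := hBn.conj_mem _ (B.inv_mem h) x
  simpa [mul_assoc] using B.mul_mem h this

theorem phi_mul (ha : Ab B) (x : G) {a b : G} (h1 : a ∈ B) (h2 : b ∈ B) :
    (a * b) * x * (a * b)⁻¹ * x⁻¹ = (a * x * a⁻¹ * x⁻¹) * (b * x * b⁻¹ * x⁻¹) := by
  have e := cm ha (cmB (x := x) h2) h1
  calc (a * b) * x * (a * b)⁻¹ * x⁻¹ = a * (b * x * b⁻¹ * x⁻¹) * (x * a⁻¹ * x⁻¹) := by group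
    _ = (b * x * b⁻¹ * x⁻¹) * a * (x * a⁻¹ * x⁻¹) := by rw [e]
    _ = (b * x * b⁻¹ * x⁻¹) * (a * x * a⁻¹ * x⁻¹) := by group
    _ = _ := cm ha (cmB h2) (cmB h1)

theorem phi_pow (ha : Ab B) (x : G) {a : G} (h1 : a ∈ B) (k : ℕ) :
    a ^ k * x * (a ^ k)⁻¹ * x⁻¹ = (a * x * a⁻¹ * x⁻¹) ^ k := by
  induction k with
  | zero => simp
  | succ k ih => rw [pow_succ, phi_mul ha x (B.pow_mem h1 k) h1, ih, pow_succ]

theorem nz {x b : G} (hf : Fpf B (center G) x) (h : b ∈ B) (e : b * x * b⁻¹ * x⁻¹ ∈ center G) :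
    b ∈ center G := by
  refine hf b h ?_
  have := (center G).inv_mem e
  simpa [mul_assoc] using this

/-- an element of prime order in `B` outside the centre -/
theorem exy (ha : Ab B) (h0 : B ≠ ⊤) (hz : ¬ B ≤ center G) (fp : ∀ x, x ∉ B → Fpf B (center G) x) :
    ∃ y ∈ B, y ∉ center G ∧ (orderOf y).Prime := by
  obtain ⟨x, -, hx⟩ := SetLike.exists_of_lt (lt_top_iff_ne_top.2 h0)
  obtain ⟨b, hb, hb'⟩ := SetLike.not_le_iff_exists.1 hz
  have h1 : b * x * b⁻¹ * x⁻¹ ≠ 1 := fun e => hb' (nz (fp x hx) hb (e ▸ one_mem _))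
  have h2 : orderOf (b * x * b⁻¹ * x⁻¹) ≠ 1 := fun e => h1 (orderOf_eq_one_iff.1 e)
  obtain ⟨r, hr, hd⟩ := Nat.exists_prime_and_dvd h2
  have h3 := orderOf_pow_orderOf_div (orderOf_pos (b * x * b⁻¹ * x⁻¹)).ne' hd
  refine ⟨_, B.pow_mem (cmB hb) _, fun e => ?_, h3.symm ▸ hr⟩
  rw [← phi_pow ha x hb] at e h3
  have h4 := mem_center_iff.1 (nz (fp x hx) (B.pow_mem hb _) e) x
  rw [← h4] at h3
  simp only [mul_inv_cancel_right, mul_inv_cancel, orderOf_one] at h3
  exact hr.one_lt.ne h3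

theorem sum_shift {x : G} {n : ℕ} (w : V) (h : x ^ n • w = w) :
    x • ∑ i ∈ Finset.range n, x ^ i • w = ∑ i ∈ Finset.range n, x ^ i • w := by
  have e := Finset.sum_range_succ' (fun i => x ^ i • w) n
  rw [Finset.sum_range_succ, h, pow_zero, one_smul, add_left_inj] at e
  rw [Finset.smul_sum]
  exact (Finset.sum_congr rfl fun i _ => by rw [pow_succ', mul_smul]).trans e.symm

/-- an element generating a complement modulo the kernel has a nonzero fixed vector -/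
theorem fixv (ha : Ab B) (h0 : B ≠ ⊤) (hz : ¬ B ≤ center G) (fp : ∀ x, x ∉ B → Fpf B (center G) x)
    (hB : ∀ x ∈ B, x ∉ center G → ∀ v : V, x • v = v → v = 0) {x : G} {n : ℕ} (hn : 0 < n)
    (h1 : ∀ v : V, x ^ n • v = v) (h2 : ∀ i, 0 < i → i < n → x ^ i ∉ B) :
    ∃ v : V, v ≠ 0 ∧ x • v = v := by
  by_contra hc
  push Not at hc
  have hc' : ∀ v : V, x • v = v → v = 0 := fun v e => by_contra fun h => hc v h e
  obtain ⟨y, yB, yZ, yp⟩ := exy ha h0 hz fp
  have a1 : ∀ v : V, ∑ i ∈ Finset.range n, x ^ i • v = 0 := fun v => hc' _ (sum_shift v (h1 v))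
  have a2 : ∀ v : V, orderOf y • v = 0 := fun v => by
    have b1 : ∑ j ∈ Finset.range (orderOf y), ∑ i ∈ Finset.range n,
        (y * x ^ i * y⁻¹ * (x ^ i)⁻¹) ^ j • x ^ i • v = 0 := Finset.sum_eq_zero fun j _ => by
      have := congrArg (y ^ j • ·) (a1 ((y ^ j)⁻¹ • v))
      simp only [smul_zero, Finset.smul_sum] at this
      rw [← this]
      refine Finset.sum_congr rfl fun i _ => ?_
      rw [← phi_pow ha _ yB, ← mul_smul, ← mul_smul, ← mul_smul]
      congr 1; group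
    rw [Finset.sum_comm] at b1
    obtain ⟨m, rfl⟩ : ∃ m, n = m + 1 := ⟨n - 1, by omega⟩
    rw [Finset.sum_range_succ', Finset.sum_eq_zero] at b1
    · simpa using b1
    · intro i hi
      have c1 := h2 (i + 1) (by omega) (by have := Finset.mem_range.1 hi; omega)
      refine hB _ (cmB yB) (fun e => yZ (nz (fp _ c1) yB e)) _ (sum_shift _ ?_)
      rw [← phi_pow ha _ yB, pow_orderOf_eq_one]; simp
  have : Fact (orderOf y).Prime := ⟨yp⟩
  have a3 : IsPGroup (orderOf y) (zpowers y) := IsPGroup.of_card (n := 1) (by simp [Nat.card_zpowers])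
  have a4 := a3.card_modEq_card_fixedPoints V
  have a5 : fixedPoints (zpowers y) V = {0} := by
    ext v
    refine ⟨fun h => hB y yB yZ v (h ⟨y, mem_zpowers y⟩), fun h g => ?_⟩
    rw [Set.mem_singleton_iff.1 h]; exact smul_zero _
  rw [a5, Nat.card_unique (α := ({0} : Set V))] at a4
  obtain ⟨v, v0⟩ := exists_ne (0 : V)
  have a6 : addOrderOf v = orderOf y := addOrderOf_eq_prime (a2 v) v0
  have a7 : orderOf y ∣ Nat.card V := a6 ▸ addOrderOf_dvd_natCard v
  exact yp.one_lt.ne' (Nat.dvd_one.1 ((Nat.ModEq.dvd_iff a4 dvd_rfl).1 a7))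

/-- elements of `B` fixing a nonzero vector act trivially -/
theorem triv (hi : ∀ U : AddSubgroup V, (∀ (g : G), ∀ v ∈ U, g • v ∈ U) → U = ⊥ ∨ U = ⊤)
    (hB : ∀ x ∈ B, x ∉ center G → ∀ v : V, x • v = v → v = 0) {x : G} (hx : x ∈ B) {v : V}
    (v0 : v ≠ 0) (e : x • v = v) (w : V) : x • w = w := by
  have hz : x ∈ center G := by_contra fun h => v0 (hB x hx h v e)
  let U : AddSubgroup V :=
    { carrier := {w | x • w = w}
      zero_mem' := smul_zero x
      add_mem' := fun {a b} (h1 : x • a = a) (h2 : x • b = b) => by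
        change x • (a + b) = a + b; rw [smul_add, h1, h2]
      neg_mem' := fun {a} (h1 : x • a = a) => by change x • (-a) = -a; rw [smul_neg, h1] }
  rcases hi U (fun g a (h1 : x • a = a) => by
    change x • g • a = g • a
    rw [← mul_smul, ← mem_center_iff.1 hz g, mul_smul, h1]) with h | h
  · exact absurd (AddSubgroup.mem_bot.1 (h ▸ (e : v ∈ U))) v0
  · exact (h ▸ AddSubgroup.mem_top w : w ∈ U)

/-- the order of the image of the stabilizer in `G / B` -/
noncomputable def sv (B : Subgroup G) [B.Normal] (v : V) : ℕ :=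
  #((stabilizer G v).map (QuotientGroup.mk' B))

theorem idx (hi : ∀ U : AddSubgroup V, (∀ (g : G), ∀ v ∈ U, g • v ∈ U) → U = ⊥ ∨ U = ⊤)
    (hB : ∀ x ∈ B, x ∉ center G → ∀ v : V, x • v = v → v = 0) {v : V} (v0 : v ≠ 0) :
    (stabilizer G v).index * sv B v * #(B ⊓ (toPermHom G V).ker) = Nat.card G := by
  have e : B ⊓ (toPermHom G V).ker = B ⊓ stabilizer G v := by
    ext x
    refine and_congr_right fun hx => ⟨fun h => ?_, fun h => ?_⟩
    · exact congrArg (fun σ : Equiv.Perm V => σ v) (MonoidHom.mem_ker.1 h)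
    · exact MonoidHom.mem_ker.2 (Equiv.ext fun w => triv hi hB hx v0 h w)
  rw [e, sv, H3.GR.card_map_q, mul_assoc, mul_comm (B.relIndex _), card_inf_mul_relIndex,
    index_mul_card]

theorem cyc {g : G} (hg : B ⊔ zpowers g = ⊤) (q : G ⧸ B) : q ∈ zpowers (g : G ⧸ B) := by
  have := congrArg (map (QuotientGroup.mk' B)) hg
  rw [Subgroup.map_sup, QuotientGroup.map_mk'_self, bot_sup_eq, MonoidHom.map_zpowers,
    map_top_of_surjective _ (QuotientGroup.mk'_surjective B)] at this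
  exact (show zpowers (g : G ⧸ B) = ⊤ from this) ▸ mem_top q

/-- a conjugate vector fixed by `g ^ i * z` of the right order -/
theorem norm {g : G} (hg : B ⊔ zpowers g = ⊤) (fp : ∀ x, x ∉ B → Fpf B (center G) x) (hZ : center G ≤ B)
    {v : V} (v0 : v ≠ 0) : ∃ v' : V, v' ≠ 0 ∧ ∃ i : ℤ, ∃ z ∈ center G, (g ^ i * z) • v' = v' ∧
      orderOf ((g ^ i * z : G) : G ⧸ B) = sv B v := by
  have : IsCyclic (G ⧸ B) := ⟨⟨_, cyc hg⟩⟩
  obtain ⟨⟨_, x, hx, rfl⟩, hq⟩ := IsCyclic.exists_ofOrder_eq_natCard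
    (α := (stabilizer G v).map (QuotientGroup.mk' B))
  rw [← Subgroup.orderOf_coe] at hq
  change orderOf (x : G ⧸ B) = sv B v at hq
  obtain ⟨i, hi⟩ := mem_zpowers_iff.1 (cyc hg (x : G ⧸ B))
  by_cases hb : g ^ i ∈ B
  · refine ⟨v, v0, 0, 1, one_mem _, by simp, ?_⟩
    rw [← hq, ← hi, ← QuotientGroup.mk_zpow, (QuotientGroup.eq_one_iff _).2 hb]; simp
  have h1 : x * (g ^ i)⁻¹ ∈ B := by
    rw [← QuotientGroup.eq_one_iff, QuotientGroup.mk_mul, QuotientGroup.mk_inv, QuotientGroup.mk_zpow,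
      hi, mul_inv_cancel]
  obtain ⟨y, hy, e⟩ := (fp _ hb).exists_comm (H3.GR.nr (H := ⊤) (mem_top _))
    (H3.GR.nr (H := ⊤) (mem_top _)) H3.GR.nr h1
  have e' := mem_center_iff.1 e
  refine ⟨y⁻¹ • v, fun h => v0 (by rw [← smul_inv_smul y v, h, smul_zero]), i, _, e, ?_, ?_⟩
  · have : g ^ i * ((y * g ^ i * y⁻¹ * (g ^ i)⁻¹)⁻¹ * (x * (g ^ i)⁻¹)) = y⁻¹ * x * y := by
      have e1 := e' (y * g ^ i * y⁻¹)
      have e2 := e' (g ^ i)
      have e3 := e' y
      set z := (y * g ^ i * y⁻¹ * (g ^ i)⁻¹)⁻¹ * (x * (g ^ i)⁻¹) with hz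
      have e4 : x = y * g ^ i * y⁻¹ * ((g ^ i)⁻¹ * z * g ^ i) := by rw [hz]; group
      have e5 : (g ^ i)⁻¹ * z * g ^ i = z := by rw [mul_assoc, ← e2]; group
      rw [e5] at e4
      rw [e4, show y⁻¹ * (y * g ^ i * y⁻¹ * z) * y = g ^ i * y⁻¹ * (z * y) by group, ← e3]; group
    rw [this, ← mul_smul, mul_inv_cancel_right, mul_smul, mem_stabilizer_iff.1 hx]
  · rw [QuotientGroup.mk_mul, (QuotientGroup.eq_one_iff _).2 (hZ e), mul_one, QuotientGroup.mk_zpow, hi, hq]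

theorem cenB (hz : ¬ B ≤ center G) (fp : ∀ x, x ∉ B → Fpf B (center G) x) : center G ≤ B :=
  fun x hx => by_contra fun h => hz fun b hb => fp x h b hb (by
    rw [← mem_center_iff.1 hx b]; simp)

theorem cyc_eq {Q : Type u} [Group Q] [Finite Q] [IsCyclic Q] {S T : Subgroup Q} (h : #S = #T) :
    S = T := by
  classical
  have := Fintype.ofFinite Q
  have k : ∀ S : Subgroup Q, ∀ x, x ∈ S ↔ x ^ #S = 1 := fun S x => by
    have a := IsCyclic.card_pow_eq_one_le (α := Q) (n := #S) Nat.card_pos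
    have b : (S : Set Q).toFinset ⊆ Finset.univ.filter fun a : Q => a ^ #S = 1 := fun y hy => by
      have hy' : y ∈ S := Set.mem_toFinset.1 hy
      exact Finset.mem_filter.2 ⟨Finset.mem_univ _,
        congrArg Subtype.val (pow_card_eq_one' (x := (⟨y, hy'⟩ : S)))⟩
    have c := Finset.eq_of_subset_of_card_le b (by
      rw [Set.toFinset_card, ← Nat.card_eq_fintype_card]; exact a)
    have d := congrArg (x ∈ ·) c
    simpa using d
  ext x
  rw [k, k, h]

/-- all nonzero vectors have stabilizers with the same image in `G / B` -/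
theorem const (ha : Ab B) {g : G} (hg : B ⊔ zpowers g = ⊤) (h0 : B ≠ ⊤) (hz : ¬ B ≤ center G)
    (fp : ∀ x, x ∉ B → Fpf B (center G) x)
    (hi : ∀ U : AddSubgroup V, (∀ (g : G), ∀ v ∈ U, g • v ∈ U) → U = ⊥ ∨ U = ⊤)
    (hB : ∀ x ∈ B, x ∉ center G → ∀ v : V, x • v = v → v = 0)
    (nd : ∀ v : V, v ≠ 0 → ∀ w : V, w ≠ 0 → (stabilizer G v).index ∣ (stabilizer G w).index →
      (stabilizer G v).index = (stabilizer G w).index) {v w : V} (v0 : v ≠ 0) (w0 : w ≠ 0) :
    (stabilizer G v).index = (stabilizer G w).index ∧ sv B v = sv B w ∧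
      (stabilizer G v).map (QuotientGroup.mk' B) = (stabilizer G w).map (QuotientGroup.mk' B) := by
  have : IsCyclic (G ⧸ B) := ⟨⟨_, cyc hg⟩⟩
  obtain ⟨v', v1, i, z, hz1, e1, o1⟩ := norm hg fp (cenB hz fp) v0
  obtain ⟨w', w1, j, t, ht1, e2, o2⟩ := norm hg fp (cenB hz fp) w0
  have c : Commute (g ^ i * z) (g ^ j * t) :=
    ((Commute.zpow_zpow_self g i j).mul_right (mem_center_iff.1 ht1 _)).mul_left
      (mem_center_iff.1 hz1 _).symm
  set x := g ^ i * z
  set y := g ^ j * t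
  have p1 : sv B v ≠ 0 := o1 ▸ (orderOf_pos _).ne'
  have p2 : sv B w ≠ 0 := o2 ▸ (orderOf_pos _).ne'
  have t1 : ∀ u : V, x ^ sv B v • u = u := triv hi hB (by
    rw [← QuotientGroup.eq_one_iff, QuotientGroup.mk_pow, ← o1, pow_orderOf_eq_one]) v1
    (mem_stabilizer_iff.1 ((stabilizer G v').pow_mem e1 _))
  have t2 : ∀ u : V, y ^ sv B w • u = u := triv hi hB (by
    rw [← QuotientGroup.eq_one_iff, QuotientGroup.mk_pow, ← o2, pow_orderOf_eq_one]) w1
    (mem_stabilizer_iff.1 ((stabilizer G w').pow_mem e2 _))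
  have o3 := (c.map (QuotientGroup.mk' B)).orderOf_mul_pow_eq_lcm (orderOf_pos _).ne' (orderOf_pos _).ne'
  simp only [QuotientGroup.mk'_apply, o1, o2, ← QuotientGroup.mk_pow, ← QuotientGroup.mk_mul] at o3
  have l := Nat.factorizationLCMLeft_mul_factorizationLCMRight p1 p2
  obtain ⟨a, ea⟩ := Nat.factorizationLCMLeft_dvd_left (sv B v) (sv B w)
  obtain ⟨b, eb⟩ := Nat.factorizationLCMRight_dvd_right (sv B v) (sv B w)
  have q1 : sv B v / (sv B v).factorizationLCMLeft (sv B w) = a :=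
    Nat.div_eq_of_eq_mul_right (Nat.factorizationLCMLeft_pos _ _) ea
  have q2 : sv B w / (sv B v).factorizationLCMRight (sv B w) = b :=
    Nat.div_eq_of_eq_mul_right (Nat.factorizationLCMRight_pos _ _) eb
  rw [q1, q2] at o3
  obtain ⟨u, u0, eu⟩ := fixv (x := x ^ a * y ^ b) ha h0 hz fp hB (Nat.lcm_pos p1.bot_lt p2.bot_lt)
    (fun u => by
      rw [(c.pow_pow a b).mul_pow, ← pow_mul, ← pow_mul, ← l, mul_smul]
      have f1 : a * ((sv B v).factorizationLCMLeft (sv B w) * (sv B v).factorizationLCMRight (sv B w)) =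
        sv B v * (sv B v).factorizationLCMRight (sv B w) := by rw [← mul_assoc, mul_comm a, ← ea]
      have f2 : b * ((sv B v).factorizationLCMLeft (sv B w) * (sv B v).factorizationLCMRight (sv B w)) =
        sv B w * (sv B v).factorizationLCMLeft (sv B w) := by
          rw [mul_comm _ ((sv B v).factorizationLCMRight _), ← mul_assoc, mul_comm b, ← eb]
      rw [f1, f2, pow_mul, pow_mul, mem_stabilizer_iff.1 ((stabilizer G u).pow_mem (t2 u) _),
        mem_stabilizer_iff.1 ((stabilizer G u).pow_mem (t1 u) _)])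
    (fun k k0 k1 e => by
      rw [← QuotientGroup.eq_one_iff, QuotientGroup.mk_pow] at e
      exact pow_ne_one_of_lt_orderOf k0.ne' (o3 ▸ k1) e)
  have d : (sv B v).lcm (sv B w) ∣ sv B u := o3 ▸ Subgroup.orderOf_dvd_natCard _ ⟨_, eu, rfl⟩
  have k0 : 0 < #(B ⊓ (toPermHom G V).ker) := Nat.card_pos
  have key : ∀ s : V, s ≠ 0 → sv B s ≠ 0 → sv B s ∣ sv B u →
      (stabilizer G u).index = (stabilizer G s).index ∧ sv B u = sv B s := fun s s0 s1 ⟨m, hm⟩ => by
    have r := Nat.eq_of_mul_eq_mul_right k0 ((idx hi hB u0).trans (idx hi hB s0).symm)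
    have r2 : (stabilizer G u).index * m = (stabilizer G s).index :=
      Nat.eq_of_mul_eq_mul_right s1.bot_lt (by rw [← r, hm]; ring)
    have r3 := nd u u0 s s0 ⟨m, r2.symm⟩
    rw [r3] at r
    exact ⟨r3, Nat.eq_of_mul_eq_mul_left (index_ne_zero_of_finite).bot_lt r⟩
  obtain ⟨k1, k2⟩ := key v v0 p1 ((Nat.dvd_lcm_left _ _).trans d)
  obtain ⟨k3, k4⟩ := key w w0 p2 ((Nat.dvd_lcm_right _ _).trans d)
  exact ⟨k1.symm.trans k3, k2.symm.trans k4, cyc_eq (k2.symm.trans k4)⟩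

end H16.DA
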