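import Cfsg.Agent.H12.Classify
import Cfsg.Agent.H12.OmegaMore
import Cfsg.Agent.H12.Lin
import Cfsg.Agent.H5.Schur
import Cfsg.Agent.H5.RepEquiv

/-! S4984 (degree graph of symplectic and orthogonal groups): definitions, kit, chunk statements.
Paper proofs: notes/DG.md. -/

set_option autoImplicit false
set_option linter.unusedSectionVars false

open Cfsg Module H12 H5 Finset
open scoped ComplexConjugate Classical

namespace H16.DG

/-! ### abstract part -/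
section Abs
variable {G : Type} [Group G]

/-- irreducible character of `P`, given as a function on `G` -/
def Ir (P : Subgroup G) (ψ : G → ℂ) : Prop := IsIrrCharacter P fun g => ψ g
/-- character of `P`, given as a function on `G` -/
def Ch (P : Subgroup G) (ψ : G → ℂ) : Prop := IsCharacter P fun g => ψ g
/-- induced function -/
noncomputable def ind [Finite G] (P : Subgroup G) (ψ : G → ℂ) : G → ℂ :=
  @indFun G _ (Fintype.ofFinite G) P fun g => ψ g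
/-- Mackey term -/
noncomputable def mk (P : Subgroup G) (ψ ψ' : G → ℂ) (x : G) : ℂ :=
  ∑ᶠ g : G, if g ∈ P ∧ x⁻¹ * g * x ∈ P then ψ g * conj (ψ' (x⁻¹ * g * x)) else 0
/-- the double coset `P w P` -/
def DC (P : Subgroup G) (w x : G) : Prop := ∃ p ∈ P, ∃ p' ∈ P, x = p * w * p'
/-- structure constant of the Hecke algebra -/
noncomputable def cc (P : Subgroup G) (ψ : G → ℂ) (w u : G) : ℂ :=
  if h : ∃ a : G × G, a.1 ∈ P ∧ a.2 ∈ P ∧ w * u * w = a.1 * w * a.2 then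
    ψ (h.choose.1 * h.choose.2) else 0

/-- hypotheses of the rank one Hecke lemma -/
structure RTH (P Q : Subgroup G) (ψ : G → ℂ) (w : G) : Prop where
  irr : Ir P ψ
  le : Q ≤ P
  nrm : ∀ p ∈ P, ∀ u ∈ Q, p * u * p⁻¹ ∈ Q
  ker : ∀ u ∈ Q, ψ u = ψ 1
  dec : ∀ p ∈ P, ∃ u ∈ Q, w⁻¹ * (u⁻¹ * p) * w ∈ P
  inf : ∀ u ∈ Q, w⁻¹ * u * w ∈ P → u = 1
  cen : ∀ l ∈ P, w⁻¹ * l * w ∈ P → ψ (w⁻¹ * l * w * l⁻¹) = ψ 1
  sqP : w * w ∈ P
  sq : ψ (w * w) = ψ 1
  nw : w ∉ P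
  van : ∀ x, x ∉ P → ¬ DC P w x → mk P ψ ψ x = 0

variable {P Q : Subgroup G} {ψ ψ' π : G → ℂ} {w x : G}

theorem Ir.out (h : Ir P ψ) : IsIrrCharacter P fun g => ψ g := h
theorem Ch.out (h : Ch P ψ) : IsCharacter P fun g => ψ g := h
theorem Ir.ch (h : Ir P ψ) : Ch P ψ := h.out.isCharacter

theorem Ch.comm (h : Ch P ψ) {a b : G} (ha : a ∈ P) (hb : b ∈ P) : ψ (a * b) = ψ (b * a) :=
  h.out.isClassFunction.mul_comm_apply ⟨a, ha⟩ ⟨b, hb⟩

theorem Ch.conj (h : Ch P ψ) {a b : G} (ha : a ∈ P) (hb : b ∈ P) : ψ (a * b * a⁻¹) = ψ b := by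
  rw [h.comm (mul_mem ha hb) (inv_mem ha), inv_mul_cancel_left]

theorem Ch.mul (h : Ch P ψ) (h' : Ch P ψ') : Ch P fun g => ψ g * ψ' g := h.out.mul h'

theorem cc_zero {u : G} (h : ¬ DC P w (w * u * w)) : cc P ψ w u = 0 :=
  dif_neg fun ⟨a, h1, h2, h3⟩ => h ⟨a.1, h1, a.2, h2, h3⟩

variable [Finite G]

/-- kernel elements -/
theorem Ch.ker_mul (h : Ch P ψ) {k g : G} (hk : k ∈ P) (h1 : ψ k = ψ 1) (hg : g ∈ P) :
    ψ (k * g) = ψ g :=
  (h.out.mem_charKer_iff (g := ⟨k, hk⟩)).2 h1 ⟨g, hg⟩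

theorem Ch.mul_ker (h : Ch P ψ) {k g : G} (hk : k ∈ P) (h1 : ψ k = ψ 1) (hg : g ∈ P) :
    ψ (g * k) = ψ g := by rw [h.comm hg hk, h.ker_mul hk h1 hg]

theorem Ch.inv (h : Ch P ψ) {g : G} (hg : g ∈ P) : ψ g⁻¹ = conj (ψ g) :=
  h.out.apply_inv ⟨g, hg⟩

theorem RTH.cc_eq (h : RTH P Q ψ w) {u p p' : G} (hp : p ∈ P) (hp' : p' ∈ P)
    (e : w * u * w = p * w * p') : cc P ψ w u = ψ (p * p') := by
  have h0 : ∃ a : G × G, a.1 ∈ P ∧ a.2 ∈ P ∧ w * u * w = a.1 * w * a.2 := ⟨(p, p'), hp, hp', e⟩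
  rw [cc, dif_pos h0]
  obtain ⟨h1, h2, h3⟩ := h0.choose_spec
  generalize h0.choose.1 = a at *
  generalize h0.choose.2 = b at *
  have e1 : w⁻¹ * (a⁻¹ * p) * w = b * p'⁻¹ := by
    calc _ = w⁻¹ * a⁻¹ * (p * w * p') * p'⁻¹ := by group
      _ = _ := by rw [← e, h3]; group
  have hl : a⁻¹ * p ∈ P := mul_mem (inv_mem h1) hp
  have h4 : w⁻¹ * (a⁻¹ * p) * w ∈ P := e1 ▸ mul_mem h2 (inv_mem hp')
  have h5 := h.irr.ch.ker_mul (mul_mem h4 (inv_mem hl)) (h.cen _ hl h4)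
    (mul_mem (mul_mem hl hp') h1)
  rw [e1] at h5
  rw [h.irr.ch.comm h1 h2, ← h.irr.ch.conj (inv_mem h1) (mul_mem hp hp')]
  convert h5 using 2 <;> group

theorem ind_eq [Fintype G] : ind P ψ = indFun P fun g => ψ g := indFun_inst _ _ _ _

theorem ind_one : ind P ψ 1 = P.index * ψ 1 := by
  have := Fintype.ofFinite G
  rw [ind_eq, indFun_apply_one]; rfl

theorem Ch.ind (h : Ch P ψ) : IsCharacter G (ind P ψ) := by
  have := Fintype.ofFinite G
  rw [ind_eq]; exact h.out.ind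

theorem ind_central {z : G} (hz : ∀ g, g * z = z * g) (hP : z ∈ P) (h : ψ z = ψ 1) :
    ind P ψ z = ind P ψ 1 := by
  have := Fintype.ofFinite G
  rw [ind_eq, indFun_apply', indFun_apply']
  congr 1
  refine sum_congr rfl fun x _ => ?_
  rw [hz, mul_inv_cancel_right, mul_one, mul_inv_cancel, extendByZero_of_mem _ _ hP,
    extendByZero_of_mem _ _ (one_mem P)]
  exact h

theorem mk_eq [Fintype G] : mk P ψ ψ' x =
    ∑ g : G, if g ∈ P ∧ x⁻¹ * g * x ∈ P then ψ g * conj (ψ' (x⁻¹ * g * x)) else 0 :=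
  finsum_eq_sum_of_fintype _

/-- Mackey formula -/
theorem inner_ind [Fintype G] :
    (Nat.card P : ℂ) ^ 2 * classInner (ind P ψ) (ind P ψ') = ∑ x, mk P ψ ψ' x := by
  have hP := card_ne_zero_complex P
  rw [ind_eq, ind_eq, classInner_indFun_left _ _ (isClassFunction_indFun _ _), sq, mul_assoc,
    card_mul_classInner, ← sum_extendByZero_mul P (fun g => ψ g)
      fun g => conj (indFun P (fun g => ψ' g) g)]
  simp only [mk_eq, indFun_apply, map_mul, map_inv₀, map_natCast, map_sum, mul_sum]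
  rw [sum_comm]
  refine sum_congr rfl fun x _ => sum_congr rfl fun g _ => ?_
  rw [extendByZero_apply, extendByZero_apply]
  by_cases h1 : g ∈ P <;> by_cases h2 : x⁻¹ * g * x ∈ P <;> simp [h1, h2]
  field_simp

theorem mk_mem [Fintype P] (h : Ch P ψ') (hx : x ∈ P) :
    mk P ψ ψ' x = Nat.card P * classInner (fun g : P => ψ g) fun g => ψ' g := by
  have := Fintype.ofFinite G
  rw [mk_eq, card_mul_classInner, ← sum_extendByZero P]
  refine sum_congr rfl fun g _ => ?_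
  rw [extendByZero_apply]
  by_cases h1 : g ∈ P
  · have := h.conj (inv_mem hx) h1
    rw [inv_inv] at this
    rw [if_pos ⟨h1, mul_mem (mul_mem (inv_mem hx) h1) hx⟩, dif_pos h1, this]
  · simp [h1]

theorem mk_dc (h : Ch P ψ) (h' : Ch P ψ') (hx : DC P w x) : mk P ψ ψ' x = mk P ψ ψ' w := by
  have := Fintype.ofFinite G
  obtain ⟨p, hp, p', hp', rfl⟩ := hx
  rw [mk_eq, mk_eq, ← Equiv.sum_comp (MulAut.conj p).toEquiv]
  refine sum_congr rfl fun g _ => ?_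
  have e : (p * w * p')⁻¹ * (p * g * p⁻¹) * (p * w * p') = p'⁻¹ * (w⁻¹ * g * w) * p'⁻¹⁻¹ := by
    group
  have h1 : p * g * p⁻¹ ∈ P ↔ g ∈ P := by
    rw [P.mul_mem_cancel_right (inv_mem hp), P.mul_mem_cancel_left hp]
  have h2 : p'⁻¹ * (w⁻¹ * g * w) * p'⁻¹⁻¹ ∈ P ↔ w⁻¹ * g * w ∈ P := by
    rw [P.mul_mem_cancel_right (inv_mem (inv_mem hp')), P.mul_mem_cancel_left (inv_mem hp')]
  change (if p * g * p⁻¹ ∈ P ∧ _ * (p * g * p⁻¹) * _ ∈ P then
    ψ (p * g * p⁻¹) * conj (ψ' (_ * (p * g * p⁻¹) * _)) else 0) = _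
  rw [e]
  simp only [h1, h2]
  split_ifs with h3
  · rw [h.conj hp h3.1, h'.conj (inv_mem hp') h3.2]
  · rfl

/-- Mackey's irreducibility criterion -/
theorem Ir.ind (h : Ir P ψ) (h0 : ∀ x, x ∉ P → mk P ψ ψ x = 0) : IsIrrCharacter G (ind P ψ) := by
  have := Fintype.ofFinite G
  have := Fintype.ofFinite P
  have hP := card_ne_zero_complex P
  refine h.ch.ind.isIrr_of_classInner_self (mul_left_cancel₀ (pow_ne_zero 2 hP) ?_)
  have e : ∀ x, mk P ψ ψ x = extendByZero P (fun _ => (Nat.card P : ℂ)) x := fun x => by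
    rw [extendByZero_apply]
    split_ifs with hx
    · rw [mk_mem h.ch hx, h.out.classInner_self, mul_one]
    · exact h0 x hx
  rw [inner_ind, sum_congr rfl fun x _ => e x, sum_extendByZero]
  simp [sq]

theorem mk_nat (h : Ch P ψ) (h' : Ch P ψ') (x : G) : ∃ n : ℕ, mk P ψ ψ' x = n := by
  have := Fintype.ofFinite G
  let S : Subgroup G := P ⊓ P.comap (MulAut.conj x⁻¹).toMonoidHom
  have hS : ∀ g, g ∈ S ↔ g ∈ P ∧ x⁻¹ * g * x ∈ P := fun g => by simp [S]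
  have := Fintype.ofFinite S
  let f : S →* P := ((MulAut.conj x⁻¹).toMonoidHom.comp S.subtype).codRestrict P fun g => g.2.2
  obtain ⟨n, hn⟩ := (h.out.comp (Subgroup.inclusion (inf_le_left : S ≤ P))).exists_classInner_nat
    (h'.out.comp f)
  refine ⟨Nat.card S * n, ?_⟩
  rw [Nat.cast_mul, ← hn, card_mul_classInner, ← sum_extendByZero S, mk_eq]
  refine sum_congr rfl fun g _ => ?_
  rw [extendByZero_apply]
  by_cases h1 : g ∈ S
  · rw [if_pos ((hS g).1 h1), dif_pos h1]; simp [f]; exact .inl rfl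
  · rw [if_neg ((hS g).not.1 h1), dif_neg h1]

/-- monotonicity of the Mackey terms -/
theorem mk_mono (h : Ch P ψ) (h' : Ch P ψ') (h0 : mk P (ψ + ψ') (ψ + ψ') x = 0) :
    mk P ψ ψ x = 0 := by
  have := Fintype.ofFinite G
  obtain ⟨a, ha⟩ := mk_nat h h x
  obtain ⟨b, hb⟩ := mk_nat h h' x
  obtain ⟨c, hc⟩ := mk_nat h' h x
  obtain ⟨d, hd⟩ := mk_nat h' h' x
  have e : mk P (ψ + ψ') (ψ + ψ') x = mk P ψ ψ x + mk P ψ ψ' x + mk P ψ' ψ x + mk P ψ' ψ' x := by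
    simp only [mk_eq, ← sum_add_distrib]
    refine sum_congr rfl fun g _ => ?_
    split_ifs <;> simp; ring
  rw [e, ha, hb, hc, hd] at h0
  have : a + b + c + d = 0 := by exact_mod_cast h0
  rw [ha, show a = 0 by omega, Nat.cast_zero]

/-- averaging over a subgroup -/
theorem avg (C : Subgroup G) {f Φ : G → ℂ} (c : ℂ) (h1 : ∀ g, ∀ u ∈ C, Φ (g * u) = Φ g)
    (h2 : ∀ g, Φ g ≠ 0 → ∑ᶠ u : C, f (g * u) = Nat.card C * c) :
    ∑ᶠ g, f g * Φ g = c * ∑ᶠ g, Φ g := by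
  have := Fintype.ofFinite G
  have := Fintype.ofFinite C
  simp only [finsum_eq_sum_of_fintype] at h2 ⊢
  refine mul_left_cancel₀ (card_ne_zero_complex C) ?_
  calc _ = ∑ u : C, ∑ g, f (g * u) * Φ g := by
        rw [sum_congr rfl fun (u : C) _ => (show ∑ g, f (g * u.1) * Φ g = ∑ g, f g * Φ g by
          rw [← Equiv.sum_comp (Equiv.mulRight u.1) fun g => f g * Φ g]
          exact sum_congr rfl fun g _ => by rw [Equiv.coe_mulRight, h1 g u u.2])]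
        simp
    _ = ∑ g, Nat.card C * c * Φ g := by
        rw [sum_comm]
        refine sum_congr rfl fun g _ => ?_
        rw [← sum_mul]
        by_cases h : Φ g = 0
        · simp [h]
        · rw [h2 g h]
    _ = _ := by rw [← mul_sum, mul_assoc]

/-- sum over a group through a homomorphism -/
theorem sum_hom {H : Type} [Group H] [Finite H] (f : G →* H) (φ : H → ℂ) :
    Nat.card f.range * ∑ᶠ g, φ (f g) = Nat.card G * ∑ᶠ h : f.range, φ h := by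
  have := Fintype.ofFinite G
  have := Fintype.ofFinite f.range
  have h := classInner_comp_surjective f.rangeRestrict f.rangeRestrict_surjective
    (fun h => φ h) fun _ => 1
  rw [classInner_one_right, classInner_one_right] at h
  have h1 := card_ne_zero_complex G
  have h2 := card_ne_zero_complex f.range
  simp only [finsum_eq_sum_of_fintype]
  field_simp at h
  simpa [mul_comm] using h

end Abs

/-! ### arithmetic -/
/-- every product of two distinct primes dividing `n` divides a member of `A` -/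
def Cov (A : ℕ → Prop) (n : ℕ) : Prop :=
  ∀ r s : ℕ, r.Prime → s.Prime → r ≠ s → r ∣ n → s ∣ n → ∃ d, A d ∧ r * s ∣ d
/-- a degree up to the loss of a divisor of `c` -/
def Lo (A : ℕ → Prop) (c d : ℕ) : Prop := ∃ d', A d' ∧ d ∣ c * d'
def Pk (q w t k : ℕ) : ℕ := ∏ i ∈ range k, (q ^ (w - i) - 1) * (q ^ (w - i - 1) * t + 1)
/-- `d` is the degree of the induced cuspidal character -/
def Dk (q w t k d : ℕ) : Prop := d * (q ^ k - 1) = Pk q w t k
def DD (A : ℕ → Prop) (c q w t k e : ℕ) : Prop := ∃ d, Dk q w t k d ∧ Lo A c (d * e)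
/-- degrees of the rank three constituents -/
def FA (q t j f : ℕ) : Prop := f * ((q - 1) * (q + t)) = q * t * (q ^ (j - 2) * t + 1) * (q ^ j - 1)
def GB (q t j g : ℕ) : Prop :=
  g * ((q - 1) * (q + t)) = q ^ 2 * (q ^ (j - 1) - 1) * (q ^ (j - 1) * t + 1)

/-! ### geometry -/
section Geo
variable {F : Type} [Field F] {T : FormType F} {V : Type} [AddCommGroup V] [Module F V]

instance finEquiv [Finite V] : Finite (V ≃ₗ[F] V) := Finite.of_injective _ DFunLike.coe_injective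
instance finSub [Finite V] : Finite (Submodule F V) := Finite.of_injective _ SetLike.coe_injective

/-- symplectic or orthogonal type -/
def OS (T : FormType F) : Prop := T = altType F ∨ T = quadType F

/-- cuspidal irreducible character of `GL(V)` -/
structure Cu (σ : (V ≃ₗ[F] V) → ℂ) : Prop where
  irr : IsIrrCharacter _ σ
  deg : σ 1 = (∏ i ∈ Ico 1 (finrank F V), (Nat.card F ^ i - 1) : ℕ)
  nt : ∑ᶠ h, σ h = 0
  cu : ∀ A : Submodule F V, A ≠ ⊥ → A ≠ ⊤ → ∀ K : Subgroup (V ≃ₗ[F] V),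
    (∀ a ∈ A, ∀ φ : Dual F V, (∀ y ∈ A, φ y = 0) → Tr K a φ) → ∀ g, ∑ᶠ k : K, σ (g * k) = 0
/-- not real -/
def NR (σ : (V ≃ₗ[F] V) → ℂ) : Prop := ∑ᶠ h, σ h ^ 2 = 0
/-- `-1` in the kernel -/
def Ev (σ : (V ≃ₗ[F] V) → ℂ) : Prop := ∀ h : V ≃ₗ[F] V, (∀ y, h y = -y) → σ h = σ 1
/-- scalars in the kernel -/
def Sc (σ : (V ≃ₗ[F] V) → ℂ) : Prop := ∀ (h : V ≃ₗ[F] V) (c : F), (∀ y, h y = c • y) → σ h = σ 1

variable (C : CForm T V)
/-- image of a subspace -/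
def im (g : C.isom) (W : Submodule F V) : Submodule F V := W.map (g.1 : V →ₗ[F] V)
/-- stabilizer of a subspace -/
def St (W : Submodule F V) : Subgroup C.isom := (glStab W).comap C.isom.subtype
/-- restriction to `W` (junk value off the stabilizer) -/
noncomputable def rho (W : Submodule F V) (g : C.isom) : W ≃ₗ[F] W :=
  if h : g ∈ St C W then g.1.ofSubmodules W W (mem_glStab_iff_map.1 h) else 1
/-- acts trivially on `W^⊥ / W` -/
def KW (W : Submodule F V) (u : C.isom) : Prop := ∀ x ∈ C.perp W, u.1 x - x ∈ W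
/-- the unipotent radical -/
def QW (W : Submodule F V) : Subgroup C.isom where
  carrier := {u | (∀ x ∈ W, u.1 x = x) ∧ KW C W u}
  one_mem' := ⟨fun _ _ => rfl, fun x _ => by simp⟩
  mul_mem' := by
    rintro a b ⟨a1, a2⟩ ⟨b1, b2⟩
    refine ⟨fun x hx => by simp [b1 x hx, a1 x hx], fun x hx => ?_⟩
    have := add_mem (a2 x hx) (b2 x hx)
    rw [← a1 _ (b2 x hx), map_sub] at this
    simpa using this
  inv_mem' := by
    rintro a ⟨a1, a2⟩
    have h : ∀ x ∈ W, a.1⁻¹ x = x := fun x hx => by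
      conv_lhs => rw [← a1 x hx, inv_apply_apply]
    refine ⟨h, fun x hx => ?_⟩
    have := neg_mem (a2 x hx)
    rw [← h _ this, map_neg, map_sub, inv_apply_apply] at this
    simpa using this
/-- Eichler transformation -/
def Ei (u : C.isom) : Prop := ∃ a b, C.N a = 0 ∧ C.B a b = 0 ∧
  ∀ x, u.1 x = x + C.B b x • a - (T.ε * C.B a x) • b - (C.N b * C.B a x) • a
/-- the scalar `-1` -/
def Ng (z : C.isom) : Prop := ∀ x, z.1 x = -x
/-- the singular points of `W^⊥ / W` -/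
def XW (W : Submodule F V) : Type :=
  {Y : Submodule F V // C.TS Y ∧ W ≤ Y ∧ finrank F Y = finrank F W + 1}
/-- number of fixed points -/
noncomputable def fx (W : Submodule F V) (g : C.isom) : ℕ := Nat.card {Y : XW C W // im C g Y.1 = Y.1}
/-- number of points moved to a collinear point -/
noncomputable def ad (W : Submodule F V) (g : C.isom) : ℕ :=
  Nat.card {Y : XW C W // im C g Y.1 ≠ Y.1 ∧ im C g Y.1 ≤ C.perp Y.1}
/-- rank at most three -/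
def Tr3 (W : Submodule F V) (J : Subgroup C.isom) : Prop :=
  ∀ Y Z Y' Z' : XW C W, (Y = Z ↔ Y' = Z') → (Z.1 ≤ C.perp Y.1 ↔ Z'.1 ≤ C.perp Y'.1) →
    ∃ g ∈ J, im C g Y.1 = Y'.1 ∧ im C g Z.1 = Z'.1
/-- polar space parameters: Witt index `w`, and `t + 1` points in rank one -/
def Par (w t : ℕ) : Prop := C.HasTS w ∧ ∀ W, C.TS W → finrank F W ≤ w ∧
  Nat.card {v // v ∈ C.perp W ∧ C.N v = 0 ∧ v ∉ W} = Nat.card F ^ finrank F W *
    ((Nat.card F ^ (w - finrank F W) - 1) * (Nat.card F ^ (w - finrank F W - 1) * t + 1))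
/-- an irreducible character of the isometry group of `W^⊥ / W` -/
structure Ta (W : Submodule F V) (τ : C.isom → ℂ) : Prop where
  irr : Ir (St C W) τ
  inv : ∀ u, KW C W u → τ u = τ 1
  neg : ∀ z, Ng C z → τ z = τ 1
/-- constituent of the permutation character on points -/
def Sub (W : Submodule F V) (τ : C.isom → ℂ) : Prop := Ch (St C W) fun g => fx C W g - τ g
/-- rational combination of the counting functions -/
def Rt (W : Submodule F V) (τ : C.isom → ℂ) : Prop :=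
  ∃ a b c : ℚ, ∀ g ∈ St C W, τ g = a * fx C W g + b * ad C W g + c
/-- the middle double cosets are harmless -/
def Mid (W : Submodule F V) (τ : C.isom → ℂ) : Prop :=
  (∀ W', C.TS W' → finrank F W' = finrank F W → W' ≤ C.perp W → W ⊓ W' ≠ ⊥) ∨ Sub C W τ
/-- the inducing character -/
noncomputable def psi (W : Submodule F V) (σ : (W ≃ₗ[F] W) → ℂ) (τ : C.isom → ℂ) (g : C.isom) : ℂ :=
  σ (rho C W g) * τ g
/-- opposite totally singular subspaces -/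
def Op (W W' : Submodule F V) : Prop :=
  C.TS W ∧ C.TS W' ∧ finrank F W' = finrank F W ∧ W ⊓ C.perp W' = ⊥
/-- two hyperbolic pairs and the Weyl element -/
structure Fr2 (e₁ e₂ f₁ f₂ : V) (w : C.isom) : Prop where
  n1 : C.N e₁ = 0
  n2 : C.N e₂ = 0
  m1 : C.N f₁ = 0
  m2 : C.N f₂ = 0
  e12 : C.B e₁ e₂ = 0
  f12 : C.B f₁ f₂ = 0
  b11 : C.B e₁ f₁ = 1
  b12 : C.B e₁ f₂ = 0
  b21 : C.B e₂ f₁ = 0
  b22 : C.B e₂ f₂ = 1
  w1 : w.1 e₁ = f₂
  w2 : w.1 e₂ = -f₁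
  v1 : w.1 f₁ = T.ε • e₂
  v2 : w.1 f₂ = -(T.ε • e₁)
  wf : ∀ x, C.B e₁ x = 0 → C.B e₂ x = 0 → C.B f₁ x = 0 → C.B f₂ x = 0 → w.1 x = x

variable {C} {W : Submodule F V} {g h : C.isom}

theorem mem_im {v : V} : v ∈ im C g W ↔ g⁻¹.1 v ∈ W := Submodule.mem_map_equiv W
theorem apply_mem_im {v : V} : g.1 v ∈ im C g W ↔ v ∈ W := by
  rw [mem_im]; exact iff_of_eq (congrArg _ (inv_apply_apply g.1 v))
theorem im_mul : im C (g * h) W = im C g (im C h W) := Submodule.map_comp _ _ _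
theorem im_one : im C 1 W = W := Submodule.map_id W
theorem finrank_im : finrank F (im C g W) = finrank F W := LinearEquiv.finrank_map_eq _ _
theorem ts_im (hW : C.TS W) : C.TS (im C g W) := hW.map g.2
theorem perp_im : C.perp (im C g W) = im C g (C.perp W) := (CForm.map_perp g.2 W).symm
theorem im_mono {W' : Submodule F V} : im C g W ≤ im C g W' ↔ W ≤ W' :=
  Submodule.map_le_map_iff_of_injective g.1.injective _ _
theorem mem_St : g ∈ St C W ↔ ∀ v, v ∈ W ↔ g.1 v ∈ W := Iff.rfl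
theorem mem_St_im : g ∈ St C W ↔ im C g W = W := mem_glStab_iff_map
theorem mem_St_of [Finite V] (hg : ∀ v ∈ W, g.1 v ∈ W) : g ∈ St C W := mem_glStab_of_mapsTo hg
theorem conj_mem_St {x : C.isom} : x⁻¹ * g * x ∈ St C W ↔ g ∈ St C (im C x W) := by
  simp only [mem_St_im, im_mul]
  refine ⟨fun e => ?_, fun e => by rw [e, ← im_mul, inv_mul_cancel, im_one]⟩
  conv_rhs => rw [← e, ← im_mul, mul_inv_cancel, im_one]
theorem rho_apply (hg : g ∈ St C W) (y : W) : (rho C W g y : V) = g.1 y := by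
  rw [rho, dif_pos hg]; rfl
theorem rho_eq (hg : g ∈ St C W) {k : W ≃ₗ[F] W} (e : ∀ y : W, (k y : V) = g.1 y) :
    rho C W g = k := LinearEquiv.ext fun y => Subtype.ext ((rho_apply hg y).trans (e y).symm)
theorem rho_one : rho C W 1 = 1 := rho_eq (one_mem _) fun _ => rfl
theorem rho_mul (hg : g ∈ St C W) (hh : h ∈ St C W) : rho C W (g * h) = rho C W g * rho C W h :=
  rho_eq (mul_mem hg hh) fun y => by
    rw [LinearEquiv.mul_apply, rho_apply hg, rho_apply hh]; rfl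
variable (C W) in
/-- restriction as a homomorphism -/
noncomputable def rhoH : St C W →* (W ≃ₗ[F] W) where
  toFun g := rho C W g
  map_one' := rho_one
  map_mul' a b := rho_mul a.2 b.2
theorem KW.mem [Finite V] (hW : C.TS W) (h : KW C W g) : g ∈ St C W :=
  mem_St_of fun v hv => by simpa using add_mem (h v (hW.le_perp hv)) hv
theorem KW.conj {x : C.isom} (h : KW C (im C x W) g) : KW C W (x⁻¹ * g * x) := fun v hv => by
  have := mem_im.1 (h (x.1 v) (by rw [perp_im]; exact apply_mem_im.2 hv))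
  rw [map_sub] at this
  simpa using this
theorem Ng.mem [Finite V] {z : C.isom} (h : Ng C z) : z ∈ St C W :=
  mem_St_of fun v hv => by rw [h]; exact neg_mem hv
theorem Ng.comm {z : C.isom} (h : Ng C z) (g : C.isom) : g * z = z * g :=
  Subtype.ext (LinearEquiv.ext fun v => by
    change g.1 (z.1 v) = z.1 (g.1 v); rw [h, h, map_neg])
theorem ch_rho {σ : (W ≃ₗ[F] W) → ℂ} (h : IsCharacter _ σ) : Ch (St C W) fun g => σ (rho C W g) :=
  h.comp (rhoH C W)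
theorem ch_psi {σ : (W ≃ₗ[F] W) → ℂ} {τ : C.isom → ℂ} (h : IsCharacter _ σ) (h' : Ch (St C W) τ) :
    Ch (St C W) (psi C W σ τ) := (ch_rho h).mul h'
theorem psi_one {σ : (W ≃ₗ[F] W) → ℂ} {τ : C.isom → ℂ} : psi C W σ τ 1 = σ 1 * τ 1 := by
  rw [psi, rho_one]

instance finXW [Finite V] : Finite (XW C W) := Subtype.finite
/-- the action of the stabilizer on the points of `W^⊥ / W` -/
instance actXW : MulAction (St C W) (XW C W) where
  smul g Y := ⟨im C g Y.1, ts_im Y.2.1, (mem_St_im.1 g.2).ge.trans (im_mono.2 Y.2.2.1),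
    finrank_im.trans Y.2.2.2⟩
  one_smul _ := Subtype.ext im_one
  mul_smul _ _ _ := Subtype.ext im_mul
theorem smul_val (g : St C W) (Y : XW C W) : (g • Y).1 = im C g Y.1 := rfl
theorem fx_eq (g : St C W) : fx C W g = Nat.card (MulAction.fixedBy (XW C W) g) :=
  Nat.card_congr (Equiv.subtypeEquivRight fun _ => ⟨fun h => Subtype.ext h, congrArg Subtype.val⟩)
theorem ch_fx [Finite V] : Ch (St C W) fun g => fx C W g := by
  have := isCharacter_perm (G := St C W) (XW C W)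
  simp only [← fx_eq] at this
  exact this
theorem KW.im [Finite V] (h : KW C W g) {Y : Submodule F V} (h1 : W ≤ Y) (h2 : Y ≤ C.perp W) :
    im C g Y = Y :=
  mem_St_im.1 (mem_St_of fun v hv => by simpa using add_mem (h1 (h v (h2 hv))) hv)
theorem XW.le_perp (Y : XW C W) : Y.1 ≤ C.perp W := Y.2.1.le_perp.trans (C.perp_anti Y.2.2.1)
theorem ta_one : Ta C W fun _ => 1 := ⟨isIrrCharacter_one, fun _ _ => rfl, fun _ _ => rfl⟩
theorem sub_one [Finite V] (h : Nonempty (XW C W)) : Sub C W fun _ => 1 := by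
  have := isCharacter_perm_sub_one (G := St C W) (XW C W)
  simp only [← fx_eq] at this
  exact this
theorem OS.σ (h : OS T) (a : F) : T.σ a = a := by rcases h with rfl | rfl <;> rfl
theorem OS.εε (h : OS T) : T.ε * T.ε = 1 := by
  rcases h with rfl | rfl <;> simp [altType, quadType]
theorem OS.symm (h : OS T) (x y : V) : C.B y x = T.ε * C.B x y := by rw [C.symm, h.σ]
theorem OS.smul (h : OS T) (c : F) (x y : V) : C.B (c • x) y = c * C.B x y := by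
  rw [C.B_smul_left, h.σ]
theorem OS.nsmul (h : OS T) (c : F) (x : V) : C.N (c • x) = c * c * C.N x := by
  rw [C.N_smul, h.σ]

/-- existence of the Eichler transformations -/
theorem exists_Ei [Finite V] (h : OS T) (hC : C.Nondeg) {a b : V} (ha : C.N a = 0)
    (hab : C.B a b = 0) : ∃ u : C.isom, Ei C u ∧
      ∀ x, u.1 x = x + C.B b x • a - (T.ε * C.B a x) • b - (C.N b * C.B a x) • a := by
  have h1 := C.B_self_of_zero ha
  have h2 := C.B_swap_zero hab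
  have h3 := C.B_self b
  obtain ⟨e, he, h4⟩ := hC.exists_isom (LinearMap.id + (C.B b).smulRight a -
    (T.ε • C.B a).smulRight b - (C.N b • C.B a).smulRight a) (by
      refine ⟨fun x y => ?_, fun x => ?_⟩
      · simp only [LinearMap.sub_apply, LinearMap.add_apply, LinearMap.id_apply,
          LinearMap.smulRight_apply, LinearMap.smul_apply, smul_eq_mul,
          h.smul, map_sub, map_add, map_smul, h1, h2, hab, h3, h.symm (C := C) a x,
          h.symm (C := C) b x]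
        rcases h with rfl | rfl
        · simp only [altType]; ring
        · simp only [quadType]; ring
      · simp only [LinearMap.sub_apply, LinearMap.add_apply, LinearMap.id_apply,
          LinearMap.smulRight_apply, LinearMap.smul_apply, smul_eq_mul, C.N_sub, C.N_add, h.nsmul,
          C.B_sub_left, C.B_add_left, h.smul, map_smul, h1, h2, hab, ha, h.symm (C := C) a x,
          h.symm (C := C) b x]
        rcases h with rfl | rfl
        · obtain ⟨c, hc⟩ := C.N_mem b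
          simp only [altType] at hc ⊢
          simp [← hc]
        · simp [quadType]; ring)
  exact ⟨⟨e, he⟩, ⟨a, b, ha, hab, h4⟩, h4⟩

/-- vanishing by cuspidality -/
theorem van_avg [Finite V] {σ : (W ≃ₗ[F] W) → ℂ} (hσ : Cu σ) (D : Subgroup C.isom) (hD : D ≤ St C W)
    (hK : (∃ A : Submodule F W, A ≠ ⊥ ∧ A ≠ ⊤ ∧ ∀ a ∈ A, ∀ φ : Dual F W, (∀ y ∈ A, φ y = 0) →
      ∃ u ∈ D, ∀ y : W, u.1 y = (y + φ y • a : W)) ∨
      ∀ k : W ≃ₗ[F] W, ∃ u ∈ D, ∀ y : W, u.1 y = k y) {Φ : C.isom → ℂ}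
    (h1 : ∀ g, ∀ u ∈ D, Φ (g * u) = Φ g) (h2 : ∀ g, Φ g ≠ 0 → g ∈ St C W) :
    ∑ᶠ g, σ (rho C W g) * Φ g = 0 := by
  rw [avg D 0 h1 fun g hg => ?_, zero_mul]
  let f := (rhoH C W).comp (Subgroup.inclusion hD)
  have h3 := sum_hom f fun k => σ (rho C W g * k)
  have h4 : ∑ᶠ k : f.range, σ (rho C W g * k) = 0 := by
    rcases hK with ⟨A, a0, a1, hA⟩ | hK
    · refine hσ.cu A a0 a1 _ (fun a ha φ hφ => ?_) _
      obtain ⟨u, hu, e⟩ := hA a ha φ hφ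
      exact ⟨_, ⟨⟨u, hu⟩, rfl⟩, fun y => Subtype.ext ((rho_apply (hD hu) y).trans (e y))⟩
    · rw [← hσ.nt]
      refine finsum_eq_of_bijective (fun k : f.range => rho C W g * k) ⟨fun a b e =>
        Subtype.ext (mul_left_cancel e), fun k => ?_⟩ fun _ => rfl
      obtain ⟨u, hu, e⟩ := hK ((rho C W g)⁻¹ * k)
      exact ⟨⟨_, ⟨u, hu⟩, rho_eq (hD hu) fun y => (e y).symm⟩, mul_inv_cancel_left _ _⟩
  rw [h4, mul_zero, mul_eq_zero, or_iff_right (card_ne_zero_complex _)] at h3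
  rw [mul_zero, ← h3]
  exact finsum_congr fun u => by rw [rho_mul (h2 g hg) (hD u.2)]; rfl

end Geo

/-! ### chunks -/
section Chunks
open H11

/-- rank one Hecke lemma -/
def RT : Prop := ∀ (G : Type) [Group G] [Finite G] (P Q : Subgroup G) (ψ : G → ℂ) (w : G),
  RTH P Q ψ w → ∃ (χ₁ χ₂ : G → ℂ) (d₁ d₂ : ℕ), IsIrrCharacter G χ₁ ∧ IsIrrCharacter G χ₂ ∧
    ind P ψ = χ₁ + χ₂ ∧ χ₁ 1 = d₁ ∧ χ₂ 1 = d₂ ∧ d₁ ∣ Nat.card Q * d₂ ∧ d₂ ∣ Nat.card Q * d₁ ∧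
    (∑ᶠ u : Q, cc P ψ w u) ^ 2 * d₁ * d₂ = ψ 1 ^ 2 * Nat.card Q * ((d₁ : ℂ) - d₂) ^ 2
def RTA : Prop := ∀ (N d₁ d₂ : ℕ) (a : ℚ), Odd N → 0 < d₁ → 0 < d₂ → d₁ ∣ 2 ^ N * d₂ →
  d₂ ∣ 2 ^ N * d₁ → a ^ 2 * d₁ * d₂ = 2 ^ N * ((d₁ : ℚ) - d₂) ^ 2 → d₁ ≠ d₂ →
  ∃ c, Odd c ∧ (d₂ = 2 ^ c * d₁ ∨ d₁ = 2 ^ c * d₂)

/-- cuspidal characters -/
def CUA : Prop := ∀ (F U : Type) [Field F] [Finite F] [AddCommGroup U] [Module F U] [Finite U],
  (3 ≤ finrank F U ∨ finrank F U = 2 ∧ 3 ≤ Nat.card F ∨ finrank F U = 1 ∧ 4 ≤ Nat.card F) →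
  ∃ σ : (U ≃ₗ[F] U) → ℂ, Cu σ ∧ NR σ
def CUB : Prop := ∀ (F U : Type) [Field F] [Finite F] [AddCommGroup U] [Module F U] [Finite U],
  (3 ≤ finrank F U ∨ finrank F U = 2 ∧ 4 ≤ Nat.card F) → ∃ σ : (U ≃ₗ[F] U) → ℂ, Cu σ ∧ NR σ ∧ Ev σ
def CUC : Prop := ∀ (F U : Type) [Field F] [Finite F] [AddCommGroup U] [Module F U] [Finite U],
  finrank F U = 2 → ∃ σ : (U ≃ₗ[F] U) → ℂ, Cu σ ∧ Sc σ ∧
    (∑ᶠ h : U ≃ₗ[F] U, if LinearMap.trace F U h = 0 then σ h else 0) ^ 2 =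
      (((Nat.card F : ℂ) - 1) * (Nat.card F ^ 2 - Nat.card F)) ^ 2
def CUD : Prop := ∀ (F U : Type) [Field F] [Finite F] [AddCommGroup U] [Module F U] [Finite U],
  finrank F U = 1 → Nat.card F = 3 →
  ∃ σ : (U ≃ₗ[F] U) → ℂ, Cu σ ∧ ∀ h : U ≃ₗ[F] U, (∀ y, h y = -y) → σ h = -1
/-- inverse adjoint -/
def DU : Prop := ∀ (F U : Type) [Field F] [Finite F] [AddCommGroup U] [Module F U] [Finite U]
  (β : U →ₗ[F] U →ₗ[F] F) (h h' : U ≃ₗ[F] U), (∀ u, (∀ v, β u v = 0) → u = 0) →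
  (∀ u v, β (h u) (h' v) = β u v) → IsConj h' h⁻¹

/-- statements about all non-degenerate symplectic or orthogonal spaces -/
def All (S : ∀ {F : Type} [Field F] [Finite F] {T : FormType F} {V : Type} [AddCommGroup V]
    [Module F V] [Finite V], CForm T V → Prop) : Prop :=
  ∀ (F : Type) [Field F] [Finite F] (T : FormType F) (V : Type) [AddCommGroup V] [Module F V]
    [Finite V] (C : CForm T V), OS T → C.Nondeg → S C

/-- Eichler elements for the intermediate positions -/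
def EL : Prop := All fun {F} _ _ _ {V} _ _ _ C => ∀ W W' : Submodule F V, C.TS W → C.TS W' →
  finrank F W' = finrank F W → W ≠ W' → W ⊓ C.perp W' ≠ ⊥ → ¬ (W' ≤ C.perp W ∧ W ⊓ W' = ⊥) →
  ∃ A : Submodule F W, A ≠ ⊥ ∧ A ≠ ⊤ ∧ ∀ a ∈ A, ∀ φ : Dual F W, (∀ y ∈ A, φ y = 0) →
    ∃ u, Ei C u ∧ KW C W u ∧ KW C W' u ∧ (∀ y ∈ W', u.1 y = y) ∧
      ∀ y : W, u.1 y = (y + φ y • a : W)
/-- the middle position -/
def MI : Prop := All fun {F} _ _ _ {V} _ _ _ C => ∀ (W : Submodule F V) (σ : (W ≃ₗ[F] W) → ℂ)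
  (x : C.isom), C.TS W → W ≠ ⊥ → Cu σ → im C x W ≤ C.perp W → W ⊓ im C x W = ⊥ →
  mk (St C W) (psi C W σ fun g => fx C W g) (psi C W σ fun g => fx C W g) x = 0
/-- opposite subspaces -/
def OPK : Prop := All fun {F} _ _ _ {V} _ _ _ C => ∀ W : Submodule F V,
  (C.TS W → ∃ W', Op C W W') ∧ ∀ W', Op C W W' → Op C W' W ∧
    ∀ x ∈ C.perp W, ∃ y ∈ W, x - y ∈ C.perp (W ⊔ W')
/-- Levi elements -/
def LV : Prop := All fun {F} _ _ _ {V} _ _ _ C => ∀ W W' : Submodule F V, Op C W W' →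
  ∀ h : W ≃ₗ[F] W, ∃ g : C.isom, (∀ y : W, g.1 y = h y) ∧ g ∈ St C W' ∧
    ∀ x ∈ C.perp (W ⊔ W'), g.1 x = x
/-- the unipotent radical is transitive on the opposite subspaces -/
def QT : Prop := All fun {F} _ _ _ {V} _ _ _ C => ∀ W W' W'' : Submodule F V, Op C W W' →
  Op C W W'' → ∃ u ∈ QW C W, im C u W' = W''
def V3A : Prop := All fun {F} _ _ _ {V} _ _ _ C => ∀ (W : Submodule F V) (σ : (W ≃ₗ[F] W) → ℂ)
  (τ : C.isom → ℂ), C.TS W → IsIrrCharacter _ σ → Ta C W τ → Ir (St C W) (psi C W σ τ)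
def V3B : Prop := All fun {F} _ _ _ {V} _ _ _ C => ∀ (W : Submodule F V) (σ : (W ≃ₗ[F] W) → ℂ)
  (τ : C.isom → ℂ) (x : C.isom), C.TS W → IsIrrCharacter _ σ → NR σ → Ta C W τ →
  W ⊓ C.perp (im C x W) = ⊥ → mk (St C W) (psi C W σ τ) (psi C W σ τ) x = 0
/-- vanishing of the non-opposite Mackey terms -/
def VAN : Prop := All fun {F} _ _ _ {V} _ _ _ C => ∀ (W : Submodule F V) (σ : (W ≃ₗ[F] W) → ℂ)
  (τ : C.isom → ℂ) (x : C.isom), C.TS W → Cu σ → Ta C W τ → Mid C W τ → x ∉ St C W →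
  W ⊓ C.perp (im C x W) ≠ ⊥ → mk (St C W) (psi C W σ τ) (psi C W σ τ) x = 0
/-- twisted version -/
def VT : Prop := All fun {F} _ _ _ {V} _ _ _ C => ∀ (W : Submodule F V) (σ : (W ≃ₗ[F] W) → ℂ)
  (τ ε : C.isom → ℂ) (x : C.isom), C.TS W → Cu σ → Ta C W τ → (∀ g u, Ei C u → ε (g * u) = ε g) →
  x ∉ St C W → W ⊓ C.perp (im C x W) ≠ ⊥ → ¬ (im C x W ≤ C.perp W ∧ W ⊓ im C x W = ⊥) →
  mk (St C W) (fun g => ε g * psi C W σ τ g) (psi C W σ τ) x = 0
/-- number of totally singular subspaces -/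
def IX : Prop := All fun {F} _ _ _ {V} _ _ _ C => ∀ (w t : ℕ) (W : Submodule F V), Par C w t →
  C.TS W → (St C W).index * ∏ i ∈ range (finrank F W), (Nat.card F ^ (i + 1) - 1) =
    Pk (Nat.card F) w t (finrank F W)
/-- the standard forms -/
def PAR : Prop := ∀ (F : Type) [Field F] [Finite F] (m : ℕ),
  Par (spForm (Fin m) F) m (Nat.card F) ∧
  ((2 : F) ≠ 0 → Par (CForm.ofQuad (qOdd m F)) m (Nat.card F)) ∧
  Par (CForm.ofQuad (qPlus m F)) m 1 ∧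
  ∀ a b : F, (∀ z₁ z₂ : F, z₁ ^ 2 + a * z₁ * z₂ + b * z₂ ^ 2 = 0 → z₁ = 0 ∧ z₂ = 0) →
    Par (CForm.ofQuad (qMinus m F a b)) m (Nat.card F ^ 2)
/-- rank two -/
def R1 : Prop := All fun {F} _ _ _ {V} _ _ _ C => ∀ (w t : ℕ) (W : Submodule F V), Par C w t →
  C.TS W → (finrank F W < w → Nonempty (XW C W)) ∧ (0 < t → finrank F W + 1 = w →
    (Ta C W fun g => fx C W g - 1) ∧ fx C W 1 = t + 1)
/-- rank three -/
def R3 : Prop := All fun {F} _ _ _ {V} _ _ _ C => ∀ (w t j : ℕ) (W : Submodule F V), Par C w t →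
  C.TS W → 0 < t → 2 ≤ j → finrank F W + j = w → ∃ (α β : C.isom → ℂ) (f g : ℕ),
    Ta C W α ∧ Ta C W β ∧ Sub C W α ∧ Sub C W β ∧ Rt C W α ∧ Rt C W β ∧ α 1 = f ∧ β 1 = g ∧
    FA (Nat.card F) t j f ∧ GB (Nat.card F) t j g ∧
    ∀ J ≤ St C W, Tr3 C W J → Ir J α ∧ Ir J β
/-- `Ω` has rank three on points -/
def OM : Prop := ∀ (F V : Type) [Field F] [Finite F] [AddCommGroup V] [Module F V] [Finite V]
  (Q : QuadraticForm F V), QNondeg Q → 7 ≤ finrank F V →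
  Tr3 (CForm.ofQuad Q) ⊥ (commutator (orth Q))
def FR2 : Prop := All fun {_} _ _ _ {V} _ _ _ C => C.HasTS 2 →
  ∃ (e₁ e₂ f₁ f₂ : V) (w : C.isom), Fr2 C e₁ e₂ f₁ f₂ w
/-- the Hecke hypotheses for totally singular lines -/
def RG2 : Prop := All fun {F} _ _ _ {V} _ _ _ C => ∀ (e₁ e₂ f₁ f₂ : V) (w : C.isom)
  (W : Submodule F V) (σ : (W ≃ₗ[F] W) → ℂ) (τ : C.isom → ℂ), Fr2 C e₁ e₂ f₁ f₂ w →
  W = Submodule.span F {e₁, e₂} → Cu σ → Sc σ → Ta C W τ → Mid C W τ →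
  RTH (St C W) (QW C W) (psi C W σ τ) w
/-- parametrization of the unipotent radical -/
def QP2 : Prop := All fun {F} _ _ {T} {V} _ _ _ C => ∀ (e₁ e₂ f₁ f₂ : V) (w : C.isom)
  (W : Submodule F V), Fr2 C e₁ e₂ f₁ f₂ w → W = Submodule.span F {e₁, e₂} →
  C.TS W ∧ finrank F W = 2 ∧ Op C W (Submodule.span F {f₁, f₂}) ∧
  (∀ u ∈ QW C W, ∀ u' ∈ QW C W, u.1 f₁ = u'.1 f₁ → u.1 f₂ = u'.1 f₂ → u = u') ∧
  (∀ y₁ y₂, C.N y₁ = 0 → C.N y₂ = 0 → C.B y₁ y₂ = 0 → C.B e₁ y₁ = 1 → C.B e₁ y₂ = 0 →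
    C.B e₂ y₁ = 0 → C.B e₂ y₂ = 1 → ∃ u ∈ QW C W, u.1 f₁ = y₁ ∧ u.1 f₂ = y₂) ∧
  (T = altType F → Nat.card (QW C W) * Nat.card F ^ 5 = Nat.card F ^ (2 * finrank F V)) ∧
  (T = quadType F → Nat.card (QW C W) * Nat.card F ^ 7 = Nat.card F ^ (2 * finrank F V))
/-- the real series of the symplectic group -/
def R2S : Prop := ∀ (F V : Type) [Field F] [Finite F] [AddCommGroup V] [Module F V] [Finite V]
  (C : CForm (altType F) V) (w : ℕ), C.Nondeg → Par C w (Nat.card F) → 2 ≤ w →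
  ∃ (χ : C.isom → ℂ) (d : ℕ), IsIrrCharacter _ χ ∧ χ 1 = (Nat.card F * d : ℕ) ∧
    Dk (Nat.card F) w (Nat.card F) 2 (d * (Nat.card F + 1)) ∧ ∀ z, Ng C z → χ z = χ 1
/-- `O₁₀⁺(2)` -/
def RA : Prop := ∀ (F V : Type) [Field F] [Finite F] [AddCommGroup V] [Module F V] [Finite V]
  (Q : QuadraticForm F V), QNondeg Q → Nat.card F = 2 → finrank F V = 10 →
  Par (CForm.ofQuad Q) 5 1 → ∃ (χ : orth Q → ℂ) (d : ℕ), IsIrrCharacter _ χ ∧ χ 1 = d ∧ 28 ∣ d
/-- `O₈⁻(3)` -/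
def RB : Prop := ∀ (F V : Type) [Field F] [Finite F] [AddCommGroup V] [Module F V] [Finite V]
  (Q : QuadraticForm F V), QNondeg Q → Nat.card F = 3 → finrank F V = 8 →
  Par (CForm.ofQuad Q) 3 9 → ∃ (χ : orth Q → ℂ) (d : ℕ), IsIrrCharacter _ χ ∧ χ 1 = d ∧ 195 ∣ d
/-- `O₈⁻(2)` -/
def RC : Prop := ∀ (F V : Type) [Field F] [Finite F] [AddCommGroup V] [Module F V] [Finite V]
  (Q : QuadraticForm F V), QNondeg Q → Nat.card F = 2 → finrank F V = 8 →
  Par (CForm.ofQuad Q) 3 4 → ∃ (χ : commutator (orth Q) → ℂ) (d : ℕ),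
    IsIrrCharacter _ χ ∧ χ 1 = d ∧ 1190 ∣ d

/-- arithmetic, type C -/
def AS : Prop := ∀ (q m : ℕ) (A : ℕ → Prop), IsPrimePow q → 2 ≤ m → (m = 2 → 3 ≤ q) →
  (3 ≤ m → (m = 3 → 4 ≤ q) → DD A 1 q m q (m - 1) q) → ((m = 2 → 4 ≤ q) → DD A 1 q m q m 1) →
  (∃ d, A (q * d) ∧ Dk q m q 2 (d * (q + 1))) → (∃ f, FA q q m f ∧ A f) →
  Cov A (q ^ (m ^ 2) * ∏ i ∈ range m, (q ^ (2 * (i + 1)) - 1))
/-- arithmetic, type B -/
def AB : Prop := ∀ (q m : ℕ) (A : ℕ → Prop), IsPrimePow q → Odd q → 3 ≤ m →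
  DD A 4 q m q (m - 1) q → DD A 4 q m q m 1 → (∃ g, GB q q m g ∧ A g) →
  Cov A (q ^ (m ^ 2) * ∏ i ∈ range m, (q ^ (2 * (i + 1)) - 1))
/-- arithmetic, type D -/
def AP : Prop := ∀ (q m c : ℕ) (A : ℕ → Prop), IsPrimePow q → (Odd q ∧ c = 4 ∨ Even q ∧ c = 2) →
  4 ≤ m → ((m = 4 → 4 ≤ q) → ∃ g, GB q 1 2 g ∧ DD A c q m 1 (m - 2) g) →
  DD A c q m 1 (m - 1) 1 → DD A c q m 1 m 1 → (∃ f, FA q 1 m f ∧ A f) → (∃ g, GB q 1 m g ∧ A g) →
  (7 ≤ m → ∃ g, GB q 1 3 g ∧ DD A c q m 1 (m - 3) g) →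
  (m = 5 → 3 ≤ q → ∃ f, FA q 1 3 f ∧ DD A c q 5 1 2 f) → (m = 5 → q = 2 → ∃ d, A d ∧ 14 ∣ d) →
  Cov A (q ^ (m * (m - 1)) * (q ^ m - 1) * ∏ i ∈ range (m - 1), (q ^ (2 * (i + 1)) - 1))
/-- arithmetic, type ²D -/
def AM : Prop := ∀ (q m c : ℕ) (A : ℕ → Prop), IsPrimePow q → (Odd q ∧ c = 4 ∨ Even q ∧ c = 2) →
  4 ≤ m → ((m = 4 → 3 ≤ q) → DD A c q (m - 1) (q ^ 2) (m - 2) (q ^ 2)) →
  DD A c q (m - 1) (q ^ 2) (m - 1) 1 → (∃ f, FA q (q ^ 2) (m - 1) f ∧ A f) →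
  (∃ g, GB q (q ^ 2) (m - 1) g ∧ A g) →
  (m = 4 → 4 ≤ q → ∃ f, FA q (q ^ 2) 2 f ∧ DD A c q 3 (q ^ 2) 1 f) →
  (m = 4 → q = 3 → ∃ d, A d ∧ 195 ∣ d) → (m = 4 → q = 2 → ∃ d, A d ∧ 1190 ∣ d) →
  Cov A (q ^ (m * (m - 1)) * (q ^ m + 1) * ∏ i ∈ range (m - 1), (q ^ (2 * (i + 1)) - 1))

end Chunks
end H16.DG
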