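import Cfsg.Agent.H16.DG0
import Cfsg.Agent.H11.OmegaOrder
import Cfsg.Agent.H11.SpSimple
import Cfsg.Agent.S0887
import Cfsg.Prelude.Def_DegreeGraph

/-! S4984: vanishing of Mackey terms, the induced characters, descent to the simple group. -/

set_option autoImplicit false
set_option linter.unusedSectionVars false

open Cfsg Module H12 H5 Finset
open scoped ComplexConjugate Classical

namespace H16.DG

/-- right stabilizer of a function -/
def stab {G : Type} [Group G] (Φ : G → ℂ) : Subgroup G where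
  carrier := {u | ∀ g, Φ (g * u) = Φ g}
  one_mem' g := by rw [mul_one]
  mul_mem' {a b} ha hb g := by rw [← mul_assoc, hb, ha]
  inv_mem' {a} ha g := by rw [← ha, inv_mul_cancel_right]

theorem vt (el : EL) : VT := by
  intro F _ _ T V _ _ _ C hT hC W σ τ ε x hW hσ hτ hε hx h1 h2
  obtain ⟨A, a0, a1, hA⟩ := el F T V C hT hC W (im C x W) hW (ts_im hW) finrank_im
    (fun e => hx (mem_St_im.2 e.symm)) h1 h2
  let Φ : C.isom → ℂ := fun g => if g ∈ St C W ∧ x⁻¹ * g * x ∈ St C W then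
    ε g * τ g * conj (psi C W σ τ (x⁻¹ * g * x)) else 0
  have h3 := van_avg hσ (St C W ⊓ stab Φ) inf_le_left (Φ := Φ) (.inl ⟨A, a0, a1, fun a ha φ hφ => ?_⟩)
    (fun g u hu => hu.2 g) fun g hg => by_contra fun h => hg (if_neg fun h' => h h'.1)
  · rw [← h3]
    refine finsum_congr fun g => ?_
    simp only [Φ, psi]
    split_ifs
    · ring
    · simp
  · obtain ⟨u, u1, u2, u3, u4, u5⟩ := hA a ha φ hφ
    have m1 := u2.mem hW
    have m2 := u3.conj.mem hW
    refine ⟨u, ⟨m1, fun g => ?_⟩, u5⟩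
    have e : x⁻¹ * (g * u) * x = x⁻¹ * g * x * (x⁻¹ * u * x) := by group
    have r : rho C W (x⁻¹ * u * x) = 1 := rho_eq m2 fun y => by
      change y.1 = x.1⁻¹ (u.1 (x.1 y))
      rw [u4 _ (apply_mem_im.2 y.2), inv_apply_apply]
    simp only [Φ, e, (St C W).mul_mem_cancel_right m1, (St C W).mul_mem_cancel_right m2]
    split_ifs with h
    · rw [hε g u u1, hτ.irr.ch.mul_ker m1 (hτ.inv u u2) h.1,
        (ch_psi hσ.irr.isCharacter hτ.irr.ch).mul_ker m2 (by
          rw [psi_one, psi, r, hτ.inv _ u3.conj]) h.2]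
    · rfl

theorem van (el : EL) (mi : MI) : VAN := by
  intro F _ _ T V _ _ _ C hT hC W σ τ x hW hσ hτ hM hx h1
  by_cases h2 : im C x W ≤ C.perp W ∧ W ⊓ im C x W = ⊥
  · rcases hM with hM | hM
    · exact absurd h2.2 (hM _ (ts_im hW) finrank_im h2.1)
    refine mk_mono (ch_psi hσ.irr.isCharacter hτ.irr.ch) (ch_psi hσ.irr.isCharacter hM) ?_
    have := mi F T V C hT hC W σ x hW (fun e => h1 (by rw [e, bot_inf_eq])) hσ h2.1 h2.2
    convert this using 2 <;> funext g <;> simp only [psi, Pi.add_apply] <;> ring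
  · simpa using vt el F T V C hT hC W σ τ (fun _ => 1) x hW hσ hτ (fun _ _ _ => rfl) hx h1 h2

/-- the induced characters are irreducible -/
def HC : Prop := All fun {F} _ _ _ {V} _ _ _ C => ∀ (w t e : ℕ) (W : Submodule F V)
  (σ : (W ≃ₗ[F] W) → ℂ) (τ : C.isom → ℂ), Par C w t → C.TS W → 0 < finrank F W → Cu σ → NR σ →
  Ta C W τ → Mid C W τ → τ 1 = e → ∃ (χ : C.isom → ℂ) (d : ℕ), IsIrrCharacter _ χ ∧
    Dk (Nat.card F) w t (finrank F W) d ∧ χ 1 = (d * e : ℕ) ∧ (Ev σ → ∀ z, Ng C z → χ z = χ 1)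

theorem dk_of {q w t k n : ℕ} (hk : 0 < k)
    (h : n * ∏ i ∈ range k, (q ^ (i + 1) - 1) = Pk q w t k) :
    Dk q w t k (n * ∏ i ∈ Ico 1 k, (q ^ i - 1)) := by
  rw [Dk, ← h, mul_assoc, ← prod_Ico_succ_top hk, prod_Ico_eq_prod_range]
  simp [add_comm]

theorem hc (v : VAN) (a : V3A) (b : V3B) (ix : IX) : HC := by
  intro F _ _ T V _ _ _ C hT hC w t e W σ τ hP hW h0 hσ hN hτ hM he
  refine ⟨ind (St C W) (psi C W σ τ), _, (a F T V C hT hC W σ τ hW hσ.irr hτ).ind fun x hx => ?_,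
    dk_of h0 (ix F T V C hT hC w t W hP hW), ?_, fun hE z hz => ind_central hz.comm hz.mem ?_⟩
  · by_cases h : W ⊓ C.perp (im C x W) = ⊥
    · exact b F T V C hT hC W σ τ x hW hσ.irr hN hτ h
    · exact v F T V C hT hC W σ τ x hW hσ hτ hM hx h
  · rw [ind_one, psi_one, hσ.deg, he]; push_cast; ring
  · rw [psi_one, psi, hτ.neg z hz, hE _ fun y => Subtype.ext ((rho_apply hz.mem y).trans (hz y))]

/-! ### descent -/
section Desc
variable {G : Type} [Group G] [Finite G]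

/-- degrees of the central quotient -/
def Dg (G : Type) [Group G] (d : ℕ) : Prop := d ∈ charDegrees (G ⧸ Subgroup.center G)

theorem dg_of {χ : G → ℂ} (h : IsIrrCharacter G χ) {d : ℕ} (hd : χ 1 = d)
    (hz : ∀ z ∈ Subgroup.center G, χ z = χ 1) : Dg G d := by
  obtain ⟨χ', h1, h2⟩ := h.exists_quotient (Subgroup.center G) fun z h' =>
    h.mem_charKer_iff.2 (hz z h')
  refine ⟨⟨χ', h1⟩, ?_⟩
  change ⌊(χ' ((1 : G) : G ⧸ Subgroup.center G)).re⌋₊ = d
  rw [h2, hd]; simp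

theorem lo_of (N : Subgroup G) [N.Normal] {χ : G → ℂ} (h : IsIrrCharacter G χ) {d : ℕ}
    (hd : χ 1 = d) (hz : ∀ z ∈ Subgroup.center N, χ z.1 = χ 1) : Lo (Dg N) N.index d := by
  have := Fintype.ofFinite G
  have := Fintype.ofFinite N
  have hr : IsCharacter N fun n => χ n := h.isCharacter.comp N.subtype
  obtain ⟨θ, h1, h2⟩ := hr.exists_irr_constituent fun e => h.apply_one_ne_zero (congrFun e 1)
  obtain ⟨e, he⟩ := h1.isCharacter.exists_apply_one
  obtain ⟨h3, h4⟩ := Cfsg.Agent.S0887.result N χ h θ h1 h2 d e hd he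
  refine ⟨e, dg_of h1 he fun z h' => apply_eq_of_mem_charKer
    (hr.charKer_le_of_constituent h1 h2 (hr.mem_charKer_iff.2 (hz z h'))), ?_⟩
  rw [← Nat.div_mul_cancel h3]
  exact mul_dvd_mul_right h4 e

theorem adj_of {H : Type*} [Group H] [Finite H] (e : H ≃* G ⧸ Subgroup.center G) {c n : ℕ}
    (hn : c * Nat.card (G ⧸ Subgroup.center G) = n) (h : Cov (Dg G) n) {r s : ℕ}
    (hr : r ∈ degreePrimes H) (hs : s ∈ degreePrimes H) (hrs : r ≠ s) : (degreeGraph H).Adj r s := by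
  have k : ∀ r ∈ degreePrimes H, r ∣ n := by
    rintro r ⟨-, d, ⟨χ, rfl⟩, h⟩
    rw [← hn, ← Nat.card_congr e.toEquiv]
    obtain ⟨d, hd⟩ := χ.2.isCharacter.exists_apply_one
    have : charDegree (χ : H → ℂ) = d := by simp [charDegree, hd]
    exact (h.trans (this ▸ χ.2.dvd_card hd)).mul_left c
  obtain ⟨d, ⟨χ, rfl⟩, h2⟩ := h r s hr.1 hs.1 hrs (k r hr) (k s hs)
  refine ⟨hrs, hr.1, hs.1, _, ⟨⟨fun g => χ.1 (e g), χ.2.comp_equiv e⟩, rfl⟩, ?_⟩
  simpa [charDegree] using h2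

theorem dg_top {χ : G → ℂ} (h : IsIrrCharacter G χ) {d : ℕ} (hd : χ 1 = d)
    (hz : ∀ z ∈ Subgroup.center (⊤ : Subgroup G), χ z.1 = χ 1) : Dg (⊤ : Subgroup G) d :=
  dg_of (h.comp_equiv Subgroup.topEquiv) hd hz

end Desc

/-! ### the degrees -/
/-- all chunks about the geometry -/
structure Kit : Prop where
  cua : CUA
  cub : CUB
  hc : HC
  r1 : R1
  r3 : R3

def CA (k q : ℕ) : Prop := 3 ≤ k ∨ k = 2 ∧ 3 ≤ q ∨ k = 1 ∧ 4 ≤ q
def CB (k q : ℕ) : Prop := 3 ≤ k ∨ k = 2 ∧ 4 ≤ q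
theorem CB.ca {k q : ℕ} (h : CB k q) : CA k q := by unfold CA; unfold CB at h; omega

section Deg
variable {F : Type} [Field F] [Finite F] {T : FormType F} {V : Type} [AddCommGroup V] [Module F V]
  [Finite V] {C : CForm T V} {N : Subgroup C.isom} {w t : ℕ}

variable (C N w t) in
/-- the setting -/
structure Se : Prop where
  k : Kit
  os : OS T
  nd : C.Nondeg
  par : Par C w t
  nrm : N.Normal
  cen : ∀ z ∈ Subgroup.center N, z.1 = 1 ∨ Ng C z.1
  t0 : 0 < t

variable (N) in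
/-- `-1` is a non-trivial element of `N` -/
def NN : Prop := ∃ z ∈ N, Ng C z ∧ z ≠ 1

theorem Se.lo (h : Se C N w t) {χ : C.isom → ℂ} (hχ : IsIrrCharacter _ χ) {d : ℕ} (hd : χ 1 = d)
    (hz : NN N → ∀ z, Ng C z → χ z = χ 1) : Lo (Dg N) N.index d := by
  have := h.nrm
  refine lo_of N hχ hd fun z h' => ?_
  by_cases h1 : z.1 = 1
  · rw [h1]
  · have h2 := (h.cen z h').resolve_left h1
    exact hz ⟨z.1, z.2, h2, h1⟩ _ h2

theorem Se.dd (h : Se C N w t) {W : Submodule F V} {k e : ℕ} {τ : C.isom → ℂ} (hW : C.TS W)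
    (hk : finrank F W = k) (ha : CA k (Nat.card F)) (hb : NN N → CB k (Nat.card F))
    (hτ : Ta C W τ) (hM : Mid C W τ) (he : τ 1 = e) :
    DD (Dg N) N.index (Nat.card F) w t k e := by
  subst hk
  obtain ⟨σ, h1, h2, h3⟩ : ∃ σ : (W ≃ₗ[F] W) → ℂ, Cu σ ∧ NR σ ∧ (NN N → Ev σ) := by
    by_cases hn : NN N
    · obtain ⟨σ, h1, h2, h3⟩ := h.k.cub F W (hb hn)
      exact ⟨σ, h1, h2, fun _ => h3⟩
    · obtain ⟨σ, h1, h2⟩ := h.k.cua F W ha
      exact ⟨σ, h1, h2, fun h' => absurd h' hn⟩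
  obtain ⟨χ, d, c1, c2, c3, c4⟩ := h.k.hc F T V C h.os h.nd w t e W σ τ h.par hW
    (by unfold CA at ha; omega) h1 h2 hτ hM he
  exact ⟨d, c2, h.lo c1 c3 fun hn => c4 (h3 hn)⟩

theorem Se.dd1 (h : Se C N w t) {k : ℕ} (hk : k ≤ w) (ha : CA k (Nat.card F))
    (hb : NN N → CB k (Nat.card F)) : DD (Dg N) N.index (Nat.card F) w t k 1 := by
  obtain ⟨W, hW, e⟩ := h.par.1.mono hk
  refine h.dd hW e ha hb ta_one ?_ Nat.cast_one.symm
  by_cases h1 : k < w
  · exact .inr (sub_one ((h.k.r1 F T V C h.os h.nd w t W h.par hW).1 (e ▸ h1)))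
  refine .inl fun W' h2 h3 h4 h5 => ?_
  have h6 := (h.par.2 _ (hW.sup h2 h4)).1
  have h7 := Submodule.finrank_sup_add_finrank_inf_eq W W'
  rw [h5, finrank_bot] at h7
  unfold CA at ha
  omega

theorem Se.ddr (h : Se C N w t) {k : ℕ} (hk : k + 1 = w) (ha : CA k (Nat.card F))
    (hb : NN N → CB k (Nat.card F)) : DD (Dg N) N.index (Nat.card F) w t k t := by
  obtain ⟨W, hW, e⟩ := h.par.1.mono (by omega : k ≤ w)
  obtain ⟨h1, h2⟩ := (h.k.r1 F T V C h.os h.nd w t W h.par hW).2 h.t0 (e ▸ hk)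
  refine h.dd hW e ha hb h1 (.inr ?_) (by simp [h2])
  simpa [Sub] using (ta_one (C := C) (W := W)).irr.ch

theorem Se.dd3 (h : Se C N w t) {k j : ℕ} (hj : 2 ≤ j) (hk : k + j = w) (ha : CA k (Nat.card F))
    (hb : NN N → CB k (Nat.card F)) :
    (∃ f, FA (Nat.card F) t j f ∧ DD (Dg N) N.index (Nat.card F) w t k f) ∧
    ∃ g, GB (Nat.card F) t j g ∧ DD (Dg N) N.index (Nat.card F) w t k g := by
  obtain ⟨W, hW, e⟩ := h.par.1.mono (hk ▸ k.le_add_right j)
  obtain ⟨α, β, f, g, a1, b1, a2, b2, -, -, a3, b3, a4, b4, -⟩ :=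
    h.k.r3 F T V C h.os h.nd w t j W h.par hW h.t0 hj (e ▸ hk)
  exact ⟨⟨f, a4, h.dd hW e ha hb a1 (.inr a2) a3⟩, g, b4, h.dd hW e ha hb b1 (.inr b2) b3⟩

theorem St_bot : St C ⊥ = ⊤ := eq_top_iff.2 fun g _ => mem_St_of fun v hv => by
  rw [(Submodule.mem_bot F).1 hv, map_zero]; exact zero_mem _

theorem Se.dd0 (h : Se C N w t) (hw : 2 ≤ w) (h3 : N = ⊤ ∨ Tr3 C ⊥ N) :
    (∃ f, FA (Nat.card F) t w f ∧ Dg N f) ∧ ∃ g, GB (Nat.card F) t w g ∧ Dg N g := by
  obtain ⟨α, β, f, g, a1, b1, -, -, -, -, a3, b3, a4, b4, h4⟩ :=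
    h.k.r3 F T V C h.os h.nd w t w ⊥ h.par CForm.ts_bot h.t0 hw (by simp)
  have h5 : Ir N α ∧ Ir N β := by
    rcases h3 with rfl | h3
    · exact St_bot (C := C) ▸ ⟨a1.irr, b1.irr⟩
    · exact h4 N (St_bot (C := C) ▸ le_top) h3
  have k : ∀ {τ : C.isom → ℂ}, Ta C ⊥ τ → ∀ z ∈ Subgroup.center N, τ z.1 = τ 1 := fun hτ z hz => by
    rcases h.cen z hz with e | e
    · rw [e]
    · exact hτ.neg _ e
  exact ⟨⟨f, a4, dg_of h5.1.out a3 (k a1)⟩, g, b4, dg_of h5.2.out b3 (k b1)⟩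

end Deg

/-! ### assembly -/
section Asm
open H11
variable {F : Type} [Field F] [Finite F]

theorem ppow : IsPrimePow (Nat.card F) := by
  have := Fintype.ofFinite F
  rw [Nat.card_eq_fintype_card]; exact FiniteField.isPrimePow_card F

theorem cov_sp (k : Kit) (par : PAR) (r2 : R2S) (as : AS) {m : ℕ} (hm : 2 ≤ m)
    (h2 : m = 2 → 3 ≤ Nat.card F) : Cov (Dg (⊤ : Subgroup (spForm (Fin m) F).isom))
      (Nat.card F ^ (m ^ 2) * ∏ i ∈ range m, (Nat.card F ^ (2 * (i + 1)) - 1)) := by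
  have : Nonempty (Fin m) := ⟨⟨0, by omega⟩⟩
  have cen : ∀ z ∈ Subgroup.center (⊤ : Subgroup (spForm (Fin m) F).isom),
      z.1 = 1 ∨ Ng _ z.1 := fun z hz =>
    ((alt_mem_center_iff spForm_nondeg _).1 ((mem_center_equiv Subgroup.topEquiv z).2 hz)).imp_left
      fun e => Subtype.ext (LinearEquiv.ext e)
  have h : Se (spForm (Fin m) F) ⊤ m (Nat.card F) :=
    ⟨k, .inl rfl, spForm_nondeg, (par F m).1, inferInstance, cen, Nat.card_pos⟩
  refine as _ m _ ppow hm h2 (fun a b => ?_) (fun a => ?_) ?_ (h.dd0 hm (.inl rfl)).1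
  · have : CB (m - 1) (Nat.card F) := by unfold CB; omega
    simpa using h.ddr (by omega) this.ca fun _ => this
  · have : CB m (Nat.card F) := by unfold CB; omega
    simpa using h.dd1 le_rfl this.ca fun _ => this
  · obtain ⟨χ, d, c1, c2, c3, c4⟩ := r2 F _ _ m h.nd h.par hm
    refine ⟨d, dg_top c1 c2 fun z hz => ?_, c3⟩
    rcases cen z hz with e | e
    · rw [e]
    · exact c4 _ e

variable {V : Type} [AddCommGroup V] [Module F V] [Finite V] {Q : QuadraticForm F V} {w t : ℕ}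

theorem notExc (h7 : 7 ≤ finrank F V) : NotExc F V := by
  have := Fintype.ofFinite F
  exact notExc_of_card rfl (.inr (by omega))

theorem se_orth (k : Kit) (hQ : QNondeg Q) (h7 : 7 ≤ finrank F V) (hP : Par (CForm.ofQuad Q) w t)
    (t0 : 0 < t) : Se (CForm.ofQuad Q) (commutator (orth Q)) w t := by
  refine ⟨k, .inr rfl, hQ, hP, inferInstance, fun z hz => ?_, t0⟩
  have : Nontrivial V := finrank_pos_iff.1 (by omega : 0 < finrank F V)
  obtain ⟨v, -, hv⟩ := exists_nonsingular ((CForm.nondegOn_top _).2 hQ) top_ne_bot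
  obtain ⟨e, he0, he⟩ := exists_singular Q (by omega)
  obtain ⟨a, ha⟩ := exists_scalar_of_mem_center_eich hQ (by omega) he0 he
    (eichGroup_le_commutator hQ (notExc h7)) z hz
  rcases scalar_sq_of_orth ha hv with rfl | rfl
  · exact .inl (orth_ext fun x => by simp [ha])
  · exact .inr fun x => by simpa using ha x

theorem nn_orth (h : NN (C := CForm.ofQuad Q) (commutator (orth Q))) :
    Odd (Nat.card F) ∧ H11.negOne Q ∈ commutator (orth Q) := by
  have := Fintype.ofFinite F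
  obtain ⟨z, h1, h2, h3⟩ := h
  refine ⟨?_, (show z = H11.negOne Q from orth_ext h2) ▸ h1⟩
  rw [Nat.card_eq_fintype_card, odd_card_iff]
  refine fun h4 => h3 (orth_ext fun x => (h2 x).trans ?_)
  change -x = x
  rw [neg_eq_iff_add_eq_zero, ← two_smul F, h4, zero_smul]

theorem idx_orth (hQ : QNondeg Q) (h7 : 7 ≤ finrank F V) :
    Odd (Nat.card F) ∧ (commutator (orth Q)).index = 4 ∨
      Even (Nat.card F) ∧ (commutator (orth Q)).index = 2 := by
  have := Fintype.ofFinite F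
  rw [Nat.card_eq_fintype_card]
  by_cases h2 : (2 : F) = 0
  · exact .inr ⟨even_card_of_two_eq_zero h2, index_commutator_even hQ (notExc h7) h2 (by omega)⟩
  · exact .inl ⟨odd_card_iff.2 h2, index_commutator_odd hQ h2 (by omega)⟩

theorem cov_odd (k : Kit) (par : PAR) (om : OM) (ab : AB) {m : ℕ} (hm : 3 ≤ m)
    (ho : Odd (Nat.card F)) : Cov (Dg (commutator (orth (qOdd m F))))
      (Nat.card F ^ (m ^ 2) * ∏ i ∈ range m, (Nat.card F ^ (2 * (i + 1)) - 1)) := by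
  have := Fintype.ofFinite F
  have h2 : (2 : F) ≠ 0 := odd_card_iff.1 (Nat.card_eq_fintype_card (α := F) ▸ ho)
  have hd : finrank F (Unit ⊕ (Fin m ⊕ Fin m) → F) = 2 * m + 1 := by simp; omega
  have hQ : QNondeg (qOdd m F) := qOdd_nondeg h2 m
  have h := se_orth k hQ (by omega) ((par F m).2.1 h2) Nat.card_pos
  have hn : ¬ NN (C := CForm.ofQuad (qOdd m F)) (commutator (orth (qOdd m F))) := fun h =>
    negOne_not_mem_of_odd h2 (hd ▸ odd_two_mul_add_one m) (nn_orth h).2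
  have hq := (ppow (F := F)).two_le
  have hi := index_commutator_odd hQ h2 (by omega)
  refine ab _ m _ ppow ho hm ?_ ?_ (h.dd0 (by omega) (.inr (om F _ _ hQ (by omega)))).2
  · exact hi ▸ h.ddr (by omega) (by unfold CA; rw [Nat.odd_iff] at ho; omega) fun a => absurd a hn
  · exact hi ▸ h.dd1 le_rfl (.inl hm) fun a => absurd a hn

theorem cov_plus (k : Kit) (par : PAR) (om : OM) (ra : RA) (ap : AP) {m : ℕ} (hm : 4 ≤ m) :
    Cov (Dg (commutator (orth (qPlus m F)))) (Nat.card F ^ (m * (m - 1)) * (Nat.card F ^ m - 1) *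
      ∏ i ∈ range (m - 1), (Nat.card F ^ (2 * (i + 1)) - 1)) := by
  have := Fintype.ofFinite F
  have hd : finrank F (Fin m ⊕ Fin m → F) = 2 * m := by simp; omega
  have hQ : QNondeg (qPlus m F) := qPlus_nondeg m
  have h := se_orth k hQ (by omega) (par F m).2.2.1 one_pos
  have hn : NN (C := CForm.ofQuad (qPlus m F)) (commutator (orth (qPlus m F))) →
      Nat.card F ^ m % 4 = 1 := fun h => (Cfsg.Agent.S0790.result Nat.card_eq_fintype_card.symm
    (nn_orth h).1 m (by omega)).1 ((negOne_mem_iff _ (coe_qPlus m)).1 (nn_orth h).2)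
  have h0 := h.dd0 (by omega) (.inr (om F _ _ hQ (by omega)))
  have hi := idx_orth hQ (by omega)
  refine ap _ m _ _ ppow hi hm (fun a => ?_) ?_ ?_ h0.1 h0.2 (fun a => ?_) ?_ ?_
  · have : CB (m - 2) (Nat.card F) := by unfold CB; omega
    exact (h.dd3 le_rfl (by omega) this.ca fun _ => this).2
  · exact h.dd1 (by omega) (.inl (by omega)) fun _ => .inl (by omega)
  · exact h.dd1 le_rfl (.inl (by omega)) fun _ => .inl (by omega)
  · exact (h.dd3 (by omega) (by omega) (.inl (by omega)) fun _ => .inl (by omega)).2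
  · rintro rfl a
    refine (h.dd3 (by omega) rfl (.inr (.inl ⟨rfl, a⟩)) fun b => .inr ⟨rfl, ?_⟩).1
    by_contra c
    have := hn b
    rw [show Nat.card F = 3 by omega] at this
    norm_num at this
  · rintro rfl a
    obtain ⟨χ, d, c1, c2, c3⟩ := ra F _ _ hQ a hd h.par
    obtain ⟨d', c4, c5⟩ := h.lo c1 c2 fun b => absurd (nn_orth b).1 (by rw [a]; decide)
    rw [(hi.resolve_left fun b => absurd b.1 (by rw [a]; decide)).2] at c5
    exact ⟨d', c4, Nat.dvd_of_mul_dvd_mul_left two_pos (c3.trans c5)⟩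

theorem cov_minus (k : Kit) (par : PAR) (om : OM) (rb : RB) (rc : RC) (am : AM) {m : ℕ}
    (hm : 4 ≤ m) {a b : F} (hab : ∀ z₁ z₂ : F, z₁ ^ 2 + a * z₁ * z₂ + b * z₂ ^ 2 = 0 →
      z₁ = 0 ∧ z₂ = 0) : Cov (Dg (commutator (orth (qMinus (m - 1) F a b))))
      (Nat.card F ^ (m * (m - 1)) * (Nat.card F ^ m + 1) *
        ∏ i ∈ range (m - 1), (Nat.card F ^ (2 * (i + 1)) - 1)) := by
  have := Fintype.ofFinite F
  have hd : finrank F ((Fin (m - 1) ⊕ Fin (m - 1)) ⊕ Fin 2 → F) = 2 * m := by simp; omega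
  have hQ : QNondeg (qMinus (m - 1) F a b) := qMinus_nondeg _ (disc_ne_zero_of_aniso hab)
  have h := se_orth k hQ (by omega) ((par F (m - 1)).2.2.2 a b hab) (pow_pos Nat.card_pos 2)
  have hn : NN (C := CForm.ofQuad (qMinus (m - 1) F a b))
      (commutator (orth (qMinus (m - 1) F a b))) → m ≠ 4 := fun h e => by
    have := (Cfsg.Agent.S0791.result Nat.card_eq_fintype_card.symm
      (nn_orth h).1 m (by omega) a b hab).1 ((negOne_mem_iff _ (coe_qMinus _ a b)).1 (nn_orth h).2)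
    rw [Cfsg.Agent.S0790.pow_mod_four (nn_orth h).1, if_neg fun c => by
      rw [e] at c; exact absurd c.2 (by decide)] at this
    omega
  have h0 := h.dd0 (by omega) (.inr (om F _ _ hQ (by omega)))
  have hi := idx_orth hQ (by omega)
  refine am _ m _ _ ppow hi hm (fun c => ?_) ?_ h0.1 h0.2 ?_ ?_ ?_
  · exact h.ddr (by omega) (by unfold CA; omega) fun c => .inl (by have := hn c; omega)
  · exact h.dd1 le_rfl (.inl (by omega)) fun _ => .inl (by omega)
  · rintro rfl c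
    exact (h.dd3 le_rfl rfl (.inr (.inr ⟨rfl, c⟩)) fun c => absurd rfl (hn c)).1
  · rintro rfl c
    obtain ⟨χ, d, c1, c2, c3⟩ := rb F _ _ hQ c hd (by have := h.par; rw [c] at this; exact this)
    obtain ⟨d', c4, c5⟩ := h.lo c1 c2 fun c => absurd rfl (hn c)
    rw [(hi.resolve_right fun b => absurd b.1 (by rw [c]; decide)).2] at c5
    exact ⟨d', c4, (by norm_num : Nat.Coprime 195 4).dvd_of_dvd_mul_left (c3.trans c5)⟩
  · rintro rfl c
    obtain ⟨χ, d, c1, c2, c3⟩ := rc F _ _ hQ c hd (by have := h.par; rw [c] at this; exact this)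
    refine ⟨d, dg_of c1 c2 fun z hz => ?_, c3⟩
    by_cases e : z.1 = 1
    · rw [show z = 1 from Subtype.ext e]
    · exact absurd rfl (hn ⟨z.1, z.2, (h.cen z hz).resolve_left e, e⟩)

theorem final (k : Kit) (par : PAR) (om : OM) (r2 : R2S) (ra : RA) (rb : RB) (rc : RC) (as : AS)
    (ab : AB) (ap : AP) (am : AM) {G : Type*} [Group G] [Finite G]
    (h : IsPSp G ∨ IsPOmegaOdd G ∨ IsPOmegaPlus G ∨ IsPOmegaMinus G) (r s : ℕ)
    (hr : r ∈ degreePrimes G) (hs : s ∈ degreePrimes G) (hrs : r ≠ s) : (degreeGraph G).Adj r s := by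
  rcases h with ⟨F, _, _, m, h1, h2, ⟨e⟩⟩ | ⟨F, _, _, m, h1, h2, ⟨e⟩⟩ | ⟨F, _, _, m, h1, ⟨e⟩⟩ |
    ⟨F, _, _, m, a, b, h1, h2, ⟨e⟩⟩
  · have e' := quotCenterCongr ((spEquivIsom (ι := Fin m) (F := F)).trans Subgroup.topEquiv.symm)
    refine adj_of (e.trans e') ?_ (cov_sp k par r2 as h1 (by simpa using h2)) hr hs hrs
      (c := Nat.gcd 2 (Fintype.card F - 1))
    rw [← Nat.card_congr e'.toEquiv, Nat.card_eq_fintype_card (α := F)]
    exact card_psp (by omega)
  · have e' := pomegaEquiv _ (coe_qOdd (F := F) m)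
    refine adj_of (e.trans e') ?_ (cov_odd k par om ab h1 (by simpa using h2)) hr hs hrs (c := 2)
    rw [← Nat.card_congr e'.toEquiv, Nat.card_eq_fintype_card (α := F)]
    exact card_pomegaOdd (odd_card_iff.1 h2) (by omega)
  · have e' := pomegaEquiv _ (coe_qPlus (F := F) m)
    refine adj_of (e.trans e') ?_ (cov_plus k par om ra ap h1) hr hs hrs
      (c := Nat.gcd 4 (Fintype.card F ^ m - 1))
    rw [← Nat.card_congr e'.toEquiv, Nat.card_eq_fintype_card (α := F)]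
    obtain ⟨m, rfl⟩ : ∃ n, m = n + 1 := ⟨m - 1, by omega⟩
    exact card_pomegaPlus (by omega) (.inr (by omega))
  · have e' := pomegaEquiv _ (coe_qMinus (F := F) (m - 1) a b)
    refine adj_of (e.trans e') ?_ (cov_minus k par om rb rc am h1 h2) hr hs hrs
      (c := Nat.gcd 4 (Fintype.card F ^ m + 1))
    rw [← Nat.card_congr e'.toEquiv, Nat.card_eq_fintype_card (α := F)]
    obtain ⟨m, rfl⟩ : ∃ n, m = n + 1 := ⟨m - 1, by omega⟩
    exact card_pomegaMinus (by omega) (.inr (by omega)) h2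

end Asm

end H16.DG
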