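import Cfsg.Agent.H16.DG0
import Cfsg.Agent.H6.Degree
import Mathlib.LinearAlgebra.Matrix.PosDef

/-! S4984: the rank one Hecke lemma. -/

set_option autoImplicit false
set_option linter.unusedSectionVars false

open Cfsg Module H12 H5 Finset Matrix
open scoped ComplexConjugate Classical ComplexOrder

namespace H16.DG

section
variable {G : Type} [Group G] [Fintype G]

/-- the two-sided regular representation -/
noncomputable def RR (G : Type) [Group G] [Fintype G] : G × G →* Matrix G G ℂ where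
  toFun a := Matrix.of fun x y => if x = a.1 * y * a.2⁻¹ then 1 else 0
  map_one' := by ext x y; simp [one_apply]
  map_mul' a b := by ext x y; simp [Matrix.mul_apply, mul_assoc]
/-- left translation -/
noncomputable def oo : G →* Matrix G G ℂ := (RR G).comp (MonoidHom.inl G G)
/-- right translation -/
noncomputable def rr : G →* Matrix G G ℂ := (RR G).comp (MonoidHom.inr G G)
/-- convolution -/
def cv (f : G → ℂ) : Matrix G G ℂ := Matrix.of fun x y => f (x * y⁻¹)

theorem oo_apply (a x y : G) : oo a x y = if x = a * y then 1 else 0 := by simp [oo, RR]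
theorem rr_apply (a x y : G) : rr a x y = if x = y * a⁻¹ then 1 else 0 := by simp [rr, RR]
theorem rr_oo (g a : G) : Commute (rr g) (oo a) := by
  change RR G _ * RR G _ = RR G _ * RR G _
  rw [← map_mul, ← map_mul]; simp
theorem oo_cv (a : G) (f : G → ℂ) : oo a * cv f = cv fun h => f (a⁻¹ * h) := by
  ext x y; simp [Matrix.mul_apply, oo_apply, cv, ← inv_mul_eq_iff_eq_mul, mul_assoc]
theorem cv_oo (a : G) (f : G → ℂ) : cv f * oo a = cv fun h => f (h * a⁻¹) := by
  ext x y; simp [Matrix.mul_apply, oo_apply, cv, mul_assoc]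
theorem tr_cv (f : G → ℂ) : (cv f).trace = Nat.card G * f 1 := by simp [trace, cv]
theorem tr_rr (g : G) (f : G → ℂ) : (rr g * cv f).trace = ∑ x, f (x * g * x⁻¹) := by
  simp [trace, Matrix.mul_apply, rr_apply, cv, eq_mul_inv_iff_mul_eq]
theorem oo_star (a : G) : (oo a)ᴴ = oo a⁻¹ := by
  ext x y; simp [oo_apply, eq_inv_mul_iff_mul_eq, eq_comm]

variable (P : Subgroup G) [Fintype P] (ψ : G → ℂ)
/-- the block idempotent -/
noncomputable def ee : Matrix G G ℂ := cv fun h => if h ∈ P then ψ 1 / Nat.card P * ψ h else 0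

variable {P ψ} {Q : Subgroup G} {w : G}
theorem ee_sum : ee P ψ = ∑ p : P, (ψ 1 / Nat.card P * ψ p) • oo p.1 := by
  ext x y
  simp only [ee, cv, Matrix.sum_apply, Matrix.smul_apply, of_apply, oo_apply, ← mul_inv_eq_iff_eq_mul, smul_eq_mul]
  split_ifs with h
  · rw [sum_eq_single ⟨_, h⟩ (fun b _ hb => by rw [if_neg fun e => hb (Subtype.ext e.symm), mul_zero])
      (by simp)]
    simp
  · exact (sum_eq_zero fun p _ => by rw [if_neg fun e : x * y⁻¹ = p => h (e ▸ p.2), mul_zero]).symm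

theorem ee_comm (h : Ch P ψ) {p : G} (hp : p ∈ P) : oo p * ee P ψ = ee P ψ * oo p := by
  rw [ee, oo_cv, cv_oo]
  congr 1; funext x
  simp only [P.mul_mem_cancel_left (inv_mem hp), P.mul_mem_cancel_right (inv_mem hp)]
  split_ifs with hx
  · rw [h.comm (inv_mem hp) hx]
  · rfl

theorem ee_ker (h : Ch P ψ) {k : G} (hk : k ∈ P) (h1 : ψ k = ψ 1) : oo k * ee P ψ = ee P ψ := by
  rw [ee, oo_cv]
  congr 1; funext x
  simp only [P.mul_mem_cancel_left (inv_mem hk)]
  split_ifs with hx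
  · rw [← h.ker_mul hk h1 (mul_mem (inv_mem hk) hx), mul_inv_cancel_left]
  · rfl

theorem ee_avg (h : Ir P ψ) {a : G} (ha : a ∈ P) : ∑ p : P, oo p.1 * oo a * oo p.1⁻¹ * ee P ψ =
    (Nat.card P * conj (ψ a) / ψ 1) • ee P ψ := by
  ext x y
  simp only [← map_mul, ee, oo_cv]
  simp only [Matrix.sum_apply, Matrix.smul_apply, of_apply, cv, smul_eq_mul]
  have m : ∀ p : P, (p.1 * a * p.1⁻¹)⁻¹ ∈ P := fun p =>
    inv_mem (mul_mem (mul_mem p.2 ha) (inv_mem p.2))
  simp only [P.mul_mem_cancel_left (m _)]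
  split_ifs with hx
  · have := H6.sum_conj_mul h.out ⟨_, inv_mem ha⟩ ⟨_, hx⟩
    simp only [Subgroup.coe_mul, Subgroup.coe_inv, Subgroup.coe_one, h.ch.inv ha] at this
    simp only [_root_.mul_inv_rev, inv_inv, ← mul_assoc, ← mul_sum] at this ⊢
    rw [this]; ring
  · simp

theorem ee_idem (h : Ir P ψ) : ee P ψ * ee P ψ = ee P ψ := by
  have hP := card_ne_zero_complex P
  have h0 : ψ 1 ≠ 0 := h.out.apply_one_ne_zero
  have h1 := card_mul_classInner (fun g : P => ψ g) fun g => ψ g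
  rw [h.out.classInner_self, mul_one] at h1
  refine smul_right_injective _ hP ?_
  calc (Nat.card P : ℂ) • (ee P ψ * ee P ψ)
      = ∑ p : P, oo p.1 * ee P ψ * oo p.1⁻¹ * ee P ψ := by
        rw [sum_congr rfl fun (p : P) _ => by
          rw [ee_comm h.ch p.2, mul_assoc (ee P ψ), ← map_mul, mul_inv_cancel, map_one, mul_one]]
        simp [← Nat.cast_smul_eq_nsmul ℂ]
    _ = ∑ a : P, (ψ 1 / Nat.card P * ψ a) • ∑ p : P, oo p.1 * oo a.1 * oo p.1⁻¹ * ee P ψ := by
        conv_lhs => enter [2, p, 1, 1, 2]; rw [ee_sum]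
        simp only [mul_sum, sum_mul, mul_smul_comm, smul_mul_assoc, smul_sum]
        exact sum_comm
    _ = _ := by
        simp only [fun a : P => ee_avg h a.2, smul_smul, ← sum_smul]
        congr 1
        conv_rhs => rw [h1]
        exact sum_congr rfl fun a _ => by field_simp

theorem ee_star (h : Ch P ψ) : (ee P ψ)ᴴ = ee P ψ := by
  ext x y
  have e : y * x⁻¹ = (x * y⁻¹)⁻¹ := by group
  simp only [ee, cv, conjTranspose_apply, of_apply, e, inv_mem_iff]
  split_ifs with hx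
  · have := h.inv (one_mem P)
    rw [inv_one] at this
    rw [h.inv hx]; simp [← this]
  · simp

theorem ee_tr : (ee P ψ).trace = P.index * ψ 1 ^ 2 := by
  have hP := card_ne_zero_complex P
  rw [ee, tr_cv, if_pos (one_mem P), ← P.index_mul_card]; push_cast; field_simp

theorem ee_mk (h : Ch P ψ) (x : G) : (ee P ψ * (oo x * ee P ψ * oo x⁻¹)).trace =
    Nat.card G * (ψ 1 / Nat.card P) ^ 2 * mk P ψ ψ x := by
  conv_lhs => enter [1, 1]; rw [ee_sum]
  rw [ee, oo_cv, cv_oo, mk_eq, sum_mul, trace_sum]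
  simp only [smul_mul_assoc, oo_cv, trace_smul, tr_cv]
  rw [← sum_extendByZero P, mul_sum]
  refine sum_congr rfl fun g _ => ?_
  have e : x⁻¹ * (g⁻¹ * 1 * x⁻¹⁻¹) = (x⁻¹ * g * x)⁻¹ := by group
  rw [extendByZero_apply]
  by_cases h1 : g ∈ P
  · simp only [h1, dif_pos, true_and, e, inv_mem_iff]
    split_ifs with h2
    · rw [h.inv h2, smul_eq_mul]; ring
    · simp
  · simp [h1]

theorem ee_van (h : Ir P ψ) {x : G} (h0 : mk P ψ ψ x = 0) : ee P ψ * oo x * ee P ψ = 0 := by
  rw [← trace_mul_conjTranspose_self_eq_zero_iff, conjTranspose_mul, conjTranspose_mul, ee_star h.ch,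
    oo_star, ← mul_assoc, ← mul_assoc, trace_mul_comm, mul_assoc (_ * oo x), ee_idem h,
    ← mul_assoc, ← mul_assoc, ← mul_assoc, ee_idem h, mul_assoc, mul_assoc, ← mul_assoc (oo x),
    ee_mk h.ch, h0, mul_zero]

theorem ee_rr (g : G) : Commute (rr g) (ee P ψ) := by
  rw [ee_sum]; exact Commute.sum_right _ _ _ fun p _ => (rr_oo g _).smul_right _

variable (P) in
/-- the characters of `G × P` -/
noncomputable def Th (b : Matrix G G ℂ) (a : G × P) : ℂ := (rr a.1 * oo a.2.1 * b).trace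

theorem th_ee (h : Ir P ψ) (a : G × P) : Th P (ee P ψ) a = ind P ψ a.1 * conj (ψ a.2) := by
  have hP := card_ne_zero_complex P
  have h0 : ψ 1 ≠ 0 := h.out.apply_one_ne_zero
  refine mul_left_cancel₀ hP ?_
  calc (Nat.card P : ℂ) * Th P (ee P ψ) a
      = ∑ p : P, (rr a.1 * (oo p.1 * oo a.2.1 * oo p.1⁻¹ * ee P ψ)).trace := by
        rw [sum_congr rfl fun (p : P) _ => (show _ = Th P (ee P ψ) a by
          rw [mul_assoc, ee_comm h.ch (inv_mem p.2), ← mul_assoc, ← mul_assoc, trace_mul_comm,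
            ← mul_assoc, ← mul_assoc, ← mul_assoc, ← (rr_oo _ _).eq, mul_assoc (rr _),
            ← map_mul, inv_mul_cancel, map_one, mul_one, Th])]
        simp
    _ = _ := by
        rw [← trace_sum, ← mul_sum, ee_avg h a.2.2, mul_smul_comm, trace_smul, ee, tr_rr, ind_eq,
          indFun_apply', smul_eq_mul, mul_sum, mul_sum, sum_mul, mul_sum]
        refine sum_congr rfl fun x _ => ?_
        rw [extendByZero_apply]
        split_ifs
        · field_simp
        · simp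

theorem th_ch {b : Matrix G G ℂ} (h1 : b * b = b) (h2 : ∀ g, Commute (rr g) b)
    (h3 : ∀ p ∈ P, Commute (oo p) b) : IsCharacter (G × P) (Th P b) := by
  let ρ : Representation ℂ (G × P) (G → ℂ) := (toLinAlgEquiv' : _ ≃ₐ[ℂ] _).toRingEquiv.toMonoidHom.comp
    (rr.noncommCoprod (oo.comp P.subtype) fun g p => rr_oo g p)
  have e : ∀ a, ρ a = toLin' (rr a.1 * oo a.2.1) := fun _ => rfl
  have := isCharacter_trace_comp_idempotent ρ (toLin' b) (by rw [← toLin'_mul, h1]) fun a => by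
    rw [e, ← toLin'_mul, ← toLin'_mul, ((h2 _).mul_left (h3 _ a.2.2)).eq]
  simp only [e, ← toLin'_mul, trace_toLin'_eq] at this
  exact this

variable [Fintype Q]
variable (P ψ Q w) in
/-- the Hecke operator -/
noncomputable def XX : Matrix G G ℂ := ∑ u : Q, oo u.1 * oo w * ee P ψ

theorem xx_rr (g : G) : Commute (rr g) (XX P ψ Q w) :=
  Commute.sum_right _ _ _ fun _ _ => ((rr_oo g _).mul_right (rr_oo g _)).mul_right (ee_rr g)

namespace RTH
variable (h : RTH P Q ψ w)
include h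

theorem xe : XX P ψ Q w * ee P ψ = XX P ψ Q w := by
  simp only [XX, sum_mul, mul_assoc, ee_idem h.irr]

theorem xcomm {p : G} (hp : p ∈ P) : Commute (oo p) (XX P ψ Q w) := by
  obtain ⟨u, hu, h1⟩ := h.dec p hp
  have hl : u⁻¹ * p ∈ P := mul_mem (inv_mem (h.le hu)) hp
  generalize hl' : u⁻¹ * p = l at *
  rw [show p = u * l by rw [← hl']; group, map_mul]
  refine Commute.mul_left (Eq.trans (b := XX P ψ Q w) ?_ ?_) ?_
  · rw [XX, mul_sum]
    conv_rhs => rw [← Equiv.sum_comp (Equiv.mulLeft (⟨u, hu⟩ : Q))]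
    exact sum_congr rfl fun v _ => by simp [mul_assoc]
  · simp only [XX, sum_mul, mul_assoc, ← ee_comm h.irr.ch (h.le hu),
      ee_ker h.irr.ch (h.le hu) (h.ker u hu)]
  · let f : Q ≃ Q := ⟨fun v => ⟨_, h.nrm l hl v v.2⟩, fun v => ⟨_, h.nrm _ (inv_mem hl) v v.2⟩,
      fun v => Subtype.ext (by simp [mul_assoc]), fun v => Subtype.ext (by simp [mul_assoc])⟩
    change _ * _ = _ * _
    rw [XX, mul_sum, sum_mul]
    conv_rhs => rw [← Equiv.sum_comp f]
    refine sum_congr rfl fun v _ => ?_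
    have k := ee_ker h.irr.ch (mul_mem h1 (inv_mem hl)) (h.cen l hl h1)
    calc _ = oo (l * v * w) * ee P ψ := by simp [mul_assoc]
      _ = oo (l * v * l⁻¹ * w) * (oo (w⁻¹ * l * w * l⁻¹) * (oo l * ee P ψ)) := by
          simp only [← mul_assoc, ← map_mul]; congr 2; group
      _ = _ := by
          rw [ee_comm h.irr.ch hl, ← mul_assoc (oo _) (ee P ψ), k]; simp [f, mul_assoc]

theorem ex : ee P ψ * XX P ψ Q w = XX P ψ Q w := by
  conv_rhs => rw [← h.xe]
  rw [ee_sum]
  exact (Commute.sum_left _ _ _ fun p _ => (h.xcomm p.2).smul_left _).eq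

theorem eu {u : G} (hu : u ∈ Q) : ee P ψ * oo u = ee P ψ := by
  rw [← ee_comm h.irr.ch (h.le hu), ee_ker h.irr.ch (h.le hu) (h.ker u hu)]

theorem xw : XX P ψ Q w = (Nat.card Q : ℂ) • (ee P ψ * oo w * ee P ψ) := by
  rw [← h.ex, XX, mul_sum, sum_congr rfl fun (u : Q) _ => by
    rw [← mul_assoc, ← mul_assoc, h.eu u.2]]
  simp [← Nat.cast_smul_eq_nsmul ℂ]

theorem ew : ee P ψ * oo (w * w) = ee P ψ := by
  rw [← ee_comm h.irr.ch h.sqP, ee_ker h.irr.ch h.sqP h.sq]

theorem xstar : (XX P ψ Q w)ᴴ = XX P ψ Q w := by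
  rw [h.xw, conjTranspose_smul, conjTranspose_mul, conjTranspose_mul, ee_star h.irr.ch, oo_star,
    ← mul_assoc]
  conv_lhs => enter [2, 1, 1]; rw [← h.ew]
  simp [mul_assoc, ← map_mul]

theorem xtr : (XX P ψ Q w).trace = 0 := by
  rw [h.xw, trace_smul, trace_mul_comm, ← mul_assoc, ee_idem h.irr, ee, cv_oo, tr_cv, one_mul,
    if_neg fun e => h.nw (inv_mem_iff.1 e)]
  simp

theorem xsq : XX P ψ Q w * XX P ψ Q w = (Nat.card Q : ℂ) • ee P ψ +
    (conj (∑ u : Q, cc P ψ w u) / ψ 1) • XX P ψ Q w := by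
  have hP := card_ne_zero_complex P
  have h0 : ψ 1 ≠ 0 := h.irr.out.apply_one_ne_zero
  have av : ∀ Y : Matrix G G ℂ, (∀ p ∈ P, Commute (oo p) Y) →
      ∑ p : P, oo p.1 * Y * oo p.1⁻¹ = (Nat.card P : ℂ) • Y := fun Y hY => by
    rw [sum_congr rfl fun (p : P) _ => by
      rw [(hY _ p.2).eq, mul_assoc, ← map_mul, mul_inv_cancel, map_one, mul_one]]
    simp [← Nat.cast_smul_eq_nsmul ℂ]
  have k : ∀ u : Q, ∑ p : P, oo p.1 * ((Nat.card Q : ℂ) • (ee P ψ * oo (w * u * w) * ee P ψ)) *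
      oo p.1⁻¹ = (Nat.card P : ℂ) • ((if u = 1 then (Nat.card Q : ℂ) • ee P ψ else 0) +
        (conj (cc P ψ w u) / ψ 1) • XX P ψ Q w) := fun u => by
    by_cases h1 : DC P w (w * u * w)
    · obtain ⟨p, hp, p', hp', e⟩ := h1
      have h2 : u ≠ 1 := by
        rintro rfl
        exact h.nw (by
          rw [show w = p⁻¹ * (p * w * p') * p'⁻¹ by group, ← e]
          simpa using mul_mem (mul_mem (inv_mem hp) h.sqP) (inv_mem hp'))
      have e2 : (Nat.card Q : ℂ) • (ee P ψ * oo (p * w * p') * ee P ψ) =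
          oo (p * p') * XX P ψ Q w := by
        rw [map_mul oo p p', mul_assoc (oo p), (h.xcomm hp').eq, h.xw, map_mul, map_mul,
          mul_assoc _ _ (ee P ψ), mul_assoc _ _ (ee P ψ), ee_comm h.irr.ch hp', ← mul_assoc,
          ← mul_assoc, ← mul_assoc, ← ee_comm h.irr.ch hp]
        simp [mul_assoc]
      rw [if_neg h2, zero_add, h.cc_eq hp hp' e, e, e2, smul_smul, ← mul_div_assoc]
      conv_rhs => rw [← h.ex, ← smul_mul_assoc, ← ee_avg h.irr (mul_mem hp hp'), sum_mul]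
      refine sum_congr rfl fun a _ => ?_
      rw [mul_assoc _ (ee P ψ), h.ex, mul_assoc _ (oo _⁻¹), (h.xcomm (inv_mem a.2)).eq]
      simp only [mul_assoc]
    · rw [cc_zero h1, map_zero, zero_div, zero_smul, add_zero]
      split_ifs with h2
      · rw [h2, Subgroup.coe_one, mul_one, h.ew, ee_idem h.irr]
        exact av _ fun p hp => Commute.smul_right (ee_comm h.irr.ch hp) _
      · rw [ee_van h.irr (h.van _ (fun e => h2 (Subtype.ext (h.inf u u.2 ?_))) h1)]
        · simp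
        · rw [show w⁻¹ * u * w = (w * w)⁻¹ * (w * u * w) by group]
          exact mul_mem (inv_mem h.sqP) e
  refine smul_right_injective _ hP ?_
  have e1 : XX P ψ Q w * XX P ψ Q w =
      ∑ u : Q, (Nat.card Q : ℂ) • (ee P ψ * oo (w * u * w) * ee P ψ) := by
    conv_lhs => enter [1]; rw [h.xw]
    rw [smul_mul_assoc, mul_assoc, h.ex, XX, mul_sum, smul_sum]
    simp [mul_assoc]
  simp only
  rw [← av _ fun p hp => (h.xcomm hp).mul_right (h.xcomm hp), e1]
  simp only [mul_sum, sum_mul]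
  rw [sum_comm, sum_congr rfl fun u _ => k u, ← smul_sum, sum_add_distrib, ← sum_smul, ← sum_div,
    ← map_sum]
  simp

theorem mkw : DG.mk P ψ ψ w * Nat.card Q = Nat.card P := by
  have hP := card_ne_zero_complex P
  have hQ := card_ne_zero_complex Q
  have h0 : ψ 1 ≠ 0 := h.irr.out.apply_one_ne_zero
  have hi : (P.index : ℂ) ≠ 0 := Nat.cast_ne_zero.2 P.index_ne_zero_of_finite
  have h1 := congrArg trace h.xsq
  have h2 := ee_mk h.irr.ch w
  rw [trace_add, trace_smul, trace_smul, h.xtr, ee_tr, h.xw, smul_mul_smul_comm, trace_smul,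
    ← mul_assoc, ← mul_assoc, trace_mul_comm, mul_assoc (_ * oo w) (ee P ψ), ee_idem h.irr,
    ← mul_assoc, ← mul_assoc, ← mul_assoc, ee_idem h.irr] at h1
  conv_lhs at h2 => enter [1, 2, 1, 2]; rw [← h.ew]
  rw [mul_assoc (oo w), mul_assoc (ee P ψ), ← map_mul, mul_inv_cancel_right, ← mul_assoc,
    ← mul_assoc] at h2
  rw [h2, ← P.index_mul_card, smul_zero, add_zero] at h1
  simp only [smul_eq_mul, Nat.cast_mul] at h1
  field_simp at h1
  linear_combination h1

theorem norm : classInner (ind P ψ) (ind P ψ) = 2 := by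
  have hP := card_ne_zero_complex P
  have e : ∀ x, DG.mk P ψ ψ x = extendByZero P (fun _ => (Nat.card P : ℂ)) x +
      if DC P w x then DG.mk P ψ ψ w else 0 := fun x => by
    rw [extendByZero_apply]
    by_cases h1 : DC P w x
    · rw [if_pos h1, mk_dc h.irr.ch h.irr.ch h1, dif_neg, zero_add]
      obtain ⟨p, hp, p', hp', rfl⟩ := h1
      rw [P.mul_mem_cancel_right hp', P.mul_mem_cancel_left hp]
      exact h.nw
    · rw [if_neg h1, add_zero]
      split_ifs with hx
      · rw [mk_mem h.irr.ch hx, h.irr.out.classInner_self, mul_one]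
      · exact h.van x hx h1
  have c : #{x | DC P w x} = Nat.card Q * Nat.card P := by
    rw [← Nat.card_prod, Nat.card_eq_fintype_card]
    refine (card_bij (fun a _ => a.1.1 * w * a.2.1) (fun a _ => mem_filter.2 ⟨mem_univ _, _,
      h.le a.1.2, _, a.2.2, rfl⟩) (fun a _ b _ e => ?_) fun x hx => ?_).symm
    · have : b.1.1⁻¹ * a.1.1 = 1 := h.inf _ (mul_mem (inv_mem b.1.2) a.1.2) (by
        rw [show w⁻¹ * (b.1.1⁻¹ * a.1.1) * w = w⁻¹ * b.1.1⁻¹ * (a.1.1 * w * a.2.1) * a.2.1⁻¹ by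
          group, e]
        simpa [mul_assoc] using mul_mem b.2.2 (inv_mem a.2.2))
      rw [inv_mul_eq_one] at this
      rw [this] at e
      exact Prod.ext (Subtype.ext this.symm) (Subtype.ext (mul_left_cancel e))
    · obtain ⟨p, hp, p', hp', rfl⟩ := (mem_filter.1 hx).2
      obtain ⟨u, hu, h1⟩ := h.dec p hp
      exact ⟨(⟨u, hu⟩, ⟨_, mul_mem h1 hp'⟩), mem_univ _, by simp [mul_assoc]⟩
  refine mul_left_cancel₀ (pow_ne_zero 2 hP) ?_
  rw [inner_ind, sum_congr rfl fun x _ => e x, sum_add_distrib, sum_extendByZero, ← sum_filter,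
    sum_const, sum_const, c, card_univ, ← Nat.card_eq_fintype_card]
  simp only [nsmul_eq_mul, Nat.cast_mul]
  linear_combination (Nat.card P : ℂ) * h.mkw

/-- the eigenspaces of the Hecke operator -/
theorem piece {s x y : ℂ} (hs : XX P ψ Q w * XX P ψ Q w = (Nat.card Q : ℂ) • ee P ψ +
    s • XX P ψ Q w) (h1 : x + y = s) (h2 : x * y = -Nat.card Q) (h3 : x ≠ y) :
    IsCharacter _ (Th P ((x - y)⁻¹ • (XX P ψ Q w - y • ee P ψ))) ∧
    Th P ((x - y)⁻¹ • (XX P ψ Q w - y • ee P ψ)) 1 * (x - y) = -y * P.index * ψ 1 ^ 2 ∧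
    IsIntegral ℤ x := by
  have h4 := sub_ne_zero.2 h3
  have h0 : ψ 1 ≠ 0 := h.irr.out.apply_one_ne_zero
  have hi : (P.index : ℂ) ≠ 0 := Nat.cast_ne_zero.2 P.index_ne_zero_of_finite
  have hy : y ≠ 0 := by
    rintro rfl
    exact card_ne_zero_complex Q (by simp at h2)
  generalize hE : XX P ψ Q w - y • ee P ψ = E
  have e1 : ee P ψ * E = E := by rw [← hE, mul_sub, mul_smul_comm, h.ex, ee_idem h.irr]
  have e2 : XX P ψ Q w * E = x • E := by
    rw [← hE, mul_sub, mul_smul_comm, h.xe, hs, ← h1, ← neg_eq_iff_eq_neg.2 h2]; module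
  have e3 : E.trace = -y * P.index * ψ 1 ^ 2 := by
    rw [← hE, trace_sub, trace_smul, h.xtr, ee_tr, smul_eq_mul]; ring
  refine ⟨th_ch ?_ (fun g => .smul_right (hE ▸ (xx_rr g).sub_right ((ee_rr g).smul_right _)) _)
    fun p hp => .smul_right (hE ▸ (h.xcomm hp).sub_right
      (Commute.smul_right (ee_comm h.irr.ch hp) _)) _, ?_, ?_⟩
  · rw [smul_mul_smul_comm, mul_smul]
    congr 1
    conv_lhs => enter [2, 1]; rw [← hE]
    rw [sub_mul, smul_mul_assoc, e1, e2, ← sub_smul, smul_smul, inv_mul_cancel₀ h4, one_smul]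
  · simp only [Th, Prod.fst_one, Prod.snd_one, Subgroup.coe_one, map_one, one_mul, trace_smul, e3,
      smul_eq_mul]
    field_simp
  · refine isIntegral_of_smul_mem_submodule (Submodule.span ℤ (Set.range fun g : G => oo g * E))
      (fun e => ?_) (Submodule.fg_span (Set.finite_range _)) x fun n hn => ?_
    · have : oo (1 : G) * E = 0 := (Submodule.span_eq_bot.1 e) _ ⟨1, rfl⟩
      rw [map_one, one_mul] at this
      rw [this, trace_zero] at e3
      exact absurd e3.symm (by simp [hy, hi, h0])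
    · induction hn using Submodule.span_induction with
      | mem a ha =>
        obtain ⟨g, rfl⟩ := ha
        rw [← mul_smul_comm, ← e2, XX, sum_mul, mul_sum]
        exact Submodule.sum_mem _ fun u _ => Submodule.subset_span ⟨g * u * w, by
          simp [mul_assoc, e1]⟩
      | zero => simp
      | add a b _ _ ha hb => rw [smul_add]; exact add_mem ha hb
      | smul c a _ ha => rw [smul_comm]; exact Submodule.smul_mem _ c ha

end RTH

theorem irr_two {H : Type} [Group H] [Fintype H] {a b : H → ℂ} (ha : IsCharacter H a)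
    (hb : IsCharacter H b) (a0 : a ≠ 0) (b0 : b ≠ 0) (h : classInner (a + b) (a + b) = 2) :
    IsIrrCharacter H a := by
  obtain ⟨i, hi⟩ := ha.exists_classInner_nat ha
  obtain ⟨j, hj⟩ := ha.exists_classInner_nat hb
  obtain ⟨k, hk⟩ := hb.exists_classInner_nat ha
  obtain ⟨l, hl⟩ := hb.exists_classInner_nat hb
  have h1 : i ≠ 0 := fun e => a0 (classInner_self_eq_zero.1 (by simp [hi, e]))
  have h2 : l ≠ 0 := fun e => b0 (classInner_self_eq_zero.1 (by simp [hl, e]))
  rw [classInner_add_left, classInner_add_right, classInner_add_right, hi, hj, hk, hl] at h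
  have : i + j + (k + l) = 2 := by exact_mod_cast h
  exact ha.isIrr_of_classInner_self (by rw [hi, show i = 1 by omega, Nat.cast_one])

theorem irr_fac (h : Ir P ψ) {Θ : G → ℂ} {a b : G × P → ℂ} (ha : IsIrrCharacter _ a)
    (hb : IsCharacter _ b) (e : ∀ x, a x + b x = Θ x.1 * conj (ψ x.2)) :
    ∃ χ, IsIrrCharacter G χ ∧ ∀ g, a (g, 1) = χ g * ψ 1 := by
  obtain ⟨χ, φ, h1, h2, rfl⟩ := ha.exists_eq_prod
  obtain ⟨n, hn, h3⟩ := h1.exists_apply_one
  obtain ⟨m, hm⟩ := (hb.comp (MonoidHom.inr G P)).exists_classInner_nat h2.isCharacter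
  have h4 : (fun p : P => conj (ψ p)) = φ := h.out.star.eq_of_classInner_ne_zero h2 fun h0 => by
    have : χ 1 • φ + (fun p => b (MonoidHom.inr G P p)) = Θ 1 • fun p : P => conj (ψ p) :=
      funext fun p => e (1, p)
    have h5 := congrArg (classInner · φ) this
    simp only [classInner_add_left, classInner_smul_left, h0, hm, h3, h2.classInner_self] at h5
    have : n * 1 + m = 0 := by exact_mod_cast h5.trans (mul_zero _)
    omega
  refine ⟨χ, h1, fun g => ?_⟩
  have := h.ch.inv (one_mem P)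
  rw [inv_one] at this
  simp [← h4, ← this]

end

theorem rt : RT := by
  intro G _ _ P Q ψ w h
  have := Fintype.ofFinite G
  have := Fintype.ofFinite P
  have := Fintype.ofFinite Q
  have hQ := card_ne_zero_complex Q
  have h0 : ψ 1 ≠ 0 := h.irr.out.apply_one_ne_zero
  have hi : (P.index : ℂ) ≠ 0 := Nat.cast_ne_zero.2 P.index_ne_zero_of_finite
  have c1 := h.irr.ch.inv (one_mem P)
  rw [inv_one] at c1
  have hs := h.xsq
  rw [finsum_eq_sum_of_fintype]
  generalize ∑ u : Q, cc P ψ w u = S at hs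
  have hr : conj (conj S / ψ 1) = conj S / ψ 1 := by
    have h1 := congrArg conjTranspose hs
    rw [conjTranspose_mul, h.xstar, hs, conjTranspose_add, conjTranspose_smul, conjTranspose_smul,
      h.xstar, ee_star h.irr.ch, star_natCast, add_right_inj] at h1
    refine (smul_left_injective ℂ (fun e => ?_) h1).symm
    have h2 := congrArg trace hs
    rw [e, mul_zero, smul_zero, add_zero, trace_smul, ee_tr, trace_zero] at h2
    exact absurd h2.symm (by simp [hi, h0])
  obtain ⟨s, e⟩ := Complex.conj_eq_iff_real.1 hr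
  rw [map_div₀, Complex.conj_conj, ← c1, e, div_eq_iff h0] at hr
  rw [e] at hs
  obtain ⟨x, y, h1, h2, h3⟩ : ∃ x y : ℂ, x + y = s ∧ x * y = -Nat.card Q ∧ x ≠ y := by
    have p : (0 : ℝ) < s ^ 2 + 4 * Nat.card Q := by have := card_pos_real Q; positivity
    have q1 := congrArg (fun r : ℝ => (r : ℂ)) (Real.sq_sqrt p.le)
    have q2 : ((√(s ^ 2 + 4 * Nat.card Q) : ℝ) : ℂ) ≠ 0 :=
      Complex.ofReal_ne_zero.2 (Real.sqrt_pos.2 p).ne'
    push_cast at q1
    generalize ((√(s ^ 2 + 4 * Nat.card Q) : ℝ) : ℂ) = δ at *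
    exact ⟨(s + δ) / 2, (s - δ) / 2, by ring, by linear_combination (-1 / 4) * q1,
      fun e => q2 (by linear_combination e)⟩
  obtain ⟨a1, a2, a3⟩ := h.piece hs h1 h2 h3
  obtain ⟨b1, b2, b3⟩ := h.piece hs ((add_comm _ _).trans h1) ((mul_comm _ _).trans h2) h3.symm
  have h4 := sub_ne_zero.2 h3
  have hx : x ≠ 0 := by rintro rfl; exact hQ (by simp at h2)
  have hy : y ≠ 0 := by rintro rfl; exact hQ (by simp at h2)
  have h5 : ∀ z, Th P ((x - y)⁻¹ • (XX P ψ Q w - y • ee P ψ)) z +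
      Th P ((y - x)⁻¹ • (XX P ψ Q w - x • ee P ψ)) z = ind P ψ z.1 * conj (ψ z.2) := fun z => by
    rw [← th_ee h.irr, Th, Th, Th, ← trace_add, ← mul_add]
    congr 2
    rw [← neg_sub x y, inv_neg, neg_smul, ← sub_eq_add_neg, ← smul_sub, sub_sub_sub_cancel_left,
      ← sub_smul, smul_smul, inv_mul_cancel₀ h4, one_smul]
  generalize Th P ((x - y)⁻¹ • (XX P ψ Q w - y • ee P ψ)) = a at *
  generalize Th P ((y - x)⁻¹ • (XX P ψ Q w - x • ee P ψ)) = b at *
  have a0 : a ≠ 0 := by rintro rfl; exact absurd a2.symm (by simp [hy, hi, h0])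
  have b0 : b ≠ 0 := by rintro rfl; exact absurd b2.symm (by simp [hx, hi, h0])
  have h6 : classInner (a + b) (a + b) = 2 := by
    rw [show a + b = _ from funext h5, classInner_prod (ind P ψ) (ind P ψ)
      (fun p : P => conj (ψ p)) fun p : P => conj (ψ p), h.norm, h.irr.out.star.classInner_self,
      mul_one]
  obtain ⟨χ₁, c0, c2⟩ := irr_fac h.irr (irr_two a1 b1 a0 b0 h6) b1 h5
  obtain ⟨χ₂, c3, c4⟩ := irr_fac h.irr (irr_two b1 a1 b0 a0 (add_comm a b ▸ h6)) a1
    fun z => (add_comm _ _).trans (h5 z)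
  obtain ⟨d₁, p1, e1⟩ := c0.exists_apply_one
  obtain ⟨d₂, p2, e2⟩ := c3.exists_apply_one
  rw [show a 1 = _ from c2 1, e1] at a2
  rw [show b 1 = _ from c4 1, e2] at b2
  have h7 : d₁ * x + d₂ * y = 0 := mul_left_cancel₀ (mul_ne_zero h0 h4) (by
    linear_combination x * a2 - y * b2)
  have q1 : (d₁ : ℂ) ≠ 0 := Nat.cast_ne_zero.2 p1.ne'
  have q2 : (d₂ : ℂ) ≠ 0 := Nat.cast_ne_zero.2 p2.ne'
  refine ⟨χ₁, χ₂, d₁, d₂, c0, c3, funext fun g => mul_right_cancel₀ h0 ?_, e1, e2,
    nat_dvd_of_isIntegral_div p1.ne' ?_, nat_dvd_of_isIntegral_div p2.ne' ?_, ?_⟩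
  · have := h5 (g, 1)
    rw [c2, c4, Prod.snd, Subgroup.coe_one, ← c1] at this
    rw [← this, Pi.add_apply, add_mul]
  · convert a3.pow 2 using 1
    push_cast; field_simp; linear_combination d₂ * h2 - x * h7
  · convert b3.pow 2 using 1
    push_cast; field_simp; linear_combination d₁ * h2 - y * h7
  · rw [hr, ← h1]
    linear_combination (ψ 1 ^ 2 * (d₂ * x + d₁ * y)) * h7 - ψ 1 ^ 2 * ((d₁ : ℂ) - d₂) ^ 2 * h2

theorem rta : RTA := by
  have key : ∀ (N c d : ℕ) (a : ℚ), Odd N → 0 < d → c ≠ 0 →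
      a ^ 2 * d * (2 ^ c * d : ℕ) = 2 ^ N * ((d : ℚ) - (2 ^ c * d : ℕ)) ^ 2 → Odd c := by
    intro N c d a hN hd hc h
    have h1 : a ^ 2 * 2 ^ c = 2 ^ N * ((2 ^ c - 1 : ℕ) : ℚ) ^ 2 := by
      have : (d : ℚ) ≠ 0 := by positivity
      rw [Nat.cast_sub (Nat.one_le_two_pow)]
      push_cast at h ⊢
      exact mul_left_cancel₀ (pow_ne_zero 2 this) (by linear_combination h)
    have h2 : 2 ^ c - 1 ≠ 0 := (Nat.sub_pos_of_lt (Nat.one_lt_two_pow hc)).ne'
    have h3 : ((2 ^ c - 1 : ℕ) : ℚ) ≠ 0 := Nat.cast_ne_zero.2 h2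
    have h4 : a ≠ 0 := by
      rintro rfl
      exact mul_ne_zero (pow_ne_zero N two_ne_zero) (pow_ne_zero 2 h3) (by rw [← h1]; simp)
    have h5 := congrArg (padicValRat 2) h1
    have h6 : padicValRat 2 2 = 1 := padicValRat.self (p := 2) one_lt_two
    rw [padicValRat.mul (by positivity) (by positivity), padicValRat.mul (by positivity)
      (by positivity), padicValRat.pow, padicValRat.pow, padicValRat.pow, padicValRat.pow, h6] at h5
    rw [Nat.odd_iff] at hN ⊢
    push_cast at h5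
    omega
  intro N d₁ d₂ a hN p1 p2 h1 h2 h3 h4
  obtain ⟨g, x, y, -, hc, rfl, rfl⟩ := Nat.exists_coprime' (Nat.gcd_pos_of_pos_left d₂ p1)
  have g0 : 0 < g := Nat.pos_of_mul_pos_left p1
  rw [← mul_assoc] at h1 h2
  obtain ⟨i, -, rfl⟩ := (Nat.dvd_prime_pow Nat.prime_two).1
    (hc.dvd_of_dvd_mul_right (Nat.dvd_of_mul_dvd_mul_right g0 h1))
  obtain ⟨j, -, rfl⟩ := (Nat.dvd_prime_pow Nat.prime_two).1
    (hc.symm.dvd_of_dvd_mul_right (Nat.dvd_of_mul_dvd_mul_right g0 h2))
  rcases Nat.eq_zero_or_pos i with rfl | hi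
  · rw [pow_zero, one_mul] at *
    exact ⟨j, key N j g a hN g0 (by rintro rfl; simp at h4) h3, .inl rfl⟩
  rcases Nat.eq_zero_or_pos j with rfl | hj
  · rw [pow_zero, one_mul] at *
    exact ⟨i, key N i g a hN g0 hi.ne' (by linear_combination h3), .inr rfl⟩
  · rw [Nat.coprime_pow_left_iff hi, Nat.coprime_pow_right_iff hj] at hc
    exact absurd hc (by decide)

end H16.DG
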