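import Cfsg.Agent.H16.DG1

/-! S4984: opposite subspaces, Levi elements, Eichler elements. -/

set_option autoImplicit false
set_option linter.unusedSectionVars false

open Cfsg Module H12 H5 Finset Submodule
open scoped ComplexConjugate Classical

namespace H16.DG

section
variable {F : Type} [Field F] [Finite F] {T : FormType F} {V : Type} [AddCommGroup V] [Module F V]
  [Finite V] {C : CForm T V} {W W' W'' : Submodule F V}

theorem exists_rep (hC : C.Nondeg) (Z : Submodule F V) (φ : Dual F W)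
    (h : ∀ y ∈ Z.comap W.subtype, φ y = 0) : ∃ b ∈ C.perp Z, ∀ y : W, C.B b y = φ y := by
  obtain ⟨ψ, e⟩ : φ ∈ LinearMap.range (Z.mkQ ∘ₗ W.subtype).dualMap := by
    rw [LinearMap.range_dualMap_eq_dualAnnihilator_ker, mem_dualAnnihilator, LinearMap.ker_comp,
      ker_mkQ]
    exact h
  obtain ⟨b, hb⟩ := hC.exists_rep (ψ ∘ₗ Z.mkQ)
  refine ⟨b, C.mem_perp'.2 fun x hx => ?_, fun y => by rw [hb, ← e]; rfl⟩
  rw [hb, LinearMap.comp_apply, mkQ_apply, (Quotient.mk_eq_zero Z).2 hx, map_zero]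

theorem cm_bot (h : W ⊓ W' ≠ ⊥) : W'.comap W.subtype ≠ ⊥ := fun e =>
  h (disjoint_iff.1 (disjoint_iff_comap_eq_bot.2 e))
theorem cm_top (h : ¬ W ≤ W') : W'.comap W.subtype ≠ ⊤ := fun e => h (comap_subtype_eq_top.1 e)

/-- an Eichler element acting on `W^⊥` as a transvection -/
theorem exists_tv (hT : OS T) (hC : C.Nondeg) (hW : C.TS W) (a : W) {b : V} {φ : Dual F W}
    (hb : ∀ y : W, C.B b y = φ y) (ha : φ a = 0) : ∃ u : C.isom, Ei C u ∧ KW C W u ∧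
      (∀ y : W, u.1 y = (y + φ y • a : W)) ∧
      ∀ x, u.1 x = x + C.B b x • a.1 - (T.ε * C.B a x) • b - (C.N b * C.B a x) • a.1 := by
  obtain ⟨u, h1, h2⟩ := exists_Ei hT hC (hW.1 _ a.2) (C.B_swap_zero ((hb a).trans ha))
  refine ⟨u, h1, fun x hx => ?_, fun y => ?_, h2⟩
  · simpa [h2, C.mem_perp.1 hx _ a.2] using W.smul_mem _ a.2
  · simp [h2, hW.2 _ a.2 _ y.2, hb]

theorem Op.top (hC : C.Nondeg) (h : Op C W W') : W ⊔ C.perp W' = ⊤ := by
  have h1 := finrank_sup_add_finrank_inf_eq W (C.perp W')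
  have h2 := hC.finrank_add_finrank_perp W'
  rw [h.2.2.2, finrank_bot] at h1
  exact eq_top_of_finrank_eq (by have := h.2.2.1; omega)

theorem Op.symm (hC : C.Nondeg) (h : Op C W W') : Op C W' W :=
  ⟨h.2.1, h.1, h.2.2.1.symm, by
    rw [← hC.perp_top, ← h.top hC, C.perp_sup, hC.perp_perp, inf_comm]⟩

theorem Op.zero (h : Op C W W') {x : V} (h1 : x ∈ W) (h2 : x ∈ C.perp W') : x = 0 :=
  (mem_bot F).1 (h.2.2.2 ▸ ⟨h1, h2⟩)

theorem Op.proj (hC : C.Nondeg) (h : Op C W W') : ∃ a : V →ₗ[F] W, (∀ x, x - a x ∈ C.perp W') ∧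
    (∀ x ∈ W, a x = x) ∧ ∀ x ∈ C.perp W', a x = 0 := by
  have hc : IsCompl W (C.perp W') := ⟨disjoint_iff.2 h.2.2.2, codisjoint_iff.2 (h.top hC)⟩
  have h1 : ∀ x, x - (W.projectionOnto _ hc x : V) ∈ C.perp W' := sub_projection_mem hc
  exact ⟨W.projectionOnto _ hc, h1, fun x hx => (sub_eq_zero.1 (h.zero (sub_mem hx
    (Subtype.prop _)) (h1 x))).symm, fun x hx => Subtype.ext (h.zero (Subtype.prop _) (by
      simpa using sub_mem hx (h1 x)))⟩

theorem exists_op (hC : C.Nondeg) (hW : C.TS W) : ∃ W', Op C W W' := by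
  have : ∀ j ≤ finrank F W, ∃ W', C.TS W' ∧ finrank F W' = j ∧ W' ⊓ C.perp W = ⊥ := by
    intro j
    induction j with
    | zero => exact fun _ => ⟨⊥, CForm.ts_bot, finrank_bot F V, bot_inf_eq _⟩
    | succ j ih =>
      intro hj
      obtain ⟨Z, h1, h2, h3⟩ := ih (by omega)
      obtain ⟨x, ⟨x1, x2⟩, x0⟩ := exists_mem_ne_zero_of_ne_bot (p := W ⊓ C.perp Z) fun e => by
        have h1 := finrank_sup_add_finrank_inf_eq W (C.perp Z)
        have h2 := hC.finrank_add_finrank_perp Z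
        have := finrank_le (W ⊔ C.perp Z)
        rw [e, finrank_bot] at h1
        omega
      obtain ⟨y, y1, y2, y3⟩ := hC.exists_partner
        (fun e => x0 ((mem_bot F).1 (h3 ▸ ⟨e, hW.le_perp x1⟩))) (hW.1 x x1) x2
      have y4 : y ∉ Z := fun e => by simp [C.mem_perp'.1 x2 y e] at y3
      refine ⟨Z ⊔ F ∙ y, h1.sup (CForm.ts_singleton y2) ((span_singleton_le_iff_mem _ _).2 y1),
        by rw [finrank_sup_span_singleton y4, h2], eq_bot_iff.2 fun z ⟨z1, z2⟩ => ?_⟩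
      obtain ⟨c, hc⟩ := mem_sup_span_singleton.1 z1
      have := C.mem_perp'.1 x2 _ hc
      rw [map_sub, map_smul, y3, C.mem_perp.1 z2 x x1, smul_eq_mul, mul_one, zero_sub,
        neg_eq_zero] at this
      rw [this, zero_smul, sub_zero] at hc
      exact h3 ▸ ⟨hc, z2⟩
  obtain ⟨Z, h1, h2, h3⟩ := this _ le_rfl
  exact ⟨Z, Op.symm hC ⟨h1, hW, h2.symm, h3⟩⟩

theorem B_perp (hW : C.TS W) {x y a b : V} (hx : x ∈ C.perp W) (hy : y ∈ C.perp W) (ha : a ∈ W)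
    (hb : b ∈ W) : C.B (x + a) (y + b) = C.B x y := by
  simp [C.mem_perp.1 hy a ha, C.mem_perp'.1 hx b hb, hW.2 a ha b hb]
theorem N_perp (hW : C.TS W) {x a : V} (hx : x ∈ C.perp W) (ha : a ∈ W) : C.N (x + a) = C.N x := by
  rw [C.N_add_of_orth (C.mem_perp'.1 hx a ha), hW.1 a ha, add_zero]

theorem Op.qt (hC : C.Nondeg) (h : Op C W W') (h' : Op C W W'') :
    ∃ u ∈ QW C W, im C u W' = W'' := by
  obtain ⟨a, a1, a2, -⟩ := h.proj hC
  obtain ⟨c, c1, c2, -⟩ := h'.proj hC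
  obtain ⟨b, -, b2, b3⟩ := (h.symm hC).proj hC
  obtain ⟨d, d1, -, d3⟩ := (h'.symm hC).proj hC
  let f : V →ₗ[F] V := (LinearMap.id + W.subtype ∘ₗ (a - c)) ∘ₗ (LinearMap.id - W'.subtype ∘ₗ b) +
    W''.subtype ∘ₗ d
  have f1 : ∀ x ∈ C.perp W, f x = x + (a x - c x : W) := fun x hx => by simp [f, b3 x hx, d3 x hx]
  have f2 : ∀ x ∈ W', f x = d x := fun x hx => by simp [f, b2 x hx]
  have f3 : ∀ x ∈ C.perp W, ∀ y ∈ W', C.B (f x) (f y) = C.B x y := fun x hx y hy => by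
    have e1 := C.mem_perp'.1 (c1 x) _ (d y).2
    have e2 := C.mem_perp.1 (d1 y) _ (a x).2
    have e3 := C.mem_perp'.1 (a1 x) _ hy
    rw [f1 x hx, f2 y hy]
    simp only [Submodule.coe_sub, map_sub, map_add, LinearMap.sub_apply, LinearMap.add_apply] at *
    linear_combination e1 - e2 - e3
  have h1 := CForm.isom_on_span (C := C) (C' := C) f (C.perp W ∪ W') (by
    rintro x (hx | hx) y (hy | hy)
    · rw [f1 x hx, f1 y hy, B_perp h.1 hx hy (Subtype.prop _) (Subtype.prop _)]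
    · exact f3 x hx y hy
    · rw [C.symm, f3 y hy x hx, ← C.symm]
    · rw [f2 x hx, f2 y hy, h.2.1.2 x hx y hy, h'.2.1.2 _ (d x).2 _ (d y).2]) (by
    rintro x (hx | hx)
    · rw [f1 x hx, N_perp h.1 hx (Subtype.prop _)]
    · rw [f2 x hx, h.2.1.1 x hx, h'.2.1.1 _ (d x).2])
  rw [span_union, span_eq, span_eq, sup_comm, (h.symm hC).top hC] at h1
  obtain ⟨u, hu, e⟩ := hC.exists_isom f ⟨fun x y => h1.1 x trivial y trivial, fun x => h1.2 x trivial⟩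
  refine ⟨⟨u, hu⟩, ⟨fun x hx => ?_, fun x hx => ?_⟩, eq_of_le_of_finrank_eq ?_
    (finrank_im.trans (h.2.2.1.trans h'.2.2.1.symm))⟩
  · simp [e, f1 x (h.1.le_perp hx), a2 x hx, c2 x hx]
  · simp only [e, f1 x hx, add_sub_cancel_left, Subtype.prop]
  · rintro _ ⟨x, hx, rfl⟩
    exact ((e x).trans (f2 x hx)) ▸ (d x).2

theorem Op.im (h : Op C W W') {g : C.isom} (hg : g ∈ St C W) : Op C W (im C g W') :=
  ⟨h.1, ts_im h.2.1, finrank_im.trans h.2.2.1, by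
    rw [perp_im, ← mem_St_im.1 hg, DG.im, DG.im, ← Submodule.map_inf _ g.1.injective, h.2.2.2,
      Submodule.map_bot]⟩

theorem Op.kw (hC : C.Nondeg) (h : Op C W W') {g : C.isom} (hg : g ∈ St C W)
    (h1 : ∀ x ∈ C.perp (W ⊔ W'), g.1 x = x) : KW C W g := fun x hx => by
  obtain ⟨a, a1, -⟩ := h.proj hC
  have := h1 (x - a x) (by rw [C.perp_sup]; exact ⟨sub_mem hx (h.1.le_perp (a x).2), a1 x⟩)
  rw [map_sub, sub_eq_sub_iff_sub_eq_sub] at this
  exact this ▸ sub_mem ((mem_St.1 hg _).1 (a x).2) (a x).2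

theorem Op.lv (hC : C.Nondeg) (h : Op C W W') (k : W ≃ₗ[F] W) : ∃ g : C.isom,
    (∀ y : W, g.1 y = k y) ∧ KW C W g ∧ KW C W' g ∧ ∀ x ∈ C.perp (W ⊔ W'), g.1 x = x := by
  obtain ⟨a, -, a2, a3⟩ := h.proj hC
  have a4 : ∀ y : W, a y = y := fun y => Subtype.ext (a2 _ y.2)
  obtain ⟨g, hg, e⟩ := hC.witt' (C.perp W) (LinearMap.id + W.subtype ∘ₗ (k.toLinearMap - 1) ∘ₗ a)
    (fun x _ h0 => by
      have h1 : x ∈ W := by
        rw [show x = _ from eq_neg_of_add_eq_zero_left h0]; exact neg_mem ((k.toLinearMap - 1) (a x)).2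
      lift x to W using h1
      simpa [a4] using h0)
    (fun x hx y hy => B_perp h.1 hx hy ((k.toLinearMap - 1) (a x)).2 ((k.toLinearMap - 1) (a y)).2)
    fun x hx => N_perp h.1 hx ((k.toLinearMap - 1) (a x)).2
  have g1 : ∀ y : W, g y = k y := fun y => by simp [e _ (h.1.le_perp y.2), a4]
  have g2 : (⟨g, hg⟩ : C.isom) ∈ St C W := mem_St_of fun y hy => (g1 ⟨y, hy⟩) ▸ Subtype.prop _
  obtain ⟨u, hu, e'⟩ := (h.im g2).qt hC h
  rw [← im_mul] at e'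
  have h3 : ∀ x ∈ C.perp (W ⊔ W'), (u * ⟨g, hg⟩).1 x = x := fun x hx => by
    rw [C.perp_sup] at hx
    have h4 : (u * ⟨g, hg⟩).1 x ∈ C.perp W' := by rw [← e', perp_im]; exact apply_mem_im.2 hx.2
    have h5 : (u * ⟨g, hg⟩).1 x = u.1 x := by simp [e x hx.1, a3 x hx.2]
    rw [h5] at h4 ⊢
    exact sub_eq_zero.1 (h.zero (hu.2 x hx.1) (sub_mem h4 hx.2))
  exact ⟨u * ⟨g, hg⟩, fun y => by simp [g1, hu.1], h.kw hC (mul_mem (hu.2.mem h.1) g2) h3,
    (h.symm hC).kw hC (mem_St_im.2 e') (sup_comm W W' ▸ h3), h3⟩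

theorem full_avg (D : Subgroup C.isom) (hD : D ≤ St C W)
    (hK : ∀ k : W ≃ₗ[F] W, ∃ u ∈ D, ∀ y : W, u.1 y = k y) {s : (W ≃ₗ[F] W) → ℂ} {c : ℂ}
    (hs : ∑ᶠ k, s k = Nat.card (W ≃ₗ[F] W) * c) {Φ : C.isom → ℂ}
    (h1 : ∀ g, ∀ u ∈ D, Φ (g * u) = Φ g) (h2 : ∀ g, Φ g ≠ 0 → g ∈ St C W) :
    ∑ᶠ g, s (rho C W g) * Φ g = c * ∑ᶠ g, Φ g := by
  refine avg D c h1 fun g hg => ?_
  let f := (rhoH C W).comp (Subgroup.inclusion hD)
  have h3 := sum_hom f fun k => s (rho C W g * k)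
  have h4 : f.range = ⊤ := eq_top_iff.2 fun k _ => by
    obtain ⟨u, hu, e⟩ := hK k
    exact ⟨⟨u, hu⟩, rho_eq (hD hu) fun y => (e y).symm⟩
  have h5 : ∑ᶠ k : f.range, s (rho C W g * k) = ∑ᶠ k, s k :=
    finsum_eq_of_bijective (fun k : f.range => rho C W g * k) ⟨fun a b e =>
      Subtype.ext (mul_left_cancel e), fun k => ⟨⟨_, h4 ▸ trivial⟩, mul_inv_cancel_left _ _⟩⟩
      fun _ => rfl
  rw [h5, hs, h4, Subgroup.card_top, mul_left_comm] at h3
  rw [← mul_left_cancel₀ (card_ne_zero_complex _) h3]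
  exact finsum_congr fun u => by rw [rho_mul (h2 g hg) (hD u.2)]; rfl

theorem mi_geo (hT : OS T) (hC : C.Nondeg) (hW : C.TS W) (h0 : W ≠ ⊥)
    (hd : finrank F W' = finrank F W) (h1 : W' ≤ C.perp W) (h2 : W ⊓ W' = ⊥) (Y : XW C W)
    (Y' : XW C W') (D : Subgroup C.isom) (hD : ∀ u, KW C W u → (∀ y ∈ W', u.1 y = y) →
      u ∈ St C Y'.1 → u ∈ D) :
    (∃ A : Submodule F W, A ≠ ⊥ ∧ A ≠ ⊤ ∧ ∀ a ∈ A, ∀ φ : Dual F W, (∀ y ∈ A, φ y = 0) →
      ∃ u ∈ D, ∀ y : W, u.1 y = (y + φ y • a : W)) ∨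
      ∀ k : W ≃ₗ[F] W, ∃ u ∈ D, ∀ y : W, u.1 y = k y := by
  obtain ⟨Z, z1, z2, z3⟩ := Y'
  by_cases hk : finrank F W = 1
  · obtain ⟨e, e0, rfl⟩ : ∃ e, e ≠ 0 ∧ W = F ∙ e := by
      obtain ⟨e, he, e0⟩ := exists_mem_ne_zero_of_ne_bot h0
      exact ⟨e, e0, (eq_of_le_of_finrank_eq ((span_singleton_le_iff_mem _ _).2 he)
        ((finrank_span_singleton e0).trans hk.symm)).symm⟩
    have me := mem_span_singleton_self (R := F) e
    have key : ∀ f, C.N f = 0 → C.B e f ≠ 0 → f ∈ C.perp W' → ∀ k : (F ∙ e) ≃ₗ[F] (F ∙ e),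
        ∃ u : C.isom, (∀ y : (F ∙ e), u.1 y = k y) ∧ KW C (F ∙ e) u ∧ KW C (F ∙ f) u ∧
        (∀ x ∈ C.perp (F ∙ e), C.B f x = 0 → u.1 x = x) ∧ ∀ y ∈ W', u.1 y = y := by
      intro f f1 f2 f3 k
      obtain ⟨u, u1, u2, u3, u4⟩ := Op.lv hC (W' := F ∙ f) ⟨hW, CForm.ts_singleton f1,
        (finrank_span_singleton (by rintro rfl; simp at f2)).trans hk.symm,
        eq_bot_iff.2 fun x ⟨x1, x2⟩ => by
          obtain ⟨c, rfl⟩ := mem_span_singleton.1 x1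
          have := C.mem_perp_singleton.1 x2
          rw [map_smul, smul_eq_mul, mul_eq_zero, or_iff_left (C.B_swap_ne f2)] at this
          simp [this]⟩ k
      have u5 : ∀ x ∈ C.perp (F ∙ e), C.B f x = 0 → u.1 x = x := fun x hx h =>
        u4 x (by rw [C.perp_sup]; exact ⟨hx, C.mem_perp_singleton.2 h⟩)
      exact ⟨u, u1, u2, u3, u5, fun y hy => u5 y (h1 hy) (C.mem_perp'.1 f3 y hy)⟩
    refine .inr fun k => ?_
    by_cases h3 : Z ≤ C.perp (F ∙ e)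
    · by_cases h4 : e ∈ Z
      · obtain ⟨f, f1, f2, f3⟩ := hC.exists_partner (fun h => e0 ((mem_bot F).1 (h2 ▸ ⟨me, h⟩)))
          (hW.1 e me) (C.le_perp_comm.1 h1 me)
        obtain ⟨u, u1, u2, -, -, u5⟩ := key f f2 (by simp [f3]) f1 k
        exact ⟨u, hD u u2 u5 (mem_St_im.2 (u2.im ((span_singleton_le_iff_mem _ _).2 h4) h3)), u1⟩
      · obtain ⟨f, f1, f2, f3⟩ := hC.exists_partner h4 (hW.1 e me) (C.le_perp_comm.1 h3 me)
        obtain ⟨u, u1, u2, -, u4, u5⟩ := key f f2 (by simp [f3]) (C.perp_anti z2 f1) k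
        exact ⟨u, hD u u2 u5 (mem_St_of fun v hv => by
          rwa [u4 v (h3 hv) (C.mem_perp'.1 f1 v hv)]), u1⟩
    · obtain ⟨f, f1, f2⟩ := SetLike.not_le_iff_exists.1 h3
      obtain ⟨u, u1, u2, u3, -, u5⟩ := key f (z1.1 f f1) (mt C.mem_perp_singleton.2 f2)
        (C.perp_anti z2 (z1.le_perp f1)) k
      have := (span_singleton_le_iff_mem _ _).2 f1
      exact ⟨u, hD u u2 u5 (mem_St_im.2 (u3.im this (z1.le_perp.trans (C.perp_anti this)))), u1⟩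
  have hk0 : finrank F W ≠ 0 := fun e => h0 (finrank_eq_zero.1 e)
  obtain ⟨A, a0, a1, a2, a3⟩ : ∃ A : Submodule F W, A ≠ ⊥ ∧ A ≠ ⊤ ∧ Z.comap W.subtype ≤ A ∧
      A ≤ (C.perp Z).comap W.subtype := by
    by_cases h3 : W ≤ C.perp Z
    · have h4 := (comap_subtype_eq_top.2 h3).ge
      by_cases h5 : W ⊓ Z = ⊥
      · obtain ⟨X, -, hX⟩ := exists_le_finrank_eq (⊤ : Submodule F W) (l := 1) (by simp; omega)
        refine ⟨X, by rintro rfl; simp at hX, by rintro rfl; simp [hk] at hX, ?_, le_top.trans h4⟩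
        rw [disjoint_iff_comap_eq_bot.1 (disjoint_iff.2 h5)]; exact bot_le
      · refine ⟨_, cm_bot h5, cm_top fun h => ?_, le_rfl, le_top.trans h4⟩
        have e := finrank_sup_add_finrank_inf_eq W W'
        have := finrank_mono (sup_le h z2)
        rw [h2, finrank_bot] at e
        omega
    · refine ⟨_, cm_bot fun h => ?_, cm_top h3, comap_mono z1.le_perp, le_rfl⟩
      have e := finrank_sup_add_finrank_inf_eq W (C.perp Z)
      have := finrank_mono (sup_le (C.le_perp_comm.1 h1) (C.perp_anti z2))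
      have := hC.finrank_add_finrank_perp Z
      have := hC.finrank_add_finrank_perp W'
      rw [h, finrank_bot] at e
      omega
  refine .inl ⟨A, a0, a1, fun a ha φ hφ => ?_⟩
  obtain ⟨b, b1, b2⟩ := exists_rep hC Z φ fun y hy => hφ y (a2 hy)
  obtain ⟨u, -, u2, u3, u4⟩ := exists_tv hT hC hW a b2 (hφ a ha)
  have u5 : ∀ y ∈ Z, u.1 y = y := fun y hy => by
    simp [u4, C.mem_perp'.1 b1 y hy, show C.B a y = 0 from C.mem_perp'.1 (a3 ha) y hy]
  exact ⟨u, hD u u2 (fun y hy => u5 y (z2 hy)) (mem_St_of fun v hv => by rwa [u5 v hv]), u3⟩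

theorem fx_sum [Fintype (XW C W)] (g : C.isom) :
    (fx C W g : ℂ) = ∑ Y : XW C W, if g ∈ St C Y.1 then 1 else 0 := by
  simp [fx, mem_St_im, Nat.card_eq_fintype_card, Fintype.card_subtype]

end

theorem opk : OPK := fun _ _ _ _ _ _ _ _ C _ hC _ => ⟨exists_op hC, fun _ h => ⟨h.symm hC, fun x hx => by
  obtain ⟨a, a1, -⟩ := h.proj hC
  exact ⟨a x, (a x).2, by rw [C.perp_sup]; exact ⟨sub_mem hx (h.1.le_perp (a x).2), a1 x⟩⟩⟩⟩

theorem lv : LV := fun _ _ _ _ _ _ _ _ _ _ hC _ _ h k => by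
  obtain ⟨g, h1, -, h2, h3⟩ := h.lv hC k
  exact ⟨g, h1, h2.mem h.2.1, h3⟩

theorem qt : QT := fun _ _ _ _ _ _ _ _ _ _ hC _ _ _ h h' => h.qt hC h'

theorem el : EL := by
  intro F _ _ T V _ _ _ C hT hC W W' hW hW' hd h1 h2 h3
  by_cases h4 : W ⊓ W' = ⊥
  · refine ⟨_, cm_bot h2, cm_top fun h => h3 ⟨C.le_perp_comm.1 h, h4⟩, fun a ha φ hφ => ?_⟩
    obtain ⟨b, b1, b2⟩ := exists_rep hC _ φ hφ
    rw [hC.perp_perp] at b1
    obtain ⟨u, u1, u2, u3, u4⟩ := exists_tv hT hC hW a b2 (hφ a ha)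
    refine ⟨u, u1, u2, fun x hx => ?_, fun y hy => ?_, u3⟩
    · simpa [u4, C.mem_perp.1 hx b b1, hW'.1 b b1] using W'.smul_mem _ b1
    · simp [u4, hW'.2 b b1 y hy, show C.B a y = 0 from C.mem_perp'.1 ha y hy]
  · refine ⟨_, cm_bot h4, cm_top fun h => h1 (eq_of_le_of_finrank_eq h hd.symm),
      fun a ha φ hφ => ?_⟩
    obtain ⟨b, b1, b2⟩ := exists_rep hC _ φ hφ
    obtain ⟨u, u1, u2, u3, u4⟩ := exists_tv hT hC hW a b2 (hφ a ha)
    refine ⟨u, u1, u2, fun x hx => ?_, fun y hy => ?_, u3⟩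
    · simpa [u4, show C.B a x = 0 from C.mem_perp.1 hx a ha] using W'.smul_mem _ ha
    · simp [u4, show C.B a y = 0 from hW'.2 a ha y hy, C.mem_perp'.1 b1 y hy]

theorem mi : MI := by
  intro F _ _ T V _ _ _ C hT hC W σ x hW h0 hσ h1 h2
  have := Fintype.ofFinite (XW C W)
  have := Fintype.ofFinite C.isom
  let Φ : XW C W → XW C W → C.isom → ℂ := fun Y Z g => if (g ∈ St C W ∧ x⁻¹ * g * x ∈ St C W) ∧
    g ∈ St C Y.1 ∧ x⁻¹ * g * x ∈ St C Z.1 then conj (σ (rho C W (x⁻¹ * g * x))) else 0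
  have k : ∀ Y Z, ∑ g, σ (rho C W g) * Φ Y Z g = 0 := fun Y Z => by
    rw [← finsum_eq_sum_of_fintype]
    refine van_avg hσ (St C W ⊓ stab (Φ Y Z)) inf_le_left (mi_geo hT hC hW h0 finrank_im
      h1 h2 Y ⟨im C x Z.1, ts_im Z.2.1, im_mono.2 Z.2.2.1, by rw [finrank_im, finrank_im, Z.2.2.2]⟩
      _ fun u u1 u2 u3 => ⟨u1.mem hW, fun g => ?_⟩) (fun g u hu => hu.2 g)
      fun g hg => by_contra fun h => hg (if_neg fun h' => h h'.1.1)
    have e : x⁻¹ * (g * u) * x = x⁻¹ * g * x * (x⁻¹ * u * x) := by group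
    have m2 : x⁻¹ * u * x ∈ St C W := conj_mem_St.2 (mem_St_of fun v hv => by rwa [u2 v hv])
    have r : rho C W (x⁻¹ * u * x) = 1 := rho_eq m2 fun y => by
      change y.1 = x.1⁻¹ (u.1 (x.1 y))
      rw [u2 _ (apply_mem_im.2 y.2), inv_apply_apply]
    simp only [Φ, e, (St C W).mul_mem_cancel_right (u1.mem hW), (St C W).mul_mem_cancel_right m2,
      (St C Y.1).mul_mem_cancel_right (mem_St_im.2 (u1.im Y.2.2.1 Y.le_perp)),
      (St C Z.1).mul_mem_cancel_right (conj_mem_St.2 u3)]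
    split_ifs with h
    · rw [rho_mul h.1.2 m2, r, mul_one]
    · rfl
  refine Eq.trans ?_ (sum_eq_zero fun Y (_ : Y ∈ univ) => sum_eq_zero fun Z (_ : Z ∈ univ) => k Y Z)
  rw [mk_eq, sum_congr rfl fun Y _ => sum_comm, sum_comm]
  refine sum_congr rfl fun g _ => ?_
  simp only [Φ, psi, fx_sum, map_mul, map_sum, mul_sum, sum_mul]
  split_ifs with h
  · rw [sum_comm]
    refine sum_congr rfl fun Y _ => sum_congr rfl fun Z _ => ?_
    by_cases a : g ∈ St C Y.1 <;> by_cases b : x⁻¹ * g * x ∈ St C Z.1 <;> simp [a, b, h]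
  · simp [h]

theorem v3a : V3A := by
  intro F _ _ T V _ _ _ C hT hC W σ τ hW hσ hτ
  have := Fintype.ofFinite (St C W)
  have := Fintype.ofFinite (W ≃ₗ[F] W)
  have hc := ch_psi hσ.isCharacter hτ.irr.ch
  obtain ⟨W', h⟩ := exists_op hC hW
  let Φ : C.isom → ℂ := fun g => if g ∈ St C W then τ g * conj (τ g) else 0
  have h1 := full_avg (St C W ⊓ stab Φ) inf_le_left (fun k => ?_) (s := fun k => σ k * conj (σ k))
    (c := 1) (by rw [finsum_eq_sum_of_fintype, ← card_mul_classInner, hσ.classInner_self])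
    (fun g u hu => hu.2 g) fun g hg => by_contra fun h => hg (if_neg h)
  · refine hc.out.isIrr_of_classInner_self (mul_left_cancel₀ (card_ne_zero_complex (St C W)) ?_)
    rw [← mk_mem hc (one_mem _), ← hτ.irr.out.classInner_self, ← mk_mem hτ.irr.ch (one_mem _)]
    simp only [mk, inv_one, one_mul, mul_one, and_self] at h1 ⊢
    rw [← h1]
    refine finsum_congr fun g => ?_
    simp only [Φ, psi, map_mul]
    split_ifs
    · ring
    · simp
  · obtain ⟨u, u1, u2, -⟩ := h.lv hC k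
    refine ⟨u, ⟨u2.mem hW, fun g => ?_⟩, u1⟩
    simp only [Φ, (St C W).mul_mem_cancel_right (u2.mem hW)]
    split_ifs with hg
    · rw [hτ.irr.ch.mul_ker (u2.mem hW) (hτ.inv u u2) hg]
    · rfl

theorem v3b (du : DU) : V3B := by
  intro F _ _ T V _ _ _ C hT hC W σ τ x hW hσ hN hτ h0
  have h : Op C W (im C x W) := ⟨hW, ts_im hW, finrank_im, h0⟩
  let Φ : C.isom → ℂ := fun g => if g ∈ St C W ∧ x⁻¹ * g * x ∈ St C W then
    τ g * conj (τ (x⁻¹ * g * x)) else 0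
  have h1 := full_avg (St C W ⊓ stab Φ) inf_le_left (fun k => ?_) (s := fun k => σ k ^ 2)
    (c := 0) (by rw [hN, mul_zero]) (fun g u hu => hu.2 g)
    fun g hg => by_contra fun h => hg (if_neg fun h' => h h'.1)
  · rw [zero_mul] at h1
    rw [← h1]
    refine finsum_congr fun g => ?_
    simp only [Φ, psi, map_mul]
    split_ifs with hg
    · have := du F W (LinearMap.mk₂ F (fun u v : W => C.B u (x.1 v)) (fun _ _ _ => by simp)
        (fun _ _ _ => hT.smul _ _ _) (fun _ _ _ => by simp) fun _ _ _ => by simp)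
        (rho C W g) (rho C W (x⁻¹ * g * x)) (fun u hu => Subtype.ext (h.zero u.2
          (C.mem_perp'.2 (by rintro _ ⟨v, hv, rfl⟩; exact hu ⟨v, hv⟩)))) fun u v => by
        simp only [LinearMap.mk₂_apply, rho_apply hg.1, rho_apply hg.2]
        change C.B _ (x.1 (x.1⁻¹ (g.1 (x.1 v)))) = _
        rw [apply_inv_apply, CForm.isom_B g.2]
      rw [hσ.isClassFunction.eq_of_isConj this, hσ.apply_inv, Complex.conj_conj]; ring
    · simp
  · obtain ⟨u, u1, u2, u3, -⟩ := h.lv hC k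
    refine ⟨u, ⟨u2.mem hW, fun g => ?_⟩, u1⟩
    have e : x⁻¹ * (g * u) * x = x⁻¹ * g * x * (x⁻¹ * u * x) := by group
    simp only [Φ, e, (St C W).mul_mem_cancel_right (u2.mem hW),
      (St C W).mul_mem_cancel_right (u3.conj.mem hW)]
    split_ifs with hg
    · rw [hτ.irr.ch.mul_ker (u2.mem hW) (hτ.inv u u2) hg.1,
        hτ.irr.ch.mul_ker (u3.conj.mem hW) (hτ.inv _ u3.conj) hg.2]
    · rfl

end H16.DG
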