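import Cfsg.Agent.H16.DG4
import Cfsg.Agent.H16.DG2
import Cfsg.Agent.H12.DG1

/-! S4984: the real series of the symplectic groups. -/

set_option autoImplicit false
set_option linter.unusedSectionVars false

open Cfsg Module H12 H5 Finset Submodule
open scoped ComplexConjugate Classical

namespace H16.DG

section
variable {F : Type} [Field F] [Finite F] {T : FormType F} {V : Type} [AddCommGroup V] [Module F V]
  [Finite V] {C : CForm T V} {W W' : Submodule F V} {w u : C.isom} {e₁ e₂ f₁ f₂ : V}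

theorem mid_one (hT : OS T) (hC : C.Nondeg) {m t : ℕ} (hP : Par C m t) (hW : C.TS W)
    (h0 : 0 < finrank F W) : Mid C W fun _ => 1 := by
  by_cases h1 : finrank F W < m
  · exact .inr (sub_one ((H12.DG.r1 F T V C hT hC m t W hP hW).1 h1))
  refine .inl fun W' h2 h3 h4 h5 => ?_
  have h6 := (hP.2 _ (hW.sup h2 h4)).1
  have h7 := Submodule.finrank_sup_add_finrank_inf_eq W W'
  rw [h5, finrank_bot] at h7
  omega

theorem Op.m0 (hC : C.Nondeg) (h : Op C W W') {r : V} (hr : r ∈ C.perp (W ⊔ W')) (h0 : r ≠ 0) :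
    ∃ v ∈ C.perp (W ⊔ W'), C.B r v = 1 := by
  refine (hC.nondegOn_perp fun x hx h1 => ?_).exists_eq hr h0 1
  obtain ⟨a, ha, b, hb, rfl⟩ := mem_sup.1 hx
  have h2 := C.perp_sup W W' ▸ C.mem_perp'.2 h1
  have h3 : a = 0 := h.zero ha (by simpa using sub_mem h2.2 (h.2.1.le_perp hb))
  rw [h3, zero_add] at h2 ⊢
  exact (h.symm hC).zero hb h2.1

theorem Op.dim (hC : C.Nondeg) (h : Op C W W') :
    2 * finrank F W + finrank F (C.perp (W ⊔ W')) = finrank F V := by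
  have h1 := finrank_sup_add_finrank_inf_eq W W'
  rw [eq_bot_iff.2 ((inf_le_inf_left W h.2.1.le_perp).trans h.2.2.2.le), finrank_bot] at h1
  have := hC.finrank_add_finrank_perp (W ⊔ W')
  have := h.2.2.1
  omega

/-- both constituents contain `-1` in their kernel -/
theorem ng_two {G : Type} [Group G] [Finite G] {χ₁ χ₂ : G → ℂ} (h1 : IsIrrCharacter G χ₁)
    (h2 : IsIrrCharacter G χ₂) {z : G} (h : (χ₁ + χ₂) z = (χ₁ + χ₂) 1) :
    χ₁ z = χ₁ 1 ∧ χ₂ z = χ₂ 1 := by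
  have := (h1.isCharacter.add h2.isCharacter).mem_charKer_iff.2 h
  rw [h1.isCharacter.charKer_add h2.isCharacter] at this
  exact ⟨apply_eq_of_mem_charKer this.1, apply_eq_of_mem_charKer this.2⟩

namespace Fr2
variable (h : Fr2 C e₁ e₂ f₁ f₂ w) (hT : OS T)
include h hT

theorem co {y : V} (hy : y ∈ span F {e₁, e₂}) : y = C.B y f₁ • e₁ + C.B y f₂ • e₂ := by
  obtain ⟨s, t, rfl⟩ := mem_span_pair.1 hy
  simp [hT.σ, h.b11, h.b12, h.b21, h.b22]

theorem tr (k : span F {e₁, e₂} →ₗ[F] span F {e₁, e₂}) : LinearMap.trace F _ k =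
    C.B (k ⟨e₁, mem_l⟩) f₁ + C.B (k ⟨e₂, mem_r⟩) f₂ := by
  have : k = (T.ε • C.B f₁ ∘ₗ Submodule.subtype _).smulRight (k ⟨e₁, mem_l⟩) +
      (T.ε • C.B f₂ ∘ₗ Submodule.subtype _).smulRight (k ⟨e₂, mem_r⟩) := by
    ext y
    simp only [LinearMap.add_apply, LinearMap.smulRight_apply, LinearMap.smul_apply, smul_eq_mul,
      LinearMap.comp_apply, subtype_apply, ← hT.symm, ← map_smul, ← map_add]
    exact congrArg (fun a => (k a).1) (Subtype.ext (h.co hT y.2))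
  conv_lhs => rw [this]
  simp [← hT.symm]

/-- the condition describing `w u w` -/
theorem hk {k : span F {e₁, e₂} ≃ₗ[F] span F {e₁, e₂}} {r₁ r₂ : V}
    (h1 : r₁ ∈ C.perp (span F {f₁, f₂})) (h2 : r₂ ∈ C.perp (span F {f₁, f₂}))
    (a : u.1 f₁ = f₁ - k ⟨e₂, mem_r⟩ + r₁) (b : u.1 f₂ = f₂ + k ⟨e₁, mem_l⟩ + r₂)
    (y : span F {e₁, e₂}) : u.1 (w.1 y) - k y ∈ C.perp (span F {f₁, f₂}) := by
  obtain ⟨s, t, e⟩ := mem_span_pair.1 y.2
  have p := (h.op hT).2.2.1.le_perp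
  obtain rfl : y = s • ⟨e₁, mem_l⟩ + t • ⟨e₂, mem_r⟩ := Subtype.ext e.symm
  convert sub_mem (smul_mem _ s (add_mem (p mem_r) h2)) (smul_mem _ t (add_mem (p mem_l) h1)) using 1
  simp only [map_add, map_smul, Submodule.coe_add, Submodule.coe_smul, h.w1, h.w2, map_neg, a, b]
  module

end Fr2

theorem sum_cc {C : CForm (altType F) V} {w : C.isom} (h : Fr2 C e₁ e₂ f₁ f₂ w) (hC : C.Nondeg)
    {σ : (span F {e₁, e₂} ≃ₗ[F] span F {e₁, e₂}) → ℂ} (hσ : ∑ᶠ k, σ k = 0)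
    (H : RTH (St C (span F {e₁, e₂})) (QW C (span F {e₁, e₂})) (psi C _ σ fun _ => 1) w) :
    ∑ᶠ u : QW C (span F {e₁, e₂}), cc (St C (span F {e₁, e₂})) (psi C _ σ fun _ => 1) w u =
      Nat.card (C.perp (span F {e₁, e₂} ⊔ span F {f₁, f₂})) *
        ∑ᶠ k : span F {e₁, e₂} ≃ₗ[F] span F {e₁, e₂},
          if LinearMap.trace F _ k.toLinearMap = 0 then σ k else 0 := by
  have hT : OS (altType F) := .inl rfl
  have hw := h.wy hT hC
  have ho := hw.op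
  generalize hM : C.perp (span F {e₁, e₂} ⊔ span F {f₁, f₂}) = M
  have m : ∀ {r}, r ∈ M ↔ r ∈ C.perp (span F {e₁, e₂}) ∧ r ∈ C.perp (span F {f₁, f₂}) := by
    simp [← hM, C.perp_sup]
  have := Fintype.ofFinite (QW C (span F {e₁, e₂}))
  have := Fintype.ofFinite (span F {e₁, e₂} ≃ₗ[F] span F {e₁, e₂})
  have := Fintype.ofFinite M
  have := Fintype.ofFinite F
  let c (u : C.isom) (a : M × M × (span F {e₁, e₂} ≃ₗ[F] span F {e₁, e₂})) : Prop :=
    u.1 f₁ = f₁ - a.2.2 ⟨e₂, mem_r⟩ + a.1 ∧ u.1 f₂ = f₂ + a.2.2 ⟨e₁, mem_l⟩ + a.2.1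
  have k1 : ∀ u : QW C (span F {e₁, e₂}), cc (St C (span F {e₁, e₂})) (psi C _ σ fun _ => 1) w u =
      ∑ a, if c u a then σ a.2.2 else 0 := fun u => by
    by_cases h1 : ∃ a, c u a
    · obtain ⟨a, ha⟩ := h1
      obtain ⟨-, -, -, -, -, e⟩ := hw.cc H (h.hk hT (m.1 a.1.2).2 (m.1 a.2.1.2).2 ha.1 ha.2)
      rw [e, mul_one, sum_eq_single a (fun b _ hb => if_neg fun h2 => hb ?_) (by simp), if_pos ha]
      have h3 : b.2.2 = a.2.2 := LinearEquiv.ext fun y => Subtype.ext (sub_eq_zero.1 (ho.zero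
        (sub_mem (Subtype.prop _) (Subtype.prop _)) (by
          simpa using sub_mem (h.hk hT (m.1 a.1.2).2 (m.1 a.2.1.2).2 ha.1 ha.2 y)
            (h.hk hT (m.1 b.1.2).2 (m.1 b.2.1.2).2 h2.1 h2.2 y))))
      simp only [c, h3, ha.1, ha.2, add_right_inj, SetLike.coe_eq_coe] at h2
      exact Prod.ext h2.1.symm (Prod.ext h2.2.symm h3)
    · rw [cc_zero fun h2 => h1 ?_, sum_eq_zero fun a _ => if_neg fun h2 => h1 ⟨a, h2⟩]
      obtain ⟨k, hk⟩ := hw.dc' H h2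
      have p := ho.2.1.le_perp
      have q : ∀ x, u.1.1 x - x ∈ C.perp (span F {e₁, e₂}) := fun x =>
        C.mem_perp.2 fun e he => by simp [q_B u.2 he]
      refine ⟨(⟨u.1.1 f₁ - f₁ + k ⟨e₂, mem_r⟩, m.2 ⟨add_mem (q _) (ho.1.le_perp (Subtype.prop _)),
        ?_⟩⟩, ⟨u.1.1 f₂ - f₂ - k ⟨e₁, mem_l⟩, m.2 ⟨sub_mem (q _) (ho.1.le_perp (Subtype.prop _)),
        ?_⟩⟩, k), by simp [c]⟩
      · convert sub_mem (neg_mem (hk ⟨e₂, mem_r⟩)) (p mem_l) using 1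
        simp [h.w2]; abel
      · convert sub_mem (hk ⟨e₁, mem_l⟩) (p mem_r) using 1
        simp [h.w1]; abel
  have k2 : ∀ a, (∑ u : QW C (span F {e₁, e₂}), if c u a then σ a.2.2 else 0) =
      if LinearMap.trace F _ a.2.2.toLinearMap = C.B a.1 a.2.1 then σ a.2.2 else 0 := by
    rintro ⟨⟨r₁, a1⟩, ⟨r₂, a2⟩, k⟩
    obtain ⟨a1, a3⟩ := m.1 a1
    obtain ⟨a2, a4⟩ := m.1 a2
    have t1 := (k ⟨e₁, mem_l⟩).2
    have t2 := (k ⟨e₂, mem_r⟩).2
    have e : C.B (f₁ - k ⟨e₂, mem_r⟩ + r₁) (f₂ + k ⟨e₁, mem_l⟩ + r₂) =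
        C.B r₁ r₂ - LinearMap.trace F _ k.toLinearMap := by
      simp [h.tr hT, h.f12, C.mem_perp.1 a4 _ mem_l, ho.1.2 _ t2 _ t1, C.mem_perp.1 a2 _ t2,
        C.mem_perp'.1 a3 _ mem_r, C.mem_perp'.1 a1 _ t1,
        H11.alt_B_swap (k ⟨e₁, mem_l⟩).1 f₁]
      ring
    split_ifs with h1
    · obtain ⟨u, hu, b⟩ := h.sur hT hC (H11.alt_N _) (H11.alt_N _) (e.trans (sub_eq_zero.2 h1.symm))
        (by simp [h.b11, ho.1.2 _ mem_l _ t2, C.mem_perp.1 a1 _ mem_l])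
        (by simp [h.b12, ho.1.2 _ mem_l _ t1, C.mem_perp.1 a2 _ mem_l])
        (by simp [h.b21, ho.1.2 _ mem_r _ t2, C.mem_perp.1 a1 _ mem_r])
        (by simp [h.b22, ho.1.2 _ mem_r _ t1, C.mem_perp.1 a2 _ mem_r])
      rw [sum_eq_single ⟨u, hu⟩ (fun v _ hv => if_neg fun h2 => hv (Subtype.ext
        (h.inj hT hC v.2 hu (h2.1.trans b.1.symm) (h2.2.trans b.2.symm)))) (by simp), if_pos b]
    · refine sum_eq_zero fun u _ => if_neg fun h2 => h1 (sub_eq_zero.1 ?_).symm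
      rw [← e, ← h2.1, ← h2.2, CForm.isom_B u.1.2, h.f12]
  simp only [finsum_eq_sum_of_fintype, k1] at hσ ⊢
  rw [sum_comm, sum_congr rfl fun a _ => k2 a, Fintype.sum_prod_type, sum_eq_single 0 _ (by simp),
    Fintype.sum_prod_type]
  · simp
  intro r _ h0
  obtain ⟨v, hv, e⟩ := ho.m0 hC (hM ▸ r.2) fun e => h0 (Subtype.ext e)
  refine mul_left_cancel₀ (Nat.cast_ne_zero.2 (Fintype.card_ne_zero (α := F))) ?_
  rw [Fintype.sum_prod_type, mul_zero, ← nsmul_eq_mul, ← card_univ, ← sum_const,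
    sum_congr rfl fun t _ => (Equiv.sum_comp (Equiv.addRight (t • (⟨v, hM ▸ hv⟩ : M))) _).symm,
    sum_comm]
  refine sum_eq_zero fun x _ => ?_
  rw [sum_comm]
  refine (sum_congr rfl fun k _ => ?_).trans hσ
  simp [e, ← sub_eq_iff_eq_add']

end

theorem r2s (cuc : CUC) : R2S := by
  intro F V _ _ _ _ _ C m hC hP hm
  have hT : OS (altType F) := .inl rfl
  obtain ⟨e₁, e₂, f₁, f₂, w, h⟩ := fr2 F _ V C hT hC (hP.1.mono hm)
  obtain ⟨hd, ho⟩ := h.op hT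
  obtain ⟨σ, hσ, hS, h1⟩ := cuc F (span F {e₁, e₂}) hd
  have H := h.rth hT hC (van el mi) hσ hS ta_one (mid_one hT hC hP ho.1 (by omega))
  obtain ⟨χ₁, χ₂, d₁, d₂, c1, c2, c3, c4, c5, -, -, c6⟩ := rt _ _ _ _ _ H
  have h2 := dk_of (by omega) (H12.DG.ix F _ V C hT hC m _ _ hP ho.1)
  have h3 := congrFun c3 1
  have h4 := hσ.deg
  have h5 := h.card hT hC (i := 0) fun p e _ _ => by simp [H11.alt_N]
  have h6 := ho.dim hC
  have q2 : 2 ≤ Nat.card F := H12.DG.q2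
  rw [sum_cc h hC hσ.nt H, mul_pow, h1, psi_one, h4, Module.natCard_eq_pow_finrank (K := F)] at c6
  rw [ind_one, psi_one, h4, Pi.add_apply, c4, c5, mul_one] at h3
  rw [hd] at h2 h3 h6 c6
  generalize finrank F (C.perp (span F {e₁, e₂} ⊔ span F {f₁, f₂})) = n at *
  rw [← h6, show 2 * (2 * 2 + n) = 2 * n + 3 + (5 + 2 * 0) by ring, pow_add _ (2 * n + 3)] at h5
  rw [Nat.eq_of_mul_eq_mul_right (by positivity) h5] at c6
  have hn : ∀ z, Ng C z → χ₁ z = χ₁ 1 ∧ χ₂ z = χ₂ 1 := fun z hz => ng_two c1 c2 (c3 ▸ ind_central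
    hz.comm hz.mem (by
      rw [psi_one, psi, hS _ (-1) fun y => Subtype.ext ((rho_apply hz.mem y).trans (by simp [hz y]))]))
  generalize Nat.card F = q at *
  have h7 : ((d₁ : ℂ) - q * d₂) * (d₂ - q * d₁) = 0 := by
    have a : (q : ℂ) ≠ 0 := Nat.cast_ne_zero.2 (by omega)
    have b : (q : ℂ) - 1 ≠ 0 := sub_ne_zero.2 (by exact_mod_cast (by omega : q ≠ 1))
    simp only [Nat.Ico_succ_singleton, prod_singleton, pow_one, Nat.cast_sub (by omega : 1 ≤ q)] at c6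
    push_cast at c6
    refine mul_left_cancel₀ (mul_ne_zero (pow_ne_zero (2 * n + 2) a) (pow_ne_zero 2 b)) ?_
    linear_combination c6
  rw [← Nat.cast_mul, ← Nat.cast_add, Nat.cast_inj] at h3
  rw [h3] at h2
  rcases mul_eq_zero.1 h7 with e | e
  · have : d₁ = q * d₂ := by exact_mod_cast sub_eq_zero.1 e
    exact ⟨χ₁, d₂, c1, this ▸ c4, by convert h2 using 1; rw [this]; ring, fun z hz => (hn z hz).1⟩
  · have : d₂ = q * d₁ := by exact_mod_cast sub_eq_zero.1 e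
    exact ⟨χ₂, d₁, c2, this ▸ c5, by convert h2 using 1; rw [this]; ring, fun z hz => (hn z hz).2⟩

end H16.DG
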