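import Cfsg.Agent.H16.DG5
import Cfsg.Agent.H12.DG2
import Cfsg.Agent.H3.DG3

/-! S4984: the group `O₁₀⁺(2)`. -/

set_option autoImplicit false
set_option linter.unusedSectionVars false
set_option linter.unusedSimpArgs false

open Cfsg Module H12 H5 Finset Submodule QuadraticMap
open scoped ComplexConjugate Classical

namespace H16.DG

section
variable {G : Type} [Group G] [Finite G] {P Q : Subgroup G} {ψ : G → ℂ} {w : G}

theorem cc_int (h : ∀ g ∈ P, ∃ n : ℤ, ψ g = n) (u : G) : ∃ n : ℤ, cc P ψ w u = n := by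
  unfold cc
  split_ifs with h0
  · exact h _ (mul_mem h0.choose_spec.1 h0.choose_spec.2.1)
  · exact ⟨0, by simp⟩

theorem RTH.cc_one (h : RTH P Q ψ w) : cc P ψ w 1 = 0 := cc_zero fun ⟨p, hp, p', hp', e⟩ => h.nw (by
  rw [show w = p⁻¹ * (p * w * p') * p'⁻¹ by group, ← e]
  simpa using mul_mem (mul_mem (inv_mem hp) h.sqP) (inv_mem hp'))

theorem RTH.cc_conj (h : RTH P Q ψ w) {z : G} (h2 : w⁻¹ * z * w ∈ P) (u : G) :
    cc P ψ w (z * u * z⁻¹) = cc P ψ w u := by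
  have m : w * w * (w⁻¹ * z * w) * (w * w)⁻¹ ∈ P := mul_mem (mul_mem h.sqP h2) (inv_mem h.sqP)
  by_cases h1 : DC P w (w * u * w)
  · obtain ⟨p, hp, p', hp', e⟩ := h1
    have c := h.irr.ch
    rw [h.cc_eq hp hp' e, h.cc_eq (mul_mem m hp) (mul_mem hp' (inv_mem h2)) (by
      rw [show u = w⁻¹ * (w * u * w) * w⁻¹ by group, e]; group)]
    generalize w⁻¹ * z * w = l at *
    have s := h.sq
    have t := h.sqP
    generalize w * w = a at *
    have m := mul_mem (inv_mem t) (mul_mem hp hp')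
    rw [show a * l * a⁻¹ * p * (p' * l⁻¹) = a * (l * (a⁻¹ * (p * p')) * l⁻¹) by group,
      c.ker_mul t s (mul_mem (mul_mem h2 m) (inv_mem h2)), c.conj h2 m, ← c.ker_mul t s m,
      mul_inv_cancel_left]
  · rw [cc_zero h1, cc_zero fun ⟨p, hp, p', hp', e⟩ => h1 ⟨_, mul_mem (inv_mem m) hp, _,
      mul_mem hp' h2, by rw [show u = z⁻¹ * w⁻¹ * (w * (z * u * z⁻¹) * w) * w⁻¹ * z by group, e]; group⟩]

theorem RTH.two (h : RTH P Q ψ w) {N e : ℕ} (hN : Odd N) (hQ : Nat.card Q = 2 ^ N) (he : ψ 1 = e)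
    (hi : ∀ g ∈ P, ∃ n : ℤ, ψ g = n) (h0 : ∑ᶠ u : Q, cc P ψ w u = 0 → Odd (P.index * e)) :
    ∃ (χ χ' : G → ℂ) (c d : ℕ), IsIrrCharacter G χ ∧ IsIrrCharacter G χ' ∧ ind P ψ = χ + χ' ∧
      Odd c ∧ χ 1 = (2 ^ c * d : ℕ) ∧ (2 ^ c + 1) * d = P.index * e := by
  obtain ⟨χ₁, χ₂, d₁, d₂, c1, c2, c3, c4, c5, c6, c7, c8⟩ := rt G P Q ψ w h
  have := Fintype.ofFinite Q
  choose n hn using cc_int (w := w) hi
  have h3 := congrFun c3 1
  rw [ind_one, he, Pi.add_apply, c4, c5, ← Nat.cast_mul, ← Nat.cast_add, Nat.cast_inj] at h3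
  have p1 : d₁ ≠ 0 := Nat.cast_ne_zero.1 (c4 ▸ c1.apply_one_ne_zero)
  have p2 : d₂ ≠ 0 := Nat.cast_ne_zero.1 (c5 ▸ c2.apply_one_ne_zero)
  have p3 : e ≠ 0 := Nat.cast_ne_zero.1 (he ▸ h.irr.out.apply_one_ne_zero)
  have h4 : d₁ ≠ d₂ := by
    rintro rfl
    have := h0 (by simpa [p1] using c8)
    rw [h3, Nat.odd_iff] at this
    omega
  simp only [finsum_eq_sum_of_fintype, hn, he, hQ, ← Int.cast_sum] at c8
  obtain ⟨c, c9, e | e⟩ := rta N d₁ d₂ ((∑ u : Q, n u : ℤ) / e) hN p1.bot_lt p2.bot_lt (hQ ▸ c6)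
    (hQ ▸ c7) (by
      have : ((∑ u : Q, n u : ℤ) : ℚ) ^ 2 * d₁ * d₂ = e ^ 2 * (2 ^ N : ℕ) * ((d₁ : ℚ) - d₂) ^ 2 := by
        exact_mod_cast c8
      push_cast at this ⊢
      field_simp
      linear_combination this) h4
  · exact ⟨χ₂, χ₁, c, d₁, c2, c1, c3.trans (add_comm _ _), c9, e ▸ c5, by rw [h3, e]; ring⟩
  · exact ⟨χ₁, χ₂, c, d₂, c1, c2, c3, c9, e ▸ c4, by rw [h3, e]; ring⟩

end

theorem sum_three {α : Type} [Fintype α] (φ : α ≃ α) (h3 : ∀ a, φ (φ (φ a)) = a) (c : α → ℤ)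
    (hc : ∀ a, c (φ a) = c a) : ∃ k, ∑ a, c a = (∑ a, if φ a = a then c a else 0) + 3 * k := by
  let e : α → ℕ := fun a => Fintype.equivFin α a
  have he : ∀ a b, e a = e b ↔ a = b := fun a b => by simp [e, Fin.ext_iff.symm]
  let m : α → ℤ := fun a => if e a < e (φ a) ∧ e a < e (φ (φ a)) then c a else 0
  refine ⟨∑ a, m a, ?_⟩
  rw [show 3 * ∑ a, m a = ∑ a, m a + ∑ a, m (φ a) + ∑ a, m (φ (φ a)) by
    rw [Equiv.sum_comp φ m, Equiv.sum_comp φ fun a => m (φ a), Equiv.sum_comp φ m]; ring,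
    ← sum_add_distrib, ← sum_add_distrib, ← sum_add_distrib]
  refine sum_congr rfl fun a _ => ?_
  simp only [m, h3, hc]
  by_cases h : φ a = a
  · simp [h]
  · have h1 := (he _ _).not.2 h
    have h2 := (he _ _).not.2 (φ.injective.ne h)
    have h4 := (he _ _).not.2 (φ.injective.ne (φ.injective.ne h))
    rw [h3] at h4
    rw [if_neg h]
    split_ifs <;> omega

section
variable {F : Type} [Field F] [Finite F] {V : Type} [AddCommGroup V] [Module F V] [Finite V]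

theorem f2 (h : Nat.card F = 2) (a : F) : a = 0 ∨ a = 1 := by
  obtain ⟨y, -, hy⟩ := (Nat.card_eq_two_iff' (0 : F)).1 h
  exact or_iff_not_imp_left.2 fun e => (hy a e).trans (hy 1 one_ne_zero).symm

theorem f2' (h : Nat.card F = 2) : (2 : F) = 0 :=
  (f2 h 2).resolve_right fun e => one_ne_zero (by linear_combination e : (1 : F) = 0)

theorem Cu.sign (h : Nat.card F = 2) (hd : finrank F V = 2) {σ : (V ≃ₗ[F] V) → ℂ} (hσ : Cu σ) :
    σ 1 = 1 ∧ ∀ k, σ k = 1 ∨ σ k = -1 := by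
  have h1 : σ 1 = 1 := by simp [hσ.deg, h, hd]
  obtain ⟨f, rfl⟩ := hσ.irr.isCharacter.exists_unitsHom h1
  refine ⟨h1, fun k => sq_eq_one_iff.1 ?_⟩
  have := SLV_le_of_tr (X := (f ^ 2).ker) (fun v φ e => ⟨LinearEquiv.transvection e, ?_, fun x => ?_⟩)
    (mem_SLV.2 ((f2 h _).resolve_left (LinearEquiv.isUnit_det' k).ne_zero))
  · exact congrArg Units.val this
  · rw [MonoidHom.mem_ker, MonoidHom.pow_apply, ← map_pow, show LinearEquiv.transvection e ^ 2 = 1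
      from LinearEquiv.ext fun x => ?_, map_one]
    simp [pow_two, LinearMap.transvection.apply, e, add_assoc, ← two_smul F, f2' h]
  · simp [LinearMap.transvection.apply]

variable {T : FormType F} {C : CForm T V} {w : C.isom} {e₁ e₂ f₁ f₂ : V}

theorem Fr2.mm (h : Fr2 C e₁ e₂ f₁ f₂ w) (hT : OS T) (x : V) :
    x - (C.B x f₁ • e₁ + C.B x f₂ • e₂ + C.B e₁ x • f₁ + C.B e₂ x • f₂) ∈
      C.perp (span F {e₁, e₂} ⊔ span F {f₁, f₂}) := by
  have := hT.εε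
  simp [C.perp_sup, C.mem_perp_pair, hT.symm x f₁, hT.symm x f₂, hT.symm e₁ f₁, hT.symm e₂ f₂,
    hT.symm e₁ f₂, hT.symm e₂ f₁, h.b11, h.b12, h.b21, h.b22, h.e12,
    C.B_swap_zero h.e12, C.B_self_of_zero h.n1, C.B_self_of_zero h.n2, C.B_self_of_zero h.m1,
    C.B_self_of_zero h.m2, C.B_swap_zero h.f12, h.f12, mul_comm]

theorem Fr2.ext (h : Fr2 C e₁ e₂ f₁ f₂ w) (hT : OS T) {g g' : C.isom} (h1 : g.1 e₁ = g'.1 e₁)
    (h2 : g.1 e₂ = g'.1 e₂) (h3 : g.1 f₁ = g'.1 f₁) (h4 : g.1 f₂ = g'.1 f₂)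
    (h5 : ∀ x, C.B e₁ x = 0 → C.B e₂ x = 0 → C.B f₁ x = 0 → C.B f₂ x = 0 → g.1 x = g'.1 x) :
    g = g' := Subtype.ext (LinearEquiv.ext fun x => by
  have := h.mm hT x
  rw [C.perp_sup, Submodule.mem_inf, C.mem_perp_pair, C.mem_perp_pair] at this
  simpa [h1, h2, h3, h4] using h5 _ this.1.1 this.1.2 this.2.1 this.2.2)

theorem ch_two {Q : QuadraticForm F V} {w : orth Q} (h : Fr2 (CForm.ofQuad Q) e₁ e₂ f₁ f₂ w)
    (hQ : QNondeg Q) (hq : Nat.card F = 2) {n : ℕ} (hn : finrank F V = n + 4) :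
    Nat.card (QW (CForm.ofQuad Q) (span F {e₁, e₂})) = 2 ^ (2 * n + 1) := by
  have := h.card (.inr rfl) hQ (i := 1) fun p e h1 h2 => by rw [pow_one, card_sing h1 h2]
  rw [hq, hn, show 2 * (n + 4) = 2 * n + 1 + (5 + 2 * 1) by ring, pow_add _ (2 * n + 1)] at this
  exact Nat.eq_of_mul_eq_mul_right (by positivity) this

theorem ra_geo {Q : QuadraticForm F V} {w : orth Q} (h : Fr2 (CForm.ofQuad Q) e₁ e₂ f₁ f₂ w)
    (hQ : QNondeg Q) (hq : Nat.card F = 2) : ∃ z u : orth Q,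
    u ∈ QW (CForm.ofQuad Q) (span F {e₁, e₂}) ∧ z ∈ St (CForm.ofQuad Q) (span F {e₁, e₂}) ∧
    z ∈ St (CForm.ofQuad Q) (span F {f₁, f₂}) ∧ z * z * z = 1 ∧ z * u = u * z ∧
    w * u * w = u * w * u ∧
    ∀ v ∈ QW (CForm.ofQuad Q) (span F {e₁, e₂}), z * v = v * z → v = 1 ∨ v = u := by
  have hT : OS (quadType F) := .inr rfl
  have ho := (h.op hT).2
  have t := f2' hq
  have ng : ∀ x : V, -x = x := fun x => by rw [neg_eq_iff_add_eq_zero, ← two_smul F, t, zero_smul]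
  have aa : ∀ x : V, x + x = 0 := fun x => by rw [← two_smul F, t, zero_smul]
  have ab : ∀ x y : V, x + (x + y) = y := fun x y => by rw [← add_assoc, aa, zero_add]
  obtain ⟨n1, n2, m1, m2, e12, f12, b11, b12, b21, b22, w1, w2, v1, v2, wf⟩ := id h
  simp only [CForm.ofQuad_N, CForm.ofQuad_B] at n1 n2 m1 m2 e12 f12 b11 b12 b21 b22 wf
  simp only [show (quadType F).ε = 1 from rfl, one_smul, ng] at w2 v1 v2
  have s : ∀ x, polar Q x x = 0 := fun x => by rw [polar_self', t, zero_mul]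
  have e21 := (polar_comm Q _ _).trans e12
  have f21 := (polar_comm Q _ _).trans f12
  have d11 := (polar_comm Q _ _).trans b11
  have d12 := (polar_comm Q _ _).trans b12
  have d21 := (polar_comm Q _ _).trans b21
  have d22 := (polar_comm Q _ _).trans b22
  obtain ⟨z, z1, z2, z3, z4, z5⟩ : ∃ z : orth Q, z.1 e₁ = e₂ ∧ z.1 e₂ = e₁ + e₂ ∧ z.1 f₁ = f₁ + f₂ ∧
      z.1 f₂ = f₁ ∧ ∀ x, polar Q e₁ x = 0 → polar Q e₂ x = 0 → polar Q f₁ x = 0 → polar Q f₂ x = 0 →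
        z.1 x = x := by
    refine ⟨eich Q e₁ f₂ * eich Q e₂ f₁, ?_, ?_, ?_, ?_, fun x _ _ _ _ => ?_⟩ <;>
      simp [eich_apply n1 b12, eich_apply n2 b21, sub_eq_add_neg, ng, add_comm, add_left_comm, *]
  obtain ⟨u, hu, u1, u2⟩ := h.sur hT hQ (y₁ := f₁ + e₂) (y₂ := f₂ + e₁) (by simp [Q_add, *])
    (by simp [Q_add, *]) (by simp [one_add_one_eq_two, *]) (by simp [*]) (by simp [*]) (by simp [*])
    (by simp [*])
  have u3 := hu.1 _ mem_l
  have u4 := hu.1 _ mem_r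
  have u5 : ∀ x, polar Q e₁ x = 0 → polar Q e₂ x = 0 → polar Q f₁ x = 0 → polar Q f₂ x = 0 →
      u.1 x = x := fun x a1 a2 a3 a4 => by
    have k1 := orth_polar u f₁ x
    have k2 := orth_polar u f₂ x
    have k3 := orth_polar u e₁ x
    have k4 := orth_polar u e₂ x
    rw [u3] at k3
    rw [u4] at k4
    simp only [u1, u2, polar_add_left, k3, k4, a1, a2, add_zero] at k1 k2
    exact sub_eq_zero.1 (ho.zero (hu.2 x ((CForm.mem_perp_pair _).2 ⟨a1, a2⟩))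
      ((CForm.mem_perp_pair _).2 (by simp [k1, k2])))
  have zW : z ∈ St (CForm.ofQuad Q) (span F {e₁, e₂}) := mem_St_of fun v hv => by
    obtain ⟨s, t, rfl⟩ := mem_span_pair.1 hv
    rw [map_add, map_smul, map_smul, z1, z2]
    exact add_mem (smul_mem _ _ mem_r) (smul_mem _ _ (add_mem mem_l mem_r))
  have zW' : z ∈ St (CForm.ofQuad Q) (span F {f₁, f₂}) := mem_St_of fun v hv => by
    obtain ⟨s, t, rfl⟩ := mem_span_pair.1 hv
    rw [map_add, map_smul, map_smul, z3, z4]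
    exact add_mem (smul_mem _ _ (add_mem mem_l mem_r)) (smul_mem _ _ mem_l)
  have zz : z * z * z = 1 := h.ext hT (by simp [add_comm, add_left_comm, *])
    (by simp [add_comm, add_left_comm, *]) (by simp [add_comm, add_left_comm, *])
    (by simp [add_comm, add_left_comm, *]) fun x a b c d => by simp [z5 x a b c d]
  have zu : z * u = u * z := h.ext hT (by simp [*]) (by simp [*])
    (by simp [add_comm, add_left_comm, *]) (by simp [add_comm, add_left_comm, *])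
    fun x a b c d => by simp [z5 x a b c d, u5 x a b c d]
  have wu : w * u * w = u * w * u := h.ext hT (by simp [add_comm, *]) (by simp [add_comm, *])
    (by simp [add_comm, add_left_comm, *]) (by simp [add_comm, add_left_comm, *])
    fun x a b c d => by simp [wf x a b c d, u5 x a b c d]
  refine ⟨z, u, hu, zW, zW', zz, zu, wu, fun v hv e => ?_⟩
  have k1 : z.1 (v.1 f₁) = v.1 (z.1 f₁) := congrArg (fun g : orth Q => g.1 f₁) e
  have k2 : z.1 (v.1 f₂) = v.1 (z.1 f₂) := congrArg (fun g : orth Q => g.1 f₂) e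
  rw [z3, map_add] at k1
  rw [z4] at k2
  have k3 : ∀ m ∈ (CForm.ofQuad Q).perp (span F {e₁, e₂} ⊔ span F {f₁, f₂}),
      polar Q m (v.1 f₁) = 0 ∧ polar Q m (v.1 f₂) = 0 := fun m hm => by
    rw [CForm.perp_sup, Submodule.mem_inf, CForm.mem_perp_pair, CForm.mem_perp_pair] at hm
    have a := orth_polar z m (v.1 f₁)
    have b := orth_polar z m (v.1 f₂)
    rw [z5 m hm.1.1 hm.1.2 hm.2.1 hm.2.2] at a b
    rw [k1, polar_add_right, add_eq_left] at a
    exact ⟨by rw [← k2, b, a], a⟩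
  have k4 : ∀ y, (∀ m ∈ (CForm.ofQuad Q).perp (span F {e₁, e₂} ⊔ span F {f₁, f₂}),
      polar Q m y = 0) → y = polar Q y f₁ • e₁ + polar Q y f₂ • e₂ + polar Q e₁ y • f₁ +
        polar Q e₂ y • f₂ := fun y hy => by
    by_contra h1
    obtain ⟨m, hm, e⟩ := ho.m0 hQ (h.mm hT y) (sub_ne_zero.2 h1)
    have := hy m hm
    rw [CForm.perp_sup, Submodule.mem_inf, CForm.mem_perp_pair, CForm.mem_perp_pair] at hm
    simp only [CForm.ofQuad_B] at hm e
    simp [hm, polar_comm Q y, this] at e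
  have y1 := k4 _ fun m hm => (k3 m hm).1
  have y2 := k4 _ fun m hm => (k3 m hm).2
  have p1 := fun x => q_B hv mem_l x
  have p2 := fun x => q_B hv mem_r x
  simp only [CForm.ofQuad_B] at p1 p2
  rw [p1, p2] at y1 y2
  have q1 := orth_Q v f₁
  have q2 := orth_Q v f₂
  have q3 := orth_polar v f₁ f₂
  generalize polar Q (v.1 f₁) f₁ = a₁ at y1
  generalize polar Q (v.1 f₁) f₂ = a₂ at y1
  generalize polar Q (v.1 f₂) f₁ = a₃ at y2
  generalize polar Q (v.1 f₂) f₂ = a₄ at y2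
  rw [y1] at q1 q3
  rw [y2] at q2 q3
  clear k1 k2 k3 k4 p1 p2
  simp [Q_add, Q_smul, n1, n2, m1, m2, e12, f12, b11, b12, b21, b22, s, e21, f21, d11, d12, d21,
    d22] at q1 q2 q3
  rcases f2 hq a₂ with rfl | rfl
  · exact .inl ((h.inj hT hQ hv (one_mem _) (by simp [*]) (by
      simp [show a₃ = 0 by simpa using q3, *])))
  · exact .inr ((h.inj hT hQ hv hu (by simp [add_comm, *]) (by
      simp [show a₃ = 1 by linear_combination q3 - t, add_comm, *])))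

end

theorem ra : RA := by
  intro F V _ _ _ _ _ Q hQ hq hn hP
  have hT : OS (quadType F) := .inr rfl
  obtain ⟨e₁, e₂, f₁, f₂, w, h⟩ := fr2 F _ V _ hT hQ (hP.1.mono (by omega))
  obtain ⟨hd, ho⟩ := h.op hT
  obtain ⟨σ, hσ, hS, -⟩ := H3.DG.cuc F (span F {e₁, e₂}) hd
  obtain ⟨α, -, f, -, a1, -, a2, -, ⟨a, b, c, a3⟩, -, a4, -, a5, -⟩ :=
    H12.DG.r3 F _ V _ hT hQ 5 1 3 _ hP ho.1 one_pos (by omega) (by omega)
  obtain rfl : f = 14 := by rw [FA, hq] at a5; omega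
  have H := h.rth hT hQ (van el mi) hσ hS a1 (.inr a2)
  have hw := h.wy hT hQ
  obtain ⟨s1, s2⟩ := hσ.sign hq hd
  have he : psi _ _ σ α 1 = (14 : ℕ) := by rw [psi_one, s1, a4, one_mul]
  have hi : ∀ g ∈ St (CForm.ofQuad Q) (span F {e₁, e₂}), ∃ n : ℤ, psi _ _ σ α g = n := fun g hg => by
    obtain ⟨n, e⟩ := exists_int_of_isIntegral_rat (q := a * fx _ _ g + b * ad _ _ g + c) (by
      push_cast; exact a3 g hg ▸ a1.irr.ch.out.isIntegral_apply ⟨g, hg⟩)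
    push_cast at e
    rw [psi, a3 g hg, e]
    rcases s2 (rho _ _ g) with e | e <;> rw [e]
    · exact ⟨n, one_mul _⟩
    · exact ⟨-n, by simp⟩
  by_cases h0 : ∑ᶠ u : QW (CForm.ofQuad Q) (span F {e₁, e₂}),
    cc (St _ (span F {e₁, e₂})) (psi _ _ σ α) w u.1 = 0
  swap
  · obtain ⟨χ, -, c, d, c1, -, -, c2, c3, c4⟩ := H.two (odd_two_mul_add_one 6)
      (ch_two h hQ hq hn) he hi fun h => absurd h h0
    refine ⟨χ, _, c1, c3, ?_⟩
    obtain ⟨c, rfl⟩ := c2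
    have : Nat.Coprime 14 (2 ^ (2 * c + 1) + 1) := by
      refine Nat.Coprime.mul_left (m := 2) (n := 7) (by simp [pow_succ]) ?_
      rw [(by norm_num : Nat.Prime 7).coprime_iff_not_dvd, Nat.dvd_iff_mod_eq_zero, Nat.add_mod,
        ← Nat.div_add_mod (2 * c + 1) 3, pow_add, pow_mul, Nat.mul_mod, Nat.pow_mod]
      have := Nat.mod_lt (2 * c + 1) three_pos
      generalize (2 * c + 1) % 3 = r at *
      interval_cases r <;> simp
    rw [pow_succ, mul_assoc]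
    exact (mul_dvd_mul_left 2 (this.dvd_of_dvd_mul_left (c4 ▸ dvd_mul_left _ _))).mul_left _
  exfalso
  obtain ⟨z, u, hu, zW, zW', zz, zu, wu, uq⟩ := ra_geo h hQ hq
  have cu := H.cc_eq (H.le hu) (H.le hu) wu
  rw [H.ker _ (mul_mem hu hu), he] at cu
  have := Fintype.ofFinite (QW (CForm.ofQuad Q) (span F {e₁, e₂}))
  let φ : QW (CForm.ofQuad Q) (span F {e₁, e₂}) ≃ QW (CForm.ofQuad Q) (span F {e₁, e₂}) :=
    ⟨fun v => ⟨_, H.nrm z zW v v.2⟩, fun v => ⟨_, H.nrm _ (inv_mem zW) v v.2⟩,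
      fun v => Subtype.ext (by simp [mul_assoc]), fun v => Subtype.ext (by simp [mul_assoc])⟩
  have fx : ∀ v, φ v = v ↔ v = 1 ∨ v = ⟨u, hu⟩ := fun v =>
    ⟨fun e => (uq v v.2 (mul_inv_eq_iff_eq_mul.1 (congrArg Subtype.val e))).imp Subtype.ext
      Subtype.ext, by rintro (rfl | rfl) <;> simp [φ, zu]⟩
  choose n hn using cc_int (w := w) hi
  obtain ⟨k, hk⟩ := sum_three φ (fun v => Subtype.ext (by
    change z * (z * (z * v * z⁻¹) * z⁻¹) * z⁻¹ = v
    calc _ = z * z * z * v * (z * z * z)⁻¹ := by group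
      _ = _ := by rw [zz]; simp)) (fun v => n v) fun v =>
      Int.cast_injective (α := ℂ) (by rw [← hn, ← hn]; exact H.cc_conj (hw.st.2 zW') v)
  simp only [finsum_eq_sum_of_fintype, hn, ← Int.cast_sum, Int.cast_eq_zero] at h0
  have n0 : n 1 = 0 := Int.cast_injective (α := ℂ) (by rw [← hn, H.cc_one, Int.cast_zero])
  have n1 : n u = 14 := Int.cast_injective (α := ℂ) (by rw [← hn, cu]; norm_num)
  rw [h0, sum_eq_single ⟨u, hu⟩ (fun v _ hv => by
    simp only [fx, hv, or_false]; split_ifs with e <;> simp [e, n0]) (by simp), if_pos ((fx _).2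
    (.inr rfl)), n1] at hk
  omega

end H16.DG
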