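import Cfsg.Agent.H16.DG6

/-! S4984: the group `O₈⁻(2)`. -/

set_option autoImplicit false
set_option linter.unusedSectionVars false

open Cfsg Module H12 H5 Finset Submodule QuadraticMap Equiv
open scoped ComplexConjugate Classical

namespace H16.DG

def f5 (s : Perm (Fin 5)) : ℤ := #{x | s x = x}
/-- a character of degree five of the symmetric group of degree five -/
def c5 (s : Perm (Fin 5)) : ℤ := (f5 s ^ 2 + f5 (s * s)) / 2 - 2 * f5 s
theorem c5a : ∑ s, c5 s ^ 2 = 120 := by decide +kernel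
theorem c5b : ∑ s, (Perm.sign s : ℤ) * c5 s ^ 2 = 0 := by decide +kernel
theorem c5c : ∀ s, 2 * c5 s = f5 s ^ 2 + f5 (s * s) - 4 * f5 s := by decide +kernel
theorem c5d : c5 1 = 5 := by decide +kernel

theorem c5_irr : IsIrrCharacter (Perm (Fin 5)) fun s => c5 s := by
  have h := isCharacter_perm (G := Perm (Fin 5)) (Fin 5)
  have e : ∀ s : Perm (Fin 5), (Nat.card (MulAction.fixedBy (Fin 5) s) : ℂ) = f5 s := fun s => by
    simp [f5, Fintype.card_subtype]
  simp only [e] at h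
  have h1 := h.sym2.isGeneralizedCharacter.sub (h.isGeneralizedCharacter.nsmul 2)
  have h2 : IsGeneralizedCharacter (Perm (Fin 5)) fun s => c5 s := by
    convert h1 using 1
    funext s
    have := congrArg (Int.cast : ℤ → ℂ) (c5c s)
    push_cast at this
    simp only [Pi.sub_apply, two_nsmul, Pi.add_apply]
    linear_combination this / 2
  refine h2.isIrr_of_re_nonneg (mul_left_cancel₀ (card_ne_zero_complex (Perm (Fin 5))) ?_)
    (by simp [c5d])
  have := congrArg (Int.cast : ℤ → ℂ) c5a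
  rw [card_mul_classInner]
  simpa [pow_two, Fintype.card_perm, Nat.factorial] using this

section
variable {G : Type} [Group G] [Finite G] {P Q : Subgroup G} {ψ ψ' : G → ℂ} {w : G}

theorem mk_sub (x : G) : mk P ψ ψ' x =
    ∑ᶠ g : P, if x⁻¹ * g * x ∈ P then ψ g * conj (ψ' (x⁻¹ * g * x)) else 0 := by
  have := Fintype.ofFinite G
  have := Fintype.ofFinite P
  rw [mk_eq, finsum_eq_sum_of_fintype, ← sum_extendByZero P]
  refine sum_congr rfl fun g _ => ?_
  rw [extendByZero_apply]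
  by_cases h : g ∈ P <;> simp [h]

theorem irr_ker (ε : G →* ℤˣ) (hi : ε.ker.index = 2) {χ χ' : G → ℂ} (c1 : IsIrrCharacter G χ)
    (c2 : IsIrrCharacter G χ') (e : ind P ψ = χ + χ')
    (h : ∀ x, mk P (fun g => ((ε g : ℤ) : ℂ) * ψ g) ψ x = 0) :
    IsIrrCharacter ε.ker fun g => χ g := by
  have := Fintype.ofFinite G
  have := Fintype.ofFinite ε.ker
  have c3 : IsCharacter G fun g => ((ε g : ℤ) : ℂ) := (isIrrCharacter_monoidHom
    ((Int.castRingHom ℂ).toMonoidHom.comp ((Units.coeHom ℤ).comp ε))).isCharacter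
  have h1 := inner_ind (P := P) (ψ := fun g => ((ε g : ℤ) : ℂ) * ψ g) (ψ' := ψ)
  have h2 : ind P (fun g => ((ε g : ℤ) : ℂ) * ψ g) = ind P ψ * fun g => ((ε g : ℤ) : ℂ) := by
    rw [ind_eq, ind_eq, ← indFun_mul_restrict _ _ c3.isClassFunction]
    simp only [mul_comm]
  obtain ⟨a, ha⟩ := (c1.isCharacter.mul c3).exists_classInner_nat c1.isCharacter
  obtain ⟨b, hb⟩ := (c1.isCharacter.mul c3).exists_classInner_nat c2.isCharacter
  obtain ⟨c, hc⟩ := (c2.isCharacter.mul c3).exists_classInner_nat c1.isCharacter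
  obtain ⟨d, hd⟩ := (c2.isCharacter.mul c3).exists_classInner_nat c2.isCharacter
  rw [sum_eq_zero fun x _ => h x, mul_eq_zero, or_iff_right (pow_ne_zero 2 (card_ne_zero_complex P)),
    h2, e, add_mul, classInner_add_left, classInner_add_right, classInner_add_right, ha, hb, hc,
    hd] at h1
  have : a + b + (c + d) = 0 := by exact_mod_cast h1
  rw [show a = 0 by omega, Nat.cast_zero] at ha
  refine (c1.isCharacter.restrict _).isIrr_of_classInner_self (mul_left_cancel₀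
    (mul_ne_zero two_ne_zero (card_ne_zero_complex ε.ker)) ?_)
  have h3 := card_mul_classInner χ χ
  have h4 := card_mul_classInner (χ * fun g => ((ε g : ℤ) : ℂ)) χ
  rw [c1.classInner_self, ← ε.ker.index_mul_card, hi] at h3
  rw [ha] at h4
  rw [mul_assoc, card_mul_classInner, ← sum_extendByZero, mul_sum]
  push_cast at h3
  rw [h3, ← add_zero (∑ g, χ g * _), ← mul_zero (Nat.card G : ℂ), h4, ← sum_add_distrib]
  refine sum_congr rfl fun g _ => ?_
  rw [extendByZero_apply]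
  rcases Int.units_eq_one_or (ε g) with e | e <;> simp [MonoidHom.mem_ker, e, two_mul]

theorem RTH.psi_w (h : RTH P Q ψ w) {l : G} (hl : l ∈ P) (h1 : w⁻¹ * l * w ∈ P) :
    ψ (w⁻¹ * l * w) = ψ l := by
  rw [← h.irr.ch.ker_mul (mul_mem h1 (inv_mem hl)) (h.cen l hl h1) hl, inv_mul_cancel_right]

theorem sgn_avg (φ : G →* Perm (Fin 5)) (ε : G →* ℤˣ) (L : Subgroup G)
    (h : ∀ a b, a ≠ b → ∃ r ∈ L, φ r = swap a b ∧ ε r = -1) :
    ∑ᶠ g, (if g ∈ L then ((ε g : ℤ) : ℂ) * (c5 (φ g)) ^ 2 else 0) = 0 := by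
  let D := L ⊓ ε.eqLocus (Perm.sign.comp φ)
  have h1 := avg D (f := fun g => ((ε g : ℤ) : ℂ) * (c5 (φ g)) ^ 2) 0
    (Φ := fun g => if g ∈ L then 1 else 0) (fun g u hu => by
      simp only [L.mul_mem_cancel_right hu.1]) fun g _ => ?_
  · simpa using h1
  let f := φ.comp D.subtype
  have h2 : f.range = ⊤ := eq_top_iff.2 (Perm.closure_isSwap.ge.trans ((Subgroup.closure_le _).2 (by
    rintro _ ⟨a, b, hab, rfl⟩
    obtain ⟨r, r1, r2, r3⟩ := h a b hab
    exact ⟨⟨r, r1, show ε r = Perm.sign (φ r) by simp [r2, r3, hab]⟩, r2⟩)))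
  have h3 := sum_hom f fun s => ((Perm.sign (φ g * s) : ℤ) : ℂ) * (c5 (φ g * s)) ^ 2
  have h4 : ∑ᶠ s : f.range, ((Perm.sign (φ g * s.1) : ℤ) : ℂ) * (c5 (φ g * s.1)) ^ 2 = 0 := by
    rw [finsum_eq_of_bijective (g := fun s => ((Perm.sign s : ℤ) : ℂ) * (c5 s) ^ 2)
      (fun k : f.range => φ g * k.1) ⟨fun a b e => Subtype.ext (mul_left_cancel e),
      fun k => ⟨⟨_, h2 ▸ trivial⟩, mul_inv_cancel_left _ _⟩⟩ fun _ => rfl, finsum_eq_sum_of_fintype]
    exact_mod_cast c5b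
  rw [h4, mul_zero, mul_eq_zero, or_iff_right (card_ne_zero_complex _)] at h3
  rw [mul_zero, ← mul_zero (((ε g * Perm.sign (φ g) : ℤˣ) : ℤ) : ℂ), ← h3, mul_finsum]
  refine finsum_congr fun u => ?_
  have : ε u = Perm.sign (φ u) := u.2.2
  simp only [f, map_mul, this, MonoidHom.comp_apply, Subgroup.subtype_apply, ← mul_assoc]
  congr 1
  rcases Int.units_eq_one_or (Perm.sign (φ g)) with e | e <;> simp [e]

end

section
variable {F : Type} [Field F] [Finite F] {V : Type} [AddCommGroup V] [Module F V] [Finite V]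
  {Q : QuadraticForm F V} {W W' : Submodule F V}

theorem swaps (hQ : QNondeg Q) (hq : Nat.card F = 2) (h : Op (CForm.ofQuad Q) W W') {m t : ℕ}
    (hP : Par (CForm.ofQuad Q) m t) (hd : finrank F W + 1 = m) {Y Z : XW (CForm.ofQuad Q) W}
    (h0 : Y ≠ Z) : ∃ v, Q v ≠ 0 ∧ ∃ hr : refl Q v ∈ St (CForm.ofQuad Q) W,
      refl Q v ∈ St (CForm.ofQuad Q) W' ∧
      ∀ X, (⟨_, hr⟩ : St (CForm.ofQuad Q) W) • X = swap Y Z X := by
  have k1 : ∀ Y : XW (CForm.ofQuad Q) W, ∃ y ∈ Y.1, y ∉ W ∧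
      y ∈ (CForm.ofQuad Q).perp (W ⊔ W') := fun Y => by
    obtain ⟨y, y1, y2⟩ := H12.DG.xw_ex Y
    obtain ⟨a, a1, a2⟩ := ((opk F _ V _ (.inr rfl) hQ W).2 W' h).2 y (Y.le_perp y1)
    exact ⟨y - a, sub_mem y1 (Y.2.2.1 a1), fun e => y2 (by simpa using add_mem e a1), a2⟩
  choose y y1 y2 y3 using k1
  have k2 : ∀ Y Z, Y ≠ Z → polar Q (y Y) (y Z) = 1 := fun Y Z h0 => (f2 hq _).resolve_left fun e => by
    have h1 := (hP.2 _ (Y.2.1.sup Z.2.1 ((H12.DG.xw_perp (y1 Y) (y2 Y) (y1 Z) (y2 Z)).2 e))).1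
    have h2 : Y.1 = Y.1 ⊔ Z.1 := eq_of_le_of_finrank_le le_sup_left (by rw [Y.2.2.2]; omega)
    exact h0 (H12.DG.xw_ext (h2 ▸ mem_sup_right (y1 Z)) (y1 Z) (y2 Z))
  have k3 : ∀ Y, Q (y Y) = 0 := fun Y => Y.2.1.1 _ (y1 Y)
  have k4 : Q (y Y - y Z) ≠ 0 := by simp [Q_sub, k2 Y Z h0, k3]
  have k5 : ∀ x ∈ W ⊔ W', (refl Q (y Y - y Z)).1 x = x := fun x hx =>
    refl_apply_of_orth ((CForm.mem_perp' _).1 (sub_mem (y3 Y) (y3 Z)) x hx)
  have k6 := refl_sub_apply ((k3 Y).trans (k3 Z).symm) k4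
  refine ⟨_, k4, mem_St_of fun x hx => by rwa [k5 x (mem_sup_left hx)],
    mem_St_of fun x hx => by rwa [k5 x (mem_sup_right hx)], fun X => Subtype.ext ?_⟩
  rw [smul_val, ← H12.DG.xw_eq X (y1 X) (y2 X), H12.DG.im_sup1 fun x hx => k5 x (mem_sup_left hx),
    ← H12.DG.xw_eq _ (y1 (swap Y Z X)) (y2 _), swap_apply_def]
  congr 3
  split_ifs with a b
  · rw [a, k6]
  · simpa only [b, refl_inv, k6] using orth_inv_apply' (refl Q (y Y - y Z)) (y Y)
  · exact refl_apply_of_orth (by simp [k2 _ _ (Ne.symm a), k2 _ _ (Ne.symm b)])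

end

theorem rc : RC := by
  intro F V _ _ _ _ _ Q hQ hq hn hP
  have hT : OS (quadType F) := .inr rfl
  obtain ⟨e₁, e₂, f₁, f₂, w, h⟩ := fr2 F _ V _ hT hQ (hP.1.mono (by omega))
  obtain ⟨hd, ho⟩ := h.op hT
  obtain ⟨σ, hσ, hS, -⟩ := H3.DG.cuc F (span F {e₁, e₂}) hd
  have hw := h.wy hT hQ
  have hc := ch_two h hQ hq hn
  have H0 := fun τ => h.rth (τ := τ) hT hQ (van el mi) hσ hS
  generalize span F {e₁, e₂} = W at *
  generalize span F {f₁, f₂} = W' at *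
  have ne : NotExc F V := notExc (by omega)
  have hk := commutator_eq_ker_dickson hQ ne (f2' hq)
  obtain ⟨s1, s2⟩ := hσ.sign hq hd
  have h5 := (((H12.DG.r1 F _ V _ hT hQ 3 4 W hP ho.1).2 (by omega) (by omega)).2)
  rw [H12.DG.fx_one] at h5
  let e := Finite.equivFinOfCardEq h5
  let φ : St (CForm.ofQuad Q) W →* Perm (Fin 5) :=
    e.permCongrHom.toMonoidHom.comp (MulAction.toPermHom _ _)
  have sw : ∀ a b, a ≠ b → ∃ r : St (CForm.ofQuad Q) W, r.1 ∈ St (CForm.ofQuad Q) W' ∧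
      φ r = swap a b ∧ dickson Q r = -1 := fun a b hab => by
    obtain ⟨v, v1, v2, v3, v4⟩ := swaps hQ hq ho hP (by omega) (e.symm.injective.ne hab)
    refine ⟨⟨_, v2⟩, v3, Equiv.ext fun i => ?_, dickson_refl hQ ne v1⟩
    simp [φ, v4, e.injective.map_swap]
  have fx : ∀ g : St (CForm.ofQuad Q) W, (∀ Y : XW (CForm.ofQuad Q) W, im _ g.1 Y.1 = Y.1) →
      φ g = 1 := fun g hg => Equiv.ext fun i => by
    simp [φ, show g • e.symm i = e.symm i from Subtype.ext (hg _)]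
  let τ : orth Q → ℂ := fun g => if h : g ∈ St (CForm.ofQuad Q) W then c5 (φ ⟨g, h⟩) else 0
  have t1 : ∀ g : St (CForm.ofQuad Q) W, τ g = c5 (φ g) := fun g => dif_pos g.2
  have t2 : ∀ g ∈ St (CForm.ofQuad Q) W, (∀ Y : XW (CForm.ofQuad Q) W, im _ g Y.1 = Y.1) →
      τ g = τ 1 := fun g hg h => by rw [t1 ⟨g, hg⟩, fx _ h, ← map_one φ, ← t1]; rfl
  have hτ : Ta (CForm.ofQuad Q) W τ := ⟨by
    simpa only [Ir, t1] using c5_irr.comp_surjective φ (MonoidHom.range_eq_top.1 (eq_top_iff.2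
      (Perm.closure_isSwap.ge.trans ((Subgroup.closure_le _).2 (by
        rintro _ ⟨a, b, hab, rfl⟩
        obtain ⟨r, -, r2, -⟩ := sw a b hab
        exact ⟨r, r2⟩))))), fun u hu => t2 u (hu.mem ho.1) (H12.DG.kw_fix hu),
    fun u hu => t2 u hu.mem (H12.DG.ng_fix hu)⟩
  have nm : ∀ U, (CForm.ofQuad Q).TS U → finrank F U = finrank F W → U ≤ (CForm.ofQuad Q).perp W →
      W ⊓ U ≠ ⊥ := fun U h2 h3 h4 h5 => by
    have h6 := (hP.2 _ (ho.1.sup h2 h4)).1
    have h7 := Submodule.finrank_sup_add_finrank_inf_eq W U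
    rw [h5, finrank_bot] at h7
    omega
  have H := H0 τ hτ (.inl nm)
  have he : psi _ _ σ τ 1 = (5 : ℕ) := by
    rw [psi_one, s1, one_mul]; exact (t1 1).trans (by simp [c5d])
  have ix : (St (CForm.ofQuad Q) W).index = 1071 := by
    have := H12.DG.ix F _ V _ hT hQ 3 4 _ hP ho.1
    simp [hd, hq, Pk, prod_range_succ] at this
    omega
  obtain ⟨χ, χ', c, d, c1, c2, c3, c4, c5, c6⟩ := H.two (odd_two_mul_add_one 4) hc he (fun g hg => by
    rw [psi, t1 ⟨g, hg⟩]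
    rcases s2 (rho _ _ g) with e | e <;> rw [e]
    · exact ⟨_, one_mul _⟩
    · exact ⟨-_, by rw [Int.cast_neg, neg_one_mul]⟩) fun _ => by rw [ix]; decide
  have k : ∀ x (L : Subgroup (St (CForm.ofQuad Q) W)), (∀ g, x⁻¹ * g.1 * x ∈ St _ W ↔ g ∈ L) →
      (∀ g ∈ L, psi _ W σ τ (x⁻¹ * g.1 * x) = psi _ W σ τ g) → (St _ W').subgroupOf _ ≤ L →
      mk (St _ W) (fun g => ((dickson Q g : ℤ) : ℂ) * psi _ W σ τ g) (psi _ W σ τ) x = 0 := by
    intro x L h1 h2 h3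
    refine (mk_sub x).trans ((finsum_congr fun g => ?_).trans (sgn_avg φ ((dickson Q).comp
      (Subgroup.subtype _)) L fun a b hab => (sw a b hab).imp fun r h => ⟨h3 h.1, h.2⟩))
    simp only [h1]
    split_ifs with hg
    · rw [h2 g hg, psi, t1]
      rcases s2 (rho _ _ g.1) with e | e <;> simp [e, pow_two, mul_assoc]
    · rfl
  have cε : Ch (St (CForm.ofQuad Q) W) fun g => ((dickson Q g : ℤ) : ℂ) * psi _ W σ τ g :=
    Ch.mul ((isIrrCharacter_monoidHom ((Int.castRingHom ℂ).toMonoidHom.comp ((Units.coeHom ℤ).comp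
      (dickson Q)))).isCharacter.restrict _) H.irr.ch
  rw [hk]
  refine ⟨_, _, irr_ker (dickson Q) (hk ▸ index_commutator_even hQ ne (f2' hq) (by omega)) c1 c2 c3
    fun x => ?_, c5, ?_⟩
  · by_cases h1 : x ∈ St (CForm.ofQuad Q) W
    · rw [mk_dc (w := 1) cε H.irr.ch ⟨x, h1, 1, one_mem _, by simp⟩]
      exact k 1 ⊤ (by simp) (by simp) le_top
    by_cases h2 : W ⊓ (CForm.ofQuad Q).perp (im _ x W) = ⊥
    · obtain ⟨p, hp, p', hp', e⟩ := hw.dc h2
      rw [mk_dc cε H.irr.ch ⟨p, H.le hp, p', hp', e⟩]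
      exact k w _ (fun g => hw.st) (fun g hg => H.psi_w g.2 (hw.st.2 hg)) le_rfl
    refine vt el F _ V _ hT hQ W σ τ _ x ho.1 hσ hτ ?_ h1 h2
      fun h => nm _ (ts_im ho.1) finrank_im h.1 h.2
    rintro g u ⟨a, b, a1, a2, a3⟩
    have : u ∈ (dickson Q).ker := by
      rw [← hk, show u = eich Q a b from orth_ext fun x => by
        simp [a3, eich_apply a1 a2, show (quadType F).ε = 1 from rfl]]
      exact eichGroup_le_commutator hQ ne (eich_mem_eichGroup a1 a2)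
    rw [map_mul, MonoidHom.mem_ker.1 this, mul_one]
  · obtain ⟨c, rfl⟩ := c4
    have : Nat.Coprime 595 (2 ^ (2 * c + 1) + 1) := by
      rw [Nat.coprime_comm, Nat.Coprime, Nat.gcd_comm, Nat.gcd_rec, Nat.add_mod,
        ← Nat.div_add_mod c 12, mul_add, ← mul_assoc, add_assoc, pow_add, mul_assoc 2, ← mul_assoc 2,
        pow_mul, Nat.mul_mod, Nat.pow_mod]
      have := Nat.mod_lt c (by omega : 0 < 12)
      generalize c % 12 = r at *
      interval_cases r <;> simp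
    rw [pow_succ, mul_assoc]
    rw [ix] at c6
    exact (mul_dvd_mul_left 2 (this.dvd_of_dvd_mul_left (c6 ▸ by decide))).mul_left _

end H16.DG
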