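import Cfsg.Agent.H16.E8a

/-! The points of order dividing `63`. -/

namespace H16.E8

theorem k63_0 : chk 63 x63 y63 T63 0 1 = true := by decide +kernel
theorem k63_1 : chk 63 x63 y63 T63 1 2 = true := by decide +kernel
theorem k63_2 : chk 63 x63 y63 T63 3 5 = true := by decide +kernel
theorem k63_3 : chk 63 x63 y63 T63 8 15 = true := by decide +kernel
theorem k63_4 : chk 63 x63 y63 T63 23 2 = true := by decide +kernel
theorem k63_5 : chk 63 x63 y63 T63 25 19 = true := by decide +kernel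
theorem k63_6 : chk 63 x63 y63 T63 44 2 = true := by decide +kernel
theorem k63_7 : chk 63 x63 y63 T63 46 9 = true := by decide +kernel
theorem k63_8 : chk 63 x63 y63 T63 55 14 = true := by decide +kernel
theorem k63_9 : chk 63 x63 y63 T63 69 20 = true := by decide +kernel
theorem k63_10 : chk 63 x63 y63 T63 89 21 = true := by decide +kernel
theorem k63_11 : chk 63 x63 y63 T63 110 9 = true := by decide +kernel
theorem k63_12 : chk 63 x63 y63 T63 119 35 = true := by decide +kernel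
theorem k63_13 : chk 63 x63 y63 T63 154 24 = true := by decide +kernel
theorem k63_14 : chk 63 x63 y63 T63 178 64 = true := by decide +kernel
theorem k63_15 : chk 63 x63 y63 T63 242 462 = true := by decide +kernel

theorem tab63 {a0 a1 a2 a3 a4 a5 a6 a7 : ℕ} (ha : ∀ r ∈ PR, dt r [a0, a1, a2, a3, a4, a5, a6, a7] ≤ 63)
    (h : ∀ k, 0 < k → k < 63 → nn [a0, a1, a2, a3, a4, a5, a6, a7] k + nn [a0, a1, a2, a3, a4, a5, a6, a7] (63 - k) =
      nn [a0, a1, a2, a3, a4, a5, a6, a7] (2 * k % 63) + nn [a0, a1, a2, a3, a4, a5, a6, a7] (63 - 2 * k % 63)) :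
    [a0, a1, a2, a3, a4, a5, a6, a7] ∈ T63 := by
  have h0 := ha [2, 3, 4, 6, 5, 4, 3, 2] (by decide)
  simp only [dt] at h0
  have h1 := fun lo l => chk_spec (lo := lo) (l := l) (T := T63) y63_eq (by decide) (by decide) ha h
  refine (Nat.lt_or_ge (22 * a7 + a6) 1).elim (h1 _ _ k63_0 (by omega)) fun _ => ?_
  refine (Nat.lt_or_ge (22 * a7 + a6) 3).elim (h1 _ _ k63_1 (by omega)) fun _ => ?_
  refine (Nat.lt_or_ge (22 * a7 + a6) 8).elim (h1 _ _ k63_2 (by omega)) fun _ => ?_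
  refine (Nat.lt_or_ge (22 * a7 + a6) 23).elim (h1 _ _ k63_3 (by omega)) fun _ => ?_
  refine (Nat.lt_or_ge (22 * a7 + a6) 25).elim (h1 _ _ k63_4 (by omega)) fun _ => ?_
  refine (Nat.lt_or_ge (22 * a7 + a6) 44).elim (h1 _ _ k63_5 (by omega)) fun _ => ?_
  refine (Nat.lt_or_ge (22 * a7 + a6) 46).elim (h1 _ _ k63_6 (by omega)) fun _ => ?_
  refine (Nat.lt_or_ge (22 * a7 + a6) 55).elim (h1 _ _ k63_7 (by omega)) fun _ => ?_
  refine (Nat.lt_or_ge (22 * a7 + a6) 69).elim (h1 _ _ k63_8 (by omega)) fun _ => ?_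
  refine (Nat.lt_or_ge (22 * a7 + a6) 89).elim (h1 _ _ k63_9 (by omega)) fun _ => ?_
  refine (Nat.lt_or_ge (22 * a7 + a6) 110).elim (h1 _ _ k63_10 (by omega)) fun _ => ?_
  refine (Nat.lt_or_ge (22 * a7 + a6) 119).elim (h1 _ _ k63_11 (by omega)) fun _ => ?_
  refine (Nat.lt_or_ge (22 * a7 + a6) 154).elim (h1 _ _ k63_12 (by omega)) fun _ => ?_
  refine (Nat.lt_or_ge (22 * a7 + a6) 178).elim (h1 _ _ k63_13 (by omega)) fun _ => ?_
  refine (Nat.lt_or_ge (22 * a7 + a6) 242).elim (h1 _ _ k63_14 (by omega)) fun _ => ?_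
  exact h1 _ _ k63_15 (by omega) (by omega)

end H16.E8
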