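import Cfsg.Agent.H16.E8a

/-! The points of order dividing `65`. -/

namespace H16.E8

theorem k65_0 : chk 65 x65 y65 T65 0 1 = true := by decide +kernel
theorem k65_1 : chk 65 x65 y65 T65 1 1 = true := by decide +kernel
theorem k65_2 : chk 65 x65 y65 T65 2 2 = true := by decide +kernel
theorem k65_3 : chk 65 x65 y65 T65 4 9 = true := by decide +kernel
theorem k65_4 : chk 65 x65 y65 T65 13 10 = true := by decide +kernel
theorem k65_5 : chk 65 x65 y65 T65 23 2 = true := by decide +kernel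
theorem k65_6 : chk 65 x65 y65 T65 25 5 = true := by decide +kernel
theorem k65_7 : chk 65 x65 y65 T65 30 15 = true := by decide +kernel
theorem k65_8 : chk 65 x65 y65 T65 45 2 = true := by decide +kernel
theorem k65_9 : chk 65 x65 y65 T65 47 19 = true := by decide +kernel
theorem k65_10 : chk 65 x65 y65 T65 66 2 = true := by decide +kernel
theorem k65_11 : chk 65 x65 y65 T65 68 9 = true := by decide +kernel
theorem k65_12 : chk 65 x65 y65 T65 77 14 = true := by decide +kernel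
theorem k65_13 : chk 65 x65 y65 T65 91 20 = true := by decide +kernel
theorem k65_14 : chk 65 x65 y65 T65 111 21 = true := by decide +kernel
theorem k65_15 : chk 65 x65 y65 T65 132 9 = true := by decide +kernel
theorem k65_16 : chk 65 x65 y65 T65 141 35 = true := by decide +kernel
theorem k65_17 : chk 65 x65 y65 T65 176 24 = true := by decide +kernel
theorem k65_18 : chk 65 x65 y65 T65 200 64 = true := by decide +kernel
theorem k65_19 : chk 65 x65 y65 T65 264 462 = true := by decide +kernel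

theorem tab65 {a0 a1 a2 a3 a4 a5 a6 a7 : ℕ} (ha : ∀ r ∈ PR, dt r [a0, a1, a2, a3, a4, a5, a6, a7] ≤ 65)
    (h : ∀ k, 0 < k → k < 65 → nn [a0, a1, a2, a3, a4, a5, a6, a7] k + nn [a0, a1, a2, a3, a4, a5, a6, a7] (65 - k) =
      nn [a0, a1, a2, a3, a4, a5, a6, a7] (2 * k % 65) + nn [a0, a1, a2, a3, a4, a5, a6, a7] (65 - 2 * k % 65)) :
    [a0, a1, a2, a3, a4, a5, a6, a7] ∈ T65 := by
  have h0 := ha [2, 3, 4, 6, 5, 4, 3, 2] (by decide)
  simp only [dt] at h0
  have h1 := fun lo l => chk_spec (lo := lo) (l := l) (T := T65) y65_eq (by decide) (by decide) ha h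
  refine (Nat.lt_or_ge (22 * a7 + a6) 1).elim (h1 _ _ k65_0 (by omega)) fun _ => ?_
  refine (Nat.lt_or_ge (22 * a7 + a6) 2).elim (h1 _ _ k65_1 (by omega)) fun _ => ?_
  refine (Nat.lt_or_ge (22 * a7 + a6) 4).elim (h1 _ _ k65_2 (by omega)) fun _ => ?_
  refine (Nat.lt_or_ge (22 * a7 + a6) 13).elim (h1 _ _ k65_3 (by omega)) fun _ => ?_
  refine (Nat.lt_or_ge (22 * a7 + a6) 23).elim (h1 _ _ k65_4 (by omega)) fun _ => ?_
  refine (Nat.lt_or_ge (22 * a7 + a6) 25).elim (h1 _ _ k65_5 (by omega)) fun _ => ?_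
  refine (Nat.lt_or_ge (22 * a7 + a6) 30).elim (h1 _ _ k65_6 (by omega)) fun _ => ?_
  refine (Nat.lt_or_ge (22 * a7 + a6) 45).elim (h1 _ _ k65_7 (by omega)) fun _ => ?_
  refine (Nat.lt_or_ge (22 * a7 + a6) 47).elim (h1 _ _ k65_8 (by omega)) fun _ => ?_
  refine (Nat.lt_or_ge (22 * a7 + a6) 66).elim (h1 _ _ k65_9 (by omega)) fun _ => ?_
  refine (Nat.lt_or_ge (22 * a7 + a6) 68).elim (h1 _ _ k65_10 (by omega)) fun _ => ?_
  refine (Nat.lt_or_ge (22 * a7 + a6) 77).elim (h1 _ _ k65_11 (by omega)) fun _ => ?_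
  refine (Nat.lt_or_ge (22 * a7 + a6) 91).elim (h1 _ _ k65_12 (by omega)) fun _ => ?_
  refine (Nat.lt_or_ge (22 * a7 + a6) 111).elim (h1 _ _ k65_13 (by omega)) fun _ => ?_
  refine (Nat.lt_or_ge (22 * a7 + a6) 132).elim (h1 _ _ k65_14 (by omega)) fun _ => ?_
  refine (Nat.lt_or_ge (22 * a7 + a6) 141).elim (h1 _ _ k65_15 (by omega)) fun _ => ?_
  refine (Nat.lt_or_ge (22 * a7 + a6) 176).elim (h1 _ _ k65_16 (by omega)) fun _ => ?_
  refine (Nat.lt_or_ge (22 * a7 + a6) 200).elim (h1 _ _ k65_17 (by omega)) fun _ => ?_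
  refine (Nat.lt_or_ge (22 * a7 + a6) 264).elim (h1 _ _ k65_18 (by omega)) fun _ => ?_
  exact h1 _ _ k65_19 (by omega) (by omega)

end H16.E8
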