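import Cfsg.Agent.H20.E8.B

/-! Modules of `SL₂(64)` in characteristic two: additive functions, fixed vectors, the central element. -/

set_option autoImplicit false
set_option linter.unusedSectionVars false
set_option linter.style.haveILetI false

namespace H16.E8
open Module H20.E8 Matrix Finset
open scoped MatrixGroups

section lin
variable {k : Type*} [Field k] {N N' : Type*} [AddCommGroup N] [Module k N] [AddCommGroup N'] [Module k N']

theorem fr_map [FiniteDimensional k N] (f : N →ₗ[k] N') (E : Submodule k N) :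
    finrank k (E.map f) + finrank k ↥(E ⊓ LinearMap.ker f) = finrank k E := by
  rw [← (f.domRestrict E).finrank_range_add_finrank_ker, LinearMap.range_domRestrict, LinearMap.ker_domRestrict,
    ← Submodule.finrank_map_subtype_eq E (Submodule.comap _ _), Submodule.map_comap_subtype]

theorem odd_cast [CharP k 2] {n : ℕ} (hn : Odd n) : (n : k) = 1 := by
  obtain ⟨m, rfl⟩ := hn
  simp [CharTwo.two_eq_zero]

theorem ex_proj [CharP k 2] {A : End k N} {n : ℕ} (hn : Odd n) (hA : A ^ n = 1) {μ : k} (hμ : μ ^ n = 1)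
    {S : Submodule k N} (hS : ∀ v ∈ S, A v ∈ S) {v : N} (hv : A v - μ • v ∈ S) : ∃ w, A w = μ • w ∧ w - v ∈ S := by
  have h0 : μ ≠ 0 := fun e => by simp [e, hn.pos.ne'] at hμ
  have h1 : ∀ i, ((μ⁻¹ • A) ^ i) v - v ∈ S := fun i => by
    induction i with
    | zero => simp
    | succ i ih =>
      have := S.smul_mem μ⁻¹ (S.add_mem (hS _ ih) hv)
      rwa [map_sub, sub_add_sub_cancel, smul_sub, inv_smul_smul₀ h0, ← LinearMap.smul_apply, ← End.mul_apply,
        ← pow_succ'] at this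
  refine ⟨∑ i ∈ range n, ((μ⁻¹ • A) ^ i) v, ?_, ?_⟩
  · rw [← inv_smul_eq_iff₀ h0, ← LinearMap.smul_apply, map_sum]
    have := (sum_range_succ (fun i => ((μ⁻¹ • A) ^ i) v) n).symm.trans (sum_range_succ' _ n)
    rw [smul_pow, hA, inv_pow, hμ, inv_one, one_smul, pow_zero, add_left_inj] at this
    rw [this]
    exact sum_congr rfl fun i _ => by rw [pow_succ', End.mul_apply]
  · have := S.sum_mem (t := range n) fun i _ => h1 i
    rwa [sum_sub_distrib, sum_const, card_range, ← Nat.cast_smul_eq_nsmul k, odd_cast hn, one_smul] at this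

theorem eig_basis {I : Type*} [Fintype I] [DecidableEq k] (b : Basis I k N) {A : End k N} {c : I → k} (h : ∀ i, A (b i) = c i • b i)
    (μ : k) : finrank k (A.eigenspace μ) = #{i | c i = μ} := by
  have h1 : ∀ v i, b.repr (A v) i = c i * b.repr v i := fun v i => by
    classical
    conv_lhs => rw [← b.sum_repr v, map_sum, map_sum]
    simp [h, Finsupp.single_apply, mul_comm]
  have : A.eigenspace μ = Submodule.span k (b '' {i | c i = μ}) := by
    ext v
    rw [End.mem_eigenspace_iff, b.mem_span_image, b.ext_elem_iff]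
    refine forall_congr' fun i => ?_
    simp only [h1, map_smul, Finsupp.smul_apply, smul_eq_mul, mul_eq_mul_right_iff, mem_coe, Finsupp.mem_support_iff,
      Set.mem_ofPred_eq]
    tauto
  rw [this, Set.image_eq_range]
  exact (finrank_span_eq_card (b.linearIndependent.comp _ Subtype.val_injective)).trans (Fintype.card_subtype _)

variable {G : Type*} [Group G] (ρ : Representation k G N)

/-- dimensions of eigenspaces -/
noncomputable def ed (g : G) (μ : k) : ℕ := finrank k (End.eigenspace (ρ g) μ)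

theorem ed_add [CharP k 2] [FiniteDimensional k N] {S : Submodule k N} (hS : ∀ g, S ≤ S.comap (ρ g)) {g : G} {n : ℕ}
    (hn : Odd n) (hg : g ^ n = 1) {μ : k} (hμ : μ ^ n = 1) :
    ed ρ g μ = ed (ρ.subrepresentation S hS) g μ + ed (ρ.quotient S hS) g μ := by
  rw [ed, ← fr_map S.mkQ, add_comm, ed, ed, ← Submodule.finrank_map_subtype_eq S]
  congr 1
  · refine congrArg (fun W : Submodule k N => finrank k W) (Submodule.ext fun v => ?_)
    simp only [Submodule.ker_mkQ, Submodule.mem_inf, End.mem_eigenspace_iff, Submodule.mem_map]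
    exact ⟨fun ⟨a, b⟩ => ⟨⟨v, b⟩, Subtype.ext a, rfl⟩, fun ⟨w, a, b⟩ => b ▸ ⟨congrArg Subtype.val a, w.2⟩⟩
  · refine congrArg (fun W : Submodule k (N ⧸ S) => finrank k W) (Submodule.ext fun v => ?_)
    simp only [End.mem_eigenspace_iff, Submodule.mem_map]
    refine ⟨fun ⟨w, a, b⟩ => b ▸ (congrArg S.mkQ a :), fun a => ?_⟩
    obtain ⟨v, rfl⟩ := S.mkQ_surjective v
    obtain ⟨w, b, c⟩ := ex_proj hn (A := ρ g) (by rw [← map_pow, hg, map_one]) hμ (hS g)
      ((Submodule.Quotient.eq S).1 a)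
    exact ⟨w, b, (Submodule.Quotient.eq S).2 c⟩

end lin

variable {F : Type*} [Field F] [Fintype F] [CharP F 2] (hF : Fintype.card F = 64) {k : Type*} [Field k] [CharP k 2] (ι : F →+* k)

section add
include hF

theorem sum_inv_pow {e : ℕ} (h : 0 < e) (h' : e < 63) : ∑ a : F, a⁻¹ ^ e = 0 := by
  rw [← FiniteField.sum_pow_lt_card_sub_one F e (by omega)]
  exact Fintype.sum_equiv (Equiv.inv F) _ _ fun _ => rfl

theorem card_cast : ((Fintype.card F : ℕ) : k) = 0 := by
  rw [hF, show ((64 : ℕ) : k) = 2 * 32 by norm_num, CharTwo.two_eq_zero, zero_mul]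

theorem add_zero_of (f : F → k) (hf : ∀ a b, f (a + b) = f a + f b)
    (h : ∀ j < 6, ∑ a : F, ι a⁻¹ ^ 2 ^ j * f a = 0) (b : F) : f b = 0 := by
  classical
  have h0 : f 0 = 0 := by simpa using hf 0 0
  have h1 : ∀ t : F, ∑ j ∈ range 6, t ^ 2 ^ j = 0 ∨ ∑ j ∈ range 6, t ^ 2 ^ j = 1 := fun t => by
    have a1 := (sum_range_succ (fun j => t ^ 2 ^ j) 6).symm.trans (sum_range_succ' _ 6)
    rw [show 2 ^ 6 = Fintype.card F from hF.symm, FiniteField.pow_card, pow_zero, pow_one, add_left_inj] at a1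
    have a2 : (∑ j ∈ range 6, t ^ 2 ^ j) ^ 2 = ∑ j ∈ range 6, t ^ 2 ^ j := by
      rw [sum_pow_char 2]
      exact (sum_congr rfl fun j _ => by rw [← pow_mul, ← pow_succ]).trans a1.symm
    rwa [sq, ← sub_eq_zero, ← mul_sub_one, mul_eq_zero, sub_eq_zero] at a2
  have h2 : ∑ a : F, (∑ j ∈ range 6, (b * a⁻¹) ^ 2 ^ j) * a = b := by
    simp only [sum_mul, mul_pow, mul_assoc]
    rw [sum_comm, sum_range_succ', sum_eq_zero fun j hj => ?_]
    · simp only [pow_zero, pow_one, zero_add, ← mul_sum]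
      rw [← add_sum_erase _ _ (mem_univ 0), sum_congr rfl fun a ha => inv_mul_cancel₀ (ne_of_mem_erase ha)]
      simp [hF, show (63 : F) = 1 from odd_cast (k := F) (n := 63) (by decide)]
    · have := mem_range.1 hj
      have a1 : 2 ≤ 2 ^ (j + 1) ∧ 2 ^ (j + 1) ≤ 32 := by interval_cases j <;> decide
      rw [← mul_sum, ← mul_zero (b ^ 2 ^ (j + 1)), ← sum_inv_pow hF (e := 2 ^ (j + 1) - 1) (by omega) (by omega)]
      congr 1
      refine sum_congr rfl fun a _ => ?_
      by_cases e : a = 0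
      · simp [e, show 2 ^ (j + 1) - 1 ≠ 0 by omega]
      · rw [← Nat.sub_add_cancel (show 1 ≤ 2 ^ (j + 1) by omega), pow_succ, mul_assoc, inv_mul_cancel₀ e, mul_one]; rfl
  let g : F →+ k := AddMonoidHom.mk' f hf
  calc f b = ∑ a : F, ι (∑ j ∈ range 6, (b * a⁻¹) ^ 2 ^ j) * f a := by
        conv_lhs => rw [← h2]
        refine (map_sum g _ _).trans (sum_congr rfl fun a _ => ?_)
        rcases h1 (b * a⁻¹) with e | e <;> simp [e, g, h0]
    _ = ∑ j ∈ range 6, ι b ^ 2 ^ j * ∑ a : F, ι a⁻¹ ^ 2 ^ j * f a := by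
        simp only [map_sum, sum_mul, mul_sum, mul_pow, map_mul, map_pow, mul_assoc]
        exact sum_comm
    _ = 0 := sum_eq_zero fun j hj => by rw [h j (mem_range.1 hj), mul_zero]

theorem add_wt {f : F → k} (hf : ∀ a b, f (a + b) = f a + f b) {b : F} (hb : f b ≠ 0) {c : Fˣ} {χ : k}
    (h : ∀ a, f (a / c ^ 2) = χ * f a) : ∃ j < 6, χ * ι c ^ 2 ^ (j + 1) = 1 := by
  by_contra! h1
  refine hb (add_zero_of hF ι f hf (fun j hj => ?_) b)
  have := Fintype.sum_equiv (Equiv.mulRight₀ ((c : F) ^ 2)⁻¹ (by simp)) (fun a => χ * ι c ^ 2 ^ (j + 1) * (ι a⁻¹ ^ 2 ^ j * f a))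
    (fun a => ι a⁻¹ ^ 2 ^ j * f a) fun a => by
      simp only [Equiv.mulRight₀_apply]
      rw [← div_eq_mul_inv, h, inv_div, div_eq_mul_inv _ a, map_mul, map_pow, mul_pow,
        ← pow_mul, ← pow_succ']
      ring
  rw [← mul_sum, ← sub_eq_zero, ← sub_one_mul, mul_eq_zero, sub_eq_zero] at this
  exact this.resolve_left (h1 j hj)

end add

section ops
variable {N : Type*} [AddCommGroup N] [Module k N] (ρ : Representation k SL(2, F) N)

/-- moments of the unipotent subgroup -/
noncomputable def XJ (j : ℕ) : End k N := ∑ a : F, ι a⁻¹ ^ 2 ^ j • ρ (uu a)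

theorem uu_comm (a b : F) : Commute (ρ (uu a)) (ρ (uu b)) := by
  rw [Commute, SemiconjBy, ← map_mul, ← map_mul, uu_mul, uu_mul, add_comm]

theorem XJ_comm (i j : ℕ) : Commute (XJ ι ρ i) (XJ ι ρ j) :=
  Commute.sum_left _ _ _ fun a _ => Commute.sum_right _ _ _ fun b _ => ((uu_comm ρ a b).smul_left _).smul_right _

theorem XJ_tt (j : ℕ) (c : Fˣ) : ι c ^ 2 ^ (j + 1) • (ρ (tt c) * XJ ι ρ j) = XJ ι ρ j * ρ (tt c) := by
  simp only [XJ, mul_sum, sum_mul, smul_sum, mul_smul_comm, smul_mul_assoc, ← map_mul, tt_uu, smul_smul]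
  refine Fintype.sum_equiv (Equiv.mulRight₀ ((c : F) ^ 2)⁻¹ (by simp)) _ _ fun a => ?_
  simp only [Equiv.mulRight₀_apply]
  rw [← div_eq_mul_inv, inv_div, div_eq_mul_inv _ a, map_mul ι, map_pow, mul_pow,
    ← pow_mul, ← pow_succ']

variable (k) in
include k in
theorem two_smul_zero (v : N) : v + v = 0 := by rw [← two_smul k, CharTwo.two_eq_zero, zero_smul]

theorem uu_sq (a : F) : ρ (uu a) * ρ (uu a) = 1 := by
  rw [← map_mul, uu_mul, CharTwo.add_self_eq_zero, uu_zero, map_one]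

include hF

theorem sum_mom {j : ℕ} (hj : j < 6) : ∑ a : F, ι a⁻¹ ^ 2 ^ j = 0 := by
  simp only [← map_pow, ← map_sum]
  rw [sum_inv_pow hF (by positivity) (by interval_cases j <;> decide), map_zero]

theorem XJ_sq {j : ℕ} (hj : j < 6) : XJ ι ρ j * XJ ι ρ j = 0 := by
  classical
  have h1 : ∀ s : Finset F, (∑ a ∈ s, ι a⁻¹ ^ 2 ^ j • ρ (uu a)) * ∑ a ∈ s, ι a⁻¹ ^ 2 ^ j • ρ (uu a) =
      (∑ a ∈ s, ι a⁻¹ ^ 2 ^ j) ^ 2 • 1 := fun s => by
    induction s using Finset.induction_on with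
    | empty => simp
    | insert b s hb ih =>
      rw [sum_insert hb, sum_insert hb, add_mul, mul_add, mul_add, ih, (Commute.sum_left _ _ _ fun a _ =>
        ((uu_comm ρ a b).smul_left _).smul_right _).eq, add_assoc, ← add_assoc (_ * _) (_ * _) (_ • 1),
        two_smul_zero k, zero_add,
        CharTwo.add_sq, add_smul, smul_mul_smul_comm, uu_sq, ← sq]
  rw [XJ, h1, sum_mom hF ι hj]
  simp

theorem XJ_app {j : ℕ} (hj : j < 6) (v : N) : XJ ι ρ j v = ∑ a : F, ι a⁻¹ ^ 2 ^ j • (ρ (uu a) v - v) := by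
  simp only [smul_sub, sum_sub_distrib, ← sum_smul, sum_mom hF ι hj]
  simp [XJ]

theorem fix_of_XJ {v : N} (h : ∀ j < 6, XJ ι ρ j v = 0) (b : F) : ρ (uu b) v = v := by
  let Y := Submodule.span k (Set.range fun b => ρ (uu b) v - v)
  have h0 : ∀ a b, ρ (uu (a + b)) v - v = ρ (uu a) (ρ (uu b) v - v) + (ρ (uu a) v - v) := fun a b => by
    rw [← uu_mul, map_mul, End.mul_apply, map_sub]; abel
  have hm : ∀ b, ρ (uu b) v - v ∈ Y := fun b => Submodule.subset_span ⟨b, rfl⟩
  have h1 : ∀ a, ∀ y ∈ Y, ρ (uu a) y ∈ Y := fun a => (Submodule.span_le (p := Y.comap (ρ (uu a)))).2 (by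
    rintro _ ⟨b, rfl⟩
    exact (Y.add_mem_iff_left (hm a)).1 (h0 a b ▸ hm _))
  by_contra e
  haveI : Nontrivial Y := ⟨⟨⟨_, hm b⟩, 0, fun e' => e (sub_eq_zero.1 (congrArg Subtype.val e'))⟩⟩
  obtain ⟨l, l0, hl⟩ := ex_fix 2 (V := Dual k Y) (fun a => ((ρ (uu a)).restrict (h1 a)).dualMap) (fun a b => by
    ext l y
    exact congrArg l (Subtype.ext (LinearMap.congr_fun (uu_comm ρ b a).eq y.1))) fun a => by
      ext l y
      exact congrArg l (Subtype.ext (LinearMap.congr_fun (uu_sq ρ a) y.1))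
  have h2 := add_zero_of hF ι (fun b => l ⟨_, hm b⟩) (fun a b => by
    rw [add_comm (l _), ← LinearMap.congr_fun (hl a) ⟨_, hm b⟩, LinearMap.dualMap_apply, ← map_add]
    exact congrArg l (Subtype.ext (h0 a b))) fun j hj => by
      simp only [← smul_eq_mul, ← map_smul, ← map_sum]
      rw [← map_zero l]
      exact congrArg l (Subtype.ext (by simpa using (XJ_app hF ι ρ hj v).symm.trans (h j hj)))
  refine l0 (LinearMap.ext fun ⟨y, hy⟩ => ?_)
  induction hy using Submodule.span_induction with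
  | mem _ h => obtain ⟨b, rfl⟩ := h; exact h2 b
  | zero => exact map_zero l
  | add x y hx hy a b => exact (map_add l ⟨x, hx⟩ ⟨y, hy⟩).trans (c := 0) (by rw [a, b]; exact add_zero (0 : k))
  | smul c x hx a => exact (map_smul l c ⟨x, hx⟩).trans (c := 0) (by rw [a]; exact smul_zero c)

omit hF

theorem tt_ww (c : Fˣ) : tt c * ww = ww * tt c⁻¹ := by
  ext i j; fin_cases i <;> fin_cases j <;> simp

theorem sl_ind {P : SL(2, F) → Prop} (h0 : ∀ g h, P g → P h → P (g * h)) (h1 : ∀ b, P (uu b)) (h2 : ∀ c, P (tt c))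
    (h3 : P ww) (g : SL(2, F)) : P g := by
  by_cases h : g 1 0 = 0
  · exact bruhat2 g h ▸ h0 _ _ (h1 _) (h2 _)
  · exact bruhat1 g h ▸ h0 _ _ (h1 _) (h0 _ _ (h2 _) (h0 _ _ h3 (h1 _)))

include hF in
theorem ex_avg {v : N} (h1 : ∀ b, ρ (uu b) v = v) (h2 : ∀ c, ρ (tt c) v = v) {S : Submodule k N}
    (h3 : ∀ g, ρ g v - v ∈ S) : ∃ w, (∀ g, ρ g w = w) ∧ w - v ∈ S := by
  classical
  have h4 : ∀ c, ρ (tt c) (ρ ww v) = ρ ww v := fun c => by
    rw [← End.mul_apply, ← map_mul, tt_ww, map_mul, End.mul_apply, h2]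
  refine ⟨v + ∑ b : F, ρ (uu b) (ρ ww v), sl_ind (fun g h a b => by rw [map_mul, End.mul_apply, b, a]) (fun a => ?_)
    (fun c => ?_) ?_, ?_⟩
  · rw [map_add, h1, map_sum]
    exact congrArg _ (Fintype.sum_equiv (Equiv.addLeft a) _ _ fun b => by
      rw [← End.mul_apply, ← map_mul, uu_mul]; rfl)
  · rw [map_add, h2, map_sum]
    exact congrArg _ (Fintype.sum_equiv (Equiv.mulRight₀ ((c : F) ^ 2)⁻¹ (by simp)) _ _ fun b => by
      rw [← End.mul_apply, ← map_mul, tt_uu, map_mul, End.mul_apply, h4, div_eq_mul_inv]; rfl)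
  · have h5 : ∀ b : F, ρ ww (ρ (uu b) (ρ ww v)) = ρ (uu (-b⁻¹)) (ρ ww v) + if b = 0 then v - ρ ww v else 0 := fun b => by
      rw [← End.mul_apply, ← End.mul_apply, ← map_mul, ← map_mul]
      split_ifs with e
      · rw [bruhat2 (ww * uu b * ww) (by simp [e])]
        simp [e, h2, uu_zero]
      · rw [bruhat1 (ww * uu b * ww) (by simpa using e)]
        simp [h1, h4, neg_div]
    simp only [map_add, map_sum, h5, sum_add_distrib, sum_ite_eq', mem_univ, if_true]
    rw [Fintype.sum_equiv ((Equiv.inv F).trans (Equiv.neg F)) (fun b => ρ (uu (-b⁻¹)) (ρ ww v))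
      (fun b => ρ (uu b) (ρ ww v)) fun _ => rfl]
    abel
  · have := S.sum_mem (t := univ) fun b _ => h3 (uu b * ww)
    simpa [← Nat.cast_smul_eq_nsmul k, card_cast hF] using this

open Classical in
/-- the sum of the elements of order at most two -/
noncomputable def cz : End k N := ∑ g : SL(2, F) with g * g = 1, ρ g

open Classical in
theorem cz_aut (α : SL(2, F) ≃* SL(2, F)) : ∑ g : SL(2, F) with g * g = 1, ρ (α g) = cz ρ :=
  sum_equiv α.toEquiv (fun g => by simp [← map_mul]) fun _ _ => rfl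

theorem cz_comm (h : SL(2, F)) : Commute (ρ h) (cz ρ) := by
  rw [Commute, SemiconjBy]
  conv_rhs => rw [← cz_aut ρ (MulAut.conj h)]
  simp [cz, mul_sum, sum_mul, ← map_mul]

theorem sq_one_iff (g : SL(2, F)) : g * g = 1 ↔ g 1 1 = g 0 0 := by
  have := g.det_coe
  rw [det_fin_two] at this
  refine (Matrix.SpecialLinearGroup.ext_iff _ _).trans ?_
  simp only [Fin.forall_fin_two, Matrix.SpecialLinearGroup.coe_mul, Matrix.mul_apply, Fin.sum_univ_two,
    Matrix.SpecialLinearGroup.coe_one, one_apply_eq, ne_eq, zero_ne_one, not_false_eq_true, one_apply_ne, one_ne_zero]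
  have h2 : (2 : F) = 0 := CharTwo.two_eq_zero
  grind

include hF

theorem cz_eq : cz ρ = ∑ b, ρ (uu b) + ∑ a, ρ (uu a * ww) * (∑ b, ρ (uu b)) * ρ (uu a * ww)⁻¹ := by
  classical
  have h0 := sq_one_iff (F := F)
  have h1 : ∀ a b : F, (uu a * ww * uu b * (uu a * ww)⁻¹).1 = !![1 + a * b, a * a * b; b, 1 + a * b] := fun a b => by
    rw [_root_.mul_inv_rev, mul_assoc (uu a), mul_assoc (uu a), ← mul_assoc _ ww⁻¹, ww_uu, ← mul_assoc]
    ext i j; fin_cases i <;> fin_cases j <;> simp [adjugate_fin_two, CharTwo.neg_eq] <;>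
      ring_nf <;> simp [CharTwo.two_eq_zero]
  rw [cz, ← sum_filter_add_sum_filter_not _ fun g => g 1 0 = 0]
  congr 1
  · refine (sum_bij (fun b _ => uu b) (fun b _ => by simp [h0]) (fun a _ b _ e => by
      simpa using congrArg (fun g : SL(2, F) => g 0 1) e) (fun g hg => ⟨g 0 1, mem_univ _, ?_⟩) fun _ _ => rfl).symm
    simp only [mem_filter, mem_univ, true_and, h0] at hg
    have := g.det_coe
    rw [det_fin_two, hg.1, hg.2, mul_zero, sub_zero, mul_self_eq_one_iff, CharTwo.neg_eq, or_self] at this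
    ext i j; fin_cases i <;> fin_cases j <;> simp [hg.1, hg.2, this]
  · simp only [mul_sum, sum_mul, ← map_mul]
    rw [sum_comm, ← add_sum_erase _ _ (mem_univ 0), ← sum_product']
    simp only [uu_zero, mul_one, mul_inv_cancel, map_one, sum_const, card_univ, ← Nat.cast_smul_eq_nsmul k,
      card_cast hF, zero_smul, zero_add]
    refine (sum_bij (fun p _ => uu p.2 * ww * uu p.1 * (uu p.2 * ww)⁻¹) (fun p hp => by
      simp only [mem_filter, h0, h1]; simpa using hp)
      (fun p hp q _ e => ?_) (fun g hg => ⟨(g 1 0, (g 0 0 + 1) / g 1 0), by simpa using (mem_filter.1 hg).2, ?_⟩)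
      fun _ _ => rfl).symm
    · have a1 := congrArg (fun g : SL(2, F) => g.1 1 0) e
      have a2 := congrArg (fun g : SL(2, F) => g.1 0 0) e
      simp only [h1, of_apply, cons_val', cons_val_zero, cons_val_one, cons_val_fin_one, add_right_inj] at a1 a2
      rw [← a1] at a2
      exact Prod.ext a1 (mul_right_cancel₀ (by simpa using hp) a2)
    · simp only [mem_filter, mem_univ, true_and, h0] at hg
      have := g.det_coe
      rw [det_fin_two] at this
      have h2 : (2 : F) = 0 := CharTwo.two_eq_zero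
      have h3 := hg.2
      refine Subtype.ext ((h1 _ _).trans ?_)
      ext i j; fin_cases i <;> fin_cases j <;> simp <;> field_simp <;> grind

theorem cz_zero [FiniteDimensional k N] (h : finrank k N < 64) : cz ρ = 0 := by
  suffices h : ∑ b, ρ (uu b) = 0 by simp [cz_eq hF, h]
  ext v
  let φ := Fintype.linearCombination k fun b => ρ (uu b) v
  haveI : Nontrivial (LinearMap.ker φ) := Submodule.nontrivial_iff_ne_bot.2
    (LinearMap.ker_ne_bot_of_finrank_lt (by simpa [hF] using h))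
  have h1 : ∀ a, ∀ x ∈ LinearMap.ker φ, LinearMap.funLeft k k (· + a) x ∈ LinearMap.ker φ := fun a x hx => by
    have := congrArg (ρ (uu a)) (LinearMap.mem_ker.1 hx)
    rw [map_zero] at this
    rw [LinearMap.mem_ker, ← this]
    simp only [φ, Fintype.linearCombination_apply, map_sum, map_smul, ← End.mul_apply, ← map_mul, uu_mul]
    exact Fintype.sum_equiv (Equiv.addRight a) _ _ fun b => by simp [add_comm b a, CharTwo.add_cancel_left]
  obtain ⟨x, x0, hx⟩ := ex_fix 2 (fun a => (LinearMap.funLeft k k (· + a)).restrict (h1 a)) (fun a b => by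
    ext x c; simp [add_right_comm]) fun a => by ext x c; simp [sq, CharTwo.add_cancel_right]
  have h2 : ∀ a, x.1 a = x.1 0 := fun a => by simpa using congrFun (congrArg Subtype.val (hx a)) 0
  have h3 := LinearMap.mem_ker.1 x.2
  simp only [φ, Fintype.linearCombination_apply, h2, ← smul_sum, smul_eq_zero] at h3
  simpa using h3.resolve_left fun e => x0 (Subtype.ext (funext fun a => (h2 a).trans e))

end ops

end H16.E8
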