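import Cfsg.Agent.H16.E8d

/-! Modules of `SL₂(64)` in characteristic two: composition factors. -/

set_option autoImplicit false
set_option linter.unusedSectionVars false
set_option linter.style.haveILetI false
set_option maxRecDepth 100000

namespace H16.E8
open Module H20.E8 Matrix Finset
open scoped MatrixGroups

/-- binary subwords -/
def sb (a : ℕ) : List ℕ := (List.range 64).filter fun b => b &&& a = b

/-- weights of a simple module -/
def wl (n a : ℕ) : List ℕ := (sb a).map fun b => (2 * b + (n - 1) * a) % n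

/-- multiplicities of weights -/
def hh (n a j : ℕ) : ℕ := (wl n a).count j

theorem BB_eq {a : ℕ} (ha : a < 64) : BB 2 a = (sb a).toFinset := by
  have : ∀ a < 64, ∀ b < 64, (b < a + 1 ∧ ¬ 2 ∣ a.descFactorial b / b.factorial) ↔ b &&& a = b := by decide +kernel
  ext b
  simp only [BB, sb, mem_filter, mem_range, List.mem_toFinset, List.mem_filter, List.mem_range, decide_eq_true_eq,
    Nat.choose_eq_descFactorial_div_factorial]
  exact ⟨fun h => ⟨by omega, (this a ha b (by omega)).1 h⟩, fun h => (this a ha b h.1).2 h.2⟩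

theorem sb_nodup (a : ℕ) : (sb a).Nodup := List.nodup_range.filter _

variable {F : Type*} [Field F] [Fintype F] [CharP F 2] (hF : Fintype.card F = 64) {k : Type} [Field k] [CharP k 2]
  (ι : F →+* k)

/-- `g` has eigenvalues `y, y⁻¹` and is diagonalisable -/
def Eg (g : SL(2, F)) (y : k) : Prop := ∃ v w : Fin 2 → k, v 0 * w 1 - v 1 * w 0 ≠ 0 ∧
  g.1.map ι *ᵥ v = y • v ∧ g.1.map ι *ᵥ w = y⁻¹ • w

theorem simple_bas {S : Type*} [AddCommGroup S] [Module k S] (ρ : SL(2, F) →* End k S)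
    {Ψ : S →ₗ[k] SL(2, F) → k} {a : ℕ} {s : S} (hi : Function.Injective Ψ) (ha : a < Fintype.card F)
    (he : ∀ h s g, Ψ (ρ h s) g = Ψ s (g * h)) (h0 : ∀ g, Ψ s g = ι (g 1 0) ^ a)
    (h2 : Submodule.span k (Set.range fun h => ρ h s) = ⊤) (g : SL(2, F)) (l m : k) (v w : Fin 2 → k)
    (h : v 0 * w 1 - v 1 * w 0 ≠ 0) (hv : g.1.map ι *ᵥ v = l • v) (hw : g.1.map ι *ᵥ w = m • w) :
    ∃ b : Basis (BB 2 a) k S, ∀ i, ρ g (b i) = (l ^ i.1 * m ^ (a - i)) • b i := by
  have q1 := Fintype.one_lt_card (α := F)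
  have h1 : ∀ h, Ψ (ρ h s) = lf ι (h.1.map ι *ᵥ ![1, 0]) ^ a := fun h => funext fun g => by
    rw [he, h0, Pi.pow_apply, ← lf_mul]; simp [lf]
  have h3 : ∀ v w : Fin 2 → k, v 0 * w 1 - v 1 * w 0 ≠ 0 → LinearMap.range Ψ ≤ Mon k 2 a (lf ι v) (lf ι w) :=
    fun v w h => by
      rw [LinearMap.range_eq_map, ← h2, Submodule.map_span_le]
      rintro _ ⟨g, rfl⟩
      obtain ⟨c, d, e⟩ := lf_comb ι h (g.1.map ι *ᵥ ![1, 0])
      rw [h1, e]
      exact pow_mem_Mon 2 a _ _ c d
  have h4 : Mon k 2 a (lf ι ![0, 1]) (lf ι ![1, 0]) ≤ LinearMap.range Ψ := by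
    rw [Mon, Submodule.span_le]
    rintro _ ⟨⟨b, hb⟩, rfl⟩
    obtain ⟨hb, hb'⟩ := mem_filter.1 hb
    have := vdm_mem ι (LinearMap.range Ψ) ha
      (fun b => (a.choose b : k) • (lf ι ![0, 1] ^ b * lf ι ![1, 0] ^ (a - b))) (fun c => ⟨ρ (ll c) s, by
        rw [h1, show lf ι ((ll c).1.map ι *ᵥ ![1, 0]) = ι c • lf ι ![0, 1] + lf ι ![1, 0] from
          funext fun g => by simp [lf, mulVec, dotProduct]; ring, add_pow]
        refine sum_congr rfl fun b _ => ?_
        rw [smul_pow, ← nsmul_eq_mul', ← Nat.cast_smul_eq_nsmul k, smul_mul_assoc, smul_comm]⟩) b (mem_range.1 hb)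
    exact (Submodule.smul_mem_iff _ fun e => hb' ((CharP.cast_eq_zero_iff k 2 _).1 e)).1 this
  have h5 : LinearIndependent k fun b : BB 2 a => lf ι ![0, 1] ^ b.1 * lf ι ![1, 0] ^ (a - b) := by
    classical
    rw [Fintype.linearIndependent_iff]
    intro x hx i
    have := vdm ι ha (fun b => if h : b ∈ BB 2 a then x ⟨b, h⟩ else 0) (fun c => ?_) i
      (mem_range.1 (mem_filter.1 i.2).1)
    · simpa using this
    · have := congrFun hx (ww * uu c)
      rw [← sum_subset (s₁ := BB 2 a) (filter_subset _ _) fun b _ h => by simp [h], ← sum_coe_sort]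
      simpa [lf, Matrix.mul_apply] using this
  haveI : FiniteDimensional k (LinearMap.range Ψ) := by
    rw [le_antisymm (h3 _ _ (by simp)) h4]
    exact FiniteDimensional.span_of_finite k (Set.finite_range _)
  have h6 : finrank k (LinearMap.range Ψ) = Fintype.card (BB 2 a) := by
    rw [le_antisymm (h3 _ _ (by simp)) h4]
    exact finrank_span_eq_card h5
  haveI : FiniteDimensional k (Mon k 2 a (lf ι v) (lf ι w)) :=
    FiniteDimensional.span_of_finite k (Set.finite_range _)
  have h7 : LinearMap.range Ψ = Mon k 2 a (lf ι v) (lf ι w) :=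
    Submodule.eq_of_le_of_finrank_le (h3 v w h) (h6 ▸ finrank_range_le_card _)
  have h8 : ∀ b : BB 2 a, ∃ x, Ψ x = lf ι v ^ b.1 * lf ι w ^ (a - b) := fun b =>
    h7.ge (Submodule.subset_span ⟨b, rfl⟩)
  choose x hx using h8
  refine ⟨basisOfTopLeSpanOfCardEqFinrank x (fun y _ => ?_)
    (by rw [← h6, LinearMap.finrank_range_of_inj hi]), fun i => hi (funext fun y => ?_)⟩
  · rw [← Submodule.apply_mem_span_image_iff_mem_span hi, ← Set.range_comp, show Ψ ∘ x = _ from funext hx]
    exact h7.le ⟨y, rfl⟩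
  · simp only [coe_basisOfTopLeSpanOfCardEqFinrank, he, map_smul, hx, Pi.mul_apply, Pi.pow_apply, lf_mul, hv, hw,
      Pi.smul_apply, smul_eq_mul]
    simp only [lf, Pi.smul_apply, smul_eq_mul, mul_left_comm _ l, mul_left_comm _ m, ← mul_add, mul_pow]
    ring

include hF in
theorem pow63 {a : F} (h : a ≠ 0) : a ^ 63 = 1 := by simpa [hF] using FiniteField.pow_card_sub_one_eq_one a h

include hF in
theorem sum63 : ∑ a : F, a ^ 63 = 1 := by
  classical
  rw [← add_sum_erase _ _ (mem_univ 0), sum_congr rfl fun a ha => pow63 hF (ne_of_mem_erase ha)]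
  simp [hF, show (63 : F) = 1 from odd_cast (k := F) (n := 63) (by decide)]

theorem tt_pow (c : Fˣ) (n : ℕ) : tt c ^ n = tt (c ^ n) := by
  induction n with
  | zero => simp [tt_one]
  | succ n ih => rw [pow_succ, ih, tt_mul, pow_succ]

include hF in
theorem ex_pow {c : Fˣ} (hc : orderOf c = 63) (d : Fˣ) : ∃ n : ℕ, c ^ n = d := by
  classical
  have : Subgroup.zpowers c = ⊤ := Subgroup.eq_top_of_card_eq _ (by
    rw [Nat.card_zpowers, hc, Nat.card_units, Nat.card_eq_fintype_card, hF])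
  exact (mem_powers_iff_mem_zpowers.2 (this.ge (Subgroup.mem_top d)))

include hF in
theorem simple64 {S : Type*} [AddCommGroup S] [Module k S] [Nontrivial S] (ρ : Representation k SL(2, F) S)
    (hs : ∀ N : Submodule k S, (∀ g, ∀ s ∈ N, ρ g s ∈ N) → N = ⊥ ∨ N = ⊤) : ∃ a < 64,
    (∀ g y n, Eg ι g y → IsPrimitiveRoot y n → ∀ j < n, ed ρ g (y ^ j) = hh n a j) ∧ finrank k S = (sb a).length ∧
    (∀ v, v ≠ 0 → (∀ b, ρ (uu b) v = v) → ∀ (c : Fˣ) μ, ρ (tt c) v = μ • v → μ = ι c ^ a ∨ μ * ι c ^ a = 1) ∧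
    (a = 0 → ∀ g v, ρ g v = v) ∧ (a = 63 → cz ρ ≠ 0) := by
  classical
  obtain ⟨Ψ, a, s, hi, ha, he, h0⟩ := ex_hw 2 ι ρ hs
  have h2 : Submodule.span k (Set.range fun h => ρ h s) = ⊤ := by
    refine (hs _ fun g x hx => ?_).resolve_left fun e => ?_
    · have : (Submodule.span k (Set.range fun h => ρ h s)).map (ρ g) ≤ Submodule.span k (Set.range fun h => ρ h s) := by
        rw [Submodule.map_span_le]
        rintro _ ⟨h, rfl⟩
        exact Submodule.subset_span ⟨g * h, by simp⟩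
      exact this ⟨x, hx, rfl⟩
    · have := h0 ww
      rw [show s = 0 by simpa using Submodule.span_eq_bot.1 e _ ⟨1, rfl⟩] at this
      simp [eq_comm (a := (0 : k))] at this
  have hb := simple_bas ι ρ hi ha he h0 h2
  rw [hF] at ha
  have h3 : ∀ (x : SL(2, F)) (c : F), (∀ g : SL(2, F), (x * g) 1 0 = c * g 1 0) → ∀ v g, Ψ v (x * g) = ι c ^ a * Ψ v g :=
    fun x c h v g => by
      have : v ∈ Submodule.span k (Set.range fun h => ρ h s) := h2 ▸ trivial
      induction this using Submodule.span_induction with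
      | mem _ e => obtain ⟨y, rfl⟩ := e; rw [he, he, h0, h0, mul_assoc, h, map_mul, mul_pow]
      | zero => simp
      | add x y _ _ a b => simp [a, b, mul_add]
      | smul c x _ a => simp [a, mul_left_comm]
  have h4 := fun b => h3 (uu b) 1 fun g => by simp [Matrix.mul_apply]
  have h5 := fun c => h3 (tt c) c fun g => by simp [Matrix.mul_apply]
  simp only [map_one, one_pow, one_mul] at h4
  refine ⟨a, ha, fun g y n ⟨v, w, h, hv, hw⟩ hy j hj => ?_, ?_, fun v v0 hv c μ hμ => ?_, ?_, ?_⟩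
  · obtain ⟨b, hb⟩ := hb g _ _ v w h hv hw
    have y0 := hy.ne_zero (by omega)
    rw [ed, eig_basis b hb, hh, wl, List.count_eq_countP, List.countP_map, List.countP_eq_length_filter,
      ← List.toFinset_card_of_nodup ((sb_nodup a).filter _), List.toFinset_filter, ← BB_eq ha]
    refine card_bij (fun i _ => i.1) (fun i hi => ?_) (fun _ _ _ _ => Subtype.ext) fun i hi => ⟨⟨i, (mem_filter.1 hi).1⟩, ?_, rfl⟩
    all_goals
      have key : ∀ i ∈ BB 2 a, y ^ i * y⁻¹ ^ (a - i) = y ^ ((2 * i + (n - 1) * a) % n) := fun i hi => by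
        have := mem_range.1 (mem_filter.1 hi).1
        rw [← pow_eq_pow_mod _ hy.pow_eq_one, inv_pow, mul_inv_eq_iff_eq_mul₀ (pow_ne_zero _ y0), ← pow_add,
          show 2 * i + (n - 1) * a + (a - i) = i + n * a by
            obtain ⟨n, rfl⟩ : ∃ m, n = m + 1 := ⟨n - 1, by omega⟩
            rw [Nat.add_sub_cancel, add_mul]; omega, pow_add, pow_mul, hy.pow_eq_one, one_pow, mul_one]
    · simp only [mem_filter, mem_univ, true_and, key _ i.2] at hi
      simpa using hy.pow_inj (Nat.mod_lt _ (by omega)) hj hi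
    · obtain ⟨h6, h7⟩ := mem_filter.1 hi
      simp only [mem_filter, mem_univ, true_and, key _ h6]
      congr 1
      simpa using h7
  · obtain ⟨b, -⟩ := hb 1 1 1 ![1, 0] ![0, 1] (by simp) (by simp) (by simp)
    rw [finrank_eq_card_basis b, Fintype.card_coe, BB_eq ha, List.toFinset_card_of_nodup (sb_nodup a)]
  · by_contra! h
    have h6 : Ψ v 1 = 0 := by
      have := h5 c v 1
      rw [mul_one, ← one_mul (tt c), ← he, hμ, map_smul, Pi.smul_apply, smul_eq_mul] at this
      exact (mul_eq_mul_right_iff.1 this).resolve_left h.1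
    have h7 : Ψ v ww = 0 := by
      have := h5 c (ρ (tt c) v) ww
      rw [he, tt_ww, mul_assoc, tt_mul, inv_mul_cancel, tt_one, mul_one, hμ, map_smul, Pi.smul_apply, smul_eq_mul,
        ← mul_assoc, mul_comm _ μ, eq_comm, ← sub_eq_zero, ← sub_one_mul, mul_eq_zero, sub_eq_zero] at this
      exact this.resolve_left h.2
    refine v0 (hi (funext fun g => ?_))
    by_cases e : g 1 0 = 0
    · rw [bruhat2 g e, h4, ← mul_one (tt _), h5, h6]; simp
    · rw [bruhat1 g e, h4, h5, ← he, hv, h7]; simp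
  · rintro rfl g v
    have : ∀ g, Ψ v g = Ψ v 1 := fun g => by
      have : v ∈ Submodule.span k (Set.range fun h => ρ h s) := h2 ▸ trivial
      induction this using Submodule.span_induction with
      | mem _ e => obtain ⟨y, rfl⟩ := e; simp [he, h0]
      | zero => simp
      | add x y _ _ a b => simp [a, b]
      | smul c x _ a => simp [a]
    exact hi (funext fun x => by rw [he, this, this x])
  · rintro rfl e
    have := congrFun (congrArg Ψ (LinearMap.congr_fun (e.symm.trans (cz_eq hF ρ)) s)) ww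
    have h6 : ∀ a b : F, (ww * (uu a * ww * uu b * (uu a * ww)⁻¹) : SL(2, F)) 1 0 = 1 + a * b := fun a b => by
      simp [Matrix.mul_apply, adjugate_fin_two, CharTwo.neg_eq]
      ring_nf
    have h7 : ∀ a : F, ∑ b : F, (1 + a * b) ^ 63 = a ^ 63 := fun a => by
      by_cases e : a = 0
      · simp [e]
      rw [Fintype.sum_equiv ((Equiv.mulLeft₀ a e).trans (Equiv.addLeft 1)) (fun b => (1 + a * b) ^ 63) (· ^ 63)
        fun _ => rfl, sum63 hF, pow63 hF e]
    simp only [mul_sum, sum_mul, ← map_mul, LinearMap.add_apply, LinearMap.sum_apply, map_add, map_sum, Pi.add_apply,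
      Finset.sum_apply, he, h0, h6] at this
    simp only [← map_pow, ← map_sum, ← map_add, h7, sum63 hF] at this
    simp [Matrix.mul_apply] at this

section inv
variable {N : Type*} [AddCommGroup N] [Module k N] (ρ : Representation k SL(2, F) N)

theorem cz_map {N' : Type*} [AddCommGroup N'] [Module k N'] {ρ' : Representation k SL(2, F) N'} (φ : N →ₗ[k] N')
    (h : ∀ g v, φ (ρ g v) = ρ' g (φ v)) (n : ℕ) (v : N) : φ ((cz ρ ^ n) v) = (cz ρ' ^ n) (φ v) := by
  induction n with
  | zero => rfl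
  | succ n ih => rw [pow_succ', pow_succ', End.mul_apply, End.mul_apply, ← ih]; simp [cz, h]

/-- filtrations with small factors -/
inductive Fil : Submodule k N → Prop
  | bot : Fil ⊥
  | step {A B : Submodule k N} : Fil A → A ≤ B → (∀ g, B ≤ B.comap (ρ g)) → finrank k B ≤ finrank k A + 4 → Fil B

/-- the exponent of the weight of a moment -/
def wj (j : ℕ) : ℕ := 63 - 2 ^ (j + 1) % 63

/-- the natural modules -/
def bd (a : ℕ) : ℕ := if a ∈ [1, 2, 4, 8, 16, 32] then 1 else 0

/-- the modules whose first cohomology is controlled -/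
def Ok (a : ℕ) : Prop := ∃ i < 6, (∀ j < 6, j ≠ i → hh 63 a (wj j) = 0) ∧ hh 63 a (wj i) ≤ 1 ∧
  (bd a = 0 → a ≠ wj i ∧ (a + wj i) % 63 ≠ 0)

instance decOk (a : ℕ) : Decidable (Ok a) := by unfold Ok; infer_instance

include hF in
theorem inv_le [FiniteDimensional k N] {S : Submodule k N} (hS : ∀ g, S ≤ S.comap (ρ g)) {c : Fˣ} (hc : orderOf c = 63)
    {a : ℕ} (ha : a < 64) (h1 : ∀ j < 63, ed (ρ.subrepresentation S hS) (tt c) (ι c ^ j) = hh 63 a j)
    (h2 : ∀ v : S, v ≠ 0 → (∀ b, ρ.subrepresentation S hS (uu b) v = v) → ∀ μ, ρ.subrepresentation S hS (tt c) v = μ • v →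
      μ = ι c ^ a ∨ μ * ι c ^ a = 1) (h3 : Ok a) :
    finrank k (ρ.quotient S hS).invariants + finrank k ↥(ρ.invariants ⊓ S) ≤ finrank k ρ.invariants + bd a := by
  obtain ⟨i, hi, h4, h5, h6⟩ := h3
  have hp : IsPrimitiveRoot (ι c) 63 := (IsPrimitiveRoot.coe_units_iff.2 (hc ▸ IsPrimitiveRoot.orderOf c)).map_of_injective
    ι.injective
  have hw : ∀ j, wj j < 63 ∧ ι c ^ wj j * ι c ^ 2 ^ (j + 1) = 1 := fun j => by
    have a1 : 2 ^ (j + 1) % 63 ≠ 0 := fun e => by
      have := (Nat.Coprime.pow_left (j + 1) (show Nat.Coprime 2 63 by decide)).symm.eq_one_of_dvd (Nat.dvd_of_mod_eq_zero e)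
      omega
    have a2 := Nat.mod_lt (2 ^ (j + 1)) (show 0 < 63 by omega)
    refine ⟨by unfold wj; omega, ?_⟩
    rw [pow_eq_pow_mod (2 ^ (j + 1)) hp.pow_eq_one, ← pow_add, wj, Nat.sub_add_cancel a2.le, hp.pow_eq_one]
  let A := (ρ.quotient S hS).invariants.comap S.mkQ ⊓ End.eigenspace (ρ (tt c)) 1
  have hA : ∀ v ∈ A, (∀ g, ρ g v - v ∈ S) ∧ ρ (tt c) v = v := fun v hv =>
    ⟨fun g => (Submodule.Quotient.eq S).1 (hv.1 g), by simpa using End.mem_eigenspace_iff.1 hv.2⟩
  have hX : ∀ j < 6, ∀ v ∈ A, XJ ι ρ j v ∈ (End.eigenspace (ρ.subrepresentation S hS (tt c)) (ι c ^ wj j)).map S.subtype :=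
    fun j hj v hv => by
      refine ⟨⟨XJ ι ρ j v, XJ_app hF ι ρ hj v ▸ S.sum_mem fun b _ => S.smul_mem _ ((hA v hv).1 _)⟩,
        End.mem_eigenspace_iff.2 (Subtype.ext ?_), rfl⟩
      have := LinearMap.congr_fun (XJ_tt ι ρ j c) v
      rw [End.mul_apply, (hA v hv).2] at this
      change ρ (tt c) (XJ ι ρ j v) = ι c ^ wj j • XJ ι ρ j v
      conv_rhs => rw [← this, LinearMap.smul_apply, smul_smul, (hw j).2, one_smul, End.mul_apply]
  have hZ : ∀ j < 6, j ≠ i → ∀ v ∈ A, XJ ι ρ j v = 0 := fun j hj e v hv => by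
    have := hX j hj v hv
    rwa [Submodule.finrank_eq_zero.1 ((h1 _ (hw j).1).trans (h4 j hj e)), Submodule.map_bot, Submodule.mem_bot] at this
  have h7 : finrank k (A.map (XJ ι ρ i)) ≤ bd a := by
    by_cases e : bd a = 0
    · rw [e, Nat.le_zero, Submodule.finrank_eq_zero, eq_bot_iff]
      rintro _ ⟨v, hv, rfl⟩
      obtain ⟨n, a1, a2⟩ := hX i hi v hv
      by_contra e'
      have a3 := h2 n (fun e => e' (by simp [← a2, e])) (fun b => Subtype.ext (fix_of_XJ hF ι ρ (v := n) (fun j hj => by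
        rw [show n.1 = _ from a2, ← End.mul_apply]
        by_cases e : j = i
        · rw [e, XJ_sq hF ι ρ hi]; rfl
        · rw [(XJ_comm ι ρ j i).eq, End.mul_apply, hZ j hj e v hv, map_zero]) b)) _ (End.mem_eigenspace_iff.1 a1)
      rw [← pow_add, hp.pow_eq_one_iff_dvd, pow_eq_pow_mod a hp.pow_eq_one] at a3
      have := hw i
      have := h6 e
      rcases a3 with a3 | a3
      · have := hp.pow_inj (hw i).1 (Nat.mod_lt _ (by omega)) a3
        unfold wj at *
        omega
      · omega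
    · have := Submodule.finrank_mono (show A.map (XJ ι ρ i) ≤ (End.eigenspace (ρ.subrepresentation S hS (tt c))
        (ι c ^ wj i)).map S.subtype by rintro _ ⟨v, hv, rfl⟩; exact hX i hi v hv)
      rw [Submodule.finrank_map_subtype_eq, ← ed, h1 _ (hw i).1] at this
      omega
  have h8 : (ρ.quotient S hS).invariants ≤ A.map S.mkQ := fun v hv => by
    obtain ⟨v, rfl⟩ := S.mkQ_surjective v
    obtain ⟨w, b, d⟩ := ex_proj (n := 63) (by decide) (A := ρ (tt c)) (μ := 1) (by
      rw [← map_pow, tt_pow, ← hc, pow_orderOf_eq_one, tt_one, map_one]) (one_pow _) (hS _)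
        (by simpa using (Submodule.Quotient.eq S).1 (hv (tt c)))
    have := (Submodule.Quotient.eq S).2 d
    exact ⟨w, ⟨show S.mkQ w ∈ _ from (show S.mkQ w = S.mkQ v from this).symm ▸ hv, End.mem_eigenspace_iff.2 b⟩, this⟩
  have h9 : (A ⊓ LinearMap.ker (XJ ι ρ i)).map S.mkQ ≤ ρ.invariants.map S.mkQ := by
    rintro _ ⟨v, ⟨hv, a1⟩, rfl⟩
    obtain ⟨w, b, d⟩ := ex_avg hF ρ (fix_of_XJ hF ι ρ fun j hj => if e : j = i then e ▸ a1 else hZ j hj e v hv)
      (fun d => by
        obtain ⟨n, rfl⟩ := ex_pow hF hc d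
        rw [← tt_pow, map_pow]
        exact (End.pow_apply _ n v).trans (Function.iterate_fixed (hA v hv).2 n)) (hA v hv).1
    exact ⟨w, b, (Submodule.Quotient.eq S).2 d⟩
  have b1 := fr_map S.mkQ A
  have b2 := fr_map S.mkQ (A ⊓ LinearMap.ker (XJ ι ρ i))
  have b3 := fr_map (XJ ι ρ i) A
  have b4 := fr_map S.mkQ ρ.invariants
  have b5 := Submodule.finrank_mono h8
  have b6 := Submodule.finrank_mono h9
  have b7 := Submodule.finrank_mono (inf_le_inf_right (LinearMap.ker S.mkQ) (inf_le_left (a := A) (b := LinearMap.ker (XJ ι ρ i))))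
  rw [Submodule.ker_mkQ] at b1 b2 b4 b7
  omega

theorem Fil.inv {A : Submodule k N} (h : Fil ρ A) (g : SL(2, F)) : A ≤ A.comap (ρ g) := by
  cases h with
  | bot => exact bot_le
  | step _ _ h _ => exact h g

theorem Fil.comap [FiniteDimensional k N] {S : Submodule k N} (hS : ∀ g, S ≤ S.comap (ρ g)) (h4 : finrank k S ≤ 4)
    {A : Submodule k (N ⧸ S)} (h : Fil (ρ.quotient S hS) A) : Fil ρ (A.comap S.mkQ) := by
  have h0 : ∀ A : Submodule k (N ⧸ S), finrank k (A.comap S.mkQ) = finrank k A + finrank k S := fun A => by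
    rw [← fr_map S.mkQ, Submodule.map_comap_eq_of_surjective S.mkQ_surjective, inf_eq_right.2 (LinearMap.ker_le_comap _),
      Submodule.ker_mkQ]
  induction h with
  | bot => exact .step .bot bot_le (by simpa using hS) (by rw [h0]; simpa using h4)
  | step _ a b c ih => exact .step ih (Submodule.comap_mono a) (fun g v hv => b g hv) (by rw [h0, h0]; omega)

end inv

include hF in
theorem mult {c : Fˣ} (hc : orderOf c = 63) {x : SL(2, F)} {ξ : k} (hx : Eg ι x ξ) (hx1 : x ^ 65 = 1)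
    (hξ : IsPrimitiveRoot ξ 65) : ∀ (n : ℕ) {N : Type} [AddCommGroup N] [Module k N] [FiniteDimensional k N]
    (ρ : Representation k SL(2, F) N), finrank k N = n → ∃ m : ℕ → ℕ,
      (∀ j < 63, ed ρ (tt c) (ι c ^ j) = ∑ a ∈ range 64, m a * hh 63 a j) ∧
      (∀ j < 65, ed ρ x (ξ ^ j) = ∑ a ∈ range 64, m a * hh 65 a j) ∧
      ((∀ a < 64, m a ≠ 0 → Ok a) → m 0 ≤ finrank k ρ.invariants + ∑ a ∈ range 64, m a * bd a) ∧
      ((∀ a < 64, m a ≠ 0 → (sb a).length ≤ 4) → Fil ρ ⊤) ∧
      (Function.Injective (cz ρ) → ∀ a < 63, m a = 0) ∧ (IsNilpotent (cz ρ) → m 63 = 0) := by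
  intro n
  induction n using Nat.strong_induction_on with | _ n ih => ?_
  intro N _ _ _ ρ hn
  have hp : IsPrimitiveRoot (ι c) 63 := (IsPrimitiveRoot.coe_units_iff.2 (hc ▸ IsPrimitiveRoot.orderOf c)).map_of_injective
    ι.injective
  cases subsingleton_or_nontrivial N
  · exact ⟨0, fun j _ => by simp [ed, finrank_zero_of_subsingleton], fun j _ => by simp [ed, finrank_zero_of_subsingleton],
      by simp, fun _ => Subsingleton.elim ⊥ (⊤ : Submodule k N) ▸ .bot, by simp, by simp⟩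
  obtain ⟨S, ⟨S0, hS⟩, hm⟩ := exists_minimalFor_of_wellFoundedLT
    (fun S : Submodule k N => S ≠ ⊥ ∧ ∀ g, S ≤ S.comap (ρ g)) (fun S => finrank k S) ⟨⊤, top_ne_bot, by simp⟩
  haveI := Submodule.nontrivial_iff_ne_bot.2 S0
  have hs : ∀ T : Submodule k S, (∀ g, ∀ s ∈ T, ρ.subrepresentation S hS g s ∈ T) → T = ⊥ ∨ T = ⊤ := fun T hT =>
    or_iff_not_imp_left.2 fun e => Submodule.eq_top_of_finrank_eq (le_antisymm (Submodule.finrank_le _) (by
      have := hm (j := T.map S.subtype) ⟨fun e' => e (Submodule.map_injective_of_injective S.subtype_injective (e'.trans (Submodule.map_bot _).symm)), by rintro g _ ⟨v, hv, rfl⟩; exact ⟨_, hT g v hv, rfl⟩⟩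
      simp only [Submodule.finrank_map_subtype_eq] at this
      exact this (Submodule.finrank_le _)))
  obtain ⟨a, ha, h1, h2, h3, h4, h5⟩ := simple64 hF ι (ρ.subrepresentation S hS) hs
  have h6 := S.finrank_quotient_add_finrank
  have h7 := finrank_pos (R := k) (M := S)
  obtain ⟨m, b1, b2, b3, b4, b5, b6⟩ := ih _ (by omega) (ρ.quotient S hS) rfl
  have h8 : ∀ f : ℕ → ℕ, ∑ b ∈ range 64, (m b + if b = a then 1 else 0) * f b = f a + ∑ b ∈ range 64, m b * f b := fun f => by
    simp [add_mul, sum_add_distrib, ha, add_comm]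
  have h9 := h1 (tt c) (ι c) 63 ⟨![0, 1], ![1, 0], by simp, by ext i; fin_cases i <;> simp, by ext i; fin_cases i <;> simp⟩ hp
  have c1 := cz_map (ρ.subrepresentation S hS) S.subtype fun _ _ => rfl
  have c2 := cz_map ρ (ρ' := ρ.quotient S hS) S.mkQ fun _ _ => rfl
  refine ⟨fun b => m b + if b = a then 1 else 0, fun j hj => ?_, fun j hj => ?_, fun h => ?_, fun h => ?_, fun h b hb => ?_,
    fun ⟨i, h⟩ => ?_⟩
  · rw [h8, ed_add ρ hS (n := 63) (by decide) (by rw [tt_pow, ← hc, pow_orderOf_eq_one, tt_one])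
      (by rw [pow_right_comm, hp.pow_eq_one, one_pow]), h9 j hj, b1 j hj]
  · rw [h8, ed_add ρ hS (n := 65) (by decide) hx1 (by rw [pow_right_comm, hξ.pow_eq_one, one_pow]), h1 _ _ _ hx hξ j hj,
      b2 j hj]
  · have d1 := inv_le hF ι ρ hS hc ha h9 (fun v a b => h3 v a b c) (h a ha (by simp))
    have d2 := b3 fun b hb e => h b hb fun e' => e (Nat.add_eq_zero_iff.1 e').1
    rw [h8]
    by_cases e : a = 0
    · rw [inf_eq_right.2 fun v hv g => congrArg Subtype.val (h4 e g ⟨v, hv⟩)] at d1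
      simp only [e, if_true] at d1 ⊢
      omega
    · simp only [Ne.symm e, if_false]
      omega
  · simpa using (b4 fun b hb e => h b hb fun e' => e (Nat.add_eq_zero_iff.1 e').1).comap ρ hS (h2 ▸ h a ha (by simp))
  · have d1 : Function.Injective (cz (ρ.subrepresentation S hS)) := fun v w e => Subtype.ext (h (by
      simpa [e] using (c1 1 v).symm.trans ((congrArg S.subtype (by simpa using e)).trans (c1 1 w))))
    have d2 : a = 63 := by
      by_contra e
      obtain ⟨v, hv⟩ := exists_ne (0 : S)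
      have : ∀ a < 63, (sb a).length < 64 := by decide +kernel
      exact hv (d1 (by rw [cz_zero hF _ (h2 ▸ this a (by omega))]; rfl))
    simp only
    rw [b5 ((injective_iff_map_eq_zero _).2 fun v hv => ?_) b hb, if_neg (by omega)]
    obtain ⟨v, rfl⟩ := S.mkQ_surjective v
    obtain ⟨w, hw⟩ := LinearMap.surjective_of_injective d1 ⟨cz ρ v, (Submodule.Quotient.mk_eq_zero S).1 (by
      have := c2 1 v
      rw [pow_one, pow_one] at this
      exact this.trans hv)⟩
    rw [← h (show cz ρ w = cz ρ v by simpa [hw] using (c1 1 w).symm)]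
    simp
  · simp only
    rw [b6 ⟨i, LinearMap.ext fun v => by
      obtain ⟨v, rfl⟩ := S.mkQ_surjective v
      rw [← c2, h]; simp⟩, if_neg fun e => h5 e.symm ?_]
    refine LinearMap.ker_eq_top.1 ((hs _ fun g v hv => ?_).resolve_left fun e => ?_)
    · rw [LinearMap.mem_ker, ← End.mul_apply, ← (cz_comm _ g).eq, End.mul_apply, hv, map_zero]
    · obtain ⟨v, hv⟩ := exists_ne (0 : S)
      refine hv (End.iterate_injective (LinearMap.ker_eq_bot.1 e) i (Subtype.ext ?_))
      simpa [h] using c1 i v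

end H16.E8
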