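import Cfsg.Agent.H14.StS2
import Cfsg.Agent.H14.Semi5
import Cfsg.Agent.H14.Cen1
import Cfsg.Agent.H16.E8d

/-! The adjoint module of a simply laced Chevalley group in characteristic two. -/

set_option autoImplicit false
set_option linter.unusedSectionVars false
set_option linter.style.haveILetI false

namespace H16.E8
open H14 H14.PreSt H14.St H14.RootSys Module Matrix

variable {ι κ : Type*} [Fintype κ] [DecidableEq κ] [Fintype ι] [DecidableEq ι] {R : RootSys ι κ} (C : Chev R)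
  {K : Type*} [Field K]

/-- the Lie bracket -/
noncomputable def br : (κ ⊕ ι → K) →ₗ[K] (κ ⊕ ι → K) →ₗ[K] κ ⊕ ι → K :=
  (Matrix.toLin' (R := K)).toLinearMap ∘ₗ C.adRep.rho K

theorem br_app (v w : κ ⊕ ι → K) : br C v w = C.adRep.rho K v *ᵥ w := rfl

/-- values of a root on the Cartan subalgebra -/
def ro (R : RootSys ι κ) (c : κ → K) (r : ι) : K := c ⬝ᵥ fun i => (R.wt r i : K)

theorem ro_neg (c : κ → K) (r : ι) : ro R c (R.neg r) = - ro R c r := by simp [ro, dotProduct]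

theorem ro_single (i : κ) (r : ι) : ro R (Pi.single i (1 : K)) r = R.wt r i := by simp [ro]

/-- values of the weights on the Cartan subalgebra -/
def rv (R : RootSys ι κ) (c : κ → K) : κ ⊕ ι → K := Sum.elim (fun _ => 0) (ro R c)

theorem br_hv (c : κ → K) (w : κ ⊕ ι → K) : br C (hv ι c) w = rv R c * w := by
  rw [br_app, Rep.rho_hv]
  ext (a | a) <;> simp [mulVec_diagonal, Chev.adRep, PreChev.adWt, ro, rv]

theorem br_ev (r : ι) (w : κ ⊕ ι → K) : br C (ev κ K r) w = cm K (C.ad1 r) *ᵥ w := by rw [br_app, Rep.rho_ev]; rfl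

theorem eq_hv_add (v : κ ⊕ ι → K) : v = hv ι (v ∘ Sum.inl) + ∑ r, v (.inr r) • ev κ K r := by
  ext (a | a) <;> simp [hv, H14.ev, Pi.single_apply]

theorem br_ev_hv (r : ι) (c : κ → K) : br C (ev κ K r) (hv ι c) = -ro R c r • ev κ K r := by
  rw [br_ev]
  ext (a | a)
  · simp [hv, H14.ev, PreChev.ad1, mulVec, dotProduct]
  · by_cases h : a = r <;> simp [hv, H14.ev, PreChev.ad1, mulVec, dotProduct, ro, h, mul_comm]

theorem br_hv' (v : κ ⊕ ι → K) (c : κ → K) : br C v (hv ι c) = -(rv R c * v) := by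
  conv_lhs => rw [eq_hv_add v]
  simp only [map_add, map_sum, map_smul, LinearMap.add_apply, LinearMap.sum_apply, LinearMap.smul_apply, br_hv, br_ev_hv]
  ext (a | a) <;> simp [hv, H14.ev, Pi.single_apply, mul_comm, rv]

theorem br_ev_neg (r : ι) : br C (ev κ K r) (ev κ K (R.neg r)) = hv ι fun i => (R.co r i : K) := by
  rw [br_ev, ← PreChev.cast_ev, cm_mulVec, C.ad1_ev_neg, PreChev.cast_hv]

theorem br_ev_ev {r s : ι} (h : s ≠ R.neg r) : br C (ev κ K r) (ev κ K s) = (C.N r s : K) • ev κ K (R.plus r s) := by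
  rw [br_ev, PreChev.cm_mulVec_ev _ (C.ad1_ev h)]

variable (R) in
/-- coordinates of the weights of the adjoint module -/
def cf' : κ ⊕ ι → κ → ℤ := Sum.elim 0 R.cf

variable (R) in
/-- vectors supported in large height -/
def Hi (m : ℤ) (v : κ ⊕ ι → K) : Prop := ∀ b, v b ≠ 0 → m ≤ htf κ (cf' R b)

variable {C}

theorem Hi.mul {m d : ℤ} {M : Matrix (κ ⊕ ι) (κ ⊕ ι) K} (h : C.adRep.Lev (htf κ) d M) {v : κ ⊕ ι → K} (hv : Hi R m v) :
    Hi R (m + d) (M *ᵥ v) := fun a e => by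
  obtain ⟨b, -, hb⟩ := Finset.exists_ne_zero_of_sum_ne_zero e
  obtain ⟨μ, e1, e2⟩ := h a b (left_ne_zero_of_mul hb)
  have h0 : ∀ a, C.adRep.wt a = R.A *ᵥ cf' R a := by rintro (a | a) <;> simp [Chev.adRep, PreChev.adWt, cf', wt]
  rw [h0, h0, ← mulVec_add] at e1
  have := hv b (right_ne_zero_of_mul hb)
  rw [R.A_mulVec_inj e1, map_add]
  omega

theorem Hi.lev {v : κ ⊕ ι → K} (h : Hi R 1 v) : C.adRep.Lev (htf κ) 1 (C.adRep.rho K v) := fun a b e => by
  rw [Rep.rho, Fintype.linearCombination_apply, Matrix.sum_apply] at e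
  obtain ⟨r | r, -, hr⟩ := Finset.exists_ne_zero_of_sum_ne_zero e
  · simpa [cf'] using h _ (left_ne_zero_of_mul hr)
  · exact (Rep.lev_E1 r).mono (h _ (left_ne_zero_of_mul hr)) a b (right_ne_zero_of_mul hr)

theorem Hi.mono {m m' : ℤ} {v : κ ⊕ ι → K} (h : Hi R m v) (e : m' ≤ m) : Hi R m' v := fun b hb => e.trans (h b hb)

theorem hi_hv (c : κ → K) : Hi R 0 (hv ι c) := by rintro (a | a) <;> simp [hv, cf']

theorem hi_zero {v : κ ⊕ ι → K} {m : ℤ} (h0 : Hi R m v) (h : ∀ n, m ≤ n → Hi R n v → Hi R (n + 1) v) : v = 0 := by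
  by_contra e
  obtain ⟨b, hb⟩ := Function.ne_iff.1 e
  have : ∀ n, m ≤ n → Hi R n v := fun n hn => Int.leInduction h0 h n hn
  have := this (max m (htf κ (cf' R b) + 1)) (le_max_left _ _) b hb
  omega

theorem single_mem {I : Type*} [Fintype I] [DecidableEq I] {W : Submodule K (I → K)} {r : I}
    (h : ∀ b ≠ r, ∃ d : I → K, d b = 0 ∧ d r ≠ 0 ∧ ∀ v ∈ W, d * v ∈ W) {v : I → K} (hv : v ∈ W) (h0 : v r ≠ 0) :
    Pi.single r 1 ∈ W := by
  choose! d h1 h2 h3 using h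
  have : (∏ b ∈ Finset.univ.erase r, d b) * v ∈ W := Finset.prod_induction d (fun d => ∀ v ∈ W, d * v ∈ W)
    (fun a b ha hb v hv => mul_assoc a b v ▸ ha _ (hb v hv)) (by simp) (fun b hb => h3 b (Finset.ne_of_mem_erase hb)) v hv
  refine (W.smul_mem_iff (mul_ne_zero ((Finset.prod_ne_zero_iff (s := Finset.univ.erase r)).2 fun b hb =>
    h2 b (Finset.ne_of_mem_erase hb)) h0)).1 ?_
  convert this
  ext a
  by_cases e : a = r
  · simp [e]
  · simp [e, Finset.prod_eq_zero (f := fun c => d c a) (Finset.mem_erase.2 ⟨e, Finset.mem_univ _⟩) (h1 a e)]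

theorem mulVec_mem {I : Type*} [Fintype I] [DecidableEq I] {W : Submodule K (I → K)} {M : Matrix I I K} {v : I → K}
    (h : ∀ b, v b ≠ 0 → M *ᵥ Pi.single b 1 ∈ W) : M *ᵥ v ∈ W := by
  rw [← Finset.univ_sum_single v, mulVec_sum]
  refine W.sum_mem fun b _ => ?_
  by_cases e : v b = 0
  · simp [e]
  · rw [← mul_one (v b), ← smul_eq_mul, Pi.single_smul, mulVec_smul]
    exact W.smul_mem _ (h b e)

theorem X_ev (hd : ∀ r, R.d r = 1) {r s : ι} (h : s ≠ R.neg r) (t : K) :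
    C.Xad r t *ᵥ ev κ K s = ev κ K s + t • br C (ev κ K r) (ev κ K s) := by
  rw [C.Xad_ev h, C.M2_zero fun h => not_isSum_plus_of_d hd h.1 h.2, C.M3_zero fun h => not_isSum_plus_of_d hd h.1 h.2.1,
    br_ev_ev C h, smul_smul]
  simp

theorem N_ne (hd : ∀ r, R.d r = 1) {r s : ι} (h : R.IsSum r s) : (C.N r s : K) ≠ 0 := by
  have := C.N_abs r s h
  rw [down, if_neg fun e => not_isSum_plus_of_d hd (by simpa using e.neg_plus) (by
    have := e.plus_neg_plus
    rw [R.neg_neg] at this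
    rwa [this])] at this
  rcases Int.natAbs_eq_iff.1 this with e | e <;> simp [e]

theorem irred (hd : ∀ r, R.d r = 1) (hA : ∀ c : κ → K, (∀ r, R.pos r → ro R c r = 0) → c = 0) {θ : ι}
    (hθ : ∀ s ≠ θ, ∃ r, R.pos r ∧ R.IsSum r s) (hθ' : ∀ b, htf κ (cf' R b) ≤ R.ht θ) {W : Submodule K (κ ⊕ ι → K)}
    (h : ∀ r, ∀ v ∈ W, C.Xad r 1 *ᵥ v ∈ W) (h0 : W ≠ ⊥) : W = ⊤ := by
  have h2 : ∀ r, ∀ v ∈ W, (C.Xad r (1 : K) - 1) *ᵥ v ∈ W := fun r v hv => by
    rw [sub_mulVec, one_mulVec]; exact W.sub_mem (h r v hv) hv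
  have h3 : ev κ K θ ∈ W := by
    obtain ⟨m, hm⟩ : ∃ m, ∀ b, m ≤ htf κ (cf' R b) := (Set.finite_range _).bddBelow.imp fun m h b => h ⟨b, rfl⟩
    obtain ⟨n, ⟨v, hv, v0, h4⟩, h5⟩ := Int.exists_greatest_of_bdd (P := fun n => ∃ v ∈ W, v ≠ 0 ∧ Hi R n v)
      ⟨R.ht θ, fun n ⟨v, _, v0, h⟩ => by
        obtain ⟨b, hb⟩ := Function.ne_iff.1 v0
        exact (h b hb).trans (hθ' b)⟩
      ⟨m, (W.exists_mem_ne_zero_of_ne_bot h0).imp fun v hv => ⟨hv.1, hv.2, fun b _ => hm b⟩⟩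
    have h6 : ∀ r, R.pos r → ∀ a, htf κ (cf' R a) = n + R.ht r → (cm K (C.ad1 r) *ᵥ v) a = 0 := fun r hr a ha => by
      have a1 : (C.Xad r (1 : K) - 1) *ᵥ v = 0 := by
        by_contra e
        have := h5 _ ⟨_, h2 r v hv, e, h4.mul ((Rep.lev_X (V := C.adRep) (htf_pos hr) 1).mono (htf_pos hr))⟩
        omega
      by_contra e
      have := h4.mul (Rep.lev_X_sub_X (V := C.adRep) (htf_pos hr) (1 : K) 0) a (by
        rw [Rep.X_zero, sub_mulVec, show C.adRep.X r (1 : K) = C.Xad r 1 from rfl, a1,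
          show C.adRep.E1 r = C.ad1 r from rfl]; simpa using e)
      rw [htf_cf] at this
      omega
    have h7 : ∀ b, v b ≠ 0 → htf κ (cf' R b) = n → b = .inr θ := by
      rintro (i | s) hb e
      · refine absurd (congrFun (hA (v ∘ .inl) fun r hr => ?_) i) hb
        have := h6 r hr (.inr r) (by simp [← e, cf', htf_cf])
        rw [mulVec, dotProduct, Fintype.sum_sum_type, Finset.sum_eq_zero (s := Finset.univ (α := ι)) fun s _ => by
          by_cases h : R.IsSum r s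
          · simp [PreChev.ad1, h.plus_ne_left.symm]
          · simp [PreChev.ad1, C.N_zero _ _ h]] at this
        simpa [PreChev.ad1, ro, dotProduct, mul_comm] using this
      · by_contra e'
        obtain ⟨r, hr, h8⟩ := hθ s (by simpa using e')
        have := h6 r hr (.inr (R.plus r s)) (by simp [← e, cf', htf_cf, h8.ht_plus, add_comm])
        rw [mulVec, dotProduct, Finset.sum_eq_single (.inr s) ?_ (by simp)] at this
        · simp [PreChev.ad1, N_ne hd h8, hb] at this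
        rintro (i | t) - ht
        · simp [PreChev.ad1, h8.plus_ne_left]
        by_cases h : R.IsSum r t
        · have : R.plus r s ≠ R.plus r t := fun e => ht (by rw [← h.plus_neg_plus, ← e, h8.plus_neg_plus])
          simp [PreChev.ad1, this]
        · simp [PreChev.ad1, C.N_zero _ _ h]
    obtain ⟨b, hb, h8⟩ : ∃ b, v b ≠ 0 ∧ htf κ (cf' R b) = n := by
      by_contra! e
      have := h5 (n + 1) ⟨v, hv, v0, fun b hb => by have := h4 b hb; have := e b hb; omega⟩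
      omega
    obtain rfl := h7 b hb h8
    refine (W.smul_mem_iff hb).1 ?_
    convert hv
    ext a
    by_cases e : a = .inr θ
    · simp [e, H14.ev]
    · by_contra e'
      have a1 : v a ≠ 0 := by simpa [H14.ev, e, eq_comm] using e'
      exact e (h7 a a1 (le_antisymm ((hθ' a).trans h8.le) (h4 a a1)))
  have h4 : ∀ s, ev κ K s ∈ W := fun s => by
    induction hn : (R.ht θ - R.ht s).toNat using Nat.strong_induction_on generalizing s with | _ n ih => ?_
    by_cases e : s = θ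
    · exact e ▸ h3
    obtain ⟨r, hr, h8⟩ := hθ s e
    have a1 := hθ' (.inr (R.plus r s))
    have a2 := htf_pos hr
    simp only [cf', Sum.elim_inr, htf_cf, h8.ht_plus] at a1 a2
    have := h2 (R.neg r) _ (ih _ (by rw [h8.ht_plus]; omega) (R.plus r s) rfl)
    rw [sub_mulVec, X_ev hd (by simpa using h8.plus_ne_left), br_ev_ev C (by simpa using h8.plus_ne_left),
      h8.plus_neg_plus] at this
    exact (W.smul_mem_iff (N_ne hd h8.neg_plus)).1 (by simpa using this)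
  refine eq_top_iff.2 fun v _ => ?_
  rw [← one_mulVec v]
  refine mulVec_mem ?_
  rintro (i | s) -
  · have := W.add_mem (W.sub_mem (h (R.simple i) _ (h4 (R.neg (R.simple i)))) (h4 (R.neg (R.simple i)))) (h4 (R.simple i))
    rw [C.Xad_ev_neg, co_simple] at this
    rw [one_mulVec, hv_single]
    convert this using 1
    ext (a | a) <;> simp [hv, Pi.single_apply, sub_eq_add_neg, add_right_comm]
  · rw [one_mulVec]; exact h4 s

theorem ex_cen [CharP K 2] {M : Submodule K (κ ⊕ ι → K)} (hM : ∀ v ∈ M, ∀ w ∈ M, br C v w ∈ M) {α β : ι}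
    (h1 : ∀ v ∈ M, ∀ r, v (.inr r) ≠ 0 → r = α ∨ r = R.neg α ∨ r = β ∨ r = R.neg β) (h2 : R.pair α β = 0)
    (h3 : ∃ i, (R.co α i : K) ≠ 0) (h4 : 6 ≤ finrank K M) :
    ∃ c, c ≠ 0 ∧ hv ι c ∈ M ∧ ro R c α = 0 ∧ ro R c β = 0 := by
  by_contra! h
  let f : (κ → K) →ₗ[K] ι → K := Fintype.linearCombination K fun i r => (R.wt r i : K)
  have hf : ∀ c r, f c r = ro R c r := fun c r => by simp [f, Fintype.linearCombination_apply, ro, dotProduct]
  let φ : M →ₗ[K] Fin 6 → K := LinearMap.pi ![.proj (.inr α), .proj (.inr (R.neg α)), .proj (.inr β), .proj (.inr (R.neg β)),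
    .proj α ∘ₗ f ∘ₗ LinearMap.funLeft K K .inl, .proj β ∘ₗ f ∘ₗ LinearMap.funLeft K K .inl] ∘ₗ M.subtype
  have hφ : ∀ v : M, φ v = ![v.1 (.inr α), v.1 (.inr (R.neg α)), v.1 (.inr β), v.1 (.inr (R.neg β)), ro R (v.1 ∘ .inl) α,
      ro R (v.1 ∘ .inl) β] := fun v => by
    ext i; fin_cases i <;> simp [φ, ← hf] <;> rfl
  have h5 : ∀ (v : M) r, v.1 (.inr α) = 0 ∨ r = α → v.1 (.inr (R.neg α)) = 0 ∨ r = R.neg α → v.1 (.inr β) = 0 →
      v.1 (.inr (R.neg β)) = 0 → v.1 = hv ι (v.1 ∘ .inl) + v.1 (.inr r) • ev κ K r := fun v r a b c d => by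
    ext (s | s)
    · simp [hv, H14.ev]
    by_cases e : s = r
    · simp [hv, H14.ev, e]
    have := h1 v v.2 s
    simp only [hv, H14.ev, Pi.add_apply, Sum.elim_inr, Pi.zero_apply, Pi.smul_apply, ne_eq, Sum.inr.injEq, e,
      not_false_eq_true, Pi.single_eq_of_ne, smul_zero, add_zero]
    grind
  have hi : Function.Injective φ := (injective_iff_map_eq_zero _).2 fun v e => by
    rw [hφ] at e
    have a := h5 v α (.inr rfl) (.inl (congrFun e 1)) (congrFun e 2) (congrFun e 3)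
    rw [show v.1 (.inr α) = 0 from congrFun e 0, zero_smul, add_zero] at a
    by_contra e'
    exact h _ (fun b => e' (Subtype.ext (by rw [a, b]; ext (_ | _) <;> rfl))) (a ▸ v.2) (congrFun e 4) (congrFun e 5)
  have hs := (LinearMap.injective_iff_surjective_of_finrank_eq_finrank (le_antisymm
    (LinearMap.finrank_le_finrank_of_injective hi) (by simpa using h4))).1 hi
  obtain ⟨v, a⟩ := hs ![1, 0, 0, 0, 0, 0]
  obtain ⟨w, b⟩ := hs ![0, 1, 0, 0, 0, 0]
  rw [hφ] at a b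
  have := hM _ v.2 _ w.2
  rw [h5 v α (.inr rfl) (.inl (congrFun a 1)) (congrFun a 2) (congrFun a 3),
    h5 w (R.neg α) (.inl (congrFun b 0)) (.inr rfl) (congrFun b 2) (congrFun b 3),
    show v.1 (.inr α) = 1 from congrFun a 0, show w.1 (.inr (R.neg α)) = 1 from congrFun b 1] at this
  simp only [one_smul, map_add, LinearMap.add_apply, br_ev_hv, br_ev_neg, br_hv, show ro R (w.1 ∘ .inl) α = 0 from congrFun b 4] at this
  refine h (fun i => (R.co α i : K)) (Function.ne_iff.2 h3) ?_ ?_ ?_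
  · convert this using 1
    ext (s | s)
    · simp [hv, rv]
    · by_cases e : s = R.neg α <;> simp [hv, rv, H14.ev, e, ro_neg, show ro R (v.1 ∘ .inl) α = 0 from congrFun a 4]
  · have := congrArg (Int.cast : ℤ → K) (R.pair_self α)
    simpa [pair, ro, dotProduct, CharTwo.two_eq_zero] using this
  · simpa [pair, ro, dotProduct] using congrArg (Int.cast : ℤ → K) h2

section grp
variable {G : Type*} [Group G] {S : St C K G} (φ : G →* GL (κ ⊕ ι) K)

/-- the adjoint module -/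
noncomputable def ad : G →* End K (κ ⊕ ι → K) :=
  (Matrix.toLinAlgEquiv' (R := K) (n := κ ⊕ ι)).toMonoidHom.comp ((Units.coeHom _).comp φ)

theorem ad_app (g : G) (v : κ ⊕ ι → K) : ad φ g v = (φ g : Matrix _ _ K) *ᵥ v := rfl

theorem ad_mul (g h : G) (v : κ ⊕ ι → K) : ad φ (g * h) v = ad φ g (ad φ h v) := by rw [map_mul]; rfl

theorem ad_inv (g : G) (v : κ ⊕ ι → K) : ad φ g⁻¹ (ad φ g v) = v := by rw [← ad_mul]; simp

theorem ad_inv' (g : G) (v : κ ⊕ ι → K) : ad φ g (ad φ g⁻¹ v) = v := by rw [← ad_mul]; simp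

theorem ad_pow {g : G} {v : κ ⊕ ι → K} {μ : K} (h : ad φ g v = μ • v) (n : ℕ) : ad φ (g ^ n) v = μ ^ n • v := by
  induction n with
  | zero => simp
  | succ n ih => rw [pow_succ, ad_mul, h, map_smul, ih, smul_smul, pow_succ']

variable (C) in
/-- centralizers of eigenspaces -/
def Zs (s : G) (A : Set K) : Submodule K (κ ⊕ ι → K) where
  carrier := {v | ∀ μ ∈ A, ∀ w, ad φ s w = μ • w → br C v w = 0}
  add_mem' a b μ h w e := by rw [map_add, LinearMap.add_apply, a μ h w e, b μ h w e, add_zero]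
  zero_mem' μ h w e := by simp
  smul_mem' c v a μ h w e := by rw [map_smul, LinearMap.smul_apply, a μ h w e, smul_zero]

theorem Zs_pow {s : G} {A : Set K} {n : ℕ} (h : ∀ μ ∈ A, μ ^ n ∈ A) : Zs C φ (s ^ n) A ≤ Zs C φ s A :=
  fun _ hv μ a w e => hv _ (h μ a) w (ad_pow φ e n)

variable {φ} (hφ : S.toPreSt.IsHom (C.ad K).toPreSt φ) (hG : S.U Set.univ = ⊤)
include hφ

theorem ad_x (r : ι) (t : K) (v : κ ⊕ ι → K) : ad φ (S.x r t) v = C.Xad r t *ᵥ v := by rw [ad_app, hφ r t]; rfl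

theorem ad_tor (hh : S.HMul) (c : κ → Kˣ) (v : κ ⊕ ι → K) :
    ad φ (hh.tor c) v = Sum.elim (fun _ => 1) (fun r => ((R.chi c r : Kˣ) : K)) * v := by
  rw [ad_app, hh.map (C.adRep.hmul K) hφ, Rep.coe_tor]
  ext (a | a) <;> simp [mulVec_diagonal, Chev.adRep, PreChev.adWt, chi]

theorem ad_lev {u : G} (hu : u ∈ S.U {r | R.pos r}) {m : ℤ} {v : κ ⊕ ι → K} (h : Hi R m v) : Hi R (m + 1) (ad φ u v - v) := by
  have := h.mul (PreSt.Model.lev_U ⟨C.adRep, φ, hφ, C.adRep_nondeg K⟩ (f := htf κ) one_pos (fun r => htf_pos) hu)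
  rwa [sub_mulVec, one_mulVec] at this

theorem Zs_tor (hh : S.HMul) (hn : ∀ r, ∃ i, (R.wt r i : K) ≠ 0) {c : κ → Kˣ} {A : Set K} (h1 : 1 ∈ A) {v : κ ⊕ ι → K} :
    v ∈ Zs C φ (hh.tor c) A ↔ ∃ d, v = hv ι d ∧ ∀ r, ((R.chi c r : Kˣ) : K) ∈ A → ro R d r = 0 := by
  refine ⟨fun h => ?_, ?_⟩
  · have h2 : v = hv ι (v ∘ .inl) := by
      ext (a | a)
      · rfl
      obtain ⟨i, hi⟩ := hn a
      have := congrFun (h 1 h1 (hv ι (Pi.single i 1)) (by rw [ad_tor hφ]; ext (b | b) <;> simp [hv])) (.inr a)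
      rw [br_hv'] at this
      simpa [rv, ro_single, hi, hv] using this
    refine ⟨_, h2, fun r hr => ?_⟩
    have := congrFun (h _ hr (ev κ K r) (by
      rw [ad_tor hφ]; ext (b | b) <;> simp +contextual [H14.ev, Pi.single_apply])) (.inr r)
    rw [h2] at this
    simpa [br_hv, rv, H14.ev] using this
  · rintro ⟨d, rfl, h⟩ μ a w e
    rw [ad_tor hφ] at e
    ext (b | b)
    · simp [br_hv, rv]
    · by_cases e' : w (.inr b) = 0
      · simp [br_hv, e']
      · have := mul_right_cancel₀ e' (congrFun e (.inr b))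
        simp [br_hv, rv, h b (this ▸ a :)]

include hG

theorem ad_br (g : G) (v w : κ ⊕ ι → K) : ad φ g (br C v w) = br C (ad φ g v) (ad φ g w) := by
  refine U_induction (S := S.toPreSt) (A := Set.univ) (P := fun g => ad φ g (br C v w) = br C (ad φ g v) (ad φ g w))
    (by simp) (fun r _ t g _ ih => ?_) (hG ▸ trivial)
  rw [ad_mul, ih]
  simp only [ad_mul, ad_x hφ, br_app, mulVec_mulVec]
  exact congrArg (· *ᵥ _) (C.adRep.X_mul_rho r t _)

theorem Zs_conj {s : G} {A : Set K} {v : κ ⊕ ι → K} (g : G) (h : v ∈ Zs C φ s A) : ad φ g v ∈ Zs C φ (g * s * g⁻¹) A :=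
  fun μ a w e => by
    rw [← ad_inv' φ g w, ← ad_br hφ hG, h μ a _ (by rw [← map_smul, ← e, ad_mul, ad_mul, ad_inv]), map_zero]

theorem cent_ind (hS : S.Sep) (hh : S.HMul) (hi : Function.Injective hh.tor) {c : κ → Kˣ} (hc : IsOfFinOrder c)
    {P : G → Prop} (h0 : ∀ a b, P a → P b → P (a * b)) (h1 : ∀ r t, R.chi c r = 1 → P (S.x r t)) (h2 : ∀ d, P (hh.tor d))
    {g : G} (hg : Commute (hh.tor c) g) : P g := by
  obtain ⟨u, hu, _, hk, rfl⟩ := mem_U_sup_H_iff.1 ((hh.commute_iff hS hG hi hc).1 hg)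
  obtain ⟨d, rfl⟩ := hh.exists_tor hk
  exact h0 _ _ (U_induction (P := P) (map_one hh.tor ▸ h2 1) (fun r a t g _ b => h0 _ _ (h1 r t a) b) hu) (h2 d)

theorem Zs_fix (hS : S.Sep) (hh : S.HMul) (hi : Function.Injective hh.tor) (hn : ∀ r, ∃ i, (R.wt r i : K) ≠ 0)
    {c : κ → Kˣ} (hc : IsOfFinOrder c) {A : Set K} (h1 : 1 ∈ A) {y g : G} (hg : Commute (y * hh.tor c * y⁻¹) g)
    {v : κ ⊕ ι → K} (hv : v ∈ Zs C φ (y * hh.tor c * y⁻¹) A) : ad φ g v = v := by
  obtain ⟨d, e, h⟩ := (Zs_tor hφ hh hn h1).1 (by simpa [mul_assoc] using Zs_conj hφ hG y⁻¹ hv)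
  have := cent_ind hφ hG hS hh hi hc (P := fun g => ad φ g (H14.hv ι d) = H14.hv ι d) (fun a b h1 h2 => by rw [ad_mul, h2, h1])
    (fun r t a => by rw [ad_x hφ, C.Xad_hv, ← ro, h r (by simpa [a] using h1)]; simp)
    (fun c => by rw [ad_tor hφ]; ext (b | b) <;> simp [H14.hv]) (g := y⁻¹ * g * y) (by simpa [mul_assoc] using hg.conj y⁻¹)
  rw [← e, ad_mul, ad_mul, ad_inv'] at this
  rw [← ad_inv' φ y (ad φ g v), this, ad_inv']

theorem sub_inv [CharP K 2] (hS : S.Sep) (hh : S.HMul) (hi : Function.Injective hh.tor) (hd : ∀ r, R.d r = 1)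
    (hn : ∀ r s, r ≠ s → s = R.neg r ∨ ∃ i, (R.wt r i : K) ≠ R.wt s i)
    {c : κ → Kˣ} (hc : IsOfFinOrder c) {y g : G} (hg : Commute (y * hh.tor c * y⁻¹) g) {W : Submodule K (κ ⊕ ι → K)}
    (h1 : ∀ v, ad φ (y * hh.tor c * y⁻¹) v = v → v ∈ W) (h2 : ∀ v ∈ W, ∀ w ∈ W, br C v w ∈ W)
    (h3 : ∀ v ∈ W, ad φ (y * hh.tor c * y⁻¹) v ∈ W) : ∀ v ∈ W, ad φ g v ∈ W := by
  wlog hy : y = 1 generalizing y g W
  · intro v hv
    have := this (y := 1) (g := y⁻¹ * g * y) (W := W.comap (ad φ y)) (by simpa [mul_assoc] using hg.conj y⁻¹)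
      (fun v e => h1 _ (by rw [ad_mul, ad_inv, ad_mul]; simpa using congrArg (ad φ y) e))
      (fun v a w b => by rw [Submodule.mem_comap, ad_br hφ hG]; exact h2 _ a _ b)
      (fun v a => by simpa [ad_inv] using h3 _ a) rfl (ad φ y⁻¹ v) (by rwa [Submodule.mem_comap, ad_inv'])
    rwa [Submodule.mem_comap, ad_mul, ad_mul, ad_inv', ad_inv'] at this
  subst hy
  simp only [one_mul, inv_one, mul_one] at hg h1 h3
  have h4 : ∀ d, hv ι d ∈ W := fun d => h1 _ (by rw [ad_tor hφ]; ext (b | b) <;> simp [hv])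
  have h5 : ∀ r, R.chi c r = 1 → ev κ K r ∈ W := fun r e => h1 _ (by
    rw [ad_tor hφ]; ext (b | b) <;> simp +contextual [H14.ev, Pi.single_apply, e])
  have h6 : ∀ v ∈ W, ∀ b, v b ≠ 0 → Pi.single b 1 ∈ W := by
    rintro v hv (i | r) hb
    · rw [hv_single]; exact h4 _
    by_cases e : R.chi c r = 1
    · exact h5 r e
    have key : ∀ b μ, Sum.elim (fun _ => 1) (fun r => ((R.chi c r : Kˣ) : K)) b = μ → ((R.chi c r : Kˣ) : K) ≠ μ →
        ∃ d : κ ⊕ ι → K, d b = 0 ∧ d (.inr r) ≠ 0 ∧ ∀ v ∈ W, d * v ∈ W := fun b μ a1 a2 =>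
      ⟨Sum.elim (fun _ => 1) (fun r => ((R.chi c r : Kˣ) : K)) - fun _ => μ, sub_eq_zero.2 a1, sub_ne_zero.2 a2, fun v hv => by
        rw [sub_mul, ← ad_tor hφ hh]; exact W.sub_mem (h3 v hv) (W.smul_mem μ hv)⟩
    refine single_mem ?_ hv hb
    rintro (i | s) hs
    · exact key _ 1 rfl (by simpa using e)
    obtain rfl | ⟨i, hi⟩ := hn r s (by simpa [eq_comm] using hs)
    · refine key _ _ rfl fun e' => e (Units.ext ?_)
      simp only [Sum.elim_inr, chi_neg, Units.val_inv_eq_inv_val] at e'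
      have := (mul_self_eq_one_iff.1 ((mul_eq_one_iff_eq_inv₀ (Units.ne_zero _)).2 e'))
      rwa [CharTwo.neg_eq, or_self] at this
    · exact ⟨rv R (Pi.single i 1) - fun _ => (R.wt s i : K), by simp [rv, ro_single], by simpa [rv, ro_single, sub_eq_zero],
        fun v hv => by rw [sub_mul, ← br_hv C]; exact W.sub_mem (h2 _ (h4 _) _ hv) (W.smul_mem _ hv)⟩
  refine cent_ind hφ hG hS hh hi hc (P := fun g => ∀ v ∈ W, ad φ g v ∈ W) (fun a b h1 h2 v hv => by
    rw [ad_mul]; exact h1 _ (h2 v hv)) (fun r t a v hv => ?_) (fun d v hv => ?_) hg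
  · rw [ad_x hφ]
    refine mulVec_mem ?_
    rintro (i | s) hb
    · rw [hv_single, C.Xad_hv]
      exact W.sub_mem (h4 _) (W.smul_mem _ (h5 r a))
    by_cases e : s = R.neg r
    · subst e
      exact C.Xad_ev_neg r t ▸ W.sub_mem (W.add_mem (h6 v hv _ hb) (W.smul_mem _ (h4 _))) (W.smul_mem _ (h5 r a))
    · exact X_ev hd e t ▸ W.add_mem (h6 v hv _ hb) (W.smul_mem _ (h2 _ (h5 r a) _ (h6 v hv _ hb)))
  · rw [ad_app]
    refine mulVec_mem fun b hb => ?_
    rw [← ad_app, ad_tor hφ]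
    convert W.smul_mem (Sum.elim (fun _ => 1) (fun r => ((R.chi d r : Kˣ) : K)) b) (h6 v hv b hb)
    ext a
    by_cases e : a = b <;> simp [e]

theorem uni_fix [CharP K 2] (hh : S.HMul) (hn : ∀ r, ∃ i, (R.wt r i : K) ≠ 0) {F : Type*} [Field F] [Fintype F] [CharP F 2]
    (hF : Fintype.card F = 64) (γ : F →+* K) {u : F → G} (h1 : ∀ a b, u (a + b) = u a * u b) {c : κ → Kˣ} {l : Fˣ}
    (h2 : ∀ a, hh.tor c * u a = u (a / l ^ 2) * hh.tor c) (h3 : ∀ a, u a ∈ S.U {r | R.pos r}) {A : Set K} (h4 : 1 ∈ A)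
    (h5 : ∀ j < 6, ∀ μ, μ * γ l ^ 2 ^ (j + 1) = 1 → μ ∈ A) {v : κ ⊕ ι → K} (hv : v ∈ Zs C φ (hh.tor c) A)
    (h6 : ∀ w, br C v (br C v w) = br C v w) (a : F) : ad φ (u a) v = v := by
  obtain ⟨d, rfl, h7⟩ := (Zs_tor hφ hh hn h4).1 hv
  have h0 : ∀ a, Hi R 1 (ad φ (u a) (H14.hv ι d) - H14.hv ι d) := fun a => by simpa using ad_lev hφ (h3 a) (hi_hv d)
  have key : ∀ m, 1 ≤ m → ∀ a, Hi R m (ad φ (u a) (H14.hv ι d) - H14.hv ι d) := fun m hm => by
    refine Int.leInduction (motive := fun m _ => ∀ a, Hi R m (ad φ (u a) (H14.hv ι d) - H14.hv ι d)) h0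
      (fun m hm ih a b hb => ?_) m hm
    refine Int.lt_iff_add_one_le.1 ((ih a b hb).lt_of_ne fun e => ?_)
    rcases b with i | r
    · simp [cf', e] at hm
    obtain ⟨j, hj, h8⟩ := add_wt hF γ (f := fun a => (ad φ (u a) (H14.hv ι d) - H14.hv ι d) (.inr r)) (fun a b => by
      have : (ad φ (u a) (ad φ (u b) (H14.hv ι d) - H14.hv ι d) - (ad φ (u b) (H14.hv ι d) - H14.hv ι d)) (.inr r) = 0 := by
        by_contra e'
        have := ad_lev hφ (h3 a) (ih b) _ e'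
        omega
      simp only [h1, ad_mul, map_sub, Pi.sub_apply] at this ⊢
      linear_combination this) hb (c := l) (χ := ((R.chi c r : Kˣ) : K)) fun a => by
        have := congrFun (congrArg (ad φ · (H14.hv ι d)) (h2 a)) (.inr r)
        simp only [ad_mul, ad_tor hφ] at this
        rw [show Sum.elim (fun _ => 1) (fun r => ((R.chi c r : Kˣ) : K)) * H14.hv ι d = H14.hv ι d by
          ext (b | b) <;> simp [H14.hv]] at this
        rw [Pi.sub_apply, Pi.sub_apply, ← this]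
        simp [H14.hv]
    obtain ⟨i, hi⟩ := hn r
    have h9 := congrArg (ad φ (u a)) (h6 (ad φ (u a)⁻¹ (H14.hv ι (Pi.single i 1))))
    rw [ad_br hφ hG, ad_br hφ hG, ad_inv'] at h9
    obtain ⟨n, e'⟩ : ∃ n, ad φ (u a) (H14.hv ι d) = H14.hv ι d + n := ⟨_, (add_sub_cancel _ _).symm⟩
    have b1 := ih a
    have b2 := h0 a
    rw [e', add_sub_cancel_left] at hb b1 b2
    rw [e', map_add, LinearMap.add_apply, LinearMap.add_apply, br_hv, br_hv, br_hv', show rv R d * H14.hv ι (Pi.single i 1) = 0 by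
      ext (b | b) <;> simp [rv, H14.hv], zero_add] at h9
    have b3 : br C n (-(rv R (Pi.single i 1) * n)) (.inr r) = 0 := by
      by_contra e'
      have := Hi.mul b2.lev (v := -(rv R (Pi.single i 1) * n)) (fun b hb => b1 b (right_ne_zero_of_mul (neg_ne_zero.1 hb))) _ e'
      omega
    have := congrFun h9 (.inr r)
    simp only [Pi.add_apply, b3] at this
    simp [rv, h7 r (h5 j hj _ h8), ro_single, hi, hb] at this
  exact sub_eq_zero.1 (hi_zero (h0 a) fun n hn _ => key _ (by omega) a)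

omit hφ in
theorem ex_borel (hS : S.Sep) (hh : S.HMul) {X : Subgroup G} (h0 : ∃ g, ∀ x ∈ X, g⁻¹ * x * g ∈ S.U {r | R.pos r})
    (h1 : X ≠ ⊥) {y : G} {c : κ → Kˣ} (h2 : y * hh.tor c * y⁻¹ ∈ Subgroup.normalizer (X : Set G)) :
    ∃ g d, y * hh.tor c * y⁻¹ = g * hh.tor d * g⁻¹ ∧ ∀ x ∈ X, g⁻¹ * x * g ∈ S.U {r | R.pos r} := by
  obtain ⟨g, J, -, h3, h4⟩ := borel_tits hS hG h0 h1
  choose! m hm using fun w (hw : w ∈ R.W) => exists_NW_of_W (S := S.toPreSt) hw
  have a := h3 _ h2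
  have k0 : hh.tor c ∈ S.H := hh.range_tor.le ⟨_, rfl⟩
  obtain ⟨v, b3, b4, u, b5, b6⟩ := exists_cos hG J hm (y⁻¹ * g)
  have b8 := (cos_unique hS (hm v b3) (by simpa using NW.mul (mem_NW_of_H k0) (hm v b3)) b4 b4 b5 (H_conj_mem_U k0 b5)
    (by convert mul_mem (mul_mem (inv_mem b6) a) b6 using 1; group)).2
  obtain ⟨d, e⟩ := hh.exists_tor (N_conj_mem_H (inv_mem (NW.mem_N (hm v b3))) k0)
  refine ⟨y * (u * m v), d, ?_, fun x hx => U_mono (A := {r | R.pos r ∧ ¬R.InJ J r}) (fun r h => h.1) ?_⟩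
  · rw [← e, show y * hh.tor c * y⁻¹ = y * (u * hh.tor c * u⁻¹) * y⁻¹ by rw [eq_mul_inv_iff_mul_eq.1 b8]; group]
    group
  · convert (Subgroup.mem_normalizer_iff''.1 (P_le_normalizer J b6) _).1 (h4 x hx) using 1
    group

end grp

end H16.E8
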