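import Cfsg.Agent.H16.E8f

/-! Modules of `SL₂(64)` with the eigenvalue multiplicities of the adjoint module of type `E₈`. -/

set_option autoImplicit false
set_option linter.unusedSectionVars false
set_option linter.style.haveILetI false
set_option maxRecDepth 100000

namespace H16.E8
open Module H20.E8 Matrix Finset
open scoped MatrixGroups

variable {F : Type*} [Field F] [Fintype F] [CharP F 2] (hF : Fintype.card F = 64) {k : Type} [Field k] [CharP k 2]
  (ι : F →+* k) {N : Type} [AddCommGroup N] [Module k N] [FiniteDimensional k N] (ρ : Representation k SL(2, F) N)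

theorem fr_map₂ {Q : Type} [AddCommGroup Q] [Module k Q] (β : N →ₗ[k] N →ₗ[k] Q) (A B : Submodule k N) :
    finrank k (Submodule.map₂ β A B) ≤ finrank k A * finrank k B := by
  rw [TensorProduct.map₂_eq_range_lift_comp_mapIncl, ← finrank_tensorProduct]
  exact LinearMap.finrank_range_le _

include hF in
theorem fil_br {Q : Type} [AddCommGroup Q] [Module k Q] [FiniteDimensional k Q] (σ : Representation k SL(2, F) Q)
    (β : N →ₗ[k] N →ₗ[k] Q) (hβ : ∀ g v w, σ g (β v w) = β (ρ g v) (ρ g w)) (hi : Function.Injective (cz σ))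
    {A B : Submodule k N} (hA : Fil ρ A) (hB : Fil ρ B) : Submodule.map₂ β A B = ⊥ := by
  induction hA generalizing B with
  | bot => simp
  | @step A A' a0 a1 a2 a3 ih =>
  induction hB with
  | bot => simp
  | @step B B' b0 b1 b2 b3 ih' =>
  have hT : ∀ g, Submodule.map₂ β A' B' ≤ (Submodule.map₂ β A' B').comap (σ g) := fun g =>
    Submodule.map₂_le.2 fun v hv w hw => by
      rw [Submodule.mem_comap, hβ]; exact Submodule.apply_mem_map₂ _ (a2 g hv) (b2 g hw)
  have h1 : finrank k (Submodule.map₂ β A' B') < 64 := by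
    have h2 := ih (b0.step b1 b2 b3)
    obtain ⟨A0, c1, rfl⟩ := IsModularLattice.exists_disjoint_and_sup_eq a1
    obtain ⟨B0, c2, rfl⟩ := IsModularLattice.exists_disjoint_and_sup_eq b1
    have c3 := Submodule.finrank_sup_add_finrank_inf_eq A A0
    have c4 := Submodule.finrank_sup_add_finrank_inf_eq B B0
    rw [c1.eq_bot, finrank_bot] at c3
    rw [c2.eq_bot, finrank_bot] at c4
    rw [Submodule.map₂_sup_left, h2, bot_sup_eq, Submodule.map₂_sup_right,
      eq_bot_iff.2 ((Submodule.map₂_le_map₂_left le_sup_right).trans ih'.le), bot_sup_eq]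
    exact (fr_map₂ β _ _).trans_lt ((Nat.mul_le_mul (show _ ≤ 4 by omega) (show _ ≤ 4 by omega)).trans_lt (by decide))
  refine eq_bot_iff.2 fun v hv => hi ?_
  have := cz_map (σ.subrepresentation _ hT) (Submodule.subtype _) (fun _ _ => rfl) 1 ⟨v, hv⟩
  rw [cz_zero hF _ h1] at this
  simpa using this.symm

/-- the generalised kernel of the central element -/
noncomputable def gk : Submodule k N := (cz ρ).maxGenEigenspace 0

theorem mem_gk {v : N} : v ∈ gk ρ ↔ ∃ n, (cz ρ ^ n) v = 0 := by simp [gk, End.mem_maxGenEigenspace]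

theorem gk_inv {A : End k N} (α : SL(2, F) ≃* SL(2, F)) (h : ∀ g, A * ρ g = ρ (α g) * A) : gk ρ ≤ (gk ρ).comap A :=
  End.mapsTo_maxGenEigenspace_of_comm (by
    rw [Commute, SemiconjBy]
    conv_lhs => rw [← cz_aut ρ α]
    rw [sum_mul, cz, mul_sum]
    exact sum_congr rfl fun g _ => (h g).symm) 0

include hF in
theorem rep_cases {c : Fˣ} (hc : orderOf c = 63) {x : SL(2, F)} {ξ : k} (hx : Eg ι x ξ) (hx1 : x ^ 65 = 1)
    (hξ : IsPrimitiveRoot ξ 65) (β : N →ₗ[k] N →ₗ[k] N) (hβ : ∀ g v w, ρ g (β v w) = β (ρ g v) (ρ g w)) {p q : List ℕ}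
    (hp : p ∈ T63) (hq : q ∈ T65) (h1 : ∀ j < 63, ed ρ (tt c) (ι c ^ j) = cc 63 p j)
    (h2 : ∀ j < 65, ed ρ x (ξ ^ j) = cc 65 q j) : p = [0, 0, 0, 0, 0, 0, 0, 0] ∨ p = [1, 6, 3, 1, 0, 2, 3, 3] ∨
      q = [4, 2, 0, 1, 4, 2, 0, 8] ∧ 6 ≤ finrank k ρ.invariants ∨
      q = [1, 0, 0, 1, 1, 2, 4, 8] ∧ gk ρ ≠ ⊥ ∧ gk ρ ≠ ⊤ ∧ (∀ v, ρ x v = v → v ∈ gk ρ) ∧ ∀ v ∈ gk ρ, ∀ w ∈ gk ρ, β v w ∈ gk ρ := by
  obtain ⟨m, a1, a2, a3, -⟩ := mult hF ι hc hx hx1 hξ _ ρ rfl
  obtain h | h | ⟨h, a4, a5⟩ | ⟨h, -⟩ := cases (m := m) hp hq (fun j hj => by rw [← h1 j hj, a1 j hj])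
    fun j hj => by rw [← h2 j hj, a2 j hj]
  · exact .inl h
  · exact .inr (.inl h)
  · exact .inr (.inr (.inl ⟨h, by have := a3 a4; omega⟩))
  have hS : ∀ g, gk ρ ≤ (gk ρ).comap (ρ g) := fun g => End.mapsTo_maxGenEigenspace_of_comm (cz_comm ρ g).symm 0
  obtain ⟨m1, b1, b2, -, b3, -, b4⟩ := mult hF ι hc hx hx1 hξ _ (ρ.subrepresentation _ hS) rfl
  obtain ⟨m2, c1, c2, -, -, c3, c4⟩ := mult hF ι hc hx hx1 hξ _ (ρ.quotient _ hS) rfl
  have d1 := cz_map (ρ.subrepresentation _ hS) (gk ρ).subtype fun _ _ => rfl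
  have d2 := cz_map ρ (ρ' := ρ.quotient _ hS) (gk ρ).mkQ fun _ _ => rfl
  have hi : Function.Injective (cz (ρ.quotient _ hS)) := (injective_iff_map_eq_zero _).2 fun v e => by
    obtain ⟨v, rfl⟩ := (gk ρ).mkQ_surjective v
    have := d2 1 v
    rw [pow_one, pow_one, e] at this
    obtain ⟨n, hn⟩ := (mem_gk ρ).1 ((Submodule.Quotient.mk_eq_zero _).1 this)
    exact (Submodule.Quotient.mk_eq_zero _).2 ((mem_gk ρ).2 ⟨n + 1, by rw [pow_succ]; exact hn⟩)
  replace c3 := c3 hi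
  replace b4 := b4 (End.isNilpotent_iff_of_finite.2 fun v => ((mem_gk ρ).1 v.2).imp fun n hn => Subtype.ext ((d1 n v).trans hn))
  have hp' : IsPrimitiveRoot (ι c) 63 := by
    rw [← hc]
    exact (IsPrimitiveRoot.coe_units_iff.2 (IsPrimitiveRoot.orderOf c)).map_of_injective ι.injective
  obtain h' | h' | ⟨h', -⟩ | ⟨-, e1, e2⟩ := cases (m := m1 + m2) hp hq (fun j hj => by
    rw [← h1 j hj, ed_add ρ hS (n := 63) (by decide) (by rw [tt_pow, ← hc, pow_orderOf_eq_one, tt_one])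
      (by rw [pow_right_comm, hp'.pow_eq_one, one_pow]), b1 j hj, c1 j hj, ← sum_add_distrib]
    simp [add_mul]) fun j hj => by
    rw [← h2 j hj, ed_add ρ hS (n := 65) (by decide) hx1 (by rw [pow_right_comm, hξ.pow_eq_one, one_pow]), b2 j hj, c2 j hj,
      ← sum_add_distrib]
    simp [add_mul]
  · exact .inl h'
  · exact .inr (.inl h')
  · simp [h] at h'
  have e3 : ∀ v, ρ x v = v → v ∈ gk ρ := fun v e => by
    have := c2 0 (by decide)
    rw [sum_range_succ, sum_eq_zero fun a ha => by rw [c3 a (mem_range.1 ha), zero_mul], show hh 65 63 0 = 0 by decide,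
      mul_zero, pow_zero] at this
    have := Submodule.finrank_eq_zero.1 this
    exact (Submodule.Quotient.mk_eq_zero _).1 ((Submodule.eq_bot_iff _).1 this _ (End.mem_eigenspace_iff.2 (by
      rw [one_smul]; exact congrArg (gk ρ).mkQ e)))
  refine .inr (.inr (.inr ⟨h, fun e => ?_, fun e => e1 ?_, e3, fun v hv w hw => ?_⟩))
  · have := h2 0 (by decide)
    rw [ed, pow_zero, show End.eigenspace (ρ x) 1 = ⊥ from
      eq_bot_iff.2 fun v hv => e.le (e3 v (by simpa using End.mem_eigenspace_iff.1 hv))] at this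
    simp [cc] at this
    omega
  · haveI := Submodule.Quotient.subsingleton_iff.2 e
    rw [Pi.add_apply, b4, c4 ⟨0, Subsingleton.elim _ _⟩]
  · have := fil_br hF (ρ.subrepresentation _ hS) (ρ.quotient _ hS) ((β.compl₁₂ (gk ρ).subtype (gk ρ).subtype).compr₂ (gk ρ).mkQ)
      (fun g v w => congrArg (gk ρ).mkQ (hβ g v w)) hi (A := ⊤) (B := ⊤) ?_ ?_
    · exact (Submodule.Quotient.mk_eq_zero _).1 (this.le (Submodule.apply_mem_map₂ _ (Submodule.mem_top (x := (⟨v, hv⟩ : gk ρ)))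
        (Submodule.mem_top (x := (⟨w, hw⟩ : gk ρ)))))
    all_goals
      refine b3 fun a ha e => e2 a (lt_of_le_of_ne (by omega) fun e' => e (e' ▸ b4)) fun e' => e ?_
      exact (Nat.add_eq_zero_iff.1 e').1

end H16.E8
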