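import Cfsg.Agent.H16.E8b
import Cfsg.Agent.H16.E8c
import Cfsg.Agent.H16.E8f
import Cfsg.Agent.H16.E8g

/-! The adjoint module of `E₈(2)`. -/

set_option autoImplicit false
set_option maxRecDepth 100000

namespace H16.E8
open H14 H14.PreSt H14.St H14.RootSys Cfsg.Lie Module Matrix Finset

/-- the coefficient field -/
abbrev Kb := AlgebraicClosure (ZMod 2)
/-- the module -/
abbrev V8 := Fin chevE8.rank ⊕ Fin chevE8.nroots → Kb
/-- the finite group inside the algebraic group -/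
noncomputable abbrev ε : chevE8.group (ZMod 2) →* chevE8.group Kb := goodE8.mapG (algebraMap (ZMod 2) Kb)
/-- the algebraic group inside the general linear group -/
noncomputable abbrev φ8 := (chevE8.group Kb).subtype
/-- the adjoint module -/
noncomputable def ρ8 : Representation Kb (chevE8.group (ZMod 2)) V8 := (ad φ8).comp ε
/-- the torus -/
noncomputable abbrev tor8 := (goodE8.SG_hmul Kb).tor

theorem ρ8_app (g : chevE8.group (ZMod 2)) (v : V8) : ρ8 g v = ad φ8 (ε g) v := rfl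

theorem hd8 (r : Fin chevE8.nroots) : goodE8.R.d r = 1 := (goodE8.hd r).elim id id

theorem hi8 : Function.Injective tor8 := goodE8.tor_inj kerE8

theorem wt8 (r : Fin chevE8.nroots) (i : Fin chevE8.rank) : goodE8.R.wt r i = tabE8.wt r i := okE8.wt_rootSys r i

theorem cast_ne {a b : ℤ} (h : (a - b) % 2 = 1) : (a : Kb) ≠ b := fun e => by
  have := (CharP.intCast_eq_zero_iff Kb 2 (a - b)).1 (by simp [e])
  omega

theorem hn8 (r : Fin chevE8.nroots) : ∃ i, (goodE8.R.wt r i : Kb) ≠ 0 := by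
  obtain ⟨i, h⟩ : ∃ i : Fin chevE8.rank, (tabE8.wt r i - 0) % 2 = 1 := by revert r; decide +kernel
  exact ⟨i, by simpa [wt8] using cast_ne h⟩

theorem hn8' (r s : Fin chevE8.nroots) (h : r ≠ s) :
    s = goodE8.R.neg r ∨ ∃ i, (goodE8.R.wt r i : Kb) ≠ goodE8.R.wt s i := by
  have : (allB 240 fun r => allB 240 fun s => bor (Nat.beq r s) (bor (Nat.beq (Nat.add r s) 239)
    (anyB 8 fun i => ieq (Int.emod (Int.sub (tabE8.wt r i) (tabE8.wt s i)) 2) 1))) = true := by decide +kernel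
  simp only [allB_iff, bor_iff, anyB_iff, ieq_iff, Nat.beq_eq, Nat.add_eq] at this
  obtain e | e | ⟨i, hi, e⟩ := this r r.2 s s.2
  · exact absurd (Fin.ext e) h
  · exact .inl (Fin.ext (show s.1 = 240 - 1 - r.1 by omega))
  · exact .inr ⟨⟨i, hi⟩, by simpa [wt8] using cast_ne e⟩

theorem irr8 {W : Submodule Kb V8} (h : ∀ g, ∀ v ∈ W, ρ8 g v ∈ W) (h0 : W ≠ ⊥) : W = ⊤ := by
  refine irred (C := goodE8.C) hd8 (fun c hc => ?_) (θ := ⟨239, by decide⟩) (fun s hs => ?_) ?_ (fun r v hv => ?_) h0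
  · refine kerE8 (Γ := Multiplicative Kb) c (funext fun j => ?_)
    have := hc _ (goodE8.R.pos_simple j)
    simp only [ro, dotProduct, wt_simple] at this
    exact (Finset.sum_congr rfl fun i _ => (zsmul_eq_mul' _ _)).trans this
  · simp only [isSum_iff_pair hd8, pair, dotProduct, wt8]
    revert s; decide +kernel
  · rintro (i | r)
    · simp only [cf', Sum.elim_inl, Pi.zero_apply, map_zero]; decide +kernel
    · simp only [cf', Sum.elim_inr, htf_cf]; revert r; decide +kernel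
  · have := h ((goodE8.SG (ZMod 2)).x r 1) v hv
    rwa [ρ8_app, goodE8.mapG_x, map_one, ad_x (goodE8.SG_hom Kb)] at this

theorem ρ8_one {g : chevE8.group (ZMod 2)} (h : ∀ v, ρ8 g v = v) : g = 1 :=
  goodE8.mapG_inj (algebraMap _ Kb) (Subtype.ext (Units.ext (by
    rw [map_one]; exact Matrix.ext_iff_mulVec.2 fun v => (h v).trans (one_mulVec v).symm)))

/-- the Frobenius map -/
noncomputable def Φ8 (v : V8) : V8 := fun a => v a ^ 2

theorem ρ8_Φ (g : chevE8.group (ZMod 2)) (v : V8) : ρ8 g (Φ8 v) = Φ8 (ρ8 g v) := funext fun a => by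
  have : ∀ t : ZMod 2, algebraMap _ Kb t ^ 2 = algebraMap _ Kb t := fun t => by rw [← map_pow]; congr 1; revert t; decide
  simp only [ρ8_app, ad_app, Φ8, mulVec, dotProduct, ← frobenius_def, map_sum, map_mul, Subgroup.subtype_apply,
    Good.mapG_apply]
  simp only [frobenius_def, this]

theorem ed_sq (g : chevE8.group (ZMod 2)) (μ : Kb) : ed ρ8 g μ = ed ρ8 g (μ ^ 2) := by
  have h : ∀ v, Φ8 v ∈ End.eigenspace (ρ8 g) (μ ^ 2) ↔ v ∈ End.eigenspace (ρ8 g) μ := fun v => by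
    rw [End.mem_eigenspace_iff, End.mem_eigenspace_iff, ρ8_Φ, funext_iff, funext_iff]
    refine forall_congr' fun a => ?_
    simp only [Φ8, Pi.smul_apply, smul_eq_mul, ← mul_pow]
    exact (frobenius Kb 2).injective.eq_iff
  unfold ed
  generalize End.eigenspace (ρ8 g) (μ ^ 2) = W', End.eigenspace (ρ8 g) μ = W at h
  let e : V8 ≃+ V8 := AddEquiv.piCongrRight fun _ => (frobeniusEquiv Kb 2).toAddEquiv
  have : W'.toAddSubgroup = W.toAddSubgroup.map (e : V8 →+ V8) := by
    ext v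
    obtain ⟨v, rfl⟩ := e.surjective v
    exact (h v).trans (by simp)
  let f : W ≃+ W' := (e.addSubgroupMap W.toAddSubgroup).trans (AddEquiv.addSubgroupCongr this.symm)
  exact congrArg Cardinal.toNat (rank_eq_of_equiv_equiv (frobenius Kb 2) f
    (frobeniusEquiv Kb 2).bijective fun r m => Subtype.ext (funext fun a => mul_pow r (m.1 a) 2))

/-- the coefficients of a positive root -/
noncomputable def pl (r : Fin chevE8.nroots) : List ℕ := List.ofFn fun j => (goodE8.R.cf r j).toNat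

theorem PR_eq : (PR : Multiset (List ℕ)) = (univ.filter goodE8.R.pos).val.map pl := by decide +kernel

theorem dt_ofFn {n : ℕ} (w a : Fin n → ℕ) : dt (List.ofFn w) (List.ofFn a) = ∑ i, w i * a i := by
  induction n with
  | zero => rfl
  | succ n ih => rw [List.ofFn_succ, List.ofFn_succ, Fin.sum_univ_succ, ← ih]; rfl

/-- the value of a root at a point -/
noncomputable def vl (p : List ℕ) (r : Fin chevE8.nroots) : ℤ := ∑ j, goodE8.R.cf r j * (p.getD j 0 : ℕ)

theorem sum_roots {ι κ : Type*} [Fintype κ] [DecidableEq κ] [Fintype ι] (R : RootSys ι κ) (f : ι → ℕ) :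
    ∑ r, f r = ∑ r with R.pos r, (f r + f (R.neg r)) := by
  rw [sum_add_distrib, ← sum_filter_add_sum_filter_not univ R.pos]
  congr 1
  exact sum_nbij' R.neg R.neg (by simp [pos_neg_iff]) (by simp [pos_neg_iff]) (by simp) (by simp) (by simp)

theorem dvd_iff {l x : ℤ} (h1 : -l ≤ x) (h2 : x < 2 * l) : l ∣ x ↔ x = -l ∨ x = 0 ∨ x = l := by
  refine ⟨fun ⟨c, e⟩ => ?_, by rintro (rfl | rfl | rfl) <;> simp⟩
  subst e
  have : -1 ≤ c := by nlinarith
  have : c < 2 := by nlinarith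
  interval_cases c <;> simp

theorem alc {l : ℕ} (hl : Odd l) {z : Kbˣ} (hz : orderOf z = l) {s : chevE8.group (ZMod 2)} (hs : s ^ l = 1) :
    ∃ g c, ∃ p : List ℕ, ε s = g * tor8 c * g⁻¹ ∧ (∀ r, goodE8.R.chi c r = z ^ vl p r) ∧ p.length = 8 ∧
      (∀ r ∈ PR, dt r p ≤ l) ∧ (∀ j < l, ed ρ8 s (z ^ j) = cc l p j) ∧
      ∀ k, 0 < k → k < l → nn p k + nn p (l - k) = nn p (2 * k % l) + nn p (l - 2 * k % l) := by
  have l0 := hl.pos
  obtain ⟨g, ν, h2, h3, e⟩ := (goodE8.alg (ZMod 2) 2 one_ne_zero fun c h => by simpa using kerE8 c h).exists_alcove hi8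
    (z := z) (s := ε s) (hz ▸ l0) (by rw [hz, ← map_pow, hs, map_one])
  let a : Fin chevE8.rank → ℕ := fun j => (ν ⬝ᵥ goodE8.R.wt (goodE8.R.simple j)).toNat
  have h4 : ∀ r, ν ⬝ᵥ goodE8.R.wt r = vl (List.ofFn a) r := fun r => by
    simp only [vl, List.getD_eq_getElem?_getD, List.getElem?_ofFn, Fin.is_lt, dif_pos, Option.getD_some, a, Fin.eta,
      Int.toNat_of_nonneg (h2 _)]
    simp only [dotProduct, wt_simple, mul_sum]
    rw [sum_comm]
    refine sum_congr rfl fun i _ => ?_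
    simp only [wt, mulVec, dotProduct, mul_sum]
    exact sum_congr rfl fun j _ => by ring
  have h5 : ∀ r, goodE8.R.pos r → (dt (pl r) (List.ofFn a) : ℤ) = vl (List.ofFn a) r := fun r hr => by
    simp [pl, dt_ofFn, vl, Int.toNat_of_nonneg (hr _)]
  have h6 : ∀ r, vl (List.ofFn a) (goodE8.R.neg r) = -vl (List.ofFn a) r := fun r => by simp [← h4]
  have h7 : ∀ r, goodE8.R.pos r → dt (pl r) (List.ofFn a) ≤ l := fun r hr => by
    have := h3 r
    rw [h4, ← h5 r hr, hz] at this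
    exact_mod_cast this
  have h8 : ∀ k, nn (List.ofFn a) k = ∑ r with goodE8.R.pos r, if dt (pl r) (List.ofFn a) = k then 1 else 0 := fun k => by
    rw [nn, ← Multiset.sum_coe, ← Multiset.map_coe, PR_eq, Multiset.map_map]; rfl
  have h9 : ∀ j < l, ed ρ8 s (z ^ j) = cc l (List.ofFn a) j := fun j hj => by
    classical
    have b0 : ∀ x : ℤ, ((z ^ x : Kbˣ) : Kb) = z ^ j ↔ (l : ℤ) ∣ j - x := fun x => by
      rw [← Units.val_pow_eq_pow_val, Units.val_inj, ← zpow_natCast, zpow_eq_zpow_iff_modEq, hz, Int.modEq_iff_dvd]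
    rw [ed, eig_basis ((Pi.basisFun Kb _).map (LinearMap.GeneralLinearGroup.toLinearEquiv ((ad φ8).toHomUnits g)))
      (c := Sum.elim (fun _ => 1) fun r => ((z ^ vl (List.ofFn a) r : Kbˣ) : Kb)) fun b => by
        change ad φ8 (ε s) (ad φ8 g _) = _ • ad φ8 g _
        rw [e, ad_mul, ad_inv, ad_mul, ad_tor (goodE8.SG_hom Kb), ← map_smul]
        congr 1
        ext b'
        by_cases e : b' = b <;> simp [e, chi_zpow, h4], card_eq_sum_ones, sum_filter, Fintype.sum_sum_type, sum_roots goodE8.R,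
      sum_congr rfl (g := fun _ => if j = 0 then 1 else 0) fun i _ => if_congr (by
        have := b0 0
        rw [zpow_zero, dvd_iff (by omega) (by omega)] at this
        exact this.trans (by omega)) rfl rfl,
      sum_congr rfl (g := fun r => (if dt (pl r) (List.ofFn a) = j ∨ j = 0 ∧ dt (pl r) (List.ofFn a) = l then 1 else 0) +
        if dt (pl r) (List.ofFn a) = l - j ∨ j = 0 ∧ dt (pl r) (List.ofFn a) = 0 then 1 else 0) fun r hr => by
        have b1 := h5 r (mem_filter.1 hr).2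
        have b2 := h7 r (mem_filter.1 hr).2
        congr 1 <;> refine if_congr ((b0 _).trans ?_) rfl rfl <;> simp only [h6, ← b1] <;>
          rw [dvd_iff (by omega) (by omega)] <;> omega, cc, h8, h8, h8, h8, ← sum_add_distrib, ← sum_add_distrib, mul_sum]
    split_ifs with b1
    · subst b1
      exact congrArg₂ _ rfl (sum_congr rfl fun r _ => by split_ifs <;> omega)
    · simp [b1]
  refine ⟨g, _, List.ofFn a, e, fun r => by rw [chi_zpow, h4], List.length_ofFn, fun r hr => ?_, h9, fun k k0 hk => ?_⟩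
  · obtain ⟨r, h, rfl⟩ := Multiset.mem_map.1 (PR_eq ▸ Multiset.mem_coe.2 hr)
    exact h7 r (mem_filter.1 (show r ∈ univ.filter goodE8.R.pos from h)).2
  · have b1 := h9 k hk
    have b2 := h9 _ (Nat.mod_lt (2 * k) l0)
    rw [cc, if_neg k0.ne', ed_sq, ← pow_mul, mul_comm] at b1
    rw [cc, if_neg fun e => (Nat.le_of_dvd k0 ((Nat.Coprime.dvd_mul_left (by simpa)).1 (Nat.dvd_of_mod_eq_zero e))).not_gt hk,
      ← pow_eq_pow_mod _ (by rw [← Units.val_pow_eq_pow_val, ← hz, pow_orderOf_eq_one, Units.val_one])] at b2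
    exact b1.symm.trans b2

theorem ex_inv {s : chevE8.group (ZMod 2)} {g : chevE8.group Kb} {c : Fin chevE8.rank → Kbˣ} (h : ε s = g * tor8 c * g⁻¹)
    {r : Fin chevE8.nroots} (h1 : goodE8.R.pos r) (h2 : goodE8.R.chi c r = 1) : ∃ y, orderOf y = 2 ∧ Commute y s := by
  obtain ⟨Φ, e1, e2, e3, -⟩ := goodE8.exists_fr' (ZMod 2) kerE8
  obtain ⟨x, n, w, hn, a1, a2, a3⟩ := Φ.exists_tw' e2 (y := g) (c := c) (e1.le ⟨s, h⟩)
  have a4 := (Φ.tw hn).card_U e3 (by decide) (by simpa [Fr.tw, e2] using NW.mem_Aut hn) (closed_pos.inter (closed_chi c))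
    (by simpa [Fr.tw, e2] using a3)
  have := Nat.finite_of_card_ne_zero (a4.trans_ne (by simp))
  obtain ⟨⟨u, b1, b2⟩, b3⟩ := exists_prime_orderOf_dvd_card' 2 (a4 ▸ dvd_pow_self _ (Set.ncard_ne_zero_of_mem (a := r) (by exact ⟨h1, h2⟩)))
  obtain ⟨y, hy⟩ : x * u * x⁻¹ ∈ ε.range := e1.ge (by
    have := Fr.mem_fix.1 b2
    rw [Fr.tw_σ, ← a2] at this
    rw [Fr.mem_fix, map_mul, map_mul, map_inv]
    conv_rhs => rw [← this]
    group)
  refine ⟨y, ?_, goodE8.mapG_inj (algebraMap _ Kb) ?_⟩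
  · rw [← orderOf_injective ε (goodE8.mapG_inj _), hy, ← MulAut.conj_apply, MulEquiv.orderOf_eq]
    exact (Subgroup.orderOf_mk _ _).symm.trans b3
  · rw [map_mul, map_mul, hy, h, ← a1]
    exact (Φ.hmul.commute_U (fun r h => h.2) (Subgroup.mem_sup_left b1)).symm.conj x

theorem not_coatom {H : Subgroup (chevE8.group (ZMod 2))} {W : Submodule Kb V8} (h0 : W ≠ ⊥) (h1 : W ≠ ⊤)
    (h2 : ∀ h ∈ H, ∀ v ∈ W, ρ8 h v ∈ W) {y : chevE8.group (ZMod 2)} (h3 : y ∉ H) (h4 : ∀ v ∈ W, ρ8 y v ∈ W) :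
    ¬ IsCoatom H := fun h => by
  let M : Submonoid (chevE8.group (ZMod 2)) :=
    { carrier := {g | ∀ v ∈ W, ρ8 g v ∈ W}
      mul_mem' a b v hv := by rw [map_mul]; exact a _ (b v hv)
      one_mem' v hv := by rwa [map_one] }
  let S : Subgroup (chevE8.group (ZMod 2)) := ⟨M, fun {g} a => Submonoid.powers_le.2 a
    ((isOfFinOrder_of_finite g).mem_powers_iff_mem_zpowers.2 (inv_mem (Subgroup.mem_zpowers g)))⟩
  exact h1 (irr8 (fun g => (h.2 S (lt_of_le_of_ne h2 fun e => h3 (e.ge h4))).ge (Subgroup.mem_top g)) h0)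

end H16.E8
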