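import Cfsg.Agent.H16.E8e
import Cfsg.Agent.H22.AutPSL
import Cfsg.Agent.H1.GFitting

/-! Groups with generalised Fitting subgroup `SL₂(64)`. -/

set_option autoImplicit false
set_option linter.unusedSectionVars false
set_option linter.style.haveILetI false

namespace H16.E8
open H20.E8 Matrix
open scoped MatrixGroups

variable {F : Type*} [Field F] [Fintype F] [CharP F 2] (hF : Fintype.card F = 64) {k : Type} [Field k] [CharP k 2]
  (ι : F →+* k)

theorem ex_psl : ∃ e : PSL(2, F) ≃* SL(2, F), ∀ s, e (QuotientGroup.mk s) = s := by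
  have z : Subgroup.center SL(2, F) = ⊥ := eq_bot_iff.2 fun s hs => by
    obtain ⟨r, h1, h2⟩ := Matrix.SpecialLinearGroup.mem_center_iff.1 hs
    have : r = 1 := by
      have c2 : (2 : F) = 0 := CharTwo.two_eq_zero
      simp only [Fintype.card_fin] at h1; grind
    exact Subtype.ext (by rw [← h2, this]; simp)
  exact ⟨(QuotientGroup.quotientMulEquivOfEq z).trans QuotientGroup.quotientBot, fun _ => rfl⟩

/-- the field automorphisms -/
noncomputable def fr (i : ℕ) : SL(2, F) →* SL(2, F) := Matrix.SpecialLinearGroup.map (iterateFrobenius F 2 i)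

theorem fr_app (i : ℕ) (s : SL(2, F)) (a b : Fin 2) : fr i s a b = s a b ^ 2 ^ i := rfl

theorem ex_sl {g : Matrix (Fin 2) (Fin 2) F} (h : g.det ≠ 0) : ∃ g' : SL(2, F), ∀ s s' : SL(2, F),
    s.1 * g = g * s'.1 → s = g' * s' * g'⁻¹ := by
  obtain ⟨d, e⟩ := isSquare_of_charTwo' g.det
  have d0 : d ≠ 0 := fun a => h (by rw [e, a, mul_zero])
  refine ⟨⟨d⁻¹ • g, by rw [det_smul, e]; simp; field_simp⟩, fun s s' a => eq_mul_inv_iff_mul_eq.2 (Subtype.ext ?_)⟩
  change s.1 * (d⁻¹ • g) = (d⁻¹ • g) * s'.1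
  rw [Matrix.mul_smul, Matrix.smul_mul, a]

theorem aut_sl (α : SL(2, F) ≃* SL(2, F)) : ∃ g i, ∀ s, α s = g * fr i s * g⁻¹ := by
  obtain ⟨e, he⟩ := ex_psl (F := F)
  obtain ⟨γ, h⟩ := H22.thSL_jX_surj (ι := Fin 2) rfl (e.trans (α.trans e.symm))
  obtain ⟨g, hg⟩ := ex_sl γ.left.det_ne_zero
  letI := ZMod.algebra F 2
  obtain ⟨i, hi⟩ := FiniteField.exists_forall_apply_eq_pow (ZMod 2) 2 F (AlgEquiv.ofRingEquiv (f := γ.right) fun x =>
    DFunLike.congr_fun (RingHom.ext_zmod ((γ.right : F →+* F).comp (algebraMap _ _)) (algebraMap _ _)) x)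
  refine ⟨g, i, fun s => hg _ _ ?_⟩
  have h1 : (H22.slData _ F).res (H22.jX γ) s = α s := (he _).symm.trans
    ((congrArg e (DFunLike.congr_fun h (QuotientGroup.mk s))).trans ((e.apply_symm_apply _).trans (congrArg α (he s))))
  have := congrArg Units.val ((H22.slData _ F).res_spec (H22.jX γ) s)
  erw [H22.sdConj_jX, H22.coe_sdConj, h1] at this
  rw [show (fr i s).1 = s.1.map γ.right from Matrix.ext fun a b => ((hi _).trans (by rw [Nat.card_zmod]; rfl)).symm]
  exact (congrArg (· * γ.left.1) this).trans (Units.inv_mul_cancel_right _ _)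

theorem fr_tt (i : ℕ) (c : Fˣ) : fr i (tt c) = tt c ^ 2 ^ i := by
  rw [tt_pow]
  ext a b; fin_cases a <;> fin_cases b <;> simp [fr_app]

theorem fr_x {t : F} (h : t ≠ 0) (i : ℕ) : ∃ g : SL(2, F), fr i (ww * uu t) = g * (ww * uu t) ^ 2 ^ i * g⁻¹ := by
  have c2 : (2 : F) = 0 := CharTwo.two_eq_zero
  obtain ⟨g, hg⟩ := ex_sl (g := !![1, 0; 1, t]) (by simpa using h)
  replace hg := hg (fr 1 (ww * uu t)) ((ww * uu t) ^ 2) (by
    ext a b; fin_cases a <;> fin_cases b <;> simp [fr_app, Matrix.mul_apply, sq] <;> grind)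
  induction i with
  | zero => exact ⟨1, by ext a b; rw [fr_app]; simp⟩
  | succ i ih =>
    obtain ⟨g', ih⟩ := ih
    refine ⟨fr 1 g' * g, ?_⟩
    rw [show fr (i + 1) (ww * uu t) = fr 1 (fr i (ww * uu t)) by ext a b; simp only [fr_app, ← pow_mul, ← pow_add], ih,
      map_mul, map_mul, map_inv, map_pow, hg, conj_pow, ← pow_mul, pow_succ']
    group

theorem inv_one {g s : SL(2, F)} (h1 : g * g = 1) (h2 : Commute g s) (h3 : s 0 0 + s 1 1 ≠ 0) : g = 1 := by
  have c2 : (2 : F) = 0 := CharTwo.two_eq_zero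
  have a0 := (sq_one_iff g).1 h1
  have a1 := congrFun (congrFun (congrArg Subtype.val h2.eq) 0) 1
  have a2 := congrFun (congrFun (congrArg Subtype.val h2.eq) 1) 0
  have a3 := g.2
  simp only [Matrix.SpecialLinearGroup.coe_mul, Matrix.mul_apply, Fin.sum_univ_two, det_fin_two] at a1 a2 a3
  have b1 : g 0 1 = 0 := mul_right_cancel₀ h3 (by grind)
  have b2 : g 1 0 = 0 := mul_right_cancel₀ h3 (by grind)
  have b3 : g 0 0 = 1 := by grind
  ext a b; fin_cases a <;> fin_cases b <;> simp [a0, b1, b2, b3]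

include hF

theorem pow64 (a : F) (i : ℕ) : a ^ 2 ^ i = a ^ 2 ^ (i % 6) := by
  conv_lhs => rw [← Nat.div_add_mod i 6, pow_add, pow_mul 2, pow_mul, show 2 ^ 6 = 64 from rfl, ← hF, FiniteField.pow_card_pow]

theorem ex_x {ξ : k} (hξ : IsPrimitiveRoot ξ 65) : ∃ t : F, ι t = ξ + ξ⁻¹ ∧ Eg ι (ww * uu t) ξ ∧ (ww * uu t) ^ 65 = 1 := by
  have h0 := hξ.ne_zero (by decide)
  have h1 : ξ ^ 64 = ξ⁻¹ := eq_inv_of_mul_eq_one_left (by rw [← pow_succ, hξ.pow_eq_one])
  obtain ⟨t, h⟩ : ∃ t, ι t = ξ + ξ⁻¹ := by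
    open Polynomial in
    refine Splits.mem_range_of_isRoot (f := X ^ Fintype.card F - X) ?_
      (FiniteField.X_pow_card_sub_X_ne_zero F Fintype.one_lt_card) ?_
    · rw [splits_iff_card_roots, FiniteField.X_pow_card_sub_X_natDegree_eq F Fintype.one_lt_card,
        FiniteField.roots_X_pow_card_sub_X F, ← Finset.card_def, Finset.card_univ]
    · have := add_pow_char_pow (x := ξ) (y := ξ⁻¹) (p := 2) (n := 6)
      rw [inv_pow, show 2 ^ 6 = 64 from rfl, h1, inv_inv, add_comm ξ⁻¹] at this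
      simp [hF, this]
  have hx : Eg ι (ww * uu t) ξ := by
    refine ⟨![1, -ξ], ![1, -ξ⁻¹], fun e => ?_, ?_, ?_⟩
    · simp only [cons_val_zero, cons_val_one, cons_val_fin_one] at e
      field_simp at e
      exact hξ.pow_ne_one_of_pos_of_lt two_ne_zero (by decide) (by linear_combination e)
    · ext i; fin_cases i <;> simp [mulVec, dotProduct, h]
      field_simp; ring
    · ext i; fin_cases i <;> simp [mulVec, dotProduct, h]
      field_simp; ring
  refine ⟨t, h, hx, ?_⟩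
  generalize ww * uu t = g at hx
  obtain ⟨v, w, h0, h1, h2⟩ := hx
  have : ∀ v : Fin 2 → k, ∀ c : k, g.1.map ι *ᵥ v = c • v → ∀ n, (g ^ n).1.map ι *ᵥ v = c ^ n • v := fun v c h n => by
    induction n with
    | zero => simp
    | succ n ih => rw [pow_succ, show (g ^ n * g).1 = (g ^ n).1 * g.1 from rfl, Matrix.map_mul, ← mulVec_mulVec, h, mulVec_smul, ih,
        smul_smul, pow_succ']
  replace h1 := this _ _ h1 65
  replace h2 := this _ _ h2 65
  rw [inv_pow, hξ.pow_eq_one] at *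
  generalize g ^ 65 = g at *
  have a0 := congrFun h1 0
  have a1 := congrFun h1 1
  have b0 := congrFun h2 0
  have b1 := congrFun h2 1
  simp [mulVec, dotProduct] at a0 a1 b0 b1
  ext i j
  apply ι.injective
  fin_cases i <;> fin_cases j <;> simp only [Fin.zero_eta, Fin.mk_one, Matrix.SpecialLinearGroup.coe_one, one_apply_eq, ne_eq,
    zero_ne_one, one_ne_zero, not_false_eq_true, one_apply_ne, map_one, map_zero] <;>
    apply mul_right_cancel₀ h0
  · linear_combination w 1 * a0 - v 1 * b0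
  · linear_combination v 0 * b0 - w 0 * a0
  · linear_combination w 1 * a1 - v 1 * b1
  · linear_combination v 0 * b1 - w 0 * a1

theorem setup {G : Type*} [Group G] [Finite G] {H : Subgroup G} (e : Cfsg.generalizedFittingSubgroup H ≃* PSL(2, F)) :
    ∃ f : SL(2, F) →* G, Function.Injective f ∧ (∀ s, f s ∈ H) ∧
      (∀ h ∈ H, ∃ α : SL(2, F) ≃* SL(2, F), ∀ s, h * f s * h⁻¹ = f (α s)) ∧
      ∀ s y, ∀ ζ : k, IsPrimitiveRoot ζ 63 ∨ IsPrimitiveRoot ζ 65 → ι (s 0 0 + s 1 1) = ζ + ζ⁻¹ → orderOf y = 2 →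
        Commute y (f s) → y ∉ H := by
  obtain ⟨e', -⟩ := ex_psl (F := F)
  replace e := e.trans e'
  let f : SL(2, F) →* G := H.subtype.comp ((Subgroup.subtype _).comp e.symm.toMonoidHom)
  have hf : Function.Injective f := H.subtype_injective.comp ((Subgroup.subtype_injective _).comp e.symm.injective)
  have h1 : ∀ h ∈ H, ∃ α : SL(2, F) ≃* SL(2, F), ∀ s, h * f s * h⁻¹ = f (α s) := fun h hh =>
    ⟨e.symm.trans ((MulAut.conjNormal (⟨h, hh⟩ : H)).trans e), fun s => by simp [f]⟩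
  refine ⟨f, hf, fun s => (e.symm s).1.2, h1, fun s y ζ h2 h3 h4 h5 h6 => ?_⟩
  obtain ⟨α, h7⟩ := h1 y h6
  obtain ⟨g, i, h8⟩ := aut_sl α
  have a0 : ζ ≠ 0 := h2.elim (·.ne_zero (by decide)) (·.ne_zero (by decide))
  have a1 : ∀ j, 0 < j → j < 63 → ζ ^ j ≠ 1 := fun j a b =>
    h2.elim (·.pow_ne_one_of_pos_of_lt a.ne' b) (·.pow_ne_one_of_pos_of_lt a.ne' (by omega))
  have a2 : i % 6 = 0 := by
    have b1 : g * fr i s * g⁻¹ = s := hf (by rw [← h8, ← h7, h5.eq, mul_inv_cancel_right])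
    have b2 := congrArg (fun s : SL(2, F) => ι s.1.trace) b1
    simp only [Matrix.SpecialLinearGroup.coe_mul] at b2
    rw [trace_mul_comm, ← mul_assoc, ← Matrix.SpecialLinearGroup.coe_mul, inv_mul_cancel, Matrix.SpecialLinearGroup.coe_one,
      one_mul, trace_fin_two, trace_fin_two, fr_app, fr_app, ← add_pow_char_pow, pow64 hF, map_pow, h3, add_pow_char_pow,
      inv_pow] at b2
    have b3 : (ζ ^ (2 ^ (i % 6) - 1) - 1) * (ζ ^ (2 ^ (i % 6) + 1) - 1) = 0 := by
      rw [pow_sub₀ _ a0 Nat.one_le_two_pow, pow_succ ζ (2 ^ _), pow_one]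
      have := pow_ne_zero (2 ^ (i % 6)) a0
      generalize ζ ^ 2 ^ (i % 6) = z at *
      field_simp at b2 ⊢
      linear_combination b2
    have b4 := Nat.mod_lt i (show 0 < 6 by decide)
    generalize i % 6 = j at *
    by_contra b5
    refine mul_ne_zero (sub_ne_zero.2 (a1 _ ?_ ?_)) (sub_ne_zero.2 (a1 _ ?_ ?_)) b3 <;> interval_cases j <;> simp at b5 ⊢
  have a3 : ∀ s : SL(2, F), fr i s = s := fun s => by ext a b; rw [fr_app, pow64 hF, a2]; simp
  have a4 := H1.centralizer_gf_le (G := H) (x := ((e.symm g : H))⁻¹ * ⟨y, h6⟩) (Subgroup.mem_centralizer_iff.2 fun u hu => by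
    have := h7 (e ⟨u, hu⟩)
    rw [h8, a3, map_mul, map_mul, map_inv, show f (e ⟨u, hu⟩) = u by simp [f]] at this
    refine Subtype.ext (show u * ((f g)⁻¹ * y) = (f g)⁻¹ * y * u from ?_)
    rw [mul_assoc, mul_inv_eq_iff_eq_mul.1 this]; group)
  obtain ⟨g', rfl⟩ : ∃ g', f g' = y := ⟨g * e ⟨_, a4⟩, by simp [f]⟩
  rw [inv_one (g := g') (s := s) (hf (by rw [map_mul, ← sq, map_one]; exact (orderOf_eq_prime_iff.1 h4).1))
    (hf (by simpa using h5.eq)) fun b => a1 2 (by decide) (by decide) (by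
      rw [b, map_zero] at h3
      have c2 : (2 : k) = 0 := CharTwo.two_eq_zero
      field_simp at h3
      grind)] at h4
  simp at h4

end H16.E8
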