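import Cfsg.Agent.H16.E8h
import Cfsg.Agent.H16.E8i
import Cfsg.Agent.H16.E8j

/-! Subgroups of `E₈(2)` with generalised Fitting subgroup `SL₂(64)` are not maximal. -/

set_option autoImplicit false
set_option maxRecDepth 100000
set_option linter.unusedSectionVars false
set_option linter.style.haveILetI false

namespace H16.E8
open H14 H14.PreSt H14.St H14.RootSys H20.E8 Cfsg.Lie Module Matrix Finset
open scoped MatrixGroups

local notation "Γ" => chevE8.group (ZMod 2)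
local notation "hφ" => goodE8.SG_hom Kb
local notation "hG" => goodE8.SG_top Kb
local notation "hM" => goodE8.SG_hmul Kb

theorem fin8 (d : Fin chevE8.rank → Kbˣ) : IsOfFinOrder d :=
  (goodE8.alg (ZMod 2) 2 one_ne_zero fun c h => by simpa using kerE8 c h).finOrder d

theorem idem_conj (g : chevE8.group Kb) {v : V8} (h : ∀ w, br goodE8.C v (br goodE8.C v w) = br goodE8.C v w) (w : V8) :
    br goodE8.C (ad φ8 g v) (br goodE8.C (ad φ8 g v) w) = br goodE8.C (ad φ8 g v) w := by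
  rw [← ad_inv' φ8 g w, ← ad_br hφ hG, ← ad_br hφ hG, h]

variable {F : Type*} [Field F] [Fintype F] [CharP F 2] (hF : Fintype.card F = 64) (ι : F →+* Kb) {H : Subgroup Γ}
  {f : SL(2, F) →* Γ} (hf : Function.Injective f) (h1 : ∀ s, f s ∈ H)
  (h2 : ∀ h ∈ H, ∃ α : SL(2, F) ≃* SL(2, F), ∀ s, h * f s * h⁻¹ = f (α s))

theorem inv_H {G N : Type*} [Group G] [AddCommGroup N] [Module Kb N] {ρ : Representation Kb G N} {H : Subgroup G}
    {f : SL(2, F) →* G} (h1 : ∀ s, f s ∈ H) (h2 : ∀ h ∈ H, ∃ α : SL(2, F) ≃* SL(2, F), ∀ s, h * f s * h⁻¹ = f (α s))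
    {W : Submodule Kb N} (a1 : ∀ s, ∀ v ∈ W, ρ (f s) v ∈ W)
    (a2 : ∀ h ∈ H, ∀ i, (∀ s, h * f s * h⁻¹ = f (fr i s)) → ∀ v ∈ W, ρ h v ∈ W) : ∀ h ∈ H, ∀ v ∈ W, ρ h v ∈ W :=
  fun h hh v hv => by
    obtain ⟨α, e⟩ := h2 h hh
    obtain ⟨g, i, e'⟩ := aut_sl α
    rw [← mul_inv_cancel_left (f g) h, map_mul]
    refine a1 _ _ (a2 _ (mul_mem (inv_mem (h1 g)) hh) i (fun s => ?_) v hv)
    rw [show fr i s = g⁻¹ * α s * g by rw [e']; group, map_mul, map_mul, ← e, map_inv]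
    group

include hF hf h1 h2 in
theorem case_a {c : Fˣ} (hc : orderOf c = 63) {g : chevE8.group Kb} {d : Fin chevE8.rank → Kbˣ}
    (e : ε (f (tt c)) = g * tor8 d * g⁻¹)
    (hd : ∀ r, goodE8.R.chi d r = Units.map ι.toMonoidHom c ^ vl [1, 6, 3, 1, 0, 2, 3, 3] r)
    (h3 : ∀ y, orderOf y = 2 → Commute y (f (tt c)) → y ∉ H) : ¬ IsCoatom H := by
  have hz : orderOf (Units.map ι.toMonoidHom c) = 63 := (orderOf_injective _ (Units.map_injective ι.injective) c).trans hc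
  have c1 : ι c ^ 63 = 1 := by rw [← map_pow, pow63 hF c.ne_zero, map_one]
  obtain ⟨A, hA⟩ : ∃ A : Set Kb, ∀ μ, μ ∈ A ↔ ∃ e ∈ [0, 1, 2, 4, 8, 16, 32, 31, 47, 55, 59, 61, 62], μ = ι c ^ e :=
    ⟨{μ | _}, fun _ => Iff.rfl⟩
  have A1 : 1 ∈ A := (hA 1).2 ⟨0, by simp, by simp⟩
  have A2 : ∀ n ∈ [1, 2, 62], ∀ μ ∈ A, μ ^ n ∈ A := fun n hn μ h => by
    obtain ⟨e, he, rfl⟩ := (hA μ).1 h
    exact (hA _).2 ⟨e * n % 63, by clear h; revert e n; decide, by rw [← pow_mul, ← pow_eq_pow_mod _ c1]⟩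
  have A3 : ∀ i, ∀ μ ∈ A, μ ^ 2 ^ i ∈ A := fun i => by
    induction i with
    | zero => simp
    | succ i ih => exact fun μ h => by rw [pow_succ, pow_mul]; exact A2 2 (by simp) _ (ih μ h)
  let P : Set V8 := {v | v ∈ Zs goodE8.C φ8 (ε (f (tt c))) A ∧ ∀ w, br goodE8.C v (br goodE8.C v w) = br goodE8.C v w}
  have key : ∀ h, (∀ v ∈ P, ρ8 h v ∈ P) → ∀ v ∈ Submodule.span Kb P, ρ8 h v ∈ Submodule.span Kb P := fun h a =>
    (Submodule.span_le (p := (Submodule.span Kb P).comap (ρ8 h))).2 fun v hv => Submodule.subset_span (a v hv)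
  have key' : ∀ h n, h * f (tt c) * h⁻¹ = f (tt c) ^ n → (∀ μ ∈ A, μ ^ n ∈ A) → ∀ v ∈ P, ρ8 h v ∈ P :=
    fun h n a b v hv => ⟨Zs_pow φ8 b (by
      have := Zs_conj hφ hG (ε h) hv.1
      rwa [← map_inv, ← map_mul, ← map_mul, a, map_pow] at this), idem_conj _ hv.2⟩
  obtain ⟨y, y1, y2⟩ := ex_inv e (goodE8.R.pos_simple ⟨4, by decide⟩) (by
    rw [hd, show vl _ _ = 0 by decide +kernel, zpow_zero])
  have y3 : ∀ v ∈ Submodule.span Kb P, ρ8 y v = v := fun v hv => (Submodule.span_le (p := LinearMap.eqLocus (ρ8 y) .id)).2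
    (fun v hv => Zs_fix hφ hG (goodE8.SG_sep Kb) hM hi8 hn8 (fin8 d) A1 (e ▸ y2.symm.map ε) (e ▸ hv.1)) hv
  refine not_coatom (W := Submodule.span Kb P) (fun e' => ?_) (fun e' => ?_) (inv_H h1 h2 (fun s => key _ ?_)
    fun h _ i a => key _ (key' h _ (by rw [a, fr_tt, map_pow]) (A3 i))) (h3 y y1 y2) fun v hv => (y3 v hv).symm ▸ hv
  · let δ : Fin chevE8.rank → ℤ := fun i => [1, 1, 0, 1, 1, 1, 1, 0].getD i 0
    have b1 : ∀ r, ro goodE8.R (fun i => (δ i : Kb)) r = (δ ⬝ᵥ goodE8.R.wt r : ℤ) := fun r => by simp [ro, dotProduct]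
    have := e'.le (Submodule.subset_span (a := ad φ8 g (hv _ fun i => (δ i : Kb))) ⟨e ▸ Zs_conj hφ hG g
      ((Zs_tor hφ hM hn8 A1).2 ⟨_, rfl, fun r hr => ?_⟩), idem_conj g fun w => ?_⟩)
    · have := congrFun ((ad_inv φ8 g _).symm.trans (congrArg _ this)) (.inl ⟨0, by decide⟩)
      simp [hv, δ] at this
    · obtain ⟨e, he, a⟩ := (hA _).1 hr
      rw [hd, show ι c ^ e = (Units.map ι.toMonoidHom c ^ (e : ℤ) :) by simp, Units.val_inj, zpow_eq_zpow_iff_modEq, hz] at a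
      have : ∀ r, (∃ e ∈ ([0, 1, 2, 4, 8, 16, 32, 31, 47, 55, 59, 61, 62] : List ℕ),
          vl [1, 6, 3, 1, 0, 2, 3, 3] r ≡ e [ZMOD (63 : ℕ)]) → ((2 : ℕ) : ℤ) ∣ δ ⬝ᵥ goodE8.R.wt r := by decide +kernel
      rw [b1, CharP.intCast_eq_zero_iff Kb 2]
      exact this r ⟨e, he, a⟩
    · rw [br_hv, br_hv, ← mul_assoc]
      congr 1
      ext (b | b)
      · simp [rv]
      · simp only [rv, b1, Pi.mul_apply, Sum.elim_inr, ← sq]
        exact map_intCast (frobenius Kb 2) _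
  · simp [ρ8_one fun v => y3 v (e'.ge trivial)] at y1
  refine sl_ind (P := fun s => ∀ v ∈ P, ρ8 (f s) v ∈ P) (fun a b ha hb v hv => by
    rw [map_mul, map_mul]; exact ha _ (hb v hv)) (fun b v hv => ?_)
    (fun b => key' _ 1 (by rw [← map_mul, tt_mul, mul_comm, ← tt_mul, map_mul]; simp) (A2 1 (by simp)))
    (key' _ 62 (by
      rw [← map_pow, tt_pow, show c ^ 62 = c⁻¹ from eq_inv_of_mul_eq_one_left ((pow_succ c 62).symm.trans (orderOf_dvd_iff_pow_eq_one.1 hc.dvd)),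
        mul_inv_eq_iff_eq_mul, ← map_mul, ← map_mul, tt_ww, inv_inv]) (A2 62 (by simp))) s
  let u : Multiplicative F →* Γ := f.comp (MonoidHom.mk' (fun b => uu b.toAdd) fun a b => (uu_mul _ _).symm)
  obtain ⟨g0, b1⟩ := exists_conj_U 2 (goodE8.SG_sep (ZMod 2)) (goodE8.SG_hmul _) (goodE8.SG_top _) (X := u.range) (by
    rintro ⟨_, a, rfl⟩
    exact ⟨1, Subtype.ext (show u a ^ 2 = 1 by rw [← map_pow, show a ^ 2 = 1 from (sq a).trans (CharTwo.add_self_eq_zero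
      a.toAdd), map_one])⟩)
  obtain ⟨g1, d1, b2, b3⟩ := ex_borel hG (goodE8.SG_sep Kb) hM (X := (ε.comp u).range) (y := g) (c := d) ⟨ε g0, by
    rintro _ ⟨a, rfl⟩
    rw [MonoidHom.comp_apply, ← map_inv, ← map_mul, ← map_mul]
    exact (U_le (M := Subgroup.comap ε _)).2 (fun r hr t => by
      rw [Subgroup.mem_comap, goodE8.mapG_x]; exact x_mem_U hr _) (b1 _ ⟨a, rfl⟩)⟩
    (fun a => by
      have := hf ((goodE8.mapG_inj _ ((a.le ⟨.ofAdd 1, rfl⟩).trans (map_one _).symm)).trans (map_one f).symm)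
      simpa using congrFun (congrFun (congrArg Subtype.val this) 0) 1)
    (e ▸ @Subgroup.mem_normalizer_fintype _ _ _ (Set.finite_range _) _ (by
      rintro _ ⟨a, rfl⟩
      refine ⟨.ofAdd (a.toAdd / c ^ 2), eq_mul_inv_iff_mul_eq.2 ?_⟩
      exact ((map_mul (ε.comp f) _ _).symm.trans (congrArg _ (tt_uu c _).symm)).trans (map_mul (ε.comp f) _ _)))
  rw [← e] at b2
  have := uni_fix hφ hG hM hn8 hF ι (u := fun a => g1⁻¹ * ε (f (uu a)) * g1) (c := d1) (l := c) (A := A)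
    (fun a b => by rw [← uu_mul, map_mul, map_mul]; group) (fun a => by
      have := congrArg (ε.comp f) (tt_uu c a)
      simp only [map_mul, MonoidHom.comp_apply, b2] at this
      rw [← mul_left_cancel_iff (a := g1), ← mul_right_cancel_iff (a := g1⁻¹)]
      convert congrArg (· * g1 * g1⁻¹) this using 1 <;> group) (fun a => b3 _ ⟨.ofAdd a, rfl⟩) A1
    (fun j hj μ a => (hA μ).2 ⟨63 - 2 ^ (j + 1) % 63, by clear a; revert j; decide, by
      rw [pow_sub₀ _ (by simp) (Nat.mod_lt _ (by decide)).le, c1, one_mul, ← pow_eq_pow_mod _ c1]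
      exact eq_inv_of_mul_eq_one_left a⟩) (v := ad φ8 g1⁻¹ v)
    (by simpa [b2, mul_assoc] using Zs_conj hφ hG g1⁻¹ hv.1) (idem_conj _ hv.2) b
  rw [ad_mul, ad_mul, ad_inv'] at this
  rwa [ρ8_app, ← ad_inv' φ8 g1 (ad φ8 _ v), this, ad_inv']

include hF h1 h2 in
theorem case_b {t : F} (ht : t ≠ 0) {g : chevE8.group Kb} {d : Fin chevE8.rank → Kbˣ} {z : Kbˣ} (hz : orderOf z = 65)
    (e : ε (f (ww * uu t)) = g * tor8 d * g⁻¹) (hd : ∀ r, goodE8.R.chi d r = z ^ vl [4, 2, 0, 1, 4, 2, 0, 8] r)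
    (h6 : 6 ≤ finrank Kb (Representation.invariants (ρ8.comp f)))
    (h3 : ∀ y, orderOf y = 2 → Commute y (f (ww * uu t)) → y ∉ H) : ¬ IsCoatom H := by
  obtain ⟨y, y1, y2⟩ := ex_inv e (goodE8.R.pos_simple ⟨2, by decide⟩) (by
    rw [hd, show vl _ _ = 0 by decide +kernel, zpow_zero])
  have y3 : ∀ v ∈ Representation.invariants (ρ8.comp f) ⊓ Zs goodE8.C φ8 (ε (f (ww * uu t))) {1}, ρ8 y v = v := fun v hv =>
    Zs_fix hφ hG (goodE8.SG_sep Kb) hM hi8 hn8 (fin8 d) (Set.mem_singleton 1) (e ▸ y2.symm.map ε) (e ▸ hv.2)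
  refine not_coatom (fun e' => ?_) (fun e' => ?_) (inv_H h1 h2 (fun s v hv => (show ρ8 (f s) v = v from hv.1 s).symm ▸ hv)
    fun h hh i a v hv => ?_) (h3 y y1 y2) fun v hv => (y3 v hv).symm ▸ hv
  · have b1 : ∀ r, goodE8.R.chi d r = 1 → r = goodE8.R.simple ⟨2, by decide⟩ ∨ r = goodE8.R.neg (goodE8.R.simple ⟨2, by decide⟩) ∨
        r = goodE8.R.simple ⟨6, by decide⟩ ∨ r = goodE8.R.neg (goodE8.R.simple ⟨6, by decide⟩) := fun r a => by
      rw [hd, ← orderOf_dvd_iff_zpow_eq_one, hz] at a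
      revert r; decide +kernel
    obtain ⟨c, c1, c2, c3, c4⟩ := ex_cen (C := goodE8.C) (M := (Representation.invariants (ρ8.comp f)).comap (ad φ8 g))
      (fun v hv w hw s => by
        rw [ad_br hφ hG]
        exact (ad_br hφ hG _ _ _).trans (congrArg₂ (br goodE8.C · ·) (hv s) (hw s)))
      (fun v hv r a => b1 r (by
        have : ad φ8 (ε (f _)) _ = _ := hv (ww * uu t)
        rw [e, ad_mul, ad_inv, ad_mul] at this
        have := congrFun ((ad_inv φ8 g _).symm.trans ((congrArg _ this).trans (ad_inv φ8 g _))) (.inr r)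
        rw [ad_tor hφ] at this
        simpa [a] using this)) (by decide +kernel)
      ⟨⟨2, by decide⟩, by rw [show goodE8.R.co _ _ = 1 by decide +kernel]; simp⟩
      (h6.trans (LinearEquiv.finrank_eq (LinearEquiv.ofSubmodule' (LinearMap.GeneralLinearGroup.toLinearEquiv
        ((ad φ8).toHomUnits g)) _)).ge)
    have := e'.le (show ad φ8 g (hv _ c) ∈ _ from ⟨c2, e ▸ Zs_conj hφ hG g ((Zs_tor hφ hM hn8 (Set.mem_singleton 1)).2 ⟨_, rfl, fun r hr => by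
      obtain rfl | rfl | rfl | rfl := b1 r (Units.ext hr) <;> simp [ro_neg, c3, c4]⟩)⟩)
    exact c1 (funext fun i => by simpa [hv] using congrFun ((ad_inv φ8 g _).symm.trans (congrArg _ this)) (.inl i))
  · simp [ρ8_one fun v => y3 v (e'.ge trivial)] at y1
  have b1 : ∀ s, ρ8 (f s) (ρ8 h v) = ρ8 h v := fun s => by
    obtain ⟨α, b⟩ := h2 h hh
    obtain ⟨s, rfl⟩ := α.surjective s
    rw [← End.mul_apply, ← map_mul, ← b, inv_mul_cancel_right, map_mul, End.mul_apply, show ρ8 (f s) v = v from hv.1 s]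
  obtain ⟨s, b2⟩ := fr_x ht i
  refine ⟨b1, Zs_pow φ8 (n := 2 ^ i) (by simp) ?_⟩
  have := Zs_conj hφ hG (ε (f s⁻¹)) (Zs_conj hφ hG (ε h) hv.2)
  rwa [← map_inv, ← map_mul, ← map_mul, a, ← map_inv, ← map_mul, ← map_mul, ← map_inv, ← map_mul, ← map_mul, b2,
    show ∀ a : SL(2, F), s⁻¹ * (s * a * s⁻¹) * s⁻¹⁻¹ = a from fun a => by group, map_pow, map_pow, ← ρ8_app, ← ρ8_app, b1] at this

theorem len8 : ∀ {p : List ℕ}, p.length = 8 → ∃ a b c d e f g h, p = [a, b, c, d, e, f, g, h]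
  | [_, _, _, _, _, _, _, _], _ => ⟨_, _, _, _, _, _, _, _, rfl⟩

include hF in
theorem main (e : Cfsg.generalizedFittingSubgroup H ≃* PSL(2, F)) : ¬ IsCoatom H := by
  obtain ⟨ι⟩ : Nonempty (F →+* Kb) := by
    letI := ZMod.algebra F 2
    exact ⟨(IsAlgClosed.lift : F →ₐ[ZMod 2] Kb)⟩
  obtain ⟨f, hf, h1, h2, h3⟩ := setup hF ι e
  obtain ⟨c, hc⟩ := IsCyclic.exists_ofOrder_eq_natCard (α := Fˣ)
  rw [Nat.card_units, Nat.card_eq_fintype_card, hF] at hc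
  have : NeZero ((65 : ℕ) : Kb) := ⟨by rw [odd_cast (by decide)]; simp⟩
  obtain ⟨ξ, hξ⟩ := HasEnoughRootsOfUnity.exists_primitiveRoot Kb 65
  obtain ⟨t, t1, t2, t3⟩ := ex_x hF ι hξ
  obtain ⟨z, rfl⟩ := hξ.isUnit (by decide)
  have hz : orderOf z = 65 := (IsPrimitiveRoot.coe_units_iff.1 hξ).eq_orderOf.symm
  have hz' : orderOf (Units.map ι.toMonoidHom c) = 63 := (orderOf_injective _ (Units.map_injective ι.injective) c).trans hc
  obtain ⟨g, d, p, a1, a2, a3, a4, a5, a6⟩ := alc (by decide) hz' (s := f (tt c))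
    (by rw [← map_pow, tt_pow, orderOf_dvd_iff_pow_eq_one.1 hc.dvd, tt_one, map_one])
  obtain ⟨g', d', q, b1, b2, b3, b4, b5, b6⟩ := alc (by decide) hz (s := f (ww * uu t)) (by rw [← map_pow, t3, map_one])
  have h4 := fun y => h3 (ww * uu t) y z (.inr hξ) (by simpa [Matrix.mul_apply] using t1)
  obtain rfl | rfl | ⟨rfl, h⟩ | ⟨rfl, k1, k2, k3, k4⟩ := rep_cases hF ι (ρ8.comp f) hc t2 t3 hξ (br goodE8.C)
    (fun _ => ad_br hφ hG _) (by obtain ⟨_, _, _, _, _, _, _, _, rfl⟩ := len8 a3; exact tab63 a4 a6)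
    (by obtain ⟨_, _, _, _, _, _, _, _, rfl⟩ := len8 b3; exact tab65 b4 b6) a5 b5
  · have := hf ((ρ8_one fun v => by
      rw [ρ8_app, a1, ad_mul, ad_mul, ad_tor hφ, show Sum.elim _ _ = 1 from funext ?_, one_mul, ad_inv']
      rintro (i | r)
      · rfl
      · have : ∀ r, vl [0, 0, 0, 0, 0, 0, 0, 0] r = 0 := by decide +kernel
        simp [a2, this]).trans (map_one f).symm)
    have : c = 1 := Units.ext (by simpa using congrFun (congrFun (congrArg Subtype.val this) 1) 1)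
    simp [this] at hc
  · exact case_a hF ι hf h1 h2 hc a1 a2 fun y => h3 (tt c) y (ι c) (.inl (IsPrimitiveRoot.coe_units_iff.2
      (hz' ▸ IsPrimitiveRoot.orderOf (Units.map ι.toMonoidHom c)))) (by simp [add_comm])
  · refine case_b hF h1 h2 (fun e => ?_) hz b1 b2 h h4
    rw [e, map_zero, eq_comm, add_eq_zero_iff_eq_neg, CharTwo.neg_eq, ← mul_eq_one_iff_eq_inv₀ z.ne_zero, ← sq] at t1
    exact hξ.pow_ne_one_of_pos_of_lt two_ne_zero (by decide) t1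
  · obtain ⟨y, y1, y2⟩ := ex_inv b1 (goodE8.R.pos_simple ⟨1, by decide⟩) (by
      rw [b2, show vl _ _ = 0 by decide +kernel, zpow_zero])
    have k5 : ∀ h ∈ H, ∀ v ∈ gk (ρ8.comp f), ρ8 h v ∈ gk (ρ8.comp f) := fun h hh => by
      obtain ⟨α, a⟩ := h2 h hh
      exact gk_inv _ α fun s => ((map_mul ρ8 _ _).symm.trans (congrArg _ (mul_inv_eq_iff_eq_mul.1 (a s)))).trans (map_mul ρ8 _ _)
    exact not_coatom k1 k2 k5 (h4 y y1 y2) (sub_inv hφ hG (goodE8.SG_sep Kb) hM hi8 hd8 hn8' (fin8 d') (b1 ▸ y2.symm.map ε)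
      (b1 ▸ k3) k4 (b1 ▸ k5 _ (h1 _)))

end H16.E8
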