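import Cfsg.Agent.H16.E9a

/-! Fixed vectors of `Sp₆(2)` on the adjoint module of `E₈(3)`. -/

set_option autoImplicit false
set_option maxRecDepth 100000

namespace H16.E8
open Cfsg H8.E8 H0.BC Subgroup Matrix
namespace S6

theorem top_of {K : Subgroup Sp} (h : ∀ d < 13, gs d ∈ K) : K = ⊤ := by
  have h' : ∀ d, gs d ∈ K := fun d => (lt_or_ge d 13).elim (h d) fun k => gs_big k ▸ one_mem K
  rw [eq_top_iff, ← Cfsg.Agent.S0765.result 3, closure_le]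
  rintro A ⟨w, c, e⟩
  obtain ⟨n, hn, rfl⟩ := (by decide +kernel : ∀ w : Fin 3 ⊕ Fin 3 → ZMod 2, ∃ n < 64, w = fun i => bt n (ee i)) w
  rcases (by decide : ∀ c : ZMod 2, c = 0 ∨ c = 1) c with rfl | rfl
  · rw [sympTransvection, zero_smul, add_zero] at e
    exact (Subtype.ext e : A = 1) ▸ one_mem K
  · obtain ⟨t, h1, h2⟩ := ev_ex h' (ent twN 52 n) 13
    exact (Subtype.ext (h2.trans ((c_tv n hn).trans e.symm)) : t = A) ▸ h1

/-- the simple reflections -/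
noncomputable def ww (i : ℕ) : Sp := gs (i + 1) * gs (i + 10) * gs (i + 1)
theorem ww_r (i : ℕ) : (ww i).1 = mt (mu (mu (gc (i + 1)) (gc (i + 10))) (gc (i + 1))) :=
  rmul (rmul (gs_r _) (gs_r _)) (gs_r _)
theorem ww_inv (i : ℕ) : (ww i)⁻¹ = ww i := by simp only [ww, _root_.mul_inv_rev, gs_inv, mul_assoc]
/-- the conjugate Sylow subgroups -/
noncomputable def Tw (i : ℕ) : Subgroup Sp := T.map (MulAut.conj (ww i)).toMonoidHom
theorem y_mem {i : ℕ} (h : i < 3) : gs (i + 10) ∈ Tw i := ⟨gs (i + 1), gs_T (by omega), by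
  have e : ww i = gs (i + 10) * gs (i + 1) * gs (i + 10) :=
    Subtype.ext ((ww_r i).trans ((c_w i h).1 ▸ (rmul (rmul (gs_r _) (gs_r _)) (gs_r _)).symm))
  change ww i * gs (i + 1) * (ww i)⁻¹ = _
  rw [ww_inv]
  nth_rewrite 2 [e]
  have k : ∀ d (x : Sp), gs d * (gs d * x) = x := fun d x => by rw [← mul_assoc, gs_sq, one_mul]
  simp only [ww, mul_assoc, k]⟩
theorem Rm_w {i μ : ℕ} (h : i < 3) {g : Gm μ} (e : [15, 51, 85].getD i 0 = μ) : Rm μ g ≤ Tw i := fun a ha => by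
  have := (c_w i h).2
  simp only [frc_eq, decide_eq_true_eq, Bool.and_eq_true, Nat.blt_eq, Nat.beq_eq, e] at this
  obtain ⟨h1, h2⟩ := this _ (T_el ha.1).1 ha.2
  have r := rmul (rmul (ww_r i) (el_sp (T_el ha.1).1).2.1) (ww_r i)
  rw [← h2, (T_el ha.1).2, ← (el_sp h1).2.1] at r
  refine ⟨_, (el_sp h1).1, ?_⟩
  change ww i * _ * (ww i)⁻¹ = a
  rw [← Subtype.ext r]
  nth_rewrite 1 [← ww_inv]
  group

theorem c_rep : ∀ l < 12, rl.getD l 0 < 512 ∧ lab (rl.getD l 0) = l ∧ (l ≠ 0 → rl.getD l 0 ≠ 0) ∧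
    frc (mu (tab (rl.getD l 0)) (tab (rl.getD l 0))) (fun Y => frc (hc Y) fun j => Nat.blt j 512 && Nat.beq (tab j) Y &&
      Nat.beq (lab j) ([0, 0, 0, 0, 0, 2, 2, 3, 3, 3, 5, 6].getD l 0)) = true := by decide +kernel
theorem c_lab0 : ∀ k < 512, lab k = 0 → k = 0 := by decide +kernel

/-- dot product -/
def dt : List ℤ → List ℤ → ℤ
  | a :: L, b :: K => a * b + dt L K
  | _, _ => 0
/-- the constraint of one subgroup -/
def ck (b v : List ℤ) (s : ℤ) : Bool := dt v b % 256 == 0 && decide (s ≤ 2 * dt v b)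
/-- the test -/
def tst (b : List ℤ) : Bool :=
  !(dt [1, 7, 27, 41, 68, 92, 20, 40, 40, 112, 32, 32] b % 512 == 0 &&
    decide (0 ≤ dt [1, 7, 27, 41, 68, 92, 20, 40, 40, 112, 32, 32] b) &&
    [[1, 7, 19, 33, 52, 36, 12, 24, 24, 48, 0, 0], [1, 3, 27, 29, 36, 84, 12, 8, 8, 48, 0, 0],
     [1, 3, 19, 21, 20, 28, 4, 24, 24, 48, 32, 32], [1, 3, 19, 21, 52, 44, 20, 8, 8, 16, 32, 32],
     [1, 3, 11, 13, 36, 52, 12, 24, 24, 80, 0, 0]].all fun v => ck b v (dt [1, 7, 27, 41, 68, 92, 20, 40, 40, 112, 32, 32] b)) ||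
  decide (4 * (2 * dt [1, 7, 19, 33, 52, 36, 12, 24, 24, 48, 0, 0] b + dt [1, 3, 27, 29, 36, 84, 12, 8, 8, 48, 0, 0] b) <
    7 * dt [1, 7, 27, 41, 68, 92, 20, 40, 40, 112, 32, 32] b)
/-- the values on elements with given square and fourth power -/
def vl (x y : ℤ) : List ℤ := (T8.filter fun t => t.2.1 == x && t.2.2 == y).map Prod.fst
theorem mem_vl {t : ℤ × ℤ × ℤ} (h : t ∈ T8) : t.1 ∈ vl t.2.1 t.2.2 := List.mem_map.2 ⟨t, List.mem_filter.2 ⟨h, by simp⟩, rfl⟩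
theorem c_tst : ([-8, 24].all fun b2 => (vl b2 248).all fun b5 => (vl b2 248).all fun b6 => (vl b5 b2).all fun b10 =>
    (vl b6 b2).all fun b11 => [-8, 24].all fun b3 => (vl b3 248).all fun b7 => (vl b3 248).all fun b8 =>
    (vl b3 248).all fun b9 => [-8, 24].all fun b1 => [-8, 24].all fun b4 =>
      tst [248, b1, b2, b3, b4, b5, b6, b7, b8, b9, b10, b11]) = true := by decide +kernel

/-- the representatives -/
noncomputable def rp (l : ℕ) : Sp := el (rl.getD l 0)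
theorem rp_sq {l : ℕ} (h : l < 12) : ∃ j < 512, rp l ^ 2 = el j ∧ lab j = [0, 0, 0, 0, 0, 2, 2, 3, 3, 3, 5, 6].getD l 0 := by
  have := (c_rep l h).2.2.2
  simp only [frc_eq, Bool.and_eq_true, Nat.blt_eq, Nat.beq_eq] at this
  refine ⟨_, this.1.1, Subtype.ext ?_, this.2⟩
  rw [(el_sp this.1.1).2.1, this.1.2, sq]
  exact rmul (el_sp (hr l)).2.1 (el_sp (hr l)).2.1
theorem rp_ne {l : ℕ} (h : l < 12) (h0 : l ≠ 0) : rp l ≠ 1 := fun e =>
  (c_rep l h).2.2.1 h0 (by rw [← (el_sp (hr l)).2.2]; exact (congrArg ix e).trans ix_one)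
theorem card_T : Nat.card T = 512 := by rw [← Rm_top, card_Rm]; decide +kernel

variable (c : Cx) {f : Sp →* E83} (hf : Function.Injective f)

theorem cl : IsClassFunction Sp fun a => c.β (f a) := (c.h.comp f).cl
theorem b_sq {l : ℕ} (h : l < 12) : c.β (f (rp l) ^ 2) = c.β (f (rp ([0, 0, 0, 0, 0, 2, 2, 3, 3, 3, 5, 6].getD l 0))) := by
  obtain ⟨j, h1, h2, h3⟩ := rp_sq h
  rw [← map_pow, h2, cls (cl c) j h1, h3, rp]
theorem T_pow {a : Sp} (ha : a ∈ T) : ∃ l < 12, IsConj a (rp l) := by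
  have hk := (T_el ha).1
  have := (c_lab _ hk).2
  simp only [frc_eq, Nat.beq_eq] at this
  obtain ⟨t, -, ht⟩ := ev_ex (K := ⊤) (fun _ => trivial) (ent wdN 24 (ix a)) 6
  have e : t * el (ix a) = el (rl.getD (lab (ix a)) 0) * t :=
    Subtype.ext ((rmul ht (el_sp hk).2.1).trans (this ▸ (rmul (el_sp (hr _)).2.1 ht).symm))
  exact ⟨_, (c_lab _ hk).1, isConj_iff.2 ⟨t, by rw [(T_el ha).2] at e; rw [e, mul_inv_cancel_right, rp]⟩⟩
theorem c_pow : ∀ l < 12, frc (mu (tab (rl.getD l 0)) (tab (rl.getD l 0))) (fun Y => frc (mu Y Y) fun Z =>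
    (Nat.beq (mu Z Z) (gc 0) && (Nat.ble 10 l || Nat.beq Z (gc 0))) && (Nat.ble 5 l || Nat.beq Y (gc 0)) &&
      (Nat.blt l 10 || (Nat.blt (hc Z) 512 && Nat.beq (tab (hc Z)) Z && Nat.beq (lab (hc Z)) 2))) = true := by decide +kernel
theorem rp_pow {l : ℕ} (h : l < 12) : rp l ^ 8 = 1 ∧ (l < 10 → rp l ^ 4 = 1) ∧ (l < 5 → rp l ^ 2 = 1) ∧
    (10 ≤ l → ∃ j < 512, rp l ^ 4 = el j ∧ lab j = 2) := by
  have := c_pow l h
  simp only [frc_eq, Bool.and_eq_true, Bool.or_eq_true, Nat.blt_eq, Nat.ble_eq, Nat.beq_eq] at this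
  have r2 := rmul (el_sp (hr l)).2.1 (el_sp (hr l)).2.1
  rw [← rp, ← sq] at r2
  have r4 := rmul r2 r2
  rw [← pow_add] at r4
  have r8 := rmul r4 r4
  rw [← pow_add] at r8
  obtain ⟨⟨⟨h1, h2⟩, h3⟩, h4⟩ := this
  refine ⟨Subtype.ext (r8.trans (h1 ▸ c_one.1)), fun k => Subtype.ext (r4.trans (h2.resolve_left (by omega) ▸ c_one.1)),
    fun k => Subtype.ext (r2.trans (h3.resolve_left (by omega) ▸ c_one.1)), fun k => ?_⟩
  obtain ⟨⟨h5, h6⟩, h7⟩ := h4.resolve_left (by omega)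
  exact ⟨_, h5, Subtype.ext (by rw [(el_sp h5).2.1, h6]; exact r4), h7⟩

include hf in
theorem b_inv {l : ℕ} (h0 : l ≠ 0) (h : l < 5) : ∃ x ∈ [(-8 : ℤ), 24], c.β (f (rp l)) = x := by
  rcases c.b2 (x := f (rp l)) (by rw [← map_pow, (rp_pow (by omega)).2.2.1 h, map_one])
    (fun e => rp_ne (by omega) h0 (hf (e.trans (map_one f).symm))) with e | e
  exacts [⟨-8, by simp, by simpa using e⟩, ⟨24, by simp, by simpa using e⟩]
theorem b_vl {l : ℕ} (h : l < 12) {x y : ℤ} (hx : c.β (f (rp ([0, 0, 0, 0, 0, 2, 2, 3, 3, 3, 5, 6].getD l 0))) = x)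
    (hy : c.β (f (rp l) ^ 4) = y) : ∃ z ∈ vl x y, c.β (f (rp l)) = z := by
  obtain ⟨t, h1, h2, h3, h4⟩ := c.h.tab8 c.hM (s := f (rp l)) (by rw [← map_pow, (rp_pow h).1, map_one])
  rw [b_sq c h, hx, Int.cast_inj] at h3
  rw [hy, Int.cast_inj] at h4
  exact ⟨t.1, h3 ▸ h4 ▸ mem_vl h1, h2⟩
theorem b_four {l : ℕ} (h : l < 10) : c.β (f (rp l) ^ 4) = (248 : ℤ) := by
  rw [← map_pow, (rp_pow (by omega)).2.1 h, map_one, c.b1]; norm_num
theorem b_eight {l : ℕ} (h : l < 12) (h' : 10 ≤ l) : c.β (f (rp l) ^ 4) = c.β (f (rp 2)) := by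
  obtain ⟨j, h1, h2, h3⟩ := (rp_pow h).2.2.2 h'
  rw [← map_pow, h2, cls (cl c) j h1, h3, rp]

theorem dm_Rm {μ : ℕ} (h : Gm μ) {v : List ℕ} (e : (List.range 12).map (cnt μ) = v) {b : List ℤ} (hb : b.length = 12)
    (k : ∀ l < 12, c.β (f (rp l)) = b.getD l 0) : dt (v.map (↑)) b = (v.sum * c.dm f (Rm μ h) : ℕ) := by
  have := Fintype.ofFinite (Rm μ h)
  have cd : Nat.card (Rm μ h) = v.sum := by rw [card_Rm, ← e]; rfl
  have := c.sum_eq (f := f) (Rm μ h) fun d => absurd (d.trans (card_T ▸ card_dvd_of_le Rm_le)) (by norm_num)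
  rw [sum_Rm (cl c), cd, Finset.sum_congr rfl fun l hl => by rw [← rp, k l (Finset.mem_range.1 hl)]] at this
  apply Int.cast_injective (α := ℂ)
  rw [Int.cast_natCast, Nat.cast_mul, ← this, ← e]
  match b, hb with
  | [b0, b1, b2, b3, b4, b5, b6, b7, b8, b9, b10, b11], _ =>
    simp [Finset.sum_range_succ, List.range_succ, dt, add_assoc]
theorem arith {b : List ℤ} {n m1 m2 m3 m4 m5 m6 : ℕ} (t : tst b = true)
    (d0 : dt ([1, 7, 27, 41, 68, 92, 20, 40, 40, 112, 32, 32].map ((↑) : ℕ → ℤ)) b = (512 * n : ℕ))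
    (d1 : dt ([1, 7, 19, 33, 52, 36, 12, 24, 24, 48, 0, 0].map ((↑) : ℕ → ℤ)) b = (256 * m1 : ℕ))
    (d2 : dt ([1, 7, 19, 33, 52, 36, 12, 24, 24, 48, 0, 0].map ((↑) : ℕ → ℤ)) b = (256 * m2 : ℕ))
    (d3 : dt ([1, 3, 27, 29, 36, 84, 12, 8, 8, 48, 0, 0].map ((↑) : ℕ → ℤ)) b = (256 * m3 : ℕ))
    (d4 : dt ([1, 3, 19, 21, 20, 28, 4, 24, 24, 48, 32, 32].map ((↑) : ℕ → ℤ)) b = (256 * m4 : ℕ))
    (d5 : dt ([1, 3, 19, 21, 52, 44, 20, 8, 8, 16, 32, 32].map ((↑) : ℕ → ℤ)) b = (256 * m5 : ℕ))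
    (d6 : dt ([1, 3, 11, 13, 36, 52, 12, 24, 24, 80, 0, 0].map ((↑) : ℕ → ℤ)) b = (256 * m6 : ℕ))
    (a1 : n ≤ m1) (a3 : n ≤ m3) (a4 : n ≤ m4) (a5 : n ≤ m5) (a6 : n ≤ m6) : 2 * (m1 + m2 + m3) < 7 * n := by
  simp only [List.map_cons, List.map_nil, Nat.cast_ofNat, Nat.cast_one, Nat.cast_zero] at d0 d1 d2 d3 d4 d5 d6
  simp only [tst, ck, List.all_cons, List.all_nil, Bool.and_true, Bool.or_eq_true, Bool.not_eq_true', Bool.and_eq_false_iff,
    beq_eq_false_iff_ne, decide_eq_false_iff_not, decide_eq_true_eq, d0, d3, d4, d5, d6] at t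
  omega

include hf in
theorem ex_b : ∃ b : List ℤ, b.length = 12 ∧ tst b = true ∧ ∀ l < 12, c.β (f (rp l)) = b.getD l 0 := by
  obtain ⟨b1, m1, e1⟩ := b_inv c hf (l := 1) (by norm_num) (by norm_num)
  obtain ⟨b2, m2, e2⟩ := b_inv c hf (l := 2) (by norm_num) (by norm_num)
  obtain ⟨b3, m3, e3⟩ := b_inv c hf (l := 3) (by norm_num) (by norm_num)
  obtain ⟨b4, m4, e4⟩ := b_inv c hf (l := 4) (by norm_num) (by norm_num)
  obtain ⟨b5, m5, e5⟩ := b_vl c (l := 5) (by norm_num) e2 (b_four c (by norm_num))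
  obtain ⟨b6, m6, e6⟩ := b_vl c (l := 6) (by norm_num) e2 (b_four c (by norm_num))
  obtain ⟨b7, m7, e7⟩ := b_vl c (l := 7) (by norm_num) e3 (b_four c (by norm_num))
  obtain ⟨b8, m8, e8⟩ := b_vl c (l := 8) (by norm_num) e3 (b_four c (by norm_num))
  obtain ⟨b9, m9, e9⟩ := b_vl c (l := 9) (by norm_num) e3 (b_four c (by norm_num))
  obtain ⟨b10, m10, e10⟩ := b_vl c (l := 10) (by norm_num) e5 ((b_eight c (by norm_num) le_rfl).trans e2)
  obtain ⟨b11, m11, e11⟩ := b_vl c (l := 11) (by norm_num) e6 ((b_eight c (by norm_num) (by norm_num)).trans e2)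
  have t := c_tst
  simp only [List.all_eq_true] at t
  have e0 : c.β (f (rp 0)) = (248 : ℤ) := by rw [show rp 0 = 1 from el_zero, map_one, c.b1]; norm_num
  refine ⟨_, rfl, t _ m2 _ m5 _ m6 _ m10 _ m11 _ m3 _ m7 _ m8 _ m9 _ m1 _ m4, fun l h => ?_⟩
  interval_cases l
  exacts [e0, e1, e2, e3, e4, e5, e6, e7, e8, e9, e10, e11]

theorem top_eq : T ⊔ Tw 0 ⊔ (T ⊔ Tw 1) ⊔ (T ⊔ Tw 2) = ⊤ := top_of fun d h => by
  rcases lt_or_ge d 10 with k | k
  · exact mem_sup_right (mem_sup_left (gs_T k))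
  · interval_cases d
    · exact mem_sup_left (mem_sup_left (mem_sup_right (y_mem (i := 0) (by norm_num))))
    · exact mem_sup_left (mem_sup_right (mem_sup_right (y_mem (i := 1) (by norm_num))))
    · exact mem_sup_right (mem_sup_right (y_mem (i := 2) (by norm_num)))
end S6

open S6 in
theorem sp1 : SP1 := ⟨T, card_T, fun c f hf => by
  obtain ⟨b, l, t, k⟩ := ex_b c hf
  have q := c_cnt
  simp only [List.map_cons, List.map_nil, List.cons.injEq (List.map _ _), and_true] at q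
  obtain ⟨q0, q1, q2, q3, q4, q5, q6⟩ := q
  have d0 := dm_Rm c (μ := 255) (by decide) q0 l k
  rw [Rm_top] at d0
  have := arith t d0 (dm_Rm c (μ := 15) (by decide) q1 l k) (dm_Rm c (μ := 51) (by decide) q2 l k)
    (dm_Rm c (μ := 85) (by decide) q3 l k) (dm_Rm c (μ := 153) (by decide) q4 l k) (dm_Rm c (μ := 165) (by decide) q5 l k)
    (dm_Rm c (μ := 105) (by decide) q6 l k) (Cx.dm_anti Rm_le) (Cx.dm_anti Rm_le) (Cx.dm_anti Rm_le) (Cx.dm_anti Rm_le)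
    (Cx.dm_anti Rm_le)
  have s0 := Cx.dm_sup (c := c) (f := f) Rm_le (Rm_w (i := 0) (μ := 15) (g := by decide) (by norm_num) rfl)
  have s1 := Cx.dm_sup (c := c) (f := f) Rm_le (Rm_w (i := 1) (μ := 51) (g := by decide) (by norm_num) rfl)
  have s2 := Cx.dm_sup (c := c) (f := f) Rm_le (Rm_w (i := 2) (μ := 85) (g := by decide) (by norm_num) rfl)
  have s3 := Cx.dm_sup (c := c) (f := f) (le_sup_left : T ≤ T ⊔ Tw 0) (le_sup_left : T ≤ T ⊔ Tw 1)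
  have s4 := Cx.dm_sup (c := c) (f := f) (le_sup_left.trans le_sup_left : T ≤ T ⊔ Tw 0 ⊔ (T ⊔ Tw 1))
    (le_sup_left : T ≤ T ⊔ Tw 2)
  have w : ∀ i, c.dm f (Tw i) = c.dm f T := fun i => Cx.dm_conj _ _
  rw [top_eq] at s4
  rw [w] at s0 s1 s2
  omega⟩

end H16.E8
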