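import Cfsg.Agent.H16.Basic
import Cfsg.Agent.H26.Net

/-! Groups of order `3 ^ 10` given by a power-conjugate presentation: normal forms, and verified
multiplication of codes. -/

set_option autoImplicit false

namespace H16.F3
open H26 (frc frc_eq)

variable {Γ : Type*} [Group Γ] {y : ℕ → Γ}

/-- the normal word with exponents the base three digits -/
def evk (y : ℕ → Γ) : ℕ → ℕ → Γ
  | 0, _ => 1
  | k + 1, e => y k ^ (e / 3 ^ k) * evk y k (e % 3 ^ k)

/-- the element with code `e` -/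
def ev (y : ℕ → Γ) (e : ℕ) : Γ := evk y 10 e

theorem evk_zero (k : ℕ) : evk y k 0 = 1 := by
  induction k with
  | zero => rfl
  | succ k ih => simp [evk, ih]

theorem evk_add (k d : ℕ) {w : ℕ} (hw : w < 3 ^ k) :
    evk y (k + 1) (d * 3 ^ k + w) = y k ^ d * evk y k w := by
  have h0 : 0 < 3 ^ k := by positivity
  rw [evk, Nat.add_comm, Nat.add_mul_div_right _ _ h0, Nat.add_mul_mod_self_right,
    Nat.div_eq_of_lt hw, Nat.mod_eq_of_lt hw, Nat.zero_add]

theorem evk_eq {k m e : ℕ} (h : e < 3 ^ k) (hk : k ≤ m) : evk y m e = evk y k e := by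
  induction m, hk using Nat.le_induction with
  | base => rfl
  | succ m hm ih =>
    have := evk_add (y := y) m 0 (h.trans_le (Nat.pow_le_pow_right (by decide) hm))
    simp only [Nat.zero_mul, Nat.zero_add, pow_zero, one_mul] at this
    rw [this, ih]

@[simp] theorem ev_zero : ev y 0 = 1 := evk_zero 10

theorem lt_succ3 {k d w : ℕ} (hd : d < 3) (hw : w < 3 ^ k) : d * 3 ^ k + w < 3 ^ (k + 1) := by
  rw [pow_succ]; nlinarith

theorem ev_top {k d w : ℕ} (hk : k < 10) (hd : d < 3) (hw : w < 3 ^ k) :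
    ev y (d * 3 ^ k + w) = y k ^ d * ev y w := by
  unfold ev
  rw [evk_eq (lt_succ3 hd hw) hk, evk_add k d hw, evk_eq hw hk.le]

theorem ev_top' {k e : ℕ} (hk : k < 10) (he : e < 3 ^ (k + 1)) :
    ev y e = y k ^ (e / 3 ^ k) * ev y (e % 3 ^ k) := by
  have h0 : 0 < 3 ^ k := by positivity
  rw [← ev_top hk ((Nat.div_lt_iff_lt_mul h0).2 (by rw [pow_succ] at he; omega)) (Nat.mod_lt _ h0),
    Nat.div_add_mod']

theorem ev_pw {k d : ℕ} (hk : k < 10) (hd : d < 3) : ev y (d * 3 ^ k) = y k ^ d := by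
  have := ev_top (y := y) hk hd (w := 0) (by positivity)
  simpa using this

theorem ev_gen {k : ℕ} (hk : k < 10) : ev y (3 ^ k) = y k := by
  have := ev_pw (y := y) hk (d := 1) (by decide)
  simpa using this

theorem ev_gen_add {k w : ℕ} (hk : k < 10) (hw : w < 2 * 3 ^ k) :
    ev y (3 ^ k + w) = y k * ev y w := by
  have h0 : 0 < 3 ^ k := by positivity
  have h1 : w / 3 ^ k < 2 := (Nat.div_lt_iff_lt_mul h0).2 hw
  have h2 := Nat.div_add_mod' w (3 ^ k)
  have h3 : 3 ^ k + w = (w / 3 ^ k + 1) * 3 ^ k + w % 3 ^ k := by rw [add_mul]; omega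
  rw [h3, ev_top hk (by omega) (Nat.mod_lt _ h0), ev_top' (e := w) hk (by rw [pow_succ]; omega),
    pow_succ', mul_assoc]

theorem evk_split (k m : ℕ) : ∀ a w, a < 3 ^ m → w < 3 ^ k →
    evk y (k + m) (a * 3 ^ k + w) = evk y (k + m) (a * 3 ^ k) * evk y k w := by
  induction m with
  | zero => intro a w ha hw; obtain rfl : a = 0 := by simpa using ha
            simp [evk_zero]
  | succ m ih =>
    intro a w ha hw
    have h0 : 0 < 3 ^ m := by positivity
    have h1 := Nat.mod_lt a h0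
    have h2 : a * 3 ^ k = a / 3 ^ m * 3 ^ (k + m) + a % 3 ^ m * 3 ^ k := by
      conv_lhs => rw [← Nat.div_add_mod' a (3 ^ m)]
      rw [pow_add]; ring
    have h3 : a % 3 ^ m * 3 ^ k + w < 3 ^ (k + m) := by rw [pow_add]; nlinarith
    rw [h2, ← Nat.add_assoc k, Nat.add_assoc _ _ w, evk_add _ _ h3, evk_add _ _ (by omega),
      ih _ _ h1 hw, mul_assoc]

theorem ev_split {a w : ℕ} (ha : a < 243) (hw : w < 243) :
    ev y (a * 243 + w) = ev y (a * 243) * ev y w := by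
  have := evk_split (y := y) 5 5 a w ha hw
  unfold ev
  rw [evk_eq (y := y) (k := 5) (m := 10) (e := w) hw (by decide)]
  exact this

/-- the normal word -/
def wdk : ℕ → ℕ → List ℕ
  | 0, _ => []
  | k + 1, e => wdk k (e % 3 ^ k) ++ List.replicate (e / 3 ^ k) k

theorem evA_replicate (d k : ℕ) : evA y (List.replicate d k) = y k ^ d := by
  induction d with
  | zero => simp
  | succ d ih => rw [List.replicate_succ, evA_cons, ih, pow_succ]

theorem evA_wdk (k : ℕ) : ∀ e, evA y (wdk k e) = evk y k e := by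
  induction k with
  | zero => intro e; rfl
  | succ k ih => intro e; rw [wdk, evA_append, evA_replicate, ih, evk]

/-! ### multiplication by levels -/

/-- multiplication in the group generated by the first `k` letters -/
noncomputable def sm (c : ℕ → ℕ → ℕ) (pw : ℕ → ℕ) (k : ℕ) : ℕ → ℕ → ℕ :=
  Nat.rec (motive := fun _ => ℕ → ℕ → ℕ) (fun _ _ => nat_lit 0) (fun k ih a b =>
    cond (Nat.beq b (nat_lit 0)) a (frc (Nat.pow (nat_lit 3) k) fun n =>
      frc (Nat.div b n) fun B => frc (Nat.mod a n) fun a' =>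
      frc (cond (Nat.beq B (nat_lit 0)) a' (cond (Nat.beq B (nat_lit 1)) (c k a')
        (frc (c k a') (c k)))) fun x => frc (Nat.add (Nat.div a n) B) fun s =>
      frc (Nat.mod b n) fun b' =>
      cond (Nat.ble (nat_lit 3) s)
        (Nat.add (Nat.mul (Nat.sub s (nat_lit 3)) n) (frc (ih (pw k) x) fun x' => ih x' b'))
        (Nat.add (Nat.mul s n) (ih x b')))) k

theorem sm_succ (c : ℕ → ℕ → ℕ) (pw : ℕ → ℕ) (k a b : ℕ) : sm c pw (k + 1) a b =
    if b = 0 then a else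
      let x := if b / 3 ^ k = 0 then a % 3 ^ k else if b / 3 ^ k = 1 then c k (a % 3 ^ k)
        else c k (c k (a % 3 ^ k))
      if 3 ≤ a / 3 ^ k + b / 3 ^ k then (a / 3 ^ k + b / 3 ^ k - 3) * 3 ^ k +
        sm c pw k (sm c pw k (pw k) x) (b % 3 ^ k)
      else (a / 3 ^ k + b / 3 ^ k) * 3 ^ k + sm c pw k x (b % 3 ^ k) := by
  have : sm c pw (k + 1) a b = cond (Nat.beq b 0) a (
      let x := cond (Nat.beq (b / 3 ^ k) 0) (a % 3 ^ k) (cond (Nat.beq (b / 3 ^ k) 1)
        (c k (a % 3 ^ k)) (c k (c k (a % 3 ^ k))))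
      cond (Nat.ble 3 (a / 3 ^ k + b / 3 ^ k)) ((a / 3 ^ k + b / 3 ^ k - 3) * 3 ^ k +
        sm c pw k (sm c pw k (pw k) x) (b % 3 ^ k))
      ((a / 3 ^ k + b / 3 ^ k) * 3 ^ k + sm c pw k x (b % 3 ^ k))) := rfl
  rw [this]
  simp only [Bool.cond_eq_ite, Nat.beq_eq, Nat.ble_eq]

/-- check of the conjugation table of level `k`, at the letter `j` -/
noncomputable def cEnt (c : ℕ → ℕ → ℕ) (pw : ℕ → ℕ) (k j w : ℕ) : ℕ :=
  frc (c k (Nat.add (Nat.pow (nat_lit 3) j) w)) fun x =>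
    Nat.add (Nat.sub (Nat.succ x) (Nat.pow (nat_lit 3) k))
      (Nat.xor x (frc (c k (Nat.pow (nat_lit 3) j)) fun u => frc (c k w) fun v => sm c pw k u v))

/-- the tables are correct -/
def COk (c : ℕ → ℕ → ℕ) (pw : ℕ → ℕ) : Prop :=
  ∀ k < 10, pw k < 3 ^ k ∧ c k 0 = 0 ∧ ∀ j < k, ∀ w < 2 * 3 ^ j, cEnt c pw k j w = 0

/-- the relations -/
structure Rel (y : ℕ → Γ) (c : ℕ → ℕ → ℕ) (pw : ℕ → ℕ) : Prop where
  cj : ∀ k < 10, ∀ j < k, y j * y k = y k * ev y (c k (3 ^ j))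
  pw : ∀ k < 10, y k ^ 3 = ev y (pw k)

theorem exists_lead {k w : ℕ} (h0 : w ≠ 0) (h : w < 3 ^ k) : ∃ j < k, 3 ^ j ≤ w ∧ w < 3 ^ (j + 1) := by
  induction k with
  | zero => simp at h; omega
  | succ k ih =>
    by_cases h1 : w < 3 ^ k
    · obtain ⟨j, hj, h2⟩ := ih h1
      exact ⟨j, by omega, h2⟩
    · exact ⟨k, by omega, by omega, h⟩

theorem sm_ok {c : ℕ → ℕ → ℕ} {pw : ℕ → ℕ} (hc : COk c pw) (r : Rel y c pw) (k : ℕ) (hk : k ≤ 10) :
    ∀ a < 3 ^ k, ∀ b < 3 ^ k, sm c pw k a b < 3 ^ k ∧ ev y (sm c pw k a b) = ev y a * ev y b := by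
  induction k with
  | zero =>
    intro a ha b hb
    obtain rfl : a = 0 := by simpa using ha
    obtain rfl : b = 0 := by simpa using hb
    exact ⟨by show 0 < 1; decide, by show ev y 0 = _; simp⟩
  | succ k ih =>
    replace ih := ih (by omega)
    obtain ⟨h1, h2, h3⟩ := hc k (by omega)
    have h0 : 0 < 3 ^ k := by positivity
    have hcj : ∀ w, w < 3 ^ k → c k w < 3 ^ k ∧ ev y w * y k = y k * ev y (c k w) := by
      intro w
      induction w using Nat.strong_induction_on with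
      | _ w ihw =>
        intro hw
        by_cases hw0 : w = 0
        · subst hw0; rw [h2]; simp
        obtain ⟨j, hj, h4, h5⟩ := exists_lead hw0 hw
        have hj0 : 0 < 3 ^ j := by positivity
        obtain ⟨v, rfl⟩ := Nat.exists_eq_add_of_le h4
        have h6 : v < 2 * 3 ^ j := by rw [pow_succ] at h5; omega
        have h7 : c k (3 ^ j + v) + 1 - 3 ^ k + Nat.xor (c k (3 ^ j + v))
          (sm c pw k (c k (3 ^ j)) (c k v)) = 0 := h3 j hj v h6
        have h8 : c k (3 ^ j + 0) + 1 - 3 ^ k + Nat.xor (c k (3 ^ j + 0))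
          (sm c pw k (c k (3 ^ j)) (c k 0)) = 0 := h3 j hj 0 (by omega)
        have h8' : c k (3 ^ j) < 3 ^ k :=
          Nat.lt_of_succ_le (Nat.sub_eq_zero_iff_le.1 (Nat.eq_zero_of_add_eq_zero_right h8))
        obtain ⟨h9, h10⟩ := ihw v (by omega) (by omega)
        refine ⟨by omega, ?_⟩
        rw [xor_zero (a := c k (3 ^ j + v)) (b := sm c pw k (c k (3 ^ j)) (c k v)) (by omega),
          (ih _ h8' _ h9).2, ev_gen_add (by omega) h6, mul_assoc, h10, ← mul_assoc,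
          r.cj k (by omega) j hj, mul_assoc]
    intro a ha b hb
    rw [sm_succ]
    by_cases hb0 : b = 0
    · subst hb0; simpa using ha
    rw [if_neg hb0]
    have hA : a / 3 ^ k < 3 := (Nat.div_lt_iff_lt_mul h0).2 (by rw [pow_succ] at ha; omega)
    have hB : b / 3 ^ k < 3 := (Nat.div_lt_iff_lt_mul h0).2 (by rw [pow_succ] at hb; omega)
    have ha' := Nat.mod_lt a h0
    have hb' := Nat.mod_lt b h0
    rw [ev_top' (by omega) ha, ev_top' (by omega) hb]
    generalize a / 3 ^ k = A at *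
    generalize b / 3 ^ k = B at *
    generalize a % 3 ^ k = a' at *
    generalize b % 3 ^ k = b' at *
    extract_lets x
    have hx : x < 3 ^ k ∧ ev y a' * y k ^ B = y k ^ B * ev y x := by
      obtain ⟨e1, e2⟩ := hcj _ ha'
      obtain ⟨e3, e4⟩ := hcj _ e1
      obtain rfl | rfl | rfl : B = 0 ∨ B = 1 ∨ B = 2 := by omega
      · simpa [x] using ha'
      · simpa [x] using ⟨e1, e2⟩
      · refine ⟨by simpa [x] using e3, ?_⟩
        simp only [x, pow_two]
        rw [if_neg (by decide), if_neg (by decide), ← mul_assoc, e2, mul_assoc, e4, mul_assoc]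
    clear_value x
    have e : y k ^ A * ev y a' * (y k ^ B * ev y b') = y k ^ (A + B) * (ev y x * ev y b') := by
      rw [pow_add, mul_assoc, ← mul_assoc (ev y a'), hx.2]; simp only [mul_assoc]
    rw [e]
    split_ifs with hs
    · obtain ⟨e1, e2⟩ := ih _ h1 _ hx.1
      obtain ⟨e3, e4⟩ := ih _ e1 _ hb'
      refine ⟨lt_succ3 (by omega) e3, ?_⟩
      rw [ev_top (by omega) (by omega) e3, e4, e2, ← r.pw k (by omega), ← mul_assoc, ← mul_assoc,
        ← pow_add, mul_assoc, Nat.sub_add_cancel hs]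
    · obtain ⟨e3, e4⟩ := ih _ hx.1 _ hb'
      refine ⟨lt_succ3 (by omega) e3, ?_⟩
      rw [ev_top (by omega) (by omega) e3, e4]

/-! ### multiplication by tables -/

/-- entry `i` (width `w`, mask `m`) of row `r` (width `W`, mask `M`) -/
noncomputable def lk2 (T W M w m r i : ℕ) : ℕ :=
  Nat.land (Nat.shiftRight (Nat.land (Nat.shiftRight T (Nat.mul r W)) M) (Nat.mul i w)) m

/-- rows of 243 entries of 16 bits -/
noncomputable def l16 (T M r i : ℕ) : ℕ :=
  Nat.land (Nat.shiftRight (Nat.land (Nat.shiftRight T (Nat.mul r (nat_lit 3888))) M)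
    (Nat.mul i (nat_lit 16))) (nat_lit 65535)

/-- rows of 243 entries of 8 bits -/
noncomputable def l8 (T M r i : ℕ) : ℕ :=
  Nat.land (Nat.shiftRight (Nat.land (Nat.shiftRight T (Nat.mul r (nat_lit 1944))) M)
    (Nat.mul i (nat_lit 8))) (nat_lit 255)

/-- fast product -/
noncomputable def fm (t1 t2 t3 M1 M2 a b : ℕ) : ℕ :=
  frc (Nat.div a (nat_lit 243)) fun q => frc (Nat.div b (nat_lit 243)) fun q' =>
  frc (l16 t1 M1 q q') fun r => frc (Nat.mod r (nat_lit 243)) fun w =>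
  frc (l8 t3 M2 w (l8 t2 M2 q' (Nat.mod a (nat_lit 243)))) fun s =>
  Nat.add (Nat.sub r w) (l8 t3 M2 s (Nat.mod b (nat_lit 243)))

/-- fast inverse -/
noncomputable def fi (ti M1 a : ℕ) : ℕ :=
  frc (Nat.div a (nat_lit 243)) fun q => l16 ti M1 q (Nat.mod a (nat_lit 243))

/-- check of the three tables -/
noncomputable def tEnt (s : ℕ → ℕ → ℕ → ℕ) (t1 t2 t3 M1 M2 q w : ℕ) : ℕ :=
  frc (Nat.mul q (nat_lit 243)) fun a => frc (Nat.mul w (nat_lit 243)) fun b =>
  frc (l8 t2 M2 q w) fun x =>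
  Nat.add (Nat.add (Nat.xor (l16 t1 M1 q w) (s (nat_lit 10) a b))
    (Nat.xor (l8 t3 M2 q w) (s (nat_lit 5) q w)))
    (Nat.add (Nat.sub x (nat_lit 242)) (Nat.xor (Nat.add a x) (s (nat_lit 10) w a)))

/-- verified operations on codes -/
structure Ops (y : ℕ → Γ) (mul : ℕ → ℕ → ℕ) (inv : ℕ → ℕ) : Prop where
  mul : ∀ a < 59049, ∀ b < 59049, mul a b < 59049 ∧ ev y (mul a b) = ev y a * ev y b
  inv : ∀ a < 59049, inv a < 59049 ∧ ev y (inv a) = (ev y a)⁻¹

theorem fm_ok {c : ℕ → ℕ → ℕ} {pw : ℕ → ℕ} (hc : COk c pw) (r : Rel y c pw) {t1 t2 t3 M1 M2 : ℕ}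
    (h : ∀ q < 243, ∀ w < 243, tEnt (sm c pw) t1 t2 t3 M1 M2 q w = 0) :
    ∀ a < 59049, ∀ b < 59049, fm t1 t2 t3 M1 M2 a b < 59049 ∧
      ev y (fm t1 t2 t3 M1 M2 a b) = ev y a * ev y b := by
  have H : ∀ q < 243, ∀ w < 243, (l16 t1 M1 q w < 59049 ∧
      ev y (l16 t1 M1 q w) = ev y (q * 243) * ev y (w * 243)) ∧
      (l8 t3 M2 q w < 243 ∧ ev y (l8 t3 M2 q w) = ev y q * ev y w) ∧
      (l8 t2 M2 q w < 243 ∧ ev y (q * 243) * ev y (l8 t2 M2 q w) = ev y w * ev y (q * 243)) := by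
    intro q hq w hw
    have h1 : Nat.xor (l16 t1 M1 q w) (sm c pw 10 (q * 243) (w * 243)) +
      Nat.xor (l8 t3 M2 q w) (sm c pw 5 q w) + (l8 t2 M2 q w - 242 +
      Nat.xor (q * 243 + l8 t2 M2 q w) (sm c pw 10 w (q * 243))) = 0 := h q hq w hw
    have e1 := xor_zero (a := l16 t1 M1 q w) (b := sm c pw 10 (q * 243) (w * 243)) (by omega)
    have e2 := xor_zero (a := l8 t3 M2 q w) (b := sm c pw 5 q w) (by omega)
    have e3 := xor_zero (a := q * 243 + l8 t2 M2 q w) (b := sm c pw 10 w (q * 243)) (by omega)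
    refine ⟨?_, ?_, by omega, ?_⟩
    · rw [e1]; exact sm_ok hc r 10 le_rfl _ (by omega) _ (by omega)
    · rw [e2]; exact sm_ok hc r 5 (by decide) _ (by omega) _ (by omega)
    · rw [← ev_split hq (by omega), e3]; exact (sm_ok hc r 10 le_rfl _ (by omega) _ (by omega)).2
  intro a ha b hb
  show l16 t1 M1 (a / 243) (b / 243) - l16 t1 M1 (a / 243) (b / 243) % 243 +
    l8 t3 M2 (l8 t3 M2 (l16 t1 M1 (a / 243) (b / 243) % 243) (l8 t2 M2 (b / 243) (a % 243)))
      (b % 243) < 59049 ∧ ev y (l16 t1 M1 (a / 243) (b / 243) - l16 t1 M1 (a / 243) (b / 243) % 243 +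
    l8 t3 M2 (l8 t3 M2 (l16 t1 M1 (a / 243) (b / 243) % 243) (l8 t2 M2 (b / 243) (a % 243)))
      (b % 243)) = _
  obtain ⟨e1, e2⟩ := (H (a / 243) (by omega) (b / 243) (by omega)).1
  obtain ⟨e3, e4⟩ := (H (b / 243) (by omega) (a % 243) (by omega)).2.2
  generalize l16 t1 M1 (a / 243) (b / 243) = r at *
  generalize l8 t2 M2 (b / 243) (a % 243) = x at *
  obtain ⟨e5, e6⟩ := (H (r % 243) (by omega) x e3).2.1
  generalize l8 t3 M2 (r % 243) x = s at *
  obtain ⟨e7, e8⟩ := (H s e5 (b % 243) (by omega)).2.1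
  generalize l8 t3 M2 s (b % 243) = t at *
  refine ⟨by omega, ?_⟩
  have sp : ∀ a < 59049, ev y a = ev y (a / 243 * 243) * ev y (a % 243) := fun a ha => by
    rw [← ev_split (by omega) (by omega), Nat.div_add_mod']
  rw [show r - r % 243 = r / 243 * 243 by omega, ev_split (by omega) e7, e8, e6, ← mul_assoc,
    ← mul_assoc, ← sp r e1, e2, sp a ha, sp b hb, mul_assoc (ev y (a / 243 * 243)), e4]
  simp only [mul_assoc]

/-- check of the table of inverses -/
noncomputable def iEnt (mul : ℕ → ℕ → ℕ) (inv : ℕ → ℕ) (a : ℕ) : ℕ :=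
  frc (inv a) fun b => Nat.add (Nat.sub b (nat_lit 59048)) (mul a b)

theorem ops_of {mul : ℕ → ℕ → ℕ} {inv : ℕ → ℕ}
    (h : ∀ a < 59049, ∀ b < 59049, mul a b < 59049 ∧ ev y (mul a b) = ev y a * ev y b)
    (h' : ∀ a < 59049, iEnt mul inv a = 0) : Ops y mul inv := ⟨h, fun a ha => by
  have h1 : inv a - 59048 + mul a (inv a) = 0 := h' a ha
  have h2 := (h a ha (inv a) (by omega)).2
  rw [show mul a (inv a) = 0 by omega, ev_zero] at h2
  exact ⟨by omega, (eq_inv_of_mul_eq_one_right h2.symm)⟩⟩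

end H16.F3
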