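import Cfsg.Agent.H16.F3t

/-! Verification of the multiplication tables. -/

set_option autoImplicit false
set_option maxRecDepth 100000
set_option maxHeartbeats 0
set_option Elab.async false

namespace H16.F3
open H26 (frc frc_eq)

/-- entry `k` of a packed list of codes -/
noncomputable def tg (T k : ℕ) : ℕ :=
  Nat.land (Nat.shiftRight T (Nat.mul k (nat_lit 16))) (nat_lit 65535)

noncomputable def M1 : ℕ := Nat.sub (Nat.shiftLeft (nat_lit 1) (nat_lit 3888)) (nat_lit 1)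
noncomputable def M2 : ℕ := Nat.sub (Nat.shiftLeft (nat_lit 1) (nat_lit 1944)) (nat_lit 1)

/-- conjugation tables -/
noncomputable def cc (tc M k w : ℕ) : ℕ :=
  frc (Nat.add (Nat.div (Nat.pow (nat_lit 3) k) (nat_lit 2)) w) (fi tc M)

noncomputable def ckC (k : ℕ) : Bool := frc TC fun tc => frc M1 fun m =>
  Nat.beq (loop1 (fun j => loop2 (cEnt (cc tc m) (tg TP) k j) (nat_lit 0)
    (Nat.mul (nat_lit 2) (Nat.pow (nat_lit 3) j))) (nat_lit 0) k) (nat_lit 0)

theorem ck8 : ∀ k < 9, ckC k = true := by decide +kernel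
theorem ck9 : ckC 9 = true := by decide +kernel
theorem ckP : ∀ k < 10, tg TP k < 3 ^ k ∧ cc TC M1 k 0 = 0 ∧
    ∀ j < k, cc TC M1 k (3 ^ j) = tg TR (10 * k + j) := by decide +kernel

theorem cok : COk (cc TC M1) (tg TP) := fun k hk => ⟨(ckP k hk).1, (ckP k hk).2.1, fun j hj w hw => by
  have h : ckC k = true := by
    rcases Nat.lt_succ_iff_lt_or_eq.1 hk with h | rfl
    exacts [ck8 k h, ck9]
  have h1 := loop1_zero (Nat.eq_of_beq_eq_true h) j hj
  rw [Nat.zero_add] at h1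
  exact loop2_zero h1 w (Nat.zero_le _) (by rw [Nat.zero_add]; exact hw)⟩

noncomputable def ckT (lo n : ℕ) : Bool := frc TC fun tc => frc M1 fun m1 => frc M2 fun m2 =>
  frc T1 fun t1 => frc T2 fun t2 => frc T3 fun t3 => frc TP fun tp =>
  Nat.beq (loop1 (fun q => loop2 (tEnt (sm (cc tc m1) (tg tp)) t1 t2 t3 m1 m2 q) (nat_lit 0)
    (nat_lit 243)) lo n) (nat_lit 0)

theorem ckT_ok {lo n : ℕ} (h : ckT lo n = true) : ∀ q, lo ≤ q → q < lo + n → ∀ w < 243,
    tEnt (sm (cc TC M1) (tg TP)) T1 T2 T3 M1 M2 q w = 0 := fun q h1 h2 w hw => by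
  have h3 := loop1_zero (Nat.eq_of_beq_eq_true h) (q - lo) (by omega)
  rw [Nat.add_sub_cancel' h1] at h3
  exact loop2_zero h3 w (Nat.zero_le _) (by rw [Nat.zero_add]; exact hw)

end H16.F3
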