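import Cfsg.Agent.H16.F3u

/-! Verification of the multiplication tables. -/

set_option autoImplicit false
set_option maxRecDepth 100000
set_option maxHeartbeats 0
set_option Elab.async false

namespace H16.F3
theorem ct6 : ckT 162 27 = true := by decide +kernel
theorem ct7 : ckT 189 27 = true := by decide +kernel
theorem ct8 : ckT 216 27 = true := by decide +kernel
end H16.F3
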