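import Cfsg.Agent.H16.F3w

/-! Derived operations on codes; nontrivial commutators. -/

set_option autoImplicit false
set_option maxRecDepth 100000
set_option maxHeartbeats 0
set_option Elab.async false

namespace H16.F3
open H26 (frc frc_eq)

/-- the commutator `a⁻¹ b⁻¹ a b` -/
noncomputable def cm (a b : ℕ) : ℕ :=
  frc (mul b a) fun x => frc (inv x) fun x' => frc (mul a b) (mul x')

/-- the cube -/
noncomputable def cu (a : ℕ) : ℕ := frc (mul a a) (mul a)

/-- the conjugate `s⁻¹ a s` -/
noncomputable def cjn (a s : ℕ) : ℕ := frc (inv s) fun s' => frc (mul a s) (mul s')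

/-- some commutator is a nonzero code `< n` -/
noncomputable def zEnt (n w : ℕ) : ℕ := frc (Nat.add n w) fun e =>
  frc (cm e (nat_lit 19683)) fun c => cond (Nat.beq c (nat_lit 0))
    (frc (cm e (nat_lit 6561)) fun c => cond (Nat.beq c (nat_lit 0)) (nat_lit 1)
      (Nat.sub (Nat.succ c) n)) (Nat.sub (Nat.succ c) n)

theorem cz8 : ∀ k < 9, k = 0 ∨ allZ (zEnt (3 ^ k)) 0 (3 ^ k) = true := by decide +kernel
theorem cz9 : allZ (zEnt 19683) 0 19683 = true := by decide +kernel
theorem ccen : ∀ k < 10, ∀ m < 10, cm (3 ^ k) (3 ^ m) < 3 ^ k := by decide +kernel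

end H16.F3
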