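import Cfsg.Agent.H17.FV0

/-! S5720, chunk EK: the weight projections. -/

set_option autoImplicit false
set_option linter.unusedSectionVars false

open H17.FV
namespace H16.FV

variable {K A : Type*} [Field K] [Ring A] [Algebra K A] {p : ℕ} [hp : Fact p.Prime] [CharP K p]
  (D : Dat K A p)

theorem He (l : (ZMod p)ˣ) : D.H l * D.e = D.φ ((l : ZMod p) ^ 2) • (D.e * D.H l) := by
  rw [Dat.e, Finset.mul_sum, Finset.sum_mul, Finset.smul_sum,
    ← Equiv.sum_comp (Equiv.mulLeft (l ^ 2)) (fun c => D.φ ((l : ZMod p) ^ 2) •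
      (D.φ ((c⁻¹ : (ZMod p)ˣ) : ZMod p) • D.U c * D.H l))]
  refine Finset.sum_congr rfl fun m _ => ?_
  rw [mul_smul_comm, D.HU, smul_mul_assoc, smul_smul, ← map_mul, Equiv.coe_mulLeft, mul_inv,
    Units.val_mul, ← Units.val_pow_eq_pow_val, Units.mul_inv_cancel_left, Units.val_mul]

theorem Hπ (l : (ZMod p)ˣ) (j : ℕ) : D.H l * D.π j = D.φ ((l : ZMod p) ^ j) • D.π j := by
  rw [Dat.π, mul_neg, smul_neg, Finset.mul_sum, Finset.smul_sum, neg_inj,
    ← Equiv.sum_comp (Equiv.mulLeft l) (fun m => D.φ ((l : ZMod p) ^ j) •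
      D.φ (((m⁻¹ : (ZMod p)ˣ) : ZMod p) ^ j) • D.H m)]
  refine Finset.sum_congr rfl fun m _ => ?_
  rw [mul_smul_comm, ← D.Hmul, smul_smul, ← map_mul, ← mul_pow, Equiv.coe_mulLeft, mul_inv,
    Units.val_mul, Units.mul_inv_cancel_left]

theorem Hc (l : (ZMod p)ˣ) (j : ℕ) : D.π j * D.H l = D.H l * D.π j := by
  rw [Dat.π, mul_neg, neg_mul, Finset.mul_sum, Finset.sum_mul, neg_inj]
  refine Finset.sum_congr rfl fun m _ => ?_
  rw [mul_smul_comm, smul_mul_assoc, ← D.Hmul, ← D.Hmul, mul_comm]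

theorem πH (l : (ZMod p)ˣ) (j : ℕ) : D.π j * D.H l = D.φ ((l : ZMod p) ^ j) • D.π j := by
  rw [Hc, Hπ]

theorem eπ (j : ℕ) : D.e * D.π j = D.π (j + 2) * D.e := by
  rw [Dat.π, Dat.π, mul_neg, neg_mul, Finset.mul_sum, Finset.sum_mul, neg_inj]
  refine Finset.sum_congr rfl fun m _ => ?_
  rw [mul_smul_comm, smul_mul_assoc, He, smul_smul, ← map_mul, pow_add, mul_assoc, ← mul_pow,
    Units.inv_mul, one_pow, mul_one]

theorem upow (l : (ZMod p)ˣ) {j k : ℕ} (h : j ≡ k [MOD p - 1]) : (l : ZMod p) ^ j = (l : ZMod p) ^ k := by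
  rw [← Units.val_pow_eq_pow_val, ← Units.val_pow_eq_pow_val, Units.val_inj, pow_eq_pow_iff_modEq]
  exact h.of_dvd (ZMod.card_units p ▸ orderOf_dvd_card)

theorem per (j k : ℕ) (h : j ≡ k [MOD p - 1]) : D.π j = D.π k := by
  rw [Dat.π, Dat.π, neg_inj]
  exact Finset.sum_congr rfl fun m _ => by rw [upow _ h]

theorem ππ' (j k : ℕ) : D.π j * D.π k =
    D.φ (-∑ l : (ZMod p)ˣ, (l : ZMod p) ^ ((p - 2) * j + k)) • D.π k := by
  rw [map_neg, map_sum, neg_smul, Finset.sum_smul]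
  nth_rw 1 [Dat.π]
  rw [neg_mul, Finset.sum_mul, neg_inj]
  refine Finset.sum_congr rfl fun m _ => ?_
  rw [smul_mul_assoc, Hπ, smul_smul, ← map_mul, pow_add, pow_mul]
  congr 4
  rw [← Units.val_pow_eq_pow_val, Units.val_inj, inv_eq_iff_mul_eq_one, ← pow_succ']
  have := hp.out.two_le
  rw [show p - 2 + 1 = p - 1 by omega, ← ZMod.card_units p, pow_card_eq_one]

theorem dv (j k : ℕ) : p - 1 ∣ (p - 2) * j + k ↔ j ≡ k [MOD p - 1] := by
  have := hp.out.two_le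
  have e : (p - 2) * j + j = (p - 1) * j := by rw [← Nat.succ_mul]; congr 1; omega
  have h : (p - 2) * j + j ≡ 0 [MOD p - 1] := e ▸ (Nat.modEq_zero_iff_dvd.2 (dvd_mul_right _ _))
  rw [← Nat.modEq_zero_iff_dvd]
  exact ⟨fun a => Nat.ModEq.add_left_cancel' _ (h.trans a.symm),
    fun a => (a.symm.add_left _).trans h⟩

theorem ππ (j : ℕ) : D.π j * D.π j = D.π j := by
  rw [ππ', FiniteField.sum_pow_units, ZMod.card, if_pos ((dv j j).2 rfl), neg_neg, map_one, one_smul]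

theorem orth (j k : ℕ) (h : ¬ j ≡ k [MOD p - 1]) : D.π j * D.π k = 0 := by
  rw [ππ', FiniteField.sum_pow_units, ZMod.card, if_neg (mt (dv j k).1 h), neg_zero, map_zero, zero_smul]

theorem sum : ∑ j ∈ Finset.range (p - 1), D.π j = 1 := by
  simp only [Dat.π]
  rw [Finset.sum_neg_distrib, Finset.sum_comm, Finset.sum_eq_single 1]
  · have := hp.out.one_le
    simp only [inv_one, Units.val_one, one_pow, map_one, one_smul, D.H1, Finset.sum_const,
      Finset.card_range]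
    rw [← Nat.cast_smul_eq_nsmul K, Nat.cast_sub this, CharP.cast_eq_zero]; simp
  · intro l _ h
    rw [← Finset.sum_smul, ← map_sum]
    have h1 : ((l⁻¹ : (ZMod p)ˣ) : ZMod p) ≠ 1 := fun e => h (inv_eq_one.1 (Units.val_eq_one.1 e))
    rw [geom_sum_eq h1, ZMod.pow_card_sub_one_eq_one (Units.ne_zero _), sub_self, zero_div, map_zero, zero_smul]
  · simp

/-- `EF` from its first three fields -/
theorem ef (h1 : D.e ^ p = 0)
    (h2 : ∀ c, ∃ y ∈ Algebra.adjoin K {D.e}, D.U c = 1 - D.φ c • D.e + D.e * D.e * y)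
    (h3 : ∃ y : A, D.U 1 - 1 = y * D.e) : D.EF :=
  ⟨h1, h2, h3, He D, Hπ D, πH D, eπ D, per D, ππ D, orth D, sum D⟩

end H16.FV
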