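import Cfsg.Agent.H16.M7A1
import Cfsg.Agent.H2.Gaschutz
import Cfsg.Prelude.Def_SporadicB

/-! The Monster from two 7-local subgroups: translation of the hypothesis. -/

set_option autoImplicit false
set_option linter.unusedSectionVars false

open Cfsg Subgroup Equiv
namespace H16.M7
open H19
open scoped commutatorElement

universe u
variable {G : Type u} [Group G] [Finite G] {Q Y A R K : Subgroup G} {g r : G}

theorem zp_lt {n : ℕ} (h : r ^ (n + 1) = 1) (hg : g ∈ zpowers r) : ∃ i < n + 1, g = r ^ i :=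
  have ⟨k, e⟩ := (mem_powers_iff_mem_zpowers.2 hg)
  ⟨_, Nat.mod_lt k n.succ_pos, by rw [← pow_eq_pow_mod k h]; exact e.symm⟩

theorem inv_type {u : A7} (h : u * u = 1) (h1 : u ≠ 1) : u.1.cycleType = Multiset.replicate 2 2 := by
  have o : orderOf u.1 = 2 := by rw [Subgroup.orderOf_coe, orderOf_of_pow Nat.prime_two ((sq u).trans h) h1]
  obtain ⟨k, hk⟩ := Perm.cycleType_prime_order (σ := u.1) (o ▸ Nat.prime_two)
  have h2 := Perm.sum_cycleType_le u.1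
  have h3 := (Perm.sign_of_cycleType u.1).symm.trans (Perm.mem_alternatingGroup.1 u.2)
  rw [hk, o] at h2 h3 ⊢
  simp only [Multiset.sum_replicate, Fintype.card_fin, smul_eq_mul, Multiset.card_replicate] at h2 h3
  obtain rfl | rfl | rfl : k = 0 ∨ k = 1 ∨ k = 2 := by omega
  exacts [absurd h3 (by decide), rfl, absurd h3 (by decide)]

theorem inv_cj {u v : A7} (h : u * u = 1) (h1 : u ≠ 1) (k : v * v = 1) (k1 : v ≠ 1) : IsConj u v :=
  alternatingGroup.isConj_of (Perm.isConj_iff_cycleType_eq.2 ((inv_type h h1).trans (inv_type k k1).symm))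
    (by rw [← Perm.sum_cycleType, inv_type h h1]; decide)

theorem cover (h : IsNonsplitDoubleCover G A7) : ∃ (π : G →* A7) (ζ : G), Function.Surjective π ∧ ζ * ζ = 1 ∧ ζ ≠ 1 ∧
    (∀ g, π g = 1 ↔ g ∈ zpowers ζ) ∧ ∀ g, g * g = 1 → π g = 1 := by
  obtain ⟨c, ⟨e⟩, ns⟩ := h
  let π := e.toMonoidHom.comp (QuotientGroup.mk' _)
  have s : Function.Surjective π := e.surjective.comp (QuotientGroup.mk'_surjective _)
  have k : ∀ g, π g = 1 ↔ g ∈ center G := fun g => e.map_eq_one_iff.trans (QuotientGroup.eq_one_iff _)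
  have z2 : ∀ g ∈ center G, g * g = 1 := fun g hg => by
    rw [← sq, ← orderOf_dvd_iff_pow_eq_one, ← c]; exact orderOf_dvd_card' hg
  obtain ⟨ζ, hζ, z1⟩ := exists_ne_one (ne_bot_iff_one_lt_card.2 (c ▸ one_lt_two))
  refine ⟨π, ζ, s, z2 ζ hζ, z1, fun g => eq_zpowers_of_prime (c ▸ Nat.prime_two) hζ z1 ▸ k g, fun g gg => by_contra fun n => ?_⟩
  have l : ∀ x, π x * π x = 1 → x * x = 1 := fun x xx => by
    by_cases x1 : π x = 1
    · exact z2 x ((k x).1 x1)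
    obtain ⟨σ, e⟩ := isConj_iff.1 (inv_cj (by rw [← map_mul, gg, map_one]) n xx x1)
    obtain ⟨y, rfl⟩ := s σ
    have m := (k (x * (y * g * y⁻¹)⁻¹)).1 (by simp only [map_mul, map_inv, e, mul_inv_cancel])
    have := z2 _ m
    rwa [← mul_assoc, ← mem_center_iff.1 m x, ← mul_assoc, mul_assoc, ← mul_inv_rev, conj_mul, gg, mul_one,
      mul_inv_cancel, inv_one, mul_one] at this
  obtain ⟨a, ea⟩ := s (sw 0 1 2 3)
  obtain ⟨b, eb⟩ := s (sw 0 2 4 5)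
  have aa := l a (by rw [ea]; decide)
  have bb := l b (by rw [eb]; decide)
  have r4 : (a * b) ^ 4 = 1 := by
    rw [show 4 = 2 + 2 from rfl, pow_add]; exact l _ (by rw [map_pow, map_mul, ea, eb]; decide)
  have na : a ∈ N(zpowers (a * b)) := mem_norm_of_cj_le (by
    rw [cj_zpowers, zpowers_le, ← mul_assoc, aa, one_mul, ← inv_mem_iff, mul_inv_rev, inv_inv, inv_self bb]
    exact mem_zpowers _)
  have p : ∀ i < 4, π ((a * b) ^ i * a) ≠ 1 ∧ (π ((a * b) ^ i) = 1 → i = 0) := by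
    simp only [map_mul, map_pow, ea, eb]; decide
  have a1 : a ≠ 1 := fun e => (p 0 (by decide)).1 (by simp [e])
  have d : (zpowers (a * b) ⊔ zpowers a) ⊓ center G = ⊥ := eq_bot_iff.2 fun x hx => by
    have x1 := (k x).2 hx.2
    rcases ker_dec aa na hx.1 with m | m <;> obtain ⟨i, hi, e⟩ := zp_lt r4 m
    · rw [e, (p i hi).2 (e ▸ x1), pow_zero]; exact one_mem _
    · exact ((p i hi).1 (by rwa [← e, mul_assoc, aa, mul_one])).elim
  have := Fact.mk Nat.prime_two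
  have c8 : #(zpowers (a * b) ⊔ zpowers a) = 8 := by
    rw [card_sup_of_disjoint (zpowers_le.2 na) ((inf_comm _ _).trans (inf_eq_bot_of_prime (card2 aa a1 ▸ Nat.prime_two) fun m => ?_)),
      card2 aa a1, Nat.card_zpowers, orderOf_eq_prime_pow (p := 2) (n := 1)
        (fun e => absurd ((p 2 (by decide)).2 (by rw [show (a * b) ^ 2 = 1 from e, map_one])) (by decide)) r4]
    · rfl
    obtain ⟨i, hi, e⟩ := zp_lt r4 (m (mem_zpowers a))
    exact (p i hi).1 (by rw [← e, aa, map_one])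
  have cU := (center G ⊔ (zpowers (a * b) ⊔ zpowers a)).card_mul_index
  rw [card_sup_of_disjoint le_normalizer_of_normal ((inf_comm _ _).trans d), c, c8, card_eq_card_quotient_mul_card_subgroup (center G),
    c, Nat.card_congr e.toEquiv, card_a7] at cU
  obtain ⟨L, hL⟩ := H2.gaschutz_exists (center G) _ le_sup_left
    (by rw [c, show index _ = 315 by omega]; decide) _ d rfl
  exact ns L hL

theorem center_map (Q : Subgroup G) : (center Q).map Q.subtype = Z(Q) := le_antisymm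
  (by rintro _ ⟨x, hx, rfl⟩; exact ⟨x.2, fun y hy => congrArg Subtype.val (mem_center_iff.1 hx ⟨y, hy⟩)⟩)
  fun x hx => ⟨⟨x, hx.1⟩, mem_center_iff.2 fun y => Subtype.ext (hx.2 y y.2), rfl⟩

theorem hx (S : Sylow 7 G) (cZ : #Z(S.1) = 7) (hY : Y = (Subgroup.upperCentralSeries S.1 2).map S.1.subtype) (cY : #Y = 49)
    (hc : centralizer (pCore 7 N(Z(S.1)) : Set N(Z(S.1))) ≤ pCore 7 N(Z(S.1))) (QK : Q ≤ K) (KN : K ≤ N(Z(S.1)))
    (nQ : (Q.subgroupOf N(Z(S.1))).Normal) (nK : (K.subgroupOf N(Z(S.1))).Normal) (es : IsExtraspecial 7 Q) (cQ : #Q = 7 ^ 5)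
    (Q7 : ∀ x ∈ Q, x ^ 7 = 1) [(Q.subgroupOf K).Normal] (dc : IsNonsplitDoubleCover (K ⧸ Q.subgroupOf K) A7)
    (iK : K.relIndex N(Z(S.1)) = 6) (AR : A ≤ R) (RN : R ≤ N(Y)) (nA : (A.subgroupOf N(Y)).Normal)
    (nR : (R.subgroupOf N(Y)).Normal) (cA : #A = 7 ^ 3) (cR : #R = 7 ^ 5) (hO : pCore 7 ↥(N(Z(S.1)) ⊔ N(Y)) = ⊥) :
    ∃ z t ψ, Hx S Q Y A R K z t ψ := by
  have := Fact.mk p7
  have syl := syl_sylow_top S
  have pZ : (#Z(S.1)).Prime := by rw [cZ]; exact p7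
  obtain ⟨z, hz, z1⟩ := exists_ne_one (ne_bot_of_prime pZ)
  have e2 := eq_zpowers_of_prime pZ hz z1
  have NQ := (normal_subgroupOf_iff_le_normalizer (QK.trans KN)).1 nQ
  have NK := (normal_subgroupOf_iff_le_normalizer KN).1 nK
  have SN : S.1 ≤ N(Z(S.1)) := (center_normal _).norm
  obtain ⟨π, ζ, s, z2, ζ1, k, ns⟩ := cover dc
  obtain ⟨ψ, ph, eψ⟩ := exists_PH (π.comp (QuotientGroup.mk' _))
  obtain ⟨t₀, rfl⟩ := QuotientGroup.mk'_surjective _ ζ
  have t2 : (t₀ : G) * t₀ ∈ Q := (QuotientGroup.eq_one_iff (t₀ * t₀)).1 z2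
  have e7 : QuotientGroup.mk' (Q.subgroupOf K) (t₀ ^ 7) = QuotientGroup.mk' _ t₀ := by
    rw [map_pow, show 7 = 2 * 3 + 1 from rfl, pow_succ, pow_mul, sq, z2, one_pow, one_mul]
  have tt : (t₀ ^ 7 : K).1 * (t₀ ^ 7 : K).1 = 1 := by rw [coe_pow, ← (Commute.refl _).mul_pow, Q7 _ t2]
  rw [← e7] at k ζ1
  generalize t₀ ^ 7 = t at tt k ζ1
  have ψk : ∀ g ∈ K, ψ g = 1 ↔ g ∈ Q ⊔ zpowers t.1 := fun g hg => ⟨fun e => ?_, fun m => (ph.mem_pre.1
    ((sup_le (fun q hq => ph.mem_pre.2 ⟨QK hq, (eψ ⟨q, QK hq⟩).trans (by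
      rw [MonoidHom.comp_apply, QuotientGroup.mk'_apply, (QuotientGroup.eq_one_iff (N := Q.subgroupOf K) _).2 hq, map_one])⟩)
      (zpowers_le.2 (ph.mem_pre.2 ⟨t.2, (eψ t).trans ((k _).2 (mem_zpowers _))⟩)) : _ ≤ pre ph.hom ⊥) m)).2⟩
  swap
  · obtain ⟨i, e⟩ := (k _).1 ((eψ ⟨g, hg⟩).symm.trans e)
    have m : (g⁻¹ * t ^ i) ∈ Q := (QuotientGroup.eq (s := Q.subgroupOf K)).1 (e.symm.trans (map_zpow _ t i).symm)
    simpa using mul_mem (mem_sup_right (zpow_mem_zpowers t.1 i)) (inv_mem (mem_sup_left m))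
  have ψs : ∀ σ, ∃ g ∈ K, ψ g = σ := fun σ =>
    have ⟨g, e⟩ := (s.comp (QuotientGroup.mk'_surjective _)) σ; ⟨g, g.2, (eψ g).trans e⟩
  have Qp := pg7 cQ
  have Q1 : Q ≠ ⊥ := ne_bot_iff_one_lt_card.2 (cQ ▸ by decide)
  have QO := le_Oc ⟨QK.trans KN, NQ⟩ Qp
  have OQ : Oc {7} N(Z(S.1)) ≤ Q := by
    have := simple7
    have p := Oc_pi {7} N(Z(S.1))
    have l := le_of_pi_of_relIndex ((Oc_le _ _).trans NK) KN (Oc_le _ _) p (iK ▸ PiN.of_not_dvd (by decide))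
    have n := ((Oc_normal {7} N(Z(S.1))).of_le l KN).im ph.hom
    rw [ph.im_top ψs] at n
    have e := n.normal.eq_bot_or_eq_top.resolve_right fun e => by
      have := p.im ph.hom
      rw [e, PiG, card_top, card_a7] at this
      exact absurd (this 2 Nat.prime_two (by decide)) (by decide)
    exact fun g hg => ker7 tt (NQ (KN t.2)) ((ψk g (l hg)).1 (mem_bot.1 (e.le (ph.mem_im.2 ⟨g, hg, l hg, rfl⟩)))) (p.elt hg)
  have c7 : #Z(Q) = 7 := by rw [← center_map, card_map_of_injective (subtype_injective _), es.2]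
  have QS := syl.le_of_norm' le_top Qp (SN.trans NQ)
  have e1 : Z(Q) = Z(S.1) := eq_of_le_of_card_eq (le_of_prime_of_inf_ne_bot (c7 ▸ p7) (ne_bot_mono
    (le_inf inf_le_left (inf_le_inf_right _ (inf_le_left.trans QS)))
    ((Qp.infl _).meet_cent syl.pi ((SN.trans NQ).trans (norm_le_norm_center Q)) (Qp.center_ne_bot Q1)))) (c7.trans cZ.symm)
  refine ⟨z, t, ψ, syl, e2, Q7 z (e1.ge hz).1, z1, cQ, Q7, fun a ha b hb => ?_, fun g hg => ?_, e2 ▸ NQ, QK, e2 ▸ ⟨KN, NK⟩,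
    e2 ▸ iK, ph, ψs, tt, fun e => ζ1 (by rw [show t = 1 from Subtype.ext e, map_one]), ψk, t.2, fun g hg gg => (eψ ⟨g, hg⟩).trans (ns _ ?_),
    fun y => ?_, AR, cY, cA, cR, (normal_subgroupOf_iff_le_normalizer (AR.trans RN)).1 nA,
    (normal_subgroupOf_iff_le_normalizer RN).1 nR, fun n => Q1 (H19.eq_bot_mono QO ?_)⟩
  · rw [e2, ← e1, ← center_map, ← es.1.2.2]
    exact ⟨⁅(⟨a, ha⟩ : Q), (⟨b, hb⟩ : Q)⁆, commutator_mem_commutator (mem_top _) (mem_top _), rfl⟩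
  · have m : g ∈ N(Z(S.1)) := cent_le_norm _ (cent_mono (e1.ge.trans inf_le_left) hg)
    have l := (pCore_map_eq p7 _).le.trans OQ
    exact e2.ge (e1.le ⟨l ⟨⟨g, m⟩, hc fun x hx => Subtype.ext (hg _ (l ⟨x, hx, rfl⟩)), rfl⟩, hg⟩)
  · exact (map_mul _ _ _).symm.trans ((QuotientGroup.eq_one_iff _).2 gg)
  · rw [hY, e2, ← center_map, ← Subgroup.upperCentralSeries_one]
    exact ⟨fun ⟨x, hx, e⟩ => e ▸ ⟨x.2, fun s hs => ⟨_, Subgroup.mem_upperCentralSeries_succ_iff.1 hx ⟨s, hs⟩, rfl⟩⟩, fun ⟨hy, k⟩ =>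
      ⟨⟨y, hy⟩, Subgroup.mem_upperCentralSeries_succ_iff.2 fun s => (mem_map_iff_mem (subtype_injective _)).1 (k s s.2), rfl⟩⟩
  · rw [← sup_eq_left.2 (show N(Y) ≤ N(Z(S.1)) from e2 ▸ n), ← pCore_map_eq p7, hO, Subgroup.map_bot]

end H16.M7
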