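import Cfsg.Agent.H16.M7S1
import Cfsg.Agent.H1.Frattini

/-! The Monster from two 7-local subgroups: first consequences of the hypothesis. -/

set_option autoImplicit false
set_option linter.unusedSectionVars false

open Cfsg Subgroup
namespace H16.M7
open H19
open scoped commutatorElement

universe u
variable {G : Type u} [Group G] [Finite G] {S Q Y A B R K T U : Subgroup G} {z t a b c f g n q s u y β : G} {ψ : G → A7}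

local notation "𝔷" => zpowers z

theorem pg7 {k : ℕ} (h : #U = 7 ^ k) : PG 7 U := PiN.of_card_pow p7 h
theorem cmt_inv_mem (h : ⁅a, b⁆ ∈ U) : ⁅b, a⁆ ∈ U := by rw [← commutatorElement_inv]; exact inv_mem h
theorem cmt_one (h : a * b = b * a) : ⁅a, b⁆ = 1 := commutatorElement_eq_one_iff_mul_comm.2 h
theorem conj_eq (g b : G) : g * b * g⁻¹ = ⁅g, b⁆ * b := by simp [commutatorElement_def]
theorem zpw {n : ℕ} (h : z ^ n = 1) (hc : c ∈ 𝔷) : c ^ n = 1 := by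
  obtain ⟨i, rfl⟩ := hc
  rw [← zpow_natCast, zpow_comm, zpow_natCast, h, one_zpow]
theorem zcm (hg : g ∈ C[z]) (hc : c ∈ 𝔷) : g * c = c * g := mem_cent1.1 (cent1_le_cent1_of_mem_zpowers hc hg)
theorem simple7 : IsSimpleGroup A7 := alternatingGroup.isSimpleGroup (by simp)

theorem sup_eq7 (hS : PG 7 S) (hQ : Q ≤ S) (c : #S ≤ #Q * 7) (ha : a ∈ S) (n : a ∉ Q) : Q ⊔ zpowers a = S :=
  have l := sup_le hQ (zpowers_le.2 ha)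
  eq_of_le_of_card_ge l (c.trans ((hS.of_le l).card_mul_le (left_lt_sup.2 (mt zpowers_le.1 n))))

/-- a group acting on a coset of a section of order seven -/
theorem cos (i : A.relIndex B = 7) (hB : B ≤ N(A)) (h1 : ∀ τ ∈ T, ⁅b, τ⁆ ∈ B) (h2 : ∀ τ ∈ T, ∀ β ∈ B, ⁅τ, β⁆ ∈ A)
    (n : ¬ ∀ τ ∈ T, ⁅b, τ⁆ ∈ A) (hβ : β ∈ B) : ∃ τ ∈ T, ⁅b, τ⁆⁻¹ * β ∈ A := by
  let f : T →* Quo A := .mk' (fun τ => qmk A ⟨_, hB (h1 τ τ.2)⟩) fun σ τ => by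
    rw [← map_mul]
    refine qmk_eq.2 ?_
    have := h2 σ σ.2 _ (inv_mem (h1 τ τ.2))
    convert this using 1
    simp only [commutatorElement_def, coe_mul]; group
  have l : f.range ≤ quo A B := by rintro _ ⟨τ, rfl⟩; exact mem_im_of (h1 τ τ.2)
  rcases eq_bot_or_eq_of_prime (by rw [card_quo hB, i]; exact p7) l with e | e
  · exact (n fun τ hτ => qmk_eq_one.1 (mem_bot.1 (e.le ⟨⟨τ, hτ⟩, rfl⟩))).elim
  · obtain ⟨τ, e⟩ := e.ge (mem_im_of (x := ⟨β, hB hβ⟩) hβ)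
    exact ⟨τ, τ.2, qmk_eq.1 e⟩

theorem cos1 (z7 : z ^ 7 = 1) (z1 : z ≠ 1) (hT : T ≤ C[z]) (h1 : ∀ τ ∈ T, ⁅b, τ⁆ ∈ 𝔷) (n : ¬ T ≤ C[b]) (hc : c ∈ 𝔷) :
    ∃ τ ∈ T, τ * b * τ⁻¹ = c * b := by
  obtain ⟨τ, h, e⟩ := cos (A := ⊥) (by rw [relIndex_bot_left, card7 z7 z1]) (norm_bot (G := G) ▸ le_top) h1
    (fun τ hτ β hβ => cmt_one (zcm (hT hτ) hβ))
    (fun k => n fun τ hτ => mem_cent1.2 (commutatorElement_eq_one_iff_mul_comm.1 (k τ hτ)).symm) (inv_mem hc)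
  exact ⟨τ, h, by rw [conj_eq, ← commutatorElement_inv, mul_inv_eq_one.1 (mem_bot.1 e)]⟩

theorem idx7 (i : A.relIndex B = 7) (hB : B ≤ N(A)) (hS : PG 7 S) (h1 : S ≤ N(A)) (h2 : S ≤ N(B)) (hb : b ∈ B)
    (hs : s ∈ S) : ⁅b, s⁆ ∈ A := by
  have c := (card_quo hB).trans i
  have p : (#(quo A B)).Prime := c ▸ p7
  have l := (PiN.of_card p7 c).commg_lt (hS.quo A) (quo_norms h2) (ne_bot_of_prime p)
  exact (quo_cents_iff hB h1).1 (commg_eq_bot.1 ((eq_bot_or_eq_of_prime p l.le).resolve_right l.ne))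
    (commutator_mem_commutator hb hs)

theorem rel7 {k : ℕ} (h : A ≤ B) (h1 : #A = 7 ^ k) (h2 : #B = 7 ^ (k + 1)) : A.relIndex B = 7 := by
  have := card_mul_relIndex h
  rw [h1, h2, pow_succ] at this
  exact Nat.eq_of_mul_eq_mul_left (by positivity) this

theorem cmt_cent (ha : a ∈ N(𝔷)) (hb : b ∈ N(𝔷)) : ⁅a, b⁆ ∈ C[z] := by
  obtain ⟨i, e1⟩ := conj_mem_of_norm ha (mem_zpowers z)
  obtain ⟨j, e2⟩ := conj_mem_of_norm hb (mem_zpowers z)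
  have : a * b * z * (a * b)⁻¹ = b * a * z * (b * a)⁻¹ := by
    rw [cjm, cjm, ← e2, ← conj_zpow, ← e1, ← conj_zpow, ← e2, zpow_comm]
  have e : (b * a)⁻¹ * (a * b) ∈ C[z] := mem_cent1.2 (by
    calc _ = (b * a)⁻¹ * (a * b * z * (a * b)⁻¹) * (a * b) := by group
      _ = _ := by rw [this]; group)
  have := conj_mem_of_norm (cent_zpowers z ▸ norm_le_norm_cent 𝔷 (mul_mem hb ha)) e
  convert this using 1
  simp only [commutatorElement_def]; group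

/-- the hypothesis -/
structure Hx (S Q Y A R K : Subgroup G) (z t : G) (ψ : G → A7) : Prop where
  syl : Syl 7 S ⊤
  zS : zpowers z = Z(S)
  z7 : z ^ 7 = 1
  z1 : z ≠ 1
  cQ : #Q = 7 ^ 5
  Q7 : ∀ q ∈ Q, q ^ 7 = 1
  Qc : ∀ a ∈ Q, ∀ b ∈ Q, ⁅a, b⁆ ∈ zpowers z
  CQ : C(Q) ≤ zpowers z
  NQ : N(zpowers z) ≤ N(Q)
  QK : Q ≤ K
  KN : K ⊴ N(zpowers z)
  iK : K.relIndex N(zpowers z) = 6
  ph : PH K ψ
  ψs : ∀ σ, ∃ g ∈ K, ψ g = σ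
  tt : t * t = 1
  t1 : t ≠ 1
  ψk : ∀ g ∈ K, ψ g = 1 ↔ g ∈ Q ⊔ zpowers t
  tK : t ∈ K
  ns : ∀ g ∈ K, g * g ∈ Q → ψ g = 1
  Ym : ∀ y, y ∈ Y ↔ y ∈ S ∧ ∀ s ∈ S, ⁅y, s⁆ ∈ zpowers z
  AR : A ≤ R
  cY : #Y = 49
  cA : #A = 343
  cR : #R = 7 ^ 5
  nA : N(Y) ≤ N(A)
  nR : N(Y) ≤ N(R)
  nN : ¬ N(Y) ≤ N(zpowers z)

theorem ker_dec (tt : t * t = 1) (hn : t ∈ N(Q)) (hg : g ∈ Q ⊔ zpowers t) : g ∈ Q ∨ g * t ∈ Q := by
  obtain ⟨q, hq, _, ⟨i, rfl⟩, rfl⟩ := (mem_sup_of_norm (zpowers_le.2 hn)).1 hg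
  have k : ∀ j : ℤ, t ^ (j + j) = 1 := fun j => by rw [← two_mul, zpow_mul, zpow_two, tt, one_zpow]
  rcases Int.even_or_odd i with ⟨j, rfl⟩ | ⟨j, rfl⟩
  · exact .inl (by simpa only [k, mul_one])
  · exact .inr (by simpa only [two_mul, zpow_add_one, k, one_mul, mul_assoc, tt, mul_one])

theorem ker_sq (tt : t * t = 1) (hn : t ∈ N(Q)) (hg : g ∈ Q ⊔ zpowers t) : g * g ∈ Q := by
  rcases ker_dec tt hn hg with e | e
  · exact mul_mem e e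
  · have := mul_mem e (conj_mem_of_norm hn e)
    rwa [show g * t * (t * (g * t) * t⁻¹) = g * (t * t) * g by group, tt, mul_one] at this

theorem ker7 (tt : t * t = 1) (hn : t ∈ N(Q)) (hg : g ∈ Q ⊔ zpowers t) (p : PiE {7} g) : g ∈ Q :=
  have ⟨n, e⟩ := pe_pow p
  mem_cop (m := 2) (Nat.Coprime.pow_right n (by decide)) (sq g ▸ ker_sq tt hn hg) (e ▸ one_mem _)

namespace Hx
variable (h : Hx S Q Y A R K z t ψ)
include h

theorem cz : #𝔷 = 7 := card7 h.z7 h.z1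
theorem Sp : PG 7 S := h.syl.pi
theorem Qp : PG 7 Q := pg7 h.cQ
theorem zSm : z ∈ S := (h.zS.le (mem_zpowers z)).1
theorem Sz : S ≤ C[z] := le_cent1_iff.2 (h.zS.le (mem_zpowers z)).2
theorem SN : S ≤ N(𝔷) := h.Sz.trans (cent1_le_norm_zpowers z)
theorem leS (hU : PG 7 U) (hn : S ≤ N(U)) : U ≤ S := h.syl.le_of_norm' le_top hU hn
theorem QS : Q ≤ S := h.leS h.Qp (h.SN.trans h.NQ)
theorem Qz : Q ≤ C[z] := h.QS.trans h.Sz
theorem QN : Q ≤ N(𝔷) := h.QS.trans h.SN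
theorem KQ : K ≤ N(Q) := h.KN.le.trans h.NQ
theorem SK : S ≤ K := le_of_pi_of_relIndex (h.KN.norms h.SN) h.KN.le h.SN h.Sp (h.iK ▸ PiN.of_not_dvd (by decide))
theorem cjQ (hg : g ∈ K) (hq : q ∈ Q) : g * q * g⁻¹ ∈ Q := conj_mem_of_norm (h.KQ hg) hq
theorem ψ1 (hq : q ∈ Q) : ψ q = 1 := (h.ψk q (h.QK hq)).2 (mem_sup_left hq)
theorem ψt : ψ t = 1 := (h.ψk t h.tK).2 (mem_sup_right (mem_zpowers t))
theorem dec (hg : g ∈ K) (e : ψ g = 1) : g ∈ Q ∨ g * t ∈ Q := ker_dec h.tt (h.KQ h.tK) ((h.ψk g hg).1 e)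
theorem k7 (hg : g ∈ K) (e : ψ g = 1) (p : PiE {7} g) : g ∈ Q := ker7 h.tt (h.KQ h.tK) ((h.ψk g hg).1 e) p
theorem one2 (hu : u ∈ Q) (uu : u * u = 1) : u = 1 := eq_one_cop (m := 2) (by decide) ((sq u).trans uu) (h.Q7 u hu)
theorem QF (hq : q ∈ Q) : Q ≤ FX 𝔷 q := fun _ hb => ⟨h.QN hb, h.Qc _ hq _ hb⟩
theorem ZQ : 𝔷 ≤ Q := le_of_prime_of_inf_ne_bot (h.cz ▸ p7) (ne_bot_mono
  (le_inf (h.zS ▸ inf_le_inf_right _ h.QS) inf_le_left)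
  (h.Qp.meet_cent h.Sp (h.SN.trans h.NQ) (ne_bot_iff_one_lt_card.2 (h.cQ ▸ by decide))))
theorem zQ : z ∈ Q := h.ZQ (mem_zpowers z)
theorem QZ : ¬ Q ≤ 𝔷 := fun e => absurd (card_le e) (by rw [h.cQ, h.cz]; decide)

theorem Kz : K ≤ C[z] := by
  have := simple7
  have l : ⁅K, K⁆ ≤ C[z] := commutator_le.2 fun a ha b hb => cmt_cent (h.KN.le ha) (h.KN.le hb)
  have e : im h.ph.hom ⁅K, K⁆ = ⊤ := by
    rw [im_comm le_rfl le_rfl, h.ph.im_top h.ψs]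
    exact (IsSimpleGroup.eq_bot_or_eq_top_of_normal _ inferInstance).resolve_left fun e =>
      absurd (mem_cent.1 (commg_eq_bot.1 e (mem_top (sw 0 1 1 2))) (sw 0 1 2 3) trivial) (by decide)
  have k : ∀ σ, ∃ g ∈ K, g ∈ C[z] ∧ ψ g = σ := fun σ =>
    have ⟨g, h1, h2, h3⟩ := h.ph.mem_im.1 (e.ge (mem_top σ)); ⟨g, h2, l h1, h3⟩
  have ht : t ∈ C[z] := by
    obtain ⟨g, h1, h2, h3⟩ := k (sw 0 1 2 3)
    have := (h.dec (mul_mem h1 h1) (by rw [h.ph.mul h1 h1, h3]; decide)).resolve_left fun e =>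
      absurd (h3 ▸ h.ns g h1 e) (by decide)
    exact (Subgroup.mul_mem_cancel_left _ (mul_mem h2 h2)).1 (h.Qz this)
  intro g hg
  obtain ⟨c, h1, h2, h3⟩ := k (ψ g)
  exact (Subgroup.mul_mem_cancel_right _ (inv_mem h2)).1 (sup_le h.Qz (zpowers_le.2 ht)
    ((h.ψk _ (mul_mem hg (inv_mem h1))).1 (h.ph.div hg h1 h3.symm)))

theorem cK : #K = 7 ^ 5 * 5040 := by
  have l := sup_le h.QK (zpowers_le.2 h.tK)
  rw [h.ph.card le_rfl h.ψk, h.ph.im_top h.ψs, inf_eq_left.2 l, card_top, card_a7,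
    card_sup_of_disjoint (zpowers_le.2 (h.KQ h.tK)) (inf_eq_bot_of_cop (by rw [h.cQ, card2 h.tt h.t1]; decide)),
    h.cQ, card2 h.tt h.t1]
  rfl

theorem cS : #S = 7 ^ 6 := by
  have s := h.syl.of_le h.SK le_top
  obtain ⟨k, e⟩ := h.Sp.exists_card
  refine Nat.dvd_antisymm ?_ (s.dvd (PiN.prime_pow p7 6) (h.cK ▸ by decide))
  exact (h.Sp.coprime (n := 720) (PiN.of_not_dvd (by decide))).dvd_of_dvd_mul_right ((card_dvd h.SK).trans h.cK.dvd)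

theorem SQ (ha : a ∈ S) (n : a ∉ Q) : Q ⊔ zpowers a = S := sup_eq7 h.Sp h.QS (by rw [h.cS, h.cQ]; decide) ha n

theorem nab (hU : U ≤ Q) (c : 7 ^ 4 ≤ #U) : ¬ Ab U := fun ab => by
  have k : ∀ q ∈ Q, U ⊔ zpowers q = Q → False := fun q hq e => by
    have h2 := FX_idx (hU.trans (h.QF hq))
    have h3 : C[q] ⊓ U ≤ 𝔷 := le_trans (by
      rw [← e, cent_sup, cent_zpowers]
      exact le_inf (inf_le_right.trans (comm_iff_le_cent.1 ab)) inf_le_left) h.CQ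
    have := card_le h3
    rw [h.cz] at this h2; omega
  by_cases e : Q ≤ U
  · exact k 1 Q.one_mem (by simp [le_antisymm hU e])
  obtain ⟨q, hq, n⟩ := SetLike.not_le_iff_exists.1 e
  exact k q hq (sup_eq7 h.Qp hU (by rw [h.cQ]; omega) hq n)

theorem unip (hg : g ∈ K) (e : Q ≤ FX 𝔷 g) : g ^ 7 ∈ 𝔷 := h.CQ (mem_cent.2 fun q hq => by
  have k : ∀ n : ℕ, g ^ n * q * (g ^ n)⁻¹ = ⁅g, q⁆ ^ n * q := fun n => by
    induction n with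
    | zero => simp
    | succ n ih => rw [pow_succ', cjm, ih, ← conj_mul, conj_of_comm (zcm (h.Kz hg) (pow_mem (e hq).2 n)), conj_eq,
        pow_succ, mul_assoc]
  exact (comm_of_conj ((k 7).trans (by rw [zpw h.z7 (e hq).2, one_mul]))).symm)

theorem KV (hg : g ∈ K) (e : Q ≤ FX 𝔷 g) : ψ g = 1 := by
  have := simple7
  let L : Subgroup G := K ⊓ ⨅ q : Q, FX 𝔷 q
  have m : ∀ {g}, g ∈ L ↔ g ∈ K ∧ Q ≤ FX 𝔷 g := fun {g} => and_congr_right fun hg => mem_iInf.trans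
    ⟨fun k q hq => ⟨h.QN hq, cmt_inv_mem (k ⟨q, hq⟩).2⟩, fun k q => ⟨h.KN.le hg, cmt_inv_mem (k q.2).2⟩⟩
  have n : L ⊴ K := ⟨inf_le_left, fun k hk => mem_norm_of_cj_le fun _ hx => by
    obtain ⟨g, hg, rfl⟩ := mem_cj'.1 hx
    refine m.2 ⟨mul_mem (mul_mem hk hg.1) (inv_mem hk), fun q hq => ?_⟩
    simpa [mul_assoc] using FX_conj (h.KN.le hk) ((m.1 hg).2 (conj_mem_of_norm' (h.KQ hk) hq))⟩
  have n' := n.im h.ph.hom
  rw [h.ph.im_top h.ψs] at n'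
  rcases n'.normal.eq_bot_or_eq_top with e' | e'
  · exact mem_bot.1 (e'.le (h.ph.mem_im.2 ⟨g, m.2 ⟨hg, e⟩, hg, rfl⟩))
  · obtain ⟨c, h1, h2, h3⟩ := h.ph.mem_im.1 (e'.ge (mem_top (sw 0 1 2 3)))
    have := h.ψ1 (h.ZQ (h.unip h2 (m.1 h1).2))
    rw [h.ph.pow h2, h3] at this
    exact absurd this (by decide)

theorem irr (h1 : 𝔷 ≤ U) (h2 : U ≤ Q) (hn : K ≤ N(U)) : U = 𝔷 ∨ U = Q := by
  have := Fact.mk Nat.prime_five
  obtain ⟨f, hf, o⟩ := exists_orderOf_eq_prime Nat.prime_five (h.cK ▸ by decide : 5 ∣ #K)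
  have hp : IsPGroup 5 (zpowers f) := .of_card (n := 1) (by rw [Nat.card_zpowers, o]; rfl)
  have zc : 𝔷 ≤ C(zpowers f) := fun c hc => by rw [cent_zpowers]; exact mem_cent1.2 (zcm (h.Kz hf) hc).symm
  have k : ∀ {U}, 𝔷 ≤ U → U ≤ Q → #U % 5 = 2 → U = 𝔷 ∨ U = Q := fun {U} h1 h2 e => by
    obtain ⟨k, hk, e'⟩ := (Nat.dvd_prime_pow p7).1 ((card_dvd h2).trans h.cQ.dvd)
    rw [e'] at e
    interval_cases k <;> simp at e
    exacts [.inl (eq_of_le_of_card_eq h1 (h.cz.trans e'.symm)).symm,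
      .inr (eq_of_le_of_card_eq h2 (e'.trans h.cQ.symm))]
  have e1 := H1.card_modEq_card_inf_centralizer hp (zpowers_le.2 (h.KQ hf))
  rw [h.cQ] at e1
  have e2 : Q ⊓ C(zpowers f) = 𝔷 := (k (le_inf h.ZQ zc) inf_le_left e1.symm).resolve_right fun e => by
    have := orderOf_dvd_of_pow_eq_one (zpw h.z7 (h.CQ (cents_symm (e.ge.trans inf_le_right) (mem_zpowers f))))
    rw [o] at this
    exact absurd this (by decide)
  have e3 := H1.card_modEq_card_inf_centralizer hp (zpowers_le.2 (hn hf))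
  rw [show U ⊓ C(zpowers f) = 𝔷 from le_antisymm ((inf_le_inf_right _ h2).trans e2.le) (le_inf h1 zc), h.cz] at e3
  exact k h1 h2 e3

theorem YS : Y ≤ S := fun y hy => ((h.Ym y).1 hy).1
theorem Yc (hy : y ∈ Y) (hs : s ∈ S) : ⁅y, s⁆ ∈ 𝔷 := ((h.Ym y).1 hy).2 s hs
theorem zY : z ∈ Y := (h.Ym z).2 ⟨h.zSm, fun _ hs => cmt_one (mem_cent1.1 (h.Sz hs)).symm ▸ one_mem _⟩
theorem ZY : 𝔷 ≤ Y := zpowers_le.2 h.zY
theorem SY : S ≤ N(Y) := norms_of_commg_le ((commutator_le.2 fun _ hy _ hs => h.Yc hy hs).trans h.ZY)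
theorem YQ : Y ≤ Q := fun _ hy => h.k7 (h.SK (h.YS hy))
  (h.KV (h.SK (h.YS hy)) fun _ hq => ⟨h.QN hq, h.Yc hy (h.QS hq)⟩) (h.Sp.elt (h.YS hy))
theorem Yab : Ab Y := ab_of_card_sq p7 h.cY.dvd
theorem Zm (hy : y ∈ S) (e : S ≤ C[y]) : y ∈ 𝔷 := h.zS.ge ⟨hy, le_cent1_iff.1 e⟩

theorem trans (hT : ∀ n ∈ N(Y), ∀ s ∈ S, ∃ τ ∈ T, ∀ y ∈ Y, τ * y * τ⁻¹ = n * s * n⁻¹ * y * (n * s * n⁻¹)⁻¹) (hy : y ∈ Y)
    (y1 : y ≠ 1) : ∃ g ∈ T, g * z * g⁻¹ = y := by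
  obtain ⟨n, hn, nn⟩ := SetLike.not_le_iff_exists.1 h.nN
  have k : ∀ n ∈ N(Y), ∀ y ∈ Y, y ∉ cj n 𝔷 → ∀ c ∈ cj n 𝔷, ∃ τ ∈ T, τ * y * τ⁻¹ = c * y := fun n hn y hy ny c hc => by
    have m := conj_mem_of_norm' hn hy
    obtain ⟨s, hs, e⟩ := cos1 h.z7 h.z1 h.Sz (fun _ hs => h.Yc m hs) (fun e => ny (mem_cj.2 (h.Zm (h.YS m) e))) (mem_cj.1 hc)
    obtain ⟨τ, hτ, e'⟩ := hT n hn s hs
    refine ⟨τ, hτ, (e' y hy).trans ?_⟩
    calc _ = n * (s * (n⁻¹ * y * n) * s⁻¹) * n⁻¹ := by group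
      _ = _ := by rw [e]; group
  have c1 : cj (1 : G) 𝔷 = 𝔷 := cj_of_mem (one_mem _)
  have l := cj_le_of_mem_norm hn h.ZY
  have d : 𝔷 ⊓ cj n 𝔷 = ⊥ := inf_eq_bot_of_prime (h.cz ▸ p7) fun e => nn (mem_norm_of_le_cj e)
  have nz := norms_of_comm h.Yab l h.ZY
  have e : 𝔷 ⊔ cj n 𝔷 = Y := eq_of_le_of_card_eq (sup_le h.ZY l) (by rw [card_sup_of_disjoint nz d, card_cj, h.cz, h.cY])
  have k1 : ∀ y ∈ Y, y ∉ 𝔷 → ∃ g ∈ T, g * z * g⁻¹ = y := fun y hy ny => by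
    obtain ⟨c, hc, c', hc', rfl⟩ := (mem_sup_of_norm nz).1 (e.ge hy)
    obtain ⟨τ, hτ, e1⟩ := k n hn z h.zY (fun m => h.z1 (mem_bot.1 (d.le ⟨mem_zpowers z, m⟩))) c' hc'
    obtain ⟨σ, hσ, e2⟩ := k 1 (one_mem _) _ (mul_mem (l hc') h.zY) (fun m => ny (mul_mem hc
      ((Subgroup.mul_mem_cancel_right _ (mem_zpowers z)).1 (c1.le m)))) (c * z⁻¹) (c1.ge (mul_mem hc (inv_mem (mem_zpowers z))))
    exact ⟨_, mul_mem hσ hτ, by rw [cjm, e1, e2, mul_comm_of_comm h.Yab (l hc') h.zY]; group⟩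
  by_cases m : y ∈ 𝔷
  swap; · exact k1 y hy m
  have mz : n * z * n⁻¹ ∈ cj n 𝔷 := conj_mem_cj.2 (mem_zpowers z)
  obtain ⟨τ, hτ, e1⟩ := k n hn y hy (fun m' => y1 (mem_bot.1 (d.le ⟨m, m'⟩))) _ mz
  obtain ⟨σ, hσ, e2⟩ := k1 _ (mul_mem (l mz) hy) fun m' => h.z1 (conj_eq_one_iff.1
    (mem_bot.1 (d.le ⟨(Subgroup.mul_mem_cancel_right _ m).1 m', mz⟩)))
  exact ⟨_, mul_mem (inv_mem hτ) hσ, by rw [cjm, e2, ← e1]; group⟩

theorem trN (hy : y ∈ Y) (y1 : y ≠ 1) : ∃ g ∈ N(Y), g * z * g⁻¹ = y :=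
  h.trans (fun _ hn _ hs => ⟨_, mul_mem (mul_mem hn (h.SY hs)) (inv_mem hn), fun _ _ => rfl⟩) hy y1

theorem Yle (hn : N(Y) ≤ N(U)) (hz : z ∈ U) : Y ≤ U := fun y hy => by
  by_cases y1 : y = 1
  · exact y1 ▸ one_mem U
  obtain ⟨g, hg, rfl⟩ := h.trN hy y1
  exact conj_mem_of_norm (hn hg) hz

theorem Keq : K = C[z] := by
  have l := cent1_le_norm_zpowers z
  have h1 : ((𝔷 : Set G) \ {1}).ncard ≤ C[z].relIndex N(𝔷) := orb_card N(𝔷) z ▸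
    Set.ncard_le_ncard (fun y hy => have ⟨g, _, e⟩ := h.trN (h.ZY hy.1) hy.2
      ⟨g, mem_norm_of_cj_le (by rw [cj_zpowers, e]; exact zpowers_le.2 hy.1), e⟩) (Set.toFinite _)
  rw [Set.ncard_sdiff_singleton_of_mem (one_mem _), ← Nat.card_coe_set_eq] at h1
  have h2 := relIndex_mul_relIndex K C[z] N(𝔷) h.Kz l
  have h3 := relIndex_pos K C[z]
  have h4 : Nat.card (𝔷 : Set G) = 7 := h.cz
  rw [h.iK] at h2
  rw [h4] at h1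
  exact le_antisymm h.Kz (relIndex_eq_one.1 (by nlinarith))

theorem Ap : PG 7 A := pg7 (k := 3) h.cA
theorem AS : A ≤ S := h.leS h.Ap (h.SY.trans h.nA)
theorem RS : R ≤ S := h.leS (pg7 h.cR) (h.SY.trans h.nR)
theorem YA : Y ≤ A := h.Yle h.nA (le_of_prime_of_inf_ne_bot (h.cz ▸ p7) (ne_bot_mono
  (le_inf (h.zS ▸ inf_le_inf_right _ h.AS) inf_le_left)
  (h.Ap.meet_cent h.Sp (h.SY.trans h.nA) (ne_bot_iff_one_lt_card.2 (h.cA ▸ by decide)))) (mem_zpowers z))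
theorem Ac (ha : a ∈ A) (hs : s ∈ S) : ⁅a, s⁆ ∈ Y :=
  idx7 (rel7 (k := 2) h.YA h.cY h.cA) (h.AS.trans h.SY) h.Sp h.SY (h.SY.trans h.nA) ha hs

theorem AQ : A ≤ Q := fun a ha => by_contra fun n => by
  have h1 := FX_idx (X := Q) fun q hq => ⟨h.SY (h.QS hq), h.Ac ha (h.QS hq)⟩
  have h2 : C[a] ⊓ Q ≤ Y := fun q hq => (h.Ym q).2 ⟨h.QS hq.2, fun s hs => (sup_le (h.QF hq.2) (zpowers_le.2
    ⟨h.SN (h.AS ha), cmt_one (mem_cent1.1 hq.1) ▸ one_mem _⟩) ((h.SQ (h.AS ha) n).ge hs)).2⟩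
  have := card_le h2
  rw [h.cY] at this h1
  rw [h.cQ] at h1
  omega

theorem RY : R = S ⊓ C(Y) := by
  have l := le_inf h.RS (cents_symm (h.Yle (h.nR.trans (norm_le_norm_cent R)) (le_cent1_iff.1 (h.RS.trans h.Sz))))
  have := h.Sp.card_mul_le (H := S ⊓ C(Y)) (lt_of_le_of_ne inf_le_left fun e => absurd
    (card_le fun y hy => h.Zm (h.YS hy) (e.ge.trans (inf_le_right.trans (cent_le_cent1 hy)))) (by rw [h.cY, h.cz]; decide))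
  rw [h.cS] at this
  exact eq_of_le_of_card_ge l (by rw [h.cR]; omega)

theorem hy : Hy S Q Y A R z t ψ := by
  have := h.Keq
  subst this
  exact { h with
    cS := h.cS, QS := h.QS, tz := h.tK, zY := h.zY, YA := h.YA, AQ := h.AQ, SY := h.SY, RY := h.RY, cC := h.cK
    irr := fun _ => h.irr }

end Hx
end H16.M7
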