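import Mathlib

/-! The four-dimensional module of `2.A7` over the field with seven elements. -/

set_option autoImplicit false
set_option linter.unusedSectionVars false
set_option synthInstance.maxSize 2000
set_option maxRecDepth 100000

open Module
namespace H16.M7

abbrev F7 := ZMod 7 × ZMod 7 × ZMod 7 × ZMod 7
abbrev T4 (V : Type*) := V × V × V × V
instance fact7 : Fact (Nat.Prime 7) := ⟨by norm_num⟩

variable {V V' : Type*} [AddCommGroup V] [Module (ZMod 7) V] [AddCommGroup V'] [Module (ZMod 7) V']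

/-- linear combinations -/
def lc (b : T4 V) (c : F7) : V := c.1 • b.1 + c.2.1 • b.2.1 + c.2.2.1 • b.2.2.1 + c.2.2.2 • b.2.2.2
def m4 (f : V → V') (b : T4 V) : T4 V' := (f b.1, f b.2.1, f b.2.2.1, f b.2.2.2)

theorem lc_add (b : T4 V) (c d : F7) : lc b (c + d) = lc b c + lc b d := by
  simp only [lc, Prod.fst_add, Prod.snd_add]; module
theorem lc_smul (b : T4 V) (a : ZMod 7) (c : F7) : lc b (a • c) = a • lc b c := by
  simp only [lc, Prod.smul_fst, Prod.smul_snd, smul_eq_mul]; module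
def lcL (b : T4 V) : F7 →ₗ[ZMod 7] V := ⟨⟨lc b, lc_add b⟩, lc_smul b⟩
theorem lc_map (f : V →ₗ[ZMod 7] V') (b : T4 V) (c : F7) : f (lc b c) = lc (m4 f b) c := by simp [lc, m4]
theorem lc_lc (b : T4 V) (M : T4 F7) (c : F7) : lc b (lc M c) = lc (m4 (lc b) M) c := lc_map (lcL b) M c

variable [Finite V] {x i j : End (ZMod 7) V}

theorem fpf (c : Nat.card V = 7 ^ 4) (x3 : x * x * x = 1) (x1 : x ≠ 1) (ii : i * i = -1) (ix : x * i = i * x) (jj : j * j = -1)
    (xj : x * j = j * x * x) : x * x + x + 1 = 0 := by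
  have fr : finrank (ZMod 7) V = 4 := Nat.pow_right_injective (a := 7) (by decide) (by
    have := Module.natCard_eq_pow_finrank (K := ZMod 7) (V := V)
    rwa [c, Nat.card_zmod, eq_comm] at this)
  have m : ∀ {a : ZMod 7} {v}, v ∈ x.eigenspace a ↔ x v = a • v := End.mem_eigenspace_iff
  have two : ∀ a : ZMod 7, ∀ v ∈ x.eigenspace a, v ≠ 0 → 2 ≤ finrank (ZMod 7) (x.eigenspace a) := fun a v hv v0 => by
    have n : (⟨v, hv⟩ : x.eigenspace a) ≠ 0 := fun e => v0 (congrArg Subtype.val e)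
    have := (finrank_pos_iff_exists_ne_zero (R := ZMod 7)).2 ⟨_, n⟩
    refine not_lt.1 fun l => ?_
    obtain ⟨d, e⟩ := exists_smul_eq_of_finrank_eq_one (K := ZMod 7) (by omega) n ⟨i v, m.2 (by
      rw [← End.mul_apply, ix, End.mul_apply, m.1 hv, map_smul])⟩
    have e : d • v = i v := congrArg Subtype.val e
    have e' : (d * d + 1) • v = 0 := by rw [add_smul, mul_smul, e, ← map_smul, e, ← End.mul_apply, ii]; simp
    exact v0 ((smul_eq_zero.1 e').resolve_left ((by decide : ∀ d : ZMod 7, d * d + 1 ≠ 0) d))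
  have sw : ∀ a : ZMod 7, ∀ v ∈ x.eigenspace a, v ≠ 0 → j v ∈ x.eigenspace (a * a) ∧ j v ≠ 0 := fun a v hv v0 =>
    ⟨m.2 (by rw [← End.mul_apply, xj, End.mul_apply, End.mul_apply, m.1 hv, map_smul, m.1 hv, map_smul, map_smul, smul_smul]),
      fun e => v0 (by simpa [e, jj] using (End.mul_apply j j v).symm)⟩
  obtain ⟨v, hv⟩ : ∃ v, x v - v ≠ 0 := by
    by_contra! e
    exact x1 (LinearMap.ext fun v => sub_eq_zero.1 (e v))
  have e3 : x (x (x v)) = v := congrArg (· v) x3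
  have s7 : ∀ v : V, (7 : ZMod 7) • v = 0 := fun v => (show (7 : ZMod 7) = 0 from rfl) ▸ zero_smul _ v
  obtain ⟨w, h2, w0⟩ : ∃ w ∈ x.eigenspace 2, w ≠ 0 := by
    by_cases e : x (x v - v) - (4 : ZMod 7) • (x v - v) = 0
    · exact ⟨_, sw 4 _ (m.2 (sub_eq_zero.1 e)) hv⟩
    · refine ⟨_, m.2 ?_, e⟩
      simp only [map_sub, map_smul, e3]
      linear_combination (norm := module) s7 (x v) - s7 v - s7 (x (x v)) + s7 (x v)
  have l := Submodule.finrank_sup_add_finrank_inf_eq (x.eigenspace 2) (x.eigenspace 4)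
  have l2 := two 2 w h2 w0
  have l4 := two 4 _ (sw 2 w h2 w0).1 (sw 2 w h2 w0).2
  rw [show x.eigenspace 2 ⊓ x.eigenspace 4 = ⊥ from eq_bot_iff.2 fun v hv => (smul_eq_zero.1
    (show (2 : ZMod 7) • v = 0 by linear_combination (norm := module) m.1 hv.1 - m.1 hv.2)).resolve_left (by decide),
    finrank_bot] at l
  have t := Submodule.eq_top_of_finrank_eq (le_antisymm (Submodule.finrank_le _) (by omega) :
    finrank _ ↥(x.eigenspace 2 ⊔ x.eigenspace 4) = _)
  refine LinearMap.ext fun v => ?_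
  obtain ⟨a, ha, b, hb, rfl⟩ := Submodule.mem_sup.1 (t.ge (Submodule.mem_top (x := v)))
  simp only [LinearMap.add_apply, End.mul_apply, map_add, m.1 ha, m.1 hb, map_smul, End.one_apply, LinearMap.zero_apply]
  linear_combination (norm := module) s7 a + (3 : ZMod 7) • s7 b

def Xm (k : ℕ) : T4 F7 := [((2, 3, 5, 4), (4, 3, 5, 6), (1, 2, 5, 5), (1, 0, 2, 2)),
  ((0, 0, 6, 5), (6, 2, 3, 6), (5, 0, 0, 6), (5, 0, 3, 3)), ((3, 3, 1, 3), (2, 3, 1, 2), (3, 6, 3, 1), (2, 5, 6, 3)),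
  ((6, 3, 2, 5), (4, 3, 4, 3), (4, 0, 0, 2), (0, 1, 6, 3)), ((4, 5, 0, 4), (5, 4, 1, 4), (1, 6, 0, 0), (6, 1, 4, 4))].getD k 0
def Pm : T4 F7 := ((1, 5, 4, 2), (3, 5, 6, 6), (0, 6, 3, 6), (1, 0, 0, 0))
def Rm : T4 F7 := ((0, 1, 1, 2), (5, 0, 5, 2), (3, 5, 0, 0), (1, 5, 0, 1))
def co (k : ℕ) : F7 := [(5, 6, 0, 6), (4, 2, 3, 2), (5, 2, 6, 0), (3, 5, 6, 6), (4, 6, 6, 0)].getD k 0
def un (k : ℕ) : F7 := [(1, 0, 0, 0), (0, 1, 0, 0), (0, 0, 1, 0), (0, 0, 0, 1), (-1, -1, -1, -1)].getD k 0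
def Gm (c : F7) : T4 F7 := ((c.2.1, 0, c.2.2.2, 0), (0, c.1, 0, c.2.2.1), (c.1, -c.2.1, -c.2.2.1, c.2.2.2),
  (2 * c.2.2.1, -2 * c.2.2.2, c.1, -c.2.1))
def Bf (a b : F7) : ZMod 7 := -4 * (a.1 * b.1 + a.2.1 * b.2.1 + a.2.2.1 * b.2.2.1 + a.2.2.2 * b.2.2.2) -
  2 * (a.1 + a.2.1 + a.2.2.1 + a.2.2.2) * (b.1 + b.2.1 + b.2.2.1 + b.2.2.2)

theorem core (c : Nat.card V = 7 ^ 4) {U W G H r : End (ZMod 7) V} (uu : U * U = 0) (ww : W * W = 0) (gg : G * G = 1)
    (hh : H * H = (2 : ZMod 7) • 1) (uw : U * W = 1 - W * U) (ug : G * U = -(U * G)) (uh : U * H = -(H * U))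
    (wg : G * W = -(W * G)) (wh : H * W = -(W * H)) (gh : G * H = -(H * G)) (rr : r * r = 0) (ru : U * r = -(r * U))
    (rw : r * W = -(W * r)) (rg : G * r = -(r * G)) (rh : r * H = -(H * r)) :
    r = 0 ∧ ∃ b : T4 V, Function.Bijective (lc b) ∧ ∀ a c, lc (U, W, G, H) a (lc b c) = lc b (lc (Gm c) a) := by
  have ap : ∀ {f g h : End (ZMod 7) V}, f * g = h → ∀ v, f (g v) = h v := fun e v => congrArg (· v) e
  have : Nontrivial V := Finite.one_lt_card_iff_nontrivial.1 (c ▸ by decide)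
  obtain ⟨w, w0, e1, e2⟩ : ∃ w ≠ 0, U w = 0 ∧ G w = w := by
    obtain ⟨v, v0, e⟩ : ∃ v ≠ 0, U v = 0 := by
      obtain ⟨v, v0⟩ := exists_ne (0 : V)
      by_cases e : U v = 0
      exacts [⟨v, v0, e⟩, ⟨_, e, ap uu v⟩]
    by_cases e' : v + G v = 0
    · refine ⟨H v, fun e => v0 ?_, by simp [ap uh, e], by simp [ap gh, eq_neg_of_add_eq_zero_right e']⟩
      have := ap hh v
      rw [e, map_zero, eq_comm] at this
      exact (smul_eq_zero.1 this).resolve_left (by decide)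
    · exact ⟨_, e', by simpa [e] using ap ug v, by simp [ap gg, add_comm]⟩
  let b : T4 V := (w, W w, H w, W (H w))
  have k : ∀ c, (U (lc b c), W (lc b c), G (lc b c), H (lc b c)) = m4 (lc b) (Gm c) := fun c => by
    simp only [b, lc, m4, Gm, map_add, map_smul, ap ww, ap hh, ap uw, ap uh, ap wg, ap wh, ap gh, e1, e2, End.mul_apply,
      LinearMap.neg_apply, LinearMap.sub_apply, End.one_apply, LinearMap.zero_apply, LinearMap.smul_apply, map_neg, map_zero,
      Prod.mk.injEq]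
    refine ⟨?_, ?_, ?_, ?_⟩ <;> module
  have kU := fun c => congrArg (·.1) (k c)
  have kW := fun c => congrArg (·.2.1) (k c)
  have kG := fun c => congrArg (·.2.2.1) (k c)
  have kH := fun c => congrArg (·.2.2.2) (k c)
  simp only [m4, Gm] at kU kW kG kH
  have z : ∀ c, lc b c = 0 → c.2.1 = 0 := fun c e => by
    have a1 := kU c
    have a2 := kG (c.2.1, 0, c.2.2.2, 0)
    rw [← a1, e, map_zero, map_zero] at a2
    rw [e, map_zero] at a1
    have : (2 * c.2.1) • w = 0 := by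
      simp only [lc, b] at a1 a2
      linear_combination (norm := module) -a1 - a2
    simpa [w0, (by decide : (2 : ZMod 7) ≠ 0)] using this
  have inj : Function.Injective (lc b) := (injective_iff_map_eq_zero (lcL b)).2 fun c (e : lc b c = 0) => by
    have a0 : ∀ {c}, lc b c = 0 → lc b (0, c.1, 0, c.2.2.1) = 0 := fun e => by rw [← kW, e, map_zero]
    have a1 : lc b (2 * c.2.2.1, -2 * c.2.2.2, c.1, -c.2.1) = 0 := by rw [← kH, e, map_zero]
    exact (by decide +kernel : ∀ c : F7, c.1 = 0 → c.2.1 = 0 → 2 * c.2.2.1 = 0 → -2 * c.2.2.2 = 0 → c = 0) c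
      (z _ (a0 e)) (z c e) (z _ (a0 a1)) (z _ a1)
  have bij : Function.Bijective (lc b) := inj.bijective_of_nat_card_le (by simp [c])
  refine ⟨?_, b, bij, fun a c => by rw [lc_lc, ← k]; rfl⟩
  obtain ⟨d, e⟩ := bij.2 (r w)
  have d1 : (d.2.1, 0, d.2.2.2, 0) = (0 : F7) := inj (by rw [← kU, e, ap ru]; simp [e1, lc])
  have d2 : (d.1, -d.2.1, -d.2.2.1, d.2.2.2) = -d := inj (by
    rw [← kG, e, ap rg, show lc b (-d) = -lc b d from map_neg (lcL b) d, e]; simp [e2])
  obtain ⟨d1, d2, d3⟩ := (by decide +kernel : ∀ d : F7, (d.2.1, 0, d.2.2.2, 0) = (0 : F7) → (d.1, -d.2.1, -d.2.2.1, d.2.2.2) = -d →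
    d.1 = 0 ∧ d.2.1 = 0 ∧ d.2.2.2 = 0) d d1 d2
  have e' : r w = d.2.2.1 • H w := by simp [← e, lc, d1, d2, d3, b]
  have e0 : r w = 0 := by
    have := ap rr w
    rw [e', map_smul, ap rh] at this
    simp only [LinearMap.neg_apply, End.mul_apply, e', map_smul, ap hh] at this
    simpa [w0, (by decide : (2 : ZMod 7) ≠ 0), e', eq_comm (a := H w)] using Or.inl (by simpa [w0, (by decide : (2 : ZMod 7) ≠ 0)] using this)
  refine LinearMap.ext fun v => ?_
  obtain ⟨c, rfl⟩ := bij.2 v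
  simp [lc, b, ap rw, ap rh, e0]

theorem P_inj : ∀ v, lc Pm v = 0 → v = 0 := by decide +kernel
theorem P_X : ∀ k < 5, m4 (fun v => (4 : ZMod 7) • (lc (Gm v) (co k) - v)) Pm = m4 (lc Pm) (Xm k) ∧ lc Rm (co k) = un k := by
  decide +kernel

theorem clif (c : Nat.card V = 7 ^ 4) {x : ℕ → End (ZMod 7) V} (h1 : ∀ k < 5, x k * x k + x k + 1 = 0)
    (h2 : ∀ i < 5, ∀ j < 5, i ≠ j → x i * x j * (x i * x j) = -1) :
    ∃ b : T4 V, Function.Bijective (lc b) ∧ ∀ k < 5, ∀ v, x k (lc b v) = lc b (lc (Xm k) v) := by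
  let e := fun k => (2 : ZMod 7) • x k + 1
  have an : ∀ i < 5, ∀ j < 5, e i * e j + e j * e i = (if i = j then -6 else -2 : ZMod 7) • 1 := fun i hi j hj => by
    simp only [e, mul_add, add_mul, smul_mul_assoc, mul_smul_comm, mul_one, one_mul]
    split_ifs with n
    · subst n
      linear_combination (norm := module) (8 : ZMod 7) • h1 i hi
    · have := left_inv_eq_right_inv (a := x i * x j) (b := -(x i * x j)) (c := (x j + 1) * (x i + 1))
        (by rw [neg_mul, h2 i hi j hj n, neg_neg])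
        (by linear_combination (norm := noncomm_ring) x i * h1 j hj * (x i + 1) - h1 i hi)
      simp only [mul_add, add_mul, mul_one, one_mul] at this
      linear_combination (norm := module) -(4 : ZMod 7) • this
  let E : T4 (End (ZMod 7) V) := (e 0, e 1, e 2, e 3)
  have p := fun i j : Fin 5 => an i i.2 j j.2
  have bil : ∀ a b, lc E a * lc E b + lc E b * lc E a = Bf a b • 1 := fun a b => by
    have p00 := p 0 0; have p11 := p 1 1; have p22 := p 2 2; have p33 := p 3 3; have p01 := p 0 1; have p02 := p 0 2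
    have p03 := p 0 3; have p12 := p 1 2; have p13 := p 1 3; have p23 := p 2 3
    simp only [lc, E, Bf, mul_add, add_mul, smul_mul_assoc, mul_smul_comm, reduceIte, Nat.reduceEqDiff, OfNat.zero_ne_ofNat,
      zero_ne_one, OfNat.one_ne_ofNat, Fin.coe_ofNat_eq_mod, Nat.reduceMod] at *
    linear_combination (norm := module) (a.1 * b.1) • p00 + (a.2.1 * b.2.1) • p11 + (a.2.2.1 * b.2.2.1) • p22 +
      (a.2.2.2 * b.2.2.2) • p33 + (a.1 * b.2.1 + a.2.1 * b.1) • p01 + (a.1 * b.2.2.1 + a.2.2.1 * b.1) • p02 +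
      (a.1 * b.2.2.2 + a.2.2.2 * b.1) • p03 + (a.2.1 * b.2.2.1 + a.2.2.1 * b.2.1) • p12 +
      (a.2.1 * b.2.2.2 + a.2.2.2 * b.2.1) • p13 + (a.2.2.1 * b.2.2.2 + a.2.2.2 * b.2.2.1) • p23
  have s7 : ∀ a : ZMod 7, (7 * a) • (1 : End (ZMod 7) V) = 0 := fun a => by
    rw [show (7 : ZMod 7) = 0 from rfl, zero_mul, zero_smul]
  have b4 : ∀ a, e 4 * lc E a + lc E a * e 4 = (-2 * (a.1 + a.2.1 + a.2.2.1 + a.2.2.2)) • 1 := fun a => by
    have p0 := p 4 0; have p1 := p 4 1; have p2 := p 4 2; have p3 := p 4 3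
    simp only [lc, E, mul_add, add_mul, smul_mul_assoc, mul_smul_comm, reduceIte, Nat.reduceEqDiff, OfNat.ofNat_ne_zero,
      OfNat.ofNat_ne_one, Fin.coe_ofNat_eq_mod, Nat.reduceMod] at p0 p1 p2 p3 ⊢
    linear_combination (norm := module) a.1 • p0 + a.2.1 • p1 + a.2.2.1 • p2 + a.2.2.2 • p3
  have ra : ∀ a, (e 4 + lc E (1, 1, 1, 1)) * lc E a + lc E a * (e 4 + lc E (1, 1, 1, 1)) = 0 := fun a => by
    have := bil (1, 1, 1, 1) a
    simp only [Bf, mul_add, add_mul] at this ⊢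
    linear_combination (norm := module) this + b4 a - s7 (2 * (a.1 + a.2.1 + a.2.2.1 + a.2.2.2))
  have hf : ∀ {f g : End (ZMod 7) V}, f + f = g + g → f = g := fun {f g} e => by
    have := congrArg ((4 : ZMod 7) • ·) e
    simpa only [← two_smul (ZMod 7), smul_smul, show (4 * 2 : ZMod 7) = 1 from rfl, one_smul] using this
  have z : ∀ a b, Bf a b = 0 → lc E a * lc E b = -(lc E b * lc E a) := fun a b h =>
    eq_neg_of_add_eq_zero_left (by rw [bil, h, zero_smul])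
  have sq : ∀ a d, Bf a a = d + d → lc E a * lc E a = d • 1 := fun a d h => hf (by rw [bil, h, add_smul])
  obtain ⟨r0, b, bij, k⟩ := core c (r := e 4 + lc E (1, 1, 1, 1)) ((sq Rm.1 0 (by decide)).trans (zero_smul _ _))
    ((sq Rm.2.1 0 (by decide)).trans (zero_smul _ _)) ((sq Rm.2.2.1 1 (by decide)).trans (one_smul _ _))
    (sq Rm.2.2.2 2 (by decide)) (eq_sub_of_add_eq (by rw [bil, show Bf _ _ = 1 by decide, one_smul]))
    (z _ _ (by decide)) (z _ _ (by decide)) (z _ _ (by decide)) (z _ _ (by decide)) (z _ _ (by decide))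
    (hf (by
      have a1 := ra (1, 1, 1, 1)
      have a2 := b4 (1, 1, 1, 1)
      have a3 := p 4 4
      simp only [mul_add, add_mul, reduceIte, Fin.coe_ofNat_eq_mod, Nat.reduceMod] at a1 a2 a3 ⊢
      linear_combination (norm := module) a1 + a2 + a3 - s7 2))
    (eq_neg_of_add_eq_zero_right (ra _)) (eq_neg_of_add_eq_zero_left (ra _)) (eq_neg_of_add_eq_zero_right (ra _))
    (eq_neg_of_add_eq_zero_left (ra _))
  have ek : ∀ k < 5, e k = lc E (un k) := fun k hk => by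
    interval_cases k
    on_goal 5 => rw [eq_neg_of_add_eq_zero_left r0]; simp only [lc, un, List.getD_cons_succ, List.getD_cons_zero]; module
    all_goals simp [lc, un, E]
  have xk : ∀ k < 5, ∀ v, x k (lc b v) = lc b ((4 : ZMod 7) • (lc (Gm v) (co k) - v)) := fun j hj v => by
    rw [lc_smul, show lc b (_ - v) = lc b _ - lc b v from map_sub (lcL b) _ v, ← k]
    change _ = _ • (lc (m4 (lc E) Rm) _ _ - _)
    rw [← lc_lc, (P_X j hj).2, ← ek j hj]
    simp [e, smul_smul, show (4 * 2 : ZMod 7) = 1 from rfl]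
  have l : lc (m4 (lc b) Pm) = lc b ∘ lc Pm := funext fun v => (lc_lc _ _ _).symm
  refine ⟨m4 (lc b) Pm, l ▸ bij.comp (Finite.injective_iff_bijective.1 ((injective_iff_map_eq_zero (lcL Pm)).2 P_inj)),
    fun j hj v => ?_⟩
  rw [lc_map, lc_lc, l]
  change _ = lc (m4 (lc b) (m4 (lc Pm) _)) _
  rw [← (P_X j hj).1]
  simp only [m4, xk j hj]

end H16.M7
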