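import Cfsg.Agent.H16.M7A1
import Cfsg.Agent.H16.M7A3

/-! The Monster from two 7-local subgroups: coordinates on the extraspecial group. -/

set_option autoImplicit false
set_option linter.unusedSectionVars false

open Cfsg Subgroup
namespace H16.M7
open H19
open scoped commutatorElement

universe u
variable {G : Type u} [Group G] [Finite G] {S Q Y A R K : Subgroup G} {z t a b g p q s u y : G} {ψ : G → A7}
  {κ : G → F7} {x : ℕ → G}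

local notation "𝔷" => zpowers z

theorem dih (uu : u * u = 1) (tt : t * t = 1) (h : (u * t) ^ 7 = 1) : (u * t) ^ 3 * u * ((u * t) ^ 3)⁻¹ = t := by
  calc _ = (u * t) ^ 7 * t := by
        simp only [pow_succ, pow_zero, one_mul, mul_inv_rev, inv_self uu, inv_self tt, mul_assoc, tt, mul_one]
    _ = _ := by rw [h, one_mul]

theorem FX_symm (ha : a ∈ N(𝔷)) (h : b ∈ FX 𝔷 a) : a ∈ FX 𝔷 b := ⟨ha, cmt_inv_mem h.2⟩

/-- coordinates -/
structure Co (Q K : Subgroup G) (z : G) (ψ : G → A7) (κ : G → F7) (x : ℕ → G) : Prop where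
  ph : PH Q fun q => Multiplicative.ofAdd (κ q)
  ker : ∀ {q}, q ∈ Q → (κ q = 0 ↔ q ∈ zpowers z)
  sur : ∀ v, ∃ q ∈ Q, κ q = v
  xK : ∀ k < 5, x k ∈ K ∧ ψ (x k) = cy k ∧ ∀ q ∈ Q, κ (x k * q * (x k)⁻¹) = lc (Xm k) (κ q)

namespace Hx
variable (h : Hx S Q Y A R K z t ψ)
include h

theorem cnj (σ : A7) : Hx S Q Y A R K z t fun g => σ * ψ g * σ⁻¹ :=
  { h with
    ph := h.ph.cnj σ
    ψs := fun τ => have ⟨g, hg, e⟩ := h.ψs (σ⁻¹ * τ * σ); ⟨g, hg, by rw [e]; group⟩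
    ψk := fun g hg => conj_eq_one_iff.trans (h.ψk g hg)
    ns := fun g hg e => conj_eq_one_iff.2 (h.ns g hg e) }

theorem tQ : t ∉ Q := fun e => h.t1 (h.one2 e h.tt)
theorem tc (hg : g ∈ K) : g * t * g⁻¹ * t ∈ Q :=
  (h.dec (mul_mem (mul_mem hg h.tK) (inv_mem hg)) (by rw [h.ph.conj hg h.tK, h.ψt, mul_one, mul_inv_cancel])).resolve_left
    fun e => h.tQ (by simpa [mul_assoc] using conj_mem_of_norm' (h.KQ hg) e)

theorem tF : Q ⊓ FX 𝔷 t ≤ 𝔷 := by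
  have tN := h.KN.le h.tK
  refine ((h.irr (le_inf h.ZQ (le_FX tN)) inf_le_left fun g hg => mem_norm_of_cj_le fun _ hx => ?_).resolve_right
    fun e => h.tQ ?_).le
  · obtain ⟨q, hq, rfl⟩ := mem_cj'.1 hx
    have m := h.cjQ hg hq.1
    have := mul_mem (inv_mem (FX_symm (h.KN.le (mul_mem (mul_mem hg h.tK) (inv_mem hg))) (FX_conj (h.KN.le hg) hq.2)))
      (h.QF m (h.tc hg))
    exact ⟨m, FX_symm (h.QN m) (by rwa [inv_mul_cancel_left] at this)⟩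
  · have := h.ZQ (h.unip h.tK (e.ge.trans inf_le_right))
    rwa [show 7 = 2 * 3 + 1 from rfl, pow_succ, pow_mul, sq, h.tt, one_pow, one_mul] at this

theorem tinv (hq : q ∈ Q) : t * q * t⁻¹ * q ∈ 𝔷 := by
  have ha := h.cjQ h.tK hq
  refine h.tF ⟨mul_mem ha hq, h.QN (mul_mem ha hq), ?_⟩
  have := h.Qc q hq _ ha
  rwa [show ⁅q, t * q * t⁻¹⁆ = ⁅t, t * q * t⁻¹ * q⁆ by
    simp only [commutatorElement_def, ← mul_assoc, h.tt, one_mul, mul_inv_rev, inv_self h.tt]] at this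

theorem Qt (hq : q ∈ Q) (c : q ∈ C[t]) : q ∈ 𝔷 := h.tF ⟨hq, h.QN hq, cmt_one (mem_cent1.1 c).symm ▸ one_mem _⟩

theorem lift (hg : g ∈ K) : ∃ q ∈ Q, q * g ∈ C[t] :=
  ⟨_, pow_mem (h.tc hg) 3, mem_cent1.2 (comm_of_conj (by
    rw [cjm]; exact dih (by rw [conj_mul, h.tt, mul_one, mul_inv_cancel]) h.tt (h.Q7 _ (h.tc hg))))⟩

theorem inv (hu : u ∈ K) (uu : u * u = 1) (u1 : u ≠ 1) : ∃ k ∈ K, k * u * k⁻¹ = t :=
  have m := (h.dec hu (h.ns u hu (uu ▸ one_mem _))).resolve_left fun e => u1 (h.one2 e uu)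
  ⟨_, h.QK (pow_mem m 3), dih uu h.tt (h.Q7 _ m)⟩

theorem co : ∃ κ x, Co Q K z ψ κ x := by
  have := (normal_subgroupOf_iff_le_normalizer h.ZQ).2 h.QN
  obtain ⟨π, ph, hπ⟩ := exists_PH (QuotientGroup.mk' ((𝔷).subgroupOf Q))
  have πk : ∀ {q}, q ∈ Q → (π q = 1 ↔ q ∈ 𝔷) := fun {q} hq => by
    rw [hπ ⟨q, hq⟩]; exact QuotientGroup.eq_one_iff _
  have πs : ∀ v, ∃ q ∈ Q, π q = v := fun v => have ⟨q, e⟩ := QuotientGroup.mk'_surjective _ v; ⟨q, q.2, (hπ q).trans e⟩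
  let _ : CommGroup (Q ⧸ (𝔷).subgroupOf Q) := ⟨fun a b => by
    obtain ⟨a, ha, rfl⟩ := πs a
    obtain ⟨b, hb, rfl⟩ := πs b
    exact commutatorElement_eq_one_iff_mul_comm.1 (by rw [← ph.cmt ha hb, πk (h.ZQ (h.Qc _ ha _ hb))]; exact h.Qc _ ha _ hb)⟩
  let V := Additive (Q ⧸ (𝔷).subgroupOf Q)
  let _ : Module (ZMod 7) V := AddCommGroup.zmodModule fun v => by
    obtain ⟨q, hq, e⟩ := πs v.toMul
    exact (show v.toMul ^ 7 = 1 by rw [← e, ← ph.pow hq, h.Q7 q hq, ph.one])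
  have cV : Nat.card V = 7 ^ 4 := by
    have := card_mul_relIndex h.ZQ
    rw [h.cz, h.cQ] at this
    exact (by omega : (𝔷).relIndex Q = 7 ^ 4)
  have : ∀ g, ∃ f : Module.End (ZMod 7) V, g ∈ K → ∀ q ∈ Q, f (.ofMul (π q)) = .ofMul (π (g * q * g⁻¹)) := fun g => by
    by_cases hg : g ∈ K
    swap; · exact ⟨1, fun e => (hg e).elim⟩
    obtain ⟨f, e1, e2⟩ := ph.desc (f' := fun q => π (g * q * g⁻¹)) ⟨fun ha hb => by
      rw [← ph.mul (h.cjQ hg ha) (h.cjQ hg hb), conj_mul]⟩ fun q hq e =>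
        (πk (h.cjQ hg hq)).2 (conj_mem_of_norm (h.KN.le hg) ((πk hq).1 e))
    rw [ph.im_top πs] at e2
    exact ⟨(AddMonoidHom.mk' (fun v : V => (.ofMul (f v.toMul) : V)) fun a b => e2 _ trivial _ trivial).toZModLinearMap 7,
      fun _ q hq => e1 q hq⟩
  choose ρ hρ using this
  have ext : ∀ {f f' : Module.End (ZMod 7) V}, (∀ q ∈ Q, f (.ofMul (π q)) = f' (.ofMul (π q))) → f = f' := fun k =>
    LinearMap.ext fun v => have ⟨q, hq, e⟩ := πs v.toMul; by simpa [e] using k q hq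
  have mul : ∀ {a b}, a ∈ K → b ∈ K → ρ (a * b) = ρ a * ρ b := fun ha hb => ext fun q hq => by
    rw [Module.End.mul_apply, hρ _ hb q hq, hρ _ ha _ (h.cjQ hb hq), hρ _ (mul_mem ha hb) q hq, cjm]
  have r1 : ∀ {p}, p ∈ Q → ρ p = 1 := fun hp => ext fun q hq => by
    rw [hρ _ (h.QK hp) q hq, ph.conj hp hq, mul_inv_cancel_comm]; rfl
  have rt : ∀ {g}, g ∈ K → g * t ∈ Q → ρ g = -1 := fun {g} hg e => by
    rw [← mul_one g, ← h.tt, ← mul_assoc, mul (h.QK e) h.tK, r1 e, one_mul]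
    exact ext fun q hq => (hρ _ h.tK q hq).trans (eq_neg_of_add_eq_zero_left
      ((ph.mul (h.cjQ h.tK hq) hq).symm.trans ((πk (mul_mem (h.cjQ h.tK hq) hq)).2 (h.tinv hq))))
  have KV : ∀ {g}, g ∈ K → ρ g = 1 → ψ g = 1 := fun hg e => h.KV hg fun q hq => ⟨h.QN hq,
    (πk (mul_mem (h.cjQ hg hq) (inv_mem hq))).1 (ph.div (h.cjQ hg hq) hq ((hρ _ hg q hq).symm.trans (by rw [e]; rfl)))⟩
  have sq : ∀ {g}, g ∈ K → ψ g * ψ g = 1 → ψ g ≠ 1 → ρ g * ρ g = -1 := fun hg e n => by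
    rw [← mul hg hg]
    exact rt (mul_mem hg hg) ((h.dec (mul_mem hg hg) ((h.ph.mul hg hg).trans e)).resolve_left fun m => n (h.ns _ hg m))
  have c3 : ∀ {g}, g ∈ K → g ^ 3 ∈ Q → ρ g * ρ g * ρ g = 1 := fun hg e => by
    rw [← mul hg hg, ← mul (mul_mem hg hg) hg, ← pow_three', r1 e]
  have cu : ∀ {a b}, a ∈ K → b ∈ K → ψ a = ψ b → a ^ 3 ∈ Q → b ^ 3 ∈ Q → ρ a = ρ b := fun {a b} ha hb e a3 b3 => by
    have m := mul_mem ha (inv_mem hb)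
    have e1 := mul m hb
    rw [inv_mul_cancel_right] at e1
    rcases h.dec m (h.ph.div ha hb e) with e2 | e2
    · rw [e1, r1 e2, one_mul]
    have e3 := c3 ha a3
    simp only [e1, rt m e2, neg_mul, mul_neg, one_mul, neg_neg, c3 hb b3] at e3
    obtain ⟨q, hq, n⟩ := SetLike.not_le_iff_exists.1 h.QZ
    have e4 : π (t * q * t⁻¹) = π q := (hρ _ h.tK q hq).symm.trans (by rw [rt h.tK (h.tt ▸ one_mem _), e3]; rfl)
    exact (n (h.tF ⟨hq, h.QN hq, (πk (mul_mem (h.cjQ h.tK hq) (inv_mem hq))).1 (ph.div (h.cjQ h.tK hq) hq e4)⟩)).elim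
  have : ∀ k, ∃ x, k < 5 → x ∈ K ∧ ψ x = cy k ∧ x ^ 3 ∈ Q := fun k => by
    obtain ⟨g, hg, e⟩ := h.ψs (cy k)
    refine ⟨g ^ 4, fun hk => ⟨pow_mem hg 4, by rw [h.ph.pow hg, e, (t_cy k hk).1], ?_⟩⟩
    have := ker_sq h.tt (h.KQ h.tK) ((h.ψk _ (pow_mem hg 3)).1 (by rw [h.ph.pow hg, e, (t_cy k hk).2.1]))
    simpa only [← pow_add, ← pow_mul] using mul_mem this this
  choose x hx using this
  obtain ⟨b, bij, k⟩ := clif cV (x := fun k => ρ (x k)) (fun k hk => by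
    obtain ⟨-, -, a1, a2, a3, a4, a5, a6, a7, -⟩ := t_cy k hk
    obtain ⟨hk, e, x3⟩ := hx k hk
    obtain ⟨i, hi, ei⟩ := h.ψs (ci k)
    obtain ⟨j, hj, ej⟩ := h.ψs (cj' k)
    have m := fun {g a} (hg : g ∈ K) (ha : a ∈ K) => mul_mem (mul_mem hg ha) (inv_mem hg)
    refine fpf cV (c3 hk x3) (fun e' => a1 (e ▸ KV hk e')) (sq hi (ei ▸ a2) (ei ▸ a3)) ?_ (sq hj (ej ▸ a4) (ej ▸ a5)) ?_
    · rw [← mul hi hk, ← cu (m hi hk) hk (by rw [h.ph.conj hi hk, ei, e, a6]) (by rw [conj_pow]; exact h.cjQ hi x3) x3, ← mul (m hi hk) hi,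
        inv_mul_cancel_right]
    · rw [← mul hj hk, ← mul (mul_mem hj hk) hk, ← cu (m hj (mul_mem hk hk)) hk
        (by rw [h.ph.conj hj (mul_mem hk hk), h.ph.mul hk hk, ej, e, a7])
        (by rw [conj_pow, (Commute.refl _).mul_pow]; exact h.cjQ hj (mul_mem x3 x3)) x3, ← mul (m hj (mul_mem hk hk)) hj,
        inv_mul_cancel_right, mul_assoc]) fun i hi j hj n => by
    have a := (t_cy i hi).2.2.2.2.2.2.2.2.2 j hj n
    have e := h.ph.mul (hx i hi).1 (hx j hj).1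
    rw [(hx i hi).2.1, (hx j hj).2.1] at e
    rw [← mul (hx i hi).1 (hx j hj).1]
    exact sq (mul_mem (hx i hi).1 (hx j hj).1) (e ▸ a.1) (e ▸ a.2)
  choose κ hκ using fun q => bij.2 (.ofMul (π q))
  refine ⟨κ, x, ⟨fun ha hb => bij.1 ((hκ _).trans ?_)⟩, fun hq => Iff.trans ⟨fun e => ?_, fun e => bij.1 ?_⟩ (πk hq), fun v => ?_,
    fun i hi => ⟨(hx i hi).1, (hx i hi).2.1, fun q hq => bij.1 ?_⟩⟩
  · exact (ph.mul ha hb).trans ((lc_add _ _ _).trans (congrArg₂ _ (hκ _) (hκ _))).symm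
  · exact (hκ _).symm.trans (e ▸ map_zero (lcL b))
  · exact (hκ _).trans (e.trans (map_zero (lcL b)).symm)
  · obtain ⟨q, hq, e⟩ := πs (lc b v).toMul
    exact ⟨q, hq, bij.1 ((hκ q).trans e)⟩
  · rw [hκ, ← k i hi, hκ, hρ _ (hx i hi).1 q hq]

end Hx
end H16.M7
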