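import Cfsg.Agent.H16.M7A4
import Cfsg.Agent.H16.M7A0

/-! The Monster from two 7-local subgroups: the classes of elements of order seven. -/

set_option autoImplicit false
set_option linter.unusedSectionVars false
set_option synthInstance.maxSize 2000

open Cfsg Subgroup
namespace H16.M7
open H19
open scoped commutatorElement

universe u
variable {G : Type u} [Group G] [Finite G] {S Q Y A R K U : Subgroup G} {z t a b g p q s u w y : G} {ψ : G → A7}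
  {κ : G → F7} {x : ℕ → G}

local notation "𝔷" => zpowers z

/-- coordinates adapted to `S` -/
structure Hw (S Q Y A R K : Subgroup G) (z t s a : G) (ψ : G → A7) (κ : G → F7) (x : ℕ → G) : Prop
    extends Hx S Q Y A R K z t ψ where
  co : Co Q K z ψ κ x
  sS : s ∈ S
  es : ψ s = γ7
  aQ : a ∈ Q
  ka : κ a = (0, 1, 0, 0)

namespace Hx
variable (h : Hx S Q Y A R K z t ψ)
include h

theorem hw : ∃ ψ s a κ x, Hw S Q Y A R K z t s a ψ κ x := by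
  have := (h.syl.of_le h.SK le_top).im le_rfl h.ph.hom
  rw [h.ph.im_top h.ψs] at this
  obtain ⟨σ, -, e⟩ := this.sle_cj le_top (PiN.of_card p7 (card7 t_γ.1 t_γ.2.1))
  obtain ⟨_, m, e⟩ := mem_cj'.1 (e (mem_zpowers _))
  obtain ⟨s, hs, -, rfl⟩ := h.ph.mem_im.1 m
  obtain ⟨κ, x, k⟩ := (h.cnj σ).co
  obtain ⟨a, ha, ka⟩ := k.sur (0, 1, 0, 0)
  exact ⟨_, s, a, κ, x, h.cnj σ, k, hs, e, ha, ka⟩

theorem cU (hU : U ≤ S) (n : ¬ U ≤ Q) : #(Q ⊓ U) * 7 = #U := by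
  have := relIndex_dvd_of_norm (hU.trans (h.SK.trans h.KQ)) h.QS hU
  rw [rel7 h.QS h.cQ h.cS] at this
  rw [← card_inf_mul_relIndex Q U, ((Nat.dvd_prime p7).1 this).resolve_left (mt relIndex_eq_one.1 n)]

theorem YZ : ∃ y ∈ Y, y ∉ 𝔷 := SetLike.not_le_iff_exists.1 fun e => absurd (card_le e) (by rw [h.cY, h.cz]; decide)
theorem RC : R ≤ C(Y) := h.RY.le.trans inf_le_right
theorem cB : #(Q ⊓ R) = 7 ^ 4 := by
  obtain ⟨y, hy, n⟩ := h.YZ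
  have := h.cU h.RS fun e => n (h.CQ (cents_symm ((eq_of_le_of_card_eq e (h.cR.trans h.cQ.symm)).ge.trans h.RC) hy))
  rw [h.cR] at this
  omega
theorem AB : A ≤ Q ⊓ R := le_inf h.AQ h.AR
theorem SB : S ≤ N(Q ⊓ R) := norms_inf (h.SK.trans h.KQ) (h.SY.trans h.nR)
theorem SA : S ≤ N(A) := h.SY.trans h.nA
theorem iB : A.relIndex (Q ⊓ R) = 7 := rel7 (k := 3) h.AB h.cA h.cB

theorem der (hU : U ≤ Q) (c : 7 ^ 4 ≤ #U) : N(U) ≤ N(𝔷) := by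
  rw [← (eq_bot_or_eq_of_prime (h.cz ▸ p7) (commutator_le.2 fun _ ha _ hb => h.Qc _ (hU ha) _ (hU hb))).resolve_left
    (mt comm_iff_der.2 (h.nab hU c))]
  exact norms_der le_rfl

theorem WR (hw : w ∈ S ⊓ C[t]) : w ∈ R := h.RY.ge ⟨hw.1, mem_cent.2 fun y hy => by
  have d := cmt_inv_mem (h.Yc hy hw.1)
  have e := conj_of_comm (zcm (h.Sz hw.1) (h.tinv (h.YQ hy)))
  rw [← conj_mul, ← cjm, mem_cent1.1 hw.2, cjm, conj_eq w y, ← conj_mul, conj_of_comm (zcm (h.Kz h.tK) d), mul_assoc,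
    ← mul_assoc _ ⁅w, y⁆, zcm (h.Qz (h.cjQ h.tK (h.YQ hy))) d, mul_assoc, ← mul_assoc, mul_eq_right] at e
  exact (commutatorElement_eq_one_iff_mul_comm.1 (h.one2 (h.ZQ d) e)).symm⟩

theorem QW : Q ⊓ (S ⊓ C[t]) = 𝔷 := le_antisymm (fun _ m => h.Qt m.1 m.2.2)
  (zpowers_le.2 ⟨h.zQ, h.zSm, mem_cent1_symm.1 (h.Kz h.tK)⟩)

end Hx

namespace Hw
variable (h : Hw S Q Y A R K z t s a ψ κ x)
include h

theorem add (hp : p ∈ Q) (hq : q ∈ Q) : κ (p * q) = κ p + κ q := h.co.ph.mul hp hq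
theorem neg (hq : q ∈ Q) : κ q⁻¹ = -κ q := h.co.ph.inv hq
theorem pow (hq : q ∈ Q) (n : ℕ) : κ (q ^ n) = n • κ q := h.co.ph.pow hq n
theorem eqv (hp : p ∈ Q) (hq : q ∈ Q) : κ p = κ q ↔ p * q⁻¹ ∈ 𝔷 := by
  rw [← h.co.ker (mul_mem hp (inv_mem hq)), h.add hp (inv_mem hq), h.neg hq, add_neg_eq_zero]
theorem kQ (hp : p ∈ Q) (hq : q ∈ Q) : κ (p * q * p⁻¹) = κ q := (h.eqv (h.cjQ (h.QK hp) hq) hq).2 (h.Qc p hp q hq)
theorem kt (hq : q ∈ Q) : κ (t * q * t⁻¹) = -κ q :=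
  eq_neg_of_add_eq_zero_left ((h.add (h.cjQ h.tK hq) hq).symm.trans ((h.co.ker (h.ZQ (h.tinv hq))).2 (h.tinv hq)))

theorem wd (W : List ℕ) (hW : ∀ k ∈ W, k < 5) : ∃ g ∈ K, ψ g = (W.map cy).prod ∧ ∀ q ∈ Q, κ (g * q * g⁻¹) = mw W (κ q) := by
  induction W with
  | nil => exact ⟨1, one_mem _, h.ph.one, fun q _ => by simp [mw]⟩
  | cons k W ih =>
    obtain ⟨g, hg, e1, e2⟩ := ih fun j hj => hW j (List.mem_cons_of_mem _ hj)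
    obtain ⟨a1, a2, a3⟩ := h.co.xK k (hW k List.mem_cons_self)
    exact ⟨_, mul_mem a1 hg, by rw [h.ph.mul a1 hg, a2, e1]; rfl, fun q hq => by rw [cjm, a3 _ (h.cjQ hg hq), e2 q hq]; rfl⟩

theorem sK : s ∈ K := h.SK h.sS
theorem sQ : s ∉ Q := fun e => t_γ.2.1 (h.es ▸ h.ψ1 e)

theorem ks (hq : q ∈ Q) : κ ⁅s, q⁆ = ((κ q).2.1, (κ q).2.2.1, (κ q).2.2.2, 0) := by
  obtain ⟨g, hg, e1, e2⟩ := h.wd [0, 1, 2, 3, 4] (by decide)
  have m := mul_mem h.sK (inv_mem hg)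
  have e : ∀ q, s * q * s⁻¹ = s * g⁻¹ * (g * q * g⁻¹) * (s * g⁻¹)⁻¹ := fun q => by group
  rcases h.dec m (h.ph.div h.sK hg (h.es.trans e1.symm)) with m' | m'
  · rw [commutatorElement_def, h.add (h.cjQ h.sK hq) (inv_mem hq), e, h.kQ m' (h.cjQ hg hq), e2 q hq, t_sig, h.neg hq]
    ext <;> simp
  · obtain ⟨y, hy, n⟩ := h.YZ
    have yQ := h.YQ hy
    have e3 := (h.eqv (h.cjQ h.sK yQ) yQ).2 (cmt_inv_mem (h.Yc hy h.sS))
    rw [e, ← mul_one (s * g⁻¹), ← h.tt, ← mul_assoc _ t, cjm, h.kQ m' (h.cjQ h.tK (h.cjQ hg yQ)), h.kt (h.cjQ hg yQ),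
      e2 y yQ, t_sig] at e3
    exact (n ((h.co.ker yQ).1 ((by decide +kernel : ∀ v : F7,
      -(v.1 + v.2.1, v.2.1 + v.2.2.1, v.2.2.1 + v.2.2.2, v.2.2.2) = v → v = 0) _ e3))).elim

theorem csQ (hq : q ∈ Q) : ⁅s, q⁆ ∈ Q := mul_mem (h.cjQ h.sK hq) (inv_mem hq)

theorem Ymem (hq : q ∈ Q) : q ∈ Y ↔ (κ q).2 = 0 := by
  have : ⁅s, q⁆ ∈ 𝔷 ↔ (κ q).2 = 0 := by rw [← h.co.ker (h.csQ hq), h.ks hq]; simp [Prod.ext_iff]
  exact ⟨fun hy => this.1 (cmt_inv_mem (h.Yc hy h.sS)), fun e => (h.Ym q).2 ⟨h.QS hq, fun _ hs =>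
    (sup_le (h.QF hq) (zpowers_le.2 ⟨h.SN h.sS, cmt_inv_mem (this.2 e)⟩) ((h.SQ h.sS h.sQ).ge hs)).2⟩⟩

theorem Amem (hq : q ∈ Q) : q ∈ A ↔ (κ q).2.2 = 0 := by
  have k : ∀ {q}, q ∈ A → (κ q).2.2 = 0 := fun hq => by
    have := (h.Ymem (h.csQ (h.AQ hq))).1 (cmt_inv_mem (h.Ac hq h.sS))
    rw [h.ks (h.AQ hq)] at this
    simpa [Prod.ext_iff] using this
  refine ⟨k, fun e => ?_⟩
  obtain ⟨b, hb, n⟩ := SetLike.not_le_iff_exists.1 fun e : A ≤ Y => absurd (card_le e) (by rw [h.cY, h.cA]; decide)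
  have bQ := h.AQ hb
  obtain ⟨i, -, e'⟩ := (by decide +kernel : ∀ u v : ZMod 7 × ZMod 7 × ZMod 7, u.2 = 0 → v.2 = 0 → v ≠ 0 → ∃ i < 7, u + i • v = 0)
    _ _ e (k hb) (mt (h.Ymem bQ).2 n)
  exact (Subgroup.mul_mem_cancel_right _ (pow_mem hb i)).1 (h.YA ((h.Ymem (mul_mem hq (pow_mem bQ i))).2
    (by rw [h.add hq (pow_mem bQ i), h.pow bQ]; exact e')))

theorem aA : a ∈ A := (h.Amem h.aQ).2 (by rw [h.ka]; rfl)
theorem aY : a ∉ Y := fun e => absurd ((h.Ymem h.aQ).1 e) (by rw [h.ka]; decide)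

theorem Bmem (hb : b ∈ Q ⊓ R) : (κ b).2.2.2 = 0 := by
  have := (h.Amem (h.csQ hb.1)).1 (cmt_inv_mem (idx7 h.iB (inf_le_left.trans (h.QS.trans h.SA)) h.Sp h.SA h.SB hb h.sS))
  rw [h.ks hb.1] at this
  exact congrArg (·.1) this

theorem toa (hq : q ∈ Q) (e : κ q = (0, 1, 0, 0)) : ∃ c ∈ Q, c * a * c⁻¹ = q := by
  simpa using cos1 h.z7 h.z1 h.Qz (h.Qc a h.aQ) (fun e => h.aY (h.ZY (h.CQ (le_cent1_iff.1 e))))
    ((h.eqv hq h.aQ).1 (e.trans h.ka.symm))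

theorem tree (n : ℕ) : ∀ q ∈ Q, lab (κ q) / 16 < n →
    ∃ g ∈ K, if isA (κ q) then κ (g * q * g⁻¹) = (0, 1, 0, 0) else (κ (g * q * g⁻¹)).2 = 0 := by
  induction n with
  | zero => exact fun _ _ e => absurd e (Nat.not_lt_zero _)
  | succ n ih =>
    intro q hq l
    rcases t_tree (κ q) with e | ⟨e1, e2, e3⟩
    · exact ⟨1, one_mem _, by simpa using e⟩
    obtain ⟨a1, -, a3⟩ := h.co.xK _ e1
    rw [← a3 q hq] at e2 e3
    obtain ⟨g, hg, e⟩ := ih _ (h.cjQ a1 hq) (by omega)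
    exact ⟨_, mul_mem hg a1, by simpa only [isA, e3, cjm] using e⟩

theorem clA (hq : q ∈ Q) (e : isA (κ q)) : ∃ g ∈ K, g * a * g⁻¹ = q := by
  obtain ⟨g, hg, e'⟩ := h.tree _ q hq (Nat.lt_succ_self _)
  obtain ⟨c, hc, e'⟩ := h.toa (h.cjQ hg hq) ((if_pos e).mp e')
  exact ⟨_, mul_mem (inv_mem hg) (h.QK hc), by rw [cjm, e']; group⟩

theorem clB (hq : q ∈ Q) (q1 : q ≠ 1) (e : ¬ isA (κ q)) : IsConj z q := by
  obtain ⟨g, hg, e'⟩ := h.tree _ q hq (Nat.lt_succ_self _)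
  obtain ⟨c, -, e'⟩ := h.trN ((h.Ymem (h.cjQ hg hq)).2 ((if_neg e).mp e')) (mt conj_eq_one_iff.1 q1)
  exact (isConj_of e').trans (isConj_of rfl).symm

theorem exx : ∃ g ∈ K, g ∈ C[a] ∧ g ∉ N(A) ∧ ψ g ^ 3 = 1 ∧ ψ g ≠ 1 := by
  obtain ⟨g, hg, e1, e2⟩ := h.wd [0, 1, 2, 2, 4, 4] (by decide)
  obtain ⟨c, hc, e⟩ := h.toa (h.cjQ hg h.aQ) (by rw [e2 a h.aQ, h.ka, t_fix.1])
  have e3 := h.ph.mul (h.QK (inv_mem hc)) hg
  rw [h.ψ1 (inv_mem hc), one_mul, e1] at e3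
  refine ⟨_, mul_mem (h.QK (inv_mem hc)) hg, mem_cent1.2 (comm_of_conj (by rw [cjm, ← e]; group)), fun n => ?_,
    e3 ▸ t_γ.2.2.1, e3 ▸ t_γ.2.2.2⟩
  obtain ⟨y, hy, ny⟩ := h.YZ
  have yQ := h.YQ hy
  have e4 : κ y = ((κ y).1, 0, 0, 0) := Prod.ext rfl ((h.Ymem yQ).1 hy)
  have m := conj_mem_of_norm n (h.YA hy)
  have := (h.Amem (h.AQ m)).1 m
  rw [cjm, h.kQ (inv_mem hc) (h.cjQ hg yQ), e2 y yQ, e4] at this
  exact t_fix.2.2 _ (fun e => ny ((h.co.ker yQ).1 (by rw [e4, e]; rfl))) this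

theorem cP : #(Q ⊓ C[a]) = 7 ^ 4 := by
  have h1 := FX_idx (h.QF h.aQ)
  have h2 := h.Qp.card_mul_le (H := Q ⊓ C[a]) (inf_lt_left.2 fun e => h.aY (h.ZY (h.CQ (le_cent1_iff.1 e))))
  rw [h.cQ] at h1 h2
  rw [h.cz, inf_comm] at h1
  omega

theorem cD : #(K ⊓ C[a]) = 7 ^ 4 * 3 := by
  obtain ⟨g, hg, ga, -, g3, g1⟩ := h.exx
  have d3 : 3 ∣ #(K ⊓ C[a]) := orderOf_of_pow Nat.prime_three g3 g1 ▸ orderOf_dvd_of_pow_eq_one (by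
    rw [← h.ph.pow hg, orderOf_dvd_iff_pow_eq_one.1 (orderOf_dvd_card' (H := K ⊓ C[a]) ⟨hg, ga⟩), h.ph.one])
  have d7 : 7 ^ 4 ∣ #(K ⊓ C[a]) := h.cP ▸ card_dvd (inf_le_inf_right _ h.QK)
  refine (Nat.eq_of_dvd_of_lt_two_mul (card_ne_zero _) (Nat.Coprime.mul_dvd_of_dvd_of_dvd (by decide) d7 d3) ?_)
  choose ι m e using h.co.sur
  have k : ∀ v (c : 𝔷), κ (ι v * c) = v := fun v c => by rw [h.add (m v) (h.ZQ c.2), e, (h.co.ker (h.ZQ c.2)).2 c.2, add_zero]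
  have l := Nat.card_le_card_of_injective (β := {y | ∃ k ∈ K, k * a * k⁻¹ = y})
    (fun p : Finset.univ.filter isA × 𝔷 => ⟨ι p.1 * p.2, h.clA (mul_mem (m _) (h.ZQ p.2.2))
      (by rw [k]; exact (Finset.mem_filter.1 p.1.2).2)⟩) fun p p' e => by
        have e : ι p.1 * p.2 = ι p'.1 * p'.2 := congrArg Subtype.val e
        have e1 := (k _ _).symm.trans ((congrArg κ e).trans (k _ _))
        exact Prod.ext (Subtype.ext e1) (Subtype.ext (by rwa [e1, mul_right_inj] at e))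
  rw [Nat.card_coe_set_eq, orb_card, Nat.card_prod, h.cz, Nat.card_eq_finsetCard, t_card] at l
  have := card_inf_mul_relIndex C[a] K
  rw [h.cK, inf_comm] at this
  nlinarith

theorem sylP : Syl 7 (Q ⊓ C[a]) C[a] := by
  have l := inf_le_inf_right C[a] h.QK
  have e := card_mul_relIndex l
  rw [h.cP, h.cD] at e
  have s1 : Syl 7 (Q ⊓ C[a]) (K ⊓ C[a]) := syl_mk l (h.Qp.infl _) (by omega)
  refine Hall.syl_of_norm_le (M := N(𝔷) ⊓ C[a]) (s1.of_idx (inf_le_inf_right _ h.KN.le) (PiN.of_not_dvd fun d => ?_))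
    inf_le_right (le_inf (inf_le_right.trans (h.der inf_le_left h.cP.ge)) inf_le_left)
  rw [show K ⊓ C[a] = K ⊓ (N(𝔷) ⊓ C[a]) by rw [← inf_assoc, inf_eq_left.2 h.KN.le], inf_relIndex_right] at d
  have := d.trans (relIndex_dvd_of_norm (h.KN.norms inf_le_left) h.KN.le inf_le_left)
  rw [h.iK] at this
  omega

theorem nza : ¬ IsConj z a := fun e => by
  obtain ⟨g, e⟩ := isConj_iff.1 e
  have := h.sylP.card_dvd (e ▸ cj_cent1 g z ▸ cj_mono g h.Sz) (h.Sp.J g)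
  rw [card_cj, h.cS, h.cP] at this
  exact absurd this (by decide)

theorem Rtr (hy : y ∈ Y) : ∃ r ∈ R, r * a * r⁻¹ = y * a := by
  have e : Y ⊔ zpowers a = A := sup_eq7 h.Ap h.YA (by rw [h.cA, h.cY]) h.aA h.aY
  have c : ∀ {r}, r ∈ R → r ∈ C[a] → zpowers r ≤ C(A) := fun hr ha => by
    rw [zpowers_le, ← e, cent_sup, cent_zpowers]; exact ⟨h.RC hr, ha⟩
  have l : C[a] ⊓ R ≤ A := fun r hr => by_contra fun n => by
    have rQ : r ∈ Q := by_contra fun n => h.aY ((h.Ym a).2 ⟨h.QS h.aQ, fun _ hs => (sup_le (h.QF h.aQ) (zpowers_le.2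
      ⟨h.SN (h.RS hr.2), cmt_one (mem_cent1.1 hr.1).symm ▸ one_mem _⟩) ((h.SQ (h.RS hr.2) n).ge hs)).2⟩)
    have l := sup_le h.AQ (zpowers_le.2 rQ)
    exact h.nab l (by simpa [h.cA] using (h.Qp.of_le l).card_mul_le (left_lt_sup.2 (mt zpowers_le.1 n)))
      (comm_sup (e ▸ comm_sup h.Yab (comm_zpowers a) (cents_symm (zpowers_le.2 (h.RC (h.AR h.aA))))) (comm_zpowers r)
        (cents_symm (c hr.2 hr.1)))
  have l1 := card_le l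
  have l2 := card_inf_mul_relIndex C[a] R
  have l3 : Nat.card (Y : Set G) = 49 := h.cY
  rw [h.cA] at l1
  rw [h.cR] at l2
  refine (Set.eq_of_subset_of_ncard_le (s := {y | ∃ k ∈ R, k * a * k⁻¹ = y}) (t := (· * a) '' Y)
    (fun _ ⟨r, hr, e⟩ => ⟨_, cmt_inv_mem (h.Ac h.aA (h.RS hr)), (conj_eq r a).symm.trans e⟩) ?_).ge ⟨y, hy, rfl⟩
  rw [orb_card, Set.ncard_image_of_injective _ (mul_left_injective a), ← Nat.card_coe_set_eq, l3]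
  nlinarith

theorem tr (hy : y ∈ Y) (y1 : y ≠ 1) : ∃ g ∈ T7 Y a, g * z * g⁻¹ = y := h.trans (fun n hn u hu => by
  have m := mul_mem (mul_mem hn (h.SY hu)) (inv_mem hn)
  have := conj_mem_of_norm hn (cmt_inv_mem (h.Ac (conj_mem_of_norm' (h.nA hn) h.aA) hu))
  obtain ⟨r, hr, e⟩ := h.Rtr this
  have hτ := mul_mem (inv_mem (mem_cj.2 (h.RS (conj_mem_of_norm' (h.nR hn) hr)))) (conj_mem_cj.2 hu)
  refine ⟨r⁻¹ * (n * u * n⁻¹), subset_closure ⟨mul_mem (inv_mem (h.SY (h.RS hr))) m, mem_cent1.2 (comm_of_conj ?_),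
    (h.Sp.J n).elt hτ⟩, fun y hy => ?_⟩
  · rw [cjm, show n * u * n⁻¹ * a * (n * u * n⁻¹)⁻¹ = r * a * r⁻¹ by rw [e]; simp only [commutatorElement_def]; group]
    group
  · rw [cjm]; exact conj_of_comm (mem_cent.1 (inv_mem (h.RC hr)) _ (conj_mem_of_norm m hy)).symm) hy y1

theorem toQ (hw : w ∈ R) : ∃ g ∈ N(Y), g * w * g⁻¹ ∈ Q := by
  by_cases wQ : w ∈ Q
  · exact ⟨1, one_mem _, by simpa⟩
  obtain ⟨n, hn, nn⟩ := SetLike.not_le_iff_exists.1 h.nN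
  have l : cj n (Q ⊓ R) ≤ R := cj_le_of_mem_norm (h.nR hn) inf_le_right
  obtain ⟨b', hb', nb'⟩ := SetLike.not_le_iff_exists.1 fun e : cj n (Q ⊓ R) ≤ Q =>
    nn (h.der inf_le_left h.cB.ge (mem_norm_of_cj_le (le_inf e l)))
  obtain ⟨β, hβ, b, hb, rfl⟩ := (mem_sup_of_norm (zpowers_le.2 (h.SB (h.RS (l hb'))))).1
    ((sup_eq7 (pg7 h.cR) inf_le_right (by rw [h.cR, h.cB]; decide) (l hb') fun e => nb' e.1).ge hw)
  have hb := zpowers_le.2 hb' hb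
  have bS := h.RS (l hb)
  have ZA := h.ZY.trans h.YA
  obtain ⟨τ, hτ, e⟩ := cos (T := Q) (b := b) h.iB (inf_le_left.trans (h.QS.trans h.SA))
    (fun τ hτ => ⟨Q.mul_mem (h.cjQ (h.SK bS) hτ) (inv_mem hτ),
      cmt_inv_mem (mul_mem (conj_mem_of_norm (h.nR (h.SY (h.QS hτ))) (l hb)) (inv_mem (l hb)))⟩)
    (fun τ hτ β hβ => ZA (h.Qc τ hτ β hβ.1)) (fun k => by
      obtain ⟨τ, hτ, e⟩ := h.co.sur (0, 0, 0, 1)
      have := (h.Amem (h.csQ hτ)).1 (cmt_inv_mem (sup_le (b := zpowers b) (c := FX A τ)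
        (fun q hq => ⟨h.SA (h.QS hq), ZA (h.Qc τ hτ q hq)⟩) (zpowers_le.2 ⟨h.SA bS, cmt_inv_mem (k τ hτ)⟩)
        ((h.SQ bS fun e => wQ (mul_mem hβ.1 e)).ge h.sS)).2)
      rw [h.ks hτ, e] at this
      exact absurd this (by decide)) (inv_mem hβ)
  have m := mem_cj.1 (mul_mem ((cj_of_mem_norm (h.nA hn)).ge.trans (cj_mono n h.AB)
    (conj_mem_of_norm' (h.SA (h.QS hτ)) (inv_mem e))) hb)
  refine ⟨_, mul_mem (inv_mem hn) (inv_mem (h.SY (h.QS hτ))), ?_⟩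
  convert (mem_inf.1 m).1 using 1
  simp only [commutatorElement_def]; group

theorem exσ : ∃ σ ∈ S ⊓ C[t], σ ∉ Q :=
  have ⟨_, hq, e⟩ := h.lift h.sK
  ⟨_, ⟨mul_mem (h.QS hq) h.sS, e⟩, fun m => h.sQ ((Subgroup.mul_mem_cancel_left _ hq).1 m)⟩

theorem WQ : ¬ S ⊓ C[t] ≤ Q := have ⟨_, m, n⟩ := h.exσ; fun e => n (e m)

theorem dich (hw : w ∈ S ⊓ C[t]) (w1 : w ≠ 1) : IsConj z w ∨ IsConj a w := by
  obtain ⟨g, -, m⟩ := h.toQ (h.WR hw)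
  by_cases e : isA (κ (g * w * g⁻¹))
  · obtain ⟨c, -, e⟩ := h.clA m e
    exact .inr ((isConj_of e).trans (isConj_of rfl).symm)
  · exact .inl ((h.clB m (mt conj_eq_one_iff.1 w1) e).trans (isConj_of rfl).symm)

theorem el : El 7 2 (S ⊓ C[t]) ⊤ := by
  have c := h.cU inf_le_left h.WQ
  rw [h.QW, h.cz] at c
  refine ⟨p7, le_top, ⟨ab_of_card_sq p7 c.symm.dvd, fun w hw => ?_⟩, c.symm⟩
  obtain ⟨g, -, m⟩ := h.toQ (h.WR hw)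
  exact conj_eq_one_iff.1 (conj_pow.symm.trans (h.Q7 _ m))

theorem cW : {w | w ∈ S ⊓ C[t] ∧ IsConj z w}.ncard = 24 := by
  obtain ⟨σ, hσ, nσ⟩ := h.exσ
  obtain ⟨g, hg, gσ⟩ := h.toQ (h.WR hσ)
  have zW := h.QW.ge.trans inf_le_right
  have eW := sup_eq7 h.el.pg zW (by rw [h.el.card, h.cz]; decide) hσ fun e => nσ (h.ZQ e)
  have b4 := h.Bmem ⟨gσ, conj_mem_of_norm (h.nR hg) (h.WR hσ)⟩
  have b3 : (κ (g * σ * g⁻¹)).2.2.1 ≠ 0 := fun e =>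
    nσ (h.AQ ((mem_normalizer_iff.1 (h.nA hg) σ).2 ((h.Amem gσ).2 (Prod.ext e b4))))
  obtain ⟨m, hm⟩ : ∃ m, (κ (g * σ * g⁻¹)).2.1 = m * (κ (g * σ * g⁻¹)).2.2.1 := ⟨_, (div_mul_cancel₀ _ b3).symm⟩
  let μ := fun w => ((κ (g * w * g⁻¹)).1, (κ (g * w * g⁻¹)).2.2.1)
  have k : ∀ w ∈ S ⊓ C[t], g * w * g⁻¹ ∈ Q ∧ κ (g * w * g⁻¹) = ((μ w).1, m * (μ w).2, (μ w).2, 0) := fun w hw => by
    obtain ⟨c, hc, _, hu, rfl⟩ := (mem_sup_of_norm (zpowers_le.2 (h.SN hσ.1))).1 (eW.ge hw)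
    obtain ⟨j, -, rfl⟩ := zp_lt (h.el.ab.2 σ hσ) hu
    have cY := conj_mem_of_norm hg (h.ZY hc)
    have c0 := (h.Ymem (h.YQ cY)).1 cY
    simp only [μ, ← conj_mul, ← conj_pow, h.add (h.YQ cY) (pow_mem gσ j), h.pow gσ]
    exact ⟨mul_mem (h.YQ cY) (pow_mem gσ j), Prod.ext rfl (by ext <;> simp [c0, hm, b4, mul_left_comm])⟩
  have inj : Set.InjOn μ (S ⊓ C[t] : Subgroup G) := fun w hw w' hw' e => by_contra fun n => by
    have m1 := (h.eqv (k w hw).1 (k w' hw').1).1 (by rw [(k w hw).2, (k w' hw').2, e])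
    rw [conj_inv, conj_mul] at m1
    have m2 := h.QW.le ⟨h.YQ ((mem_normalizer_iff.1 hg _).2 (h.ZY m1)), (S ⊓ C[t]).mul_mem hw (inv_mem hw')⟩
    refine nσ ((mem_normalizer_iff.1 (h.NQ (mem_norm_of_cj_le ?_)) σ).2 gσ)
    rwa [← eq_zpowers_of_prime (h.cz ▸ p7) m2 (mt mul_inv_eq_one.1 n), cj_zpowers, zpowers_le,
      eq_zpowers_of_prime (h.cz ▸ p7) m2 (mt mul_inv_eq_one.1 n)]
  have sur := Set.eq_of_subset_of_ncard_le (Set.subset_univ (μ '' (S ⊓ C[t] : Subgroup G))) (by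
    rw [inj.ncard_image, Set.ncard_univ, ← Nat.card_coe_set_eq]
    exact (by simp : Nat.card (ZMod 7 × ZMod 7) = 7 ^ 2).trans_le h.el.card.ge)
  have μ1 : μ 1 = 0 := by simp [μ, show κ 1 = 0 from h.co.ph.one]
  rw [← (inj.mono fun _ e => e.1).ncard_image, ← t_cnt m, ← Set.ncard_coe_finset]
  refine congrArg _ (Set.ext fun p => ?_)
  obtain ⟨w, hw, rfl⟩ := sur.ge (Set.mem_univ p)
  rw [(inj.mem_image_iff (fun _ e => e.1) hw), Finset.mem_coe, Finset.mem_filter, ← (k w hw).2]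
  refine ⟨fun e => ⟨Finset.mem_univ _, fun e' => h.z1 ?_, fun e' => ?_⟩, fun e => ⟨hw, (h.clB (k w hw).1
    (fun e' => e.2.1 (conj_eq_one_iff.1 e' ▸ μ1)) e.2.2).trans (isConj_of rfl).symm⟩⟩
  · exact isConj_one_left.1 (inj hw (one_mem _) (e'.trans μ1.symm) ▸ e.2)
  · obtain ⟨c, -, e'⟩ := h.clA (k w hw).1 e'
    exact h.nza (e.2.trans ((isConj_of rfl).trans (isConj_of e').symm))

end Hw

theorem Hx.fin (h : Hx S Q Y A R K z t ψ) : ∃ ψ a x, Hz S Q Y A R z t a x ψ ∧ ∀ φ : G → Spor.He, PH C[a] φ →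
    (∀ σ, ∃ g ∈ C[a], φ g = σ) → (∀ g ∈ C[a], φ g = 1 ↔ g ∈ zpowers a) → HC (S ⊓ C[t]) z t a ψ φ := by
  obtain ⟨ψ, s, a, κ, x, h⟩ := h.hw
  obtain ⟨g, a1, a2, a3, -⟩ := h.exx
  obtain rfl := h.Keq
  refine ⟨ψ, a, g, ⟨h.hy, h.aA, h.aY, h.cD, a1, a2, a3, h.sylP, fun _ => h.tr, h.WQ, fun _ => h.dich⟩, fun φ b1 b2 b3 =>
    ⟨h.z1, h.tt, h.t1, h.tK, fun e => h.QZ fun q hq => h.Qt hq (e.ge trivial), h.ph.mono inf_le_left, fun σ => ?_,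
      fun g hg => ⟨fun e => ?_, fun e => (h.ψk g hg.1).2 (sup_le_sup_right h.ZQ _ e)⟩, fun _ => h.inv,
      (h.QW.ge (mem_zpowers z)).2, inf_le_right, h.el, h.cW, fun _ => h.dich, h.Q7 a h.aQ, b1, b2, b3⟩⟩
  · obtain ⟨g, hg, e⟩ := h.ψs σ
    obtain ⟨q, hq, c⟩ := h.lift hg
    exact ⟨_, ⟨mul_mem (h.QK hq) hg, c⟩, by rw [h.ph.mul (h.QK hq) hg, h.ψ1 hq, one_mul, e]⟩
  · rcases h.dec hg.1 e with m | m
    · exact mem_sup_left (h.Qt m hg.2)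
    · exact (Subgroup.mul_mem_cancel_right _ (mem_sup_right (mem_zpowers t))).1
        (mem_sup_left (h.Qt m (mul_mem hg.2 (mem_cent1_self t))))

end H16.M7
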