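/-
Centralizers of semisimple elements in groups of Lie type.
-/
import Cfsg.Agent.H27.BL8

set_option autoImplicit false
set_option linter.unusedSectionVars false

namespace H16.M7

open Matrix H14 H14.RootSys H14.St H14.PreSt H14.St.Tw H11 Function H27.ID H27.BL

/-- centralizers of elements of order `l r` in which all `p`-elements commute -/
def Cz (p : ℕ) (Γ : Type*) [Group Γ] : Prop := ∀ l r : ℕ, l.Prime → r.Prime → l ≠ p → r ≠ p → l ≠ r → ∀ z x : Γ,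
  z ^ l = 1 → x ^ r = 1 → Commute z x →
    (∀ u v k, Commute (z * x) u → Commute (z * x) v → u ^ p ^ k = 1 → v ^ p ^ k = 1 → Commute u v) →
      (∀ u k, Commute (z * x) u → u ^ p ^ k = 1 → u = 1) ∧
        ∀ a b k, Commute (z * x) a → Commute (z * x) b → a ^ k = 1 → b ^ k = 1 → (l * r).Coprime k → Commute a b

theorem Cz.congr {p : ℕ} {Γ Γ' : Type*} [Group Γ] [Group Γ'] (h : Cz p Γ) (φ : Γ ≃* Γ') : Cz p Γ' :=
  fun l r hl hr a1 a2 a3 z x b1 b2 b3 b4 => by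
    obtain ⟨z, rfl⟩ := φ.surjective z
    obtain ⟨x, rfl⟩ := φ.surjective x
    have k : ∀ {a b : Γ}, Commute (φ a) (φ b) ↔ Commute a b := fun {a b} =>
      ⟨fun c => φ.injective (by simpa using c.eq), fun c => c.map φ⟩
    have k2 : ∀ {a : Γ} {n : ℕ}, φ a ^ n = 1 ↔ a ^ n = 1 := fun {a n} => by rw [← map_pow, map_eq_one_iff φ φ.injective]
    rw [← map_mul] at b4 ⊢
    obtain ⟨c1, c2⟩ := h l r hl hr a1 a2 a3 z x (k2.1 b1) (k2.1 b2) (k.1 b3) fun u v n d1 d2 d3 d4 =>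
      k.1 (b4 _ _ n (k.2 d1) (k.2 d2) (k2.2 d3) (k2.2 d4))
    refine ⟨fun u n d1 d2 => ?_, fun a b n d1 d2 d3 d4 d5 => ?_⟩
    · obtain ⟨u, rfl⟩ := φ.surjective u
      rw [c1 u n (k.1 d1) (k2.1 d2), map_one]
    · obtain ⟨a, rfl⟩ := φ.surjective a
      obtain ⟨b, rfl⟩ := φ.surjective b
      exact k.2 (c2 a b n (k.1 d1) (k.1 d2) (k2.1 d3) (k2.1 d4) d5)

variable {ι κ : Type*} [Fintype κ] [DecidableEq κ] [Fintype ι] [DecidableEq ι] {R : RootSys ι κ}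
  {C : Chev R} {K G Γ : Type*} [Field K] [Group G] [Group Γ] {S : St C K G} {F : S.Fr} {p : ℕ} [IsAlgClosed K]
  [hp : Fact p.Prime] [CharP K p] {e : Γ →* G}

theorem exists_tor (Y : Wk F p) {l r : ℕ} (hl : l.Prime) (hr : r.Prime) (a1 : l ≠ p) (a2 : r ≠ p) (a3 : l ≠ r) {z x : G}
    (b1 : z ^ l = 1) (b2 : x ^ r = 1) (b3 : Commute z x) :
    ∃ y c n, z * x = y * F.hmul.tor c * y⁻¹ ∧ c ^ (l * r) ^ n = 1 := by
  have := Fact.mk hl
  have := Fact.mk hr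
  obtain ⟨y, hy⟩ := conj_alg (l := r) Y.alg a2 (a := 1) (g := x) (by rwa [pow_one])
  have k : ∀ {g : G} (y : G) {n : ℕ}, g ^ n = 1 → (y⁻¹ * g * y) ^ n = 1 := fun {g} y {n} h => by
    simpa [h] using conj_pow (a := y⁻¹) (b := g) (i := n)
  obtain ⟨c, a, e1, hc⟩ := Y.tor_pel hy (k y b2)
  have b4 : Commute (F.hmul.tor c) (y⁻¹ * z * y) := e1 ▸ (by simpa using b3.symm.conj y⁻¹)
  have b5 := mem_M (F := F) (pow_pos hr.pos a) hc b4 (k y b1) (((Nat.coprime_primes hr hl).2 a3.symm).pow_left a)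
  obtain ⟨y', c1, c2⟩ := Y.conj_H (l := l) a1 (⟨refl_chi c, fun r a s b k e => closed_chi c r a s b k 1 1 one_pos one_pos
    (by simpa using e)⟩ : Cl R {r | R.chi c r = 1}) b5 (k y b1)
  obtain ⟨d, b, e2, hd⟩ := Y.tor_pel c2 (k y' (k y b1))
  have c3 : Commute (F.hmul.tor c) y' := F.hmul.commute_U (fun _ => id) (Subgroup.mem_sup_left c1)
  refine ⟨y * y', d * c, a + b, ?_, ?_⟩
  · rw [map_mul, ← e2, show y * y' * (y'⁻¹ * (y⁻¹ * z * y) * y' * F.hmul.tor c) * (y * y')⁻¹ =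
      z * (y * (y' * F.hmul.tor c * y'⁻¹) * y⁻¹) by group, ← c3.eq, mul_inv_cancel_right, ← e1]
    group
  · rw [mul_pow, mul_pow, pow_add l, pow_add r]
    rw [show l ^ a * l ^ b * (r ^ a * r ^ b) = l ^ b * (l ^ a * (r ^ a * r ^ b)) by ring, pow_mul d, hd, one_pow, one_mul,
      show l ^ b * (l ^ a * (r ^ a * r ^ b)) = r ^ a * (l ^ b * (l ^ a * r ^ b)) by ring, pow_mul, hc, one_pow]

theorem cz_of (Y : Wk F p) (he : AS.Em p F e) : Cz p Γ := fun l r hl hr a1 a2 a3 z x b1 b2 b3 b4 => by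
  obtain ⟨y, c, n, e1, hc⟩ := exists_tor Y hl hr a1 a2 a3 (z := e z) (x := e x) (by rw [← map_pow, b1, map_one])
    (by rw [← map_pow, b2, map_one]) (b3.map e)
  rw [← map_mul] at e1
  obtain ⟨z', -, m, w, hn, c1, c2, h⟩ := Y.twist (y := y) (c := c) (e1 ▸ he.fix _)
  rw [← e1] at c2
  generalize y * z' = g at c1 c2
  have hm : 0 < (l * r) ^ n := pow_pos (mul_pos hl.pos hr.pos) n
  have k1 : ∀ u, g⁻¹ * e u * g ∈ (F.tw hn).fix := fun u => (mem_tw F hn c1 _).2 (by simpa [mul_assoc] using he.fix u)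
  have k2 : ∀ {u}, Commute (z * x) u → Commute (F.hmul.tor c) (g⁻¹ * e u * g) := fun {u} d =>
    c2 ▸ (by simpa using (d.map e).conj g⁻¹)
  have k3 : ∀ {u : Γ} {j : ℕ}, u ^ j = 1 → (g⁻¹ * e u * g) ^ j = 1 := fun {u j} d => by
    simpa [← map_pow, d] using conj_pow (a := g⁻¹) (b := e u) (i := j)
  have k4 : ∀ u ∈ L (F.tw hn) {r | R.chi c r = 1}, ∀ a, u ^ p ^ a = 1 →
      ∃ v, Commute (z * x) v ∧ v ^ p ^ a = 1 ∧ u = g⁻¹ * e v * g := fun u hu a ha => by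
    obtain ⟨v, hv⟩ := he.mem _ ((mem_tw F hn c1 _).1 (L_le_fix hu)) a (by rw [conj_pow, ha]; simp)
    have d : u = g⁻¹ * e v * g := by rw [hv]; group
    refine ⟨v, he.inj ?_, he.inj (by rw [map_pow, hv, conj_pow, ha]; simp), d⟩
    have := (F.hmul.commute_U (c := c) (fun _ => id) (Subgroup.mem_sup_left (L_le_U hu))).conj g
    rw [← c2, d] at this
    simpa [mul_assoc] using this.eq
  have k5 : ∀ u ∈ L (F.tw hn) {r | R.chi c r = 1}, ∀ a, u ^ p ^ a = 1 → u = 1 := fun u hu a ha => by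
    refine h.eq_one (h.center_H (z := ⟨u, hu⟩) (Subgroup.mem_center_iff.2 fun v => Subtype.ext ?_)) ha
    refine Subgroup.mem_centralizer_singleton_iff.1 (h.le_of_pel (M := Subgroup.centralizer {u}) (fun v hv b hb => ?_) v.2)
    obtain ⟨u', d1, d2, rfl⟩ := k4 u hu a ha
    obtain ⟨v', d3, d4, rfl⟩ := k4 v hv b hb
    have := ((b4 v' u' (a + b) d3 d1 (by rw [pow_add, mul_comm, pow_mul, d4, one_pow])
      (by rw [pow_add, pow_mul, d2, one_pow])).map e).conj g⁻¹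
    exact Subgroup.mem_centralizer_singleton_iff.2 (by simpa using this.eq)
  have k6 : ∀ u k, Commute (z * x) u → u ^ k = 1 → (l * r).Coprime k → g⁻¹ * e u * g ∈ S.U {r | R.chi c r = 1} ⊔ S.H :=
    fun u k d1 d2 d3 => mem_M (F := F) hm hc (k2 d1) (k3 d2) (d3.pow_left n)
  refine ⟨fun u k d1 d2 => ?_, fun a b k d1 d2 d3 d4 d5 => ?_⟩
  · have := k5 _ (h.pel' (k1 u) (k6 u _ d1 d2 ((Nat.Coprime.mul_left ((Nat.coprime_primes hl hp.1).2 a1)
      ((Nat.coprime_primes hr hp.1).2 a2)).pow_right k)) (k3 d2)) k (k3 d2)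
    exact he.inj (by simpa [mul_assoc, inv_mul_eq_iff_eq_mul] using this)
  · have k7 : ∀ u, Commute (z * x) u → u ^ k = 1 → g⁻¹ * e u * g ∈ S.H := fun u d1 d2 => by
      obtain ⟨t, f1, -, v, f2, f3⟩ := h.bru (k1 u) (k6 u k d1 d2 d5)
      rw [f3, (h.le_of_pel (M := ⊥) k5 f2 : v = 1), mul_one]
      exact f1
    have := (show Commute _ _ from F.hmul.comm _ (k7 a d1 d3) _ (k7 b d2 d4)).conj g
    exact he.inj (by simpa [mul_assoc] using this.eq)

theorem cz_quot (h : Sw F Set.univ p) (he : AS.Em p F e) : Cz p (Γ ⧸ Subgroup.center Γ) := by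
  obtain ⟨θ, hθ⟩ := exists_isHom_of_center (S' := C.adG K) F.sep F.top fun z _ a =>
    (C.adG_center K).le (Subgroup.mem_center_iff.2 fun g => a g ((C.adG_top K).ge trivial))
  have a := ker_eq_center (C.adG_sep K) F.top (C.adG_top K) (C.adG_center K) hθ
  have b := hθ.surjective (C.adG_top K)
  obtain ⟨τ, hτ⟩ := desc F.top hθ (Amb.surj F.top (σ := F.σ) fun r t => by
    obtain ⟨r, rfl⟩ := F.ρ.surjective r
    obtain ⟨u, hu⟩ := IsAlgClosed.exists_pow_nat_eq (t / F.c r) (q_pos F r)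
    exact ⟨S.x r u, by rw [H27.BL.σ_x, hu, mul_div_cancel₀ _ (F.c_ne r)]⟩)
  let Φ : (C.adG K).Fr :=
    { F with
      σ := τ
      σ_x := fun r t => by rw [← hθ, hτ, F.σ_x, hθ]
      σ_n := fun r t ht => by rw [← hθ.n, hτ, F.σ_n r t ht, hθ.n]
      pow := by
        obtain ⟨m, E, a1, a2, x, a3, a4⟩ := F.pow
        refine ⟨m, E, a1, a2, θ x, hθ.map_N.le ⟨x, a3, rfl⟩, fun r t => ?_⟩
        rw [← hθ, ← hθ, ← (show Semiconj θ F.σ τ from fun g => (hτ g).symm).iterate_right m, a4, map_mul, map_mul, map_inv]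
      sep := C.adG_sep K
      top := C.adG_top K
      hmul := C.adG_hmul K }
  have d : ∀ z ∈ Subgroup.center G, z ∈ S.H := center_le_H F.sep F.top
  refine cz_of (F := Φ) (e := QuotientGroup.lift _ (θ.comp e) fun z hz => a.ge (h.mem_center fun u hu => ?_))
    ⟨⟨Φ.sep, Φ.top, Φ.hmul, h.alg.fin, fun φ => ?_, ker_pow Φ.hmul Φ.sep Φ.top⟩, h.ok⟩
      ⟨(injective_iff_map_eq_one _).2 ?_, ?_, ?_⟩
  · obtain ⟨y, rfl⟩ := h.le_of_pel (fun u hu => he.mem u (L_le_fix hu)) hu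
    exact (show Commute z y from (Subgroup.mem_center_iff.1 hz y).symm).map e
  · exact ⟨((Matrix.GeneralLinearGroup.map φ).comp (Subgroup.subtype _)).codRestrict _ fun g => C.adRep.map_mem φ g.2,
      fun r t => Subtype.ext (C.adRep.map_x φ r t)⟩
  · rintro ⟨y⟩ hy
    exact (QuotientGroup.eq_one_iff y).2 (Subgroup.mem_center_iff.2 fun g => he.inj (by
      rw [map_mul, map_mul, Subgroup.mem_center_iff.1 (a.le hy)]))
  · rintro ⟨y⟩
    exact (hτ _).trans (congrArg θ (he.fix y))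
  · intro g hg k hk
    obtain ⟨g, rfl⟩ := b g
    obtain ⟨m, a1, a2⟩ := h.pow_H (d _ (a.le (show θ (g ^ p ^ k) = 1 by rwa [map_pow])))
    obtain ⟨u, ⟨i, rfl⟩, v, ⟨j, rfl⟩, a3, a4, a5⟩ := exists_mul_of_coprime (s := g) (a := p ^ k) (b := m) (by rwa [pow_mul])
      ((hp.1.coprime_iff_not_dvd.2 a1).pow_left k)
    have b1 : θ (g ^ j) = 1 := AS.eq_one_of_pp (a := k) (by
      rw [← map_pow, ← zpow_natCast, zpow_comm, zpow_natCast, map_zpow, map_pow, hk, _root_.one_zpow])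
        (by rw [← map_pow, a4, map_one]) a1
    have b2 : θ (g ^ i) = θ g := by rw [a5, map_mul, b1, mul_one, ← a5]
    have b3 : F.σ (g ^ i) * (g ^ i)⁻¹ ∈ Subgroup.center G := a.le (by
      rw [MonoidHom.mem_ker, map_mul, ← hτ, b2, map_inv, b2, mul_inv_eq_one]; exact hg)
    have b4 := (show Commute (F.σ (g ^ i) * (g ^ i)⁻¹) (g ^ i) from (Subgroup.mem_center_iff.1 b3 _).symm).mul_pow (p ^ k)
    rw [inv_mul_cancel_right, ← map_pow, a3, map_one, mul_one] at b4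
    obtain ⟨y, hy⟩ := he.mem _ (mul_inv_eq_one.1 (h.eq_one (d _ b3) b4.symm)) k a3
    exact ⟨y, (congrArg θ hy).trans b2⟩

end H16.M7
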