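/-
Centralizers of semisimple elements: the families.
-/
import Cfsg.Agent.H16.M7L1
import Cfsg.Agent.H27.BL12

set_option autoImplicit false
set_option linter.unusedSectionVars false
set_option maxRecDepth 100000

namespace H16.M7

open Matrix H14 H14.RootSys H14.St H14.PreSt H14.St.Tw H11 Function H27.ID H27.BL Cfsg H11.AS H27.LB H22.KG Cfsg.Lie H14.Good

variable {F : Type*} [Field F] [Fintype F] {p : ℕ} [hp : Fact p.Prime] [CharP F p]

section Rep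
variable {ι κ ν : Type*} [Fintype κ] [DecidableEq κ] [Fintype ι] [DecidableEq ι] [Fintype ν] [DecidableEq ν] {R : RootSys ι κ}
  {C : Chev R} {G G0 : Type*} [Group G] [Group G0] {S : St C (AlgebraicClosure F) G} {S0 : St C F G0} {V : Rep C.toPreChev ν}

theorem cz_rep {j : G →* GL ν _} (h : S.toPreSt.IsHom (V.st _).toPreSt j) (hj : Injective j) (hG : S.U Set.univ = ⊤) (hS : S.Sep)
    {j0 : G0 →* GL ν F} (a : S0.toPreSt.IsHom (V.st F).toPreSt j0) (b : Injective j0)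
    (c : S0.U Set.univ = ⊤) (d : S0.Sep) (hC : COk C.toPreChev) : Cz p (G0 ⧸ Subgroup.center G0) := by
  have := Fact.mk Nat.prime_two
  obtain ⟨μ, a1, a2⟩ := pull_map a b c h hj (algebraMap F _)
  obtain ⟨Φ, b1, b2, -⟩ := exists_sw₁ (l := 2) (alg_rep h hj hG hS) hC a1 a2 d c
  exact cz_quot b1 b2

end Rep

theorem cz_psl {n : ℕ} : Cz p (ProjectiveSpecialLinearGroup (Fin (n + 1)) F) :=
  cz_rep (slSt_isHom n _) SpecialLinearGroup.toGL_injective (slSt_top n _) (slSt_sep n _)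
    (slSt_isHom n F) SpecialLinearGroup.toGL_injective (slSt_top n F) (slSt_sep n F) (mbA n).cok

theorem cz_psu {n q : ℕ} (hn : 3 ≤ n) (hF : Fintype.card F = q ^ 2) : Cz p (PSU n F q) := by
  have := Fact.mk Nat.prime_two
  obtain ⟨m, rfl⟩ : ∃ m, n = m + 1 := ⟨n - 1, by omega⟩
  obtain ⟨ψ⟩ := nonempty_suMat_equiv hF (M := H8.SUT.J m F) (n := m + 1) (by
    ext a b
    simp [-frob_apply, H8.SUT.J, one_apply, apply_ite (frob hF), Fin.rev_eq_iff, eq_comm (a := b)])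
    (left_ne_zero_of_mul_eq_one (by rw [← det_mul, H8.SUT.J_J, det_one])) (Fintype.card_fin _)
  obtain ⟨μ, a1, a2⟩ := pull_map (slSt_isHom m F) SpecialLinearGroup.toGL_injective (slSt_top m F) (slSt_isHom m _)
    SpecialLinearGroup.toGL_injective (algebraMap F (AlgebraicClosure F))
  obtain ⟨Φ, b1, b2, -⟩ := exists_sw (l := 2) (alg_rep (slSt_isHom m _) SpecialLinearGroup.toGL_injective (slSt_top m _)
    (slSt_sep m _)) (mbA m).cok a1 a2 hF two_ne_zero (H8.SUT.T m (frob hF)) (fun f => H8.SUT.T m (iterateFrobenius _ p f))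
    (fun _ => rfl) (c := fun _ => -1) (fun _ _ => by simp [H8.SUT.T]) (fun _ _ _ => by simp [H8.SUT.T, iterateFrobenius_def])
    (fun f s t => by
      rw [iterate_succ_apply', iterate_one, Tw.σ_x, Tw.σ_x]
      exact congrArg₂ _ (H8.SUT.ρ.left_inv s) (by simp [H8.SUT.T, ← iterateFrobenius_def])) (.inr hdA) H8.SUT.ρ.left_inv
    (e := (suMat hF (H8.SUT.J m F)).subtype) Subtype.val_injective
    (fun g => (H8.SUT.σ_eq_iff _ _).2 g.2) fun g hg _ _ => ⟨⟨g, (H8.SUT.σ_eq_iff _ _).1 hg⟩, rfl⟩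
  exact (cz_quot b1 b2).congr (quotCenterCongr ψ)

theorem cz_psp {m : ℕ} : Cz p (PSp m F) :=
  cz_rep (spSt_isHom m _) spToGL_injective (spSt_top m _) (spSt_sep m _) (spSt_isHom m F) spToGL_injective (spSt_top m F)
    (spSt_sep m F) (wbC m).mb.cok

theorem cz_omB {m : ℕ} (hm : 3 ≤ m) (ho : Odd (Fintype.card F)) : Cz p (POmega F (quadFormOdd m F)) :=
  have h2 := H12.odd_card_iff.1 ho
  cz_rep (stPull_isHom _ (Subgroup.subtype_injective _) (Subgroup.range_subtype _)) (Subgroup.subtype_injective _)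
    (stPull_top ..) (stPull_sep _ _ _ ((wbB m).nat_sep _)) (stPull_isHom _ (omToGL_injective F _) (range_omB m F (by omega) h2))
    (omToGL_injective F _) (stPull_top ..) (stPull_sep _ _ _ ((wbB m).nat_sep F)) (wbB m).mb.cok

theorem cz_omD {m : ℕ} (hm : 4 ≤ m) : Cz p (POmega F (quadFormPlus m F)) :=
  cz_rep (stPull_isHom _ (Subgroup.subtype_injective _) (Subgroup.range_subtype _)) (Subgroup.subtype_injective _)
    (stPull_top ..) (stPull_sep _ _ _ ((wbD m (by omega)).nat_sep _))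
    (stPull_isHom _ (omToGL_injective F _) (range_omD m F _ (.inr (by simp; omega)))) (omToGL_injective F _) (stPull_top ..)
    (stPull_sep _ _ _ ((wbD m (by omega)).nat_sep F)) (wbD m (by omega)).mb.cok

theorem ndu : ¬ p ∣ Nat.card Fˣ := fun h => by
  obtain ⟨x, a⟩ := exists_prime_orderOf_dvd_card' p h
  have : (x : F) ^ (p ^ 1 * 1) = 1 := by
    rw [mul_one, pow_one, ← Units.val_pow_eq_pow_val, ← a, pow_orderOf_eq_one, Units.val_one]
  rw [ExpChar.pow_prime_pow_mul_eq_one_iff, pow_one, Units.val_eq_one] at this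
  exact hp.1.ne_one (by rw [← a, this, orderOf_one])

theorem cz_omM {m : ℕ} {a b : F} (hm : 3 ≤ m)
    (hab : ∀ z₁ z₂ : F, z₁ ^ 2 + a * z₁ * z₂ + b * z₂ ^ 2 = 0 → z₁ = 0 ∧ z₂ = 0) : Cz p (POmega F (quadFormMinus m F a b)) := by
  have := Fact.mk Nat.prime_two
  have := fact_of_aniso hab
  have : CharP (QuadraticAlgebra F (-b) a) p := charP_of_injective_algebraMap (algebraMap F _).injective p
  have hm' : 2 ≤ m + 1 := by omega
  have h := H8.OmT.twE hm' (φ := starRingEnd (QuadraticAlgebra F (-b) a)) (F := F) (a := a) (b := b)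
    (ω := ⟨0, 1⟩) (by simp) (fun t => ⟨fun h => ⟨_, eq_algebraMap_of_star h⟩, by
      rintro ⟨c, rfl⟩; ext <;> simp [starRingEnd_apply]⟩) (fun e => by simpa using congrArg QuadraticAlgebra.im (eq_algebraMap_of_star e))
    (by ext <;> simp [starRingEnd_apply]) (by ext <;> simp [starRingEnd_apply])
  have b1 := fun (K : Type _) [Field K] => (H8.OmT.T hm' (.id K)).sep
  have b2 := fun (K : Type _) [Field K] => (H8.OmT.T hm' (.id K)).top
  have b3 : ∀ (K : Type _) [Field K], (H8.OmT.S0 hm' K).toPreSt.IsHom _ (H8.OmT.G0 hm' K).subtype := fun K _ => H8.OmT.S0_x hm'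
  obtain ⟨μ, a1, a2⟩ := pull_map (b3 (QuadraticAlgebra F (-b) a)) (Subgroup.subtype_injective _) (b2 _) (b3 _)
    (Subgroup.subtype_injective _) (algebraMap _ (AlgebraicClosure (QuadraticAlgebra F (-b) a)))
  obtain ⟨Φ, c1, c2, -⟩ := exists_sw (l := 2) (alg_rep (b3 _) (Subgroup.subtype_injective _) (b2 _) (b1 _)) (wbD _ hm').mb.cok a1 a2
    (card_quadAlg _ _) two_ne_zero (H8.OmT.T hm' (starRingEnd _)) (fun f => H8.OmT.T hm' (iterateFrobenius _ p f)) (fun _ => rfl) (c := fun _ => 1)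
    (fun _ _ => by simp [H8.OmT.T, quadAlg_pow_card, starRingEnd_apply])
    (fun _ _ _ => by simp [H8.OmT.T, iterateFrobenius_def]) (fun f s t => by
      rw [iterate_succ_apply', iterate_one, Tw.σ_x, Tw.σ_x]
      exact congrArg₂ _ ((H8.OmT.ρ hm').left_inv s) (by simp [H8.OmT.T, ← iterateFrobenius_def])) (.inr (hdD _))
    (H8.OmT.ρ hm').left_inv h.inj h.fix
    fun g hg _ => pel_of_orth h.hh h.ex (ψ := fun _ => (starRingEnd _).toMonoidHom) (fun _ _ => rfl) (fun i j c d =>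
      H8.OmT.orth (φ := .id F) hm' i i (Tw.mem_orb _ _) j d c) ndu (fun c _ => funext fun _ => pow_card_eq_one') h.big hg
  refine (cz_quot c1 c2).congr (quotCenterCongr ((MulEquiv.subgroupCongr ?_).trans (omegaEquiv _ (coe_qMinus m a b)).symm))
  exact H12.eichGroup_eq_commutator (qMinus_nondeg m (disc_ne_zero_of_aniso hab)) (.inr (by simp; omega)) (by simp; omega)
    ⟨Pi.single (.inl (.inl ⟨0, by omega⟩)) 1, by simp, by simp [quadFormMinus]⟩

variable {D : ChevalleyDatum} (X : Good D)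

include X in
theorem cz_good : Cz p (D.group F) := by
  have := Fact.mk Nat.prime_two
  obtain ⟨Φ, b1, b2, -⟩ := exists_sw₁ (l := 2) (alg_good (F := F) (p := p) X) (cok_good X) (X.mapG_inj (algebraMap F _)) (X.mapG_x _)
    (X.SG_sep F) (X.SG_top F)
  exact cz_of ⟨b1.alg, b1.ok⟩ b2

variable {g : GrD} (hg : g.Ok D) (hf : g.Fits (AlgebraicClosure F)) {k : Fin D.nroots → ℕ}

theorem cz_tw (hk : ∀ s : Fin D.nroots, g.ex s = p ^ k s) {m w f : ℕ} (hm : m ≠ 0)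
    (h1 : ∀ x, (gt X hg hf).σ^[m] x = ((alg_good (p := p) X).tw w).σ x) (hF : Fintype.card F = p ^ (w + m * f)) {φ : F →+* F}
    (hφ : ∀ t, φ t = t ^ p ^ f) {hs : Surjective φ} {hf0 : g.Fits F} {Γ : Type*} [Group Γ] {e : Γ →* D.group F}
    (h : (X.tw hg hf0 φ hs).Emb e) : Cz p Γ := by
  have Y := sys_good X (alg_good (F := F) X) (algebraMap F _) hF
  have a0 : ∀ s t, (gt X hg hf).f s t = g.gam s * t ^ p ^ k s := fun s t => hk s ▸ rfl
  obtain ⟨Φ, b1, b2, b3, b4⟩ := exists_pw Y.alg a0 (cok_good X) hm h1 1 f ((mul_one w).symm ▸ Y.pos.ne')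
  rw [mul_one] at b3
  exact cz_of ⟨b1.alg, b1.ok⟩ (em_of Y.alg Y.inj Y.ex (σ := (X.tw hg hf0 φ hs).σ)
    (DFunLike.congr_fun (hom_ext (X.SG_top F) (α := Φ.σ.comp (X.mapG _)) (β := (X.mapG _).comp (X.tw hg hf0 φ hs).σ) fun s t => by
      rw [b2, pow_one, ← En_tw]
      change (gt X hg hf).σ ((Y.alg.tw f).σ (X.mapG _ _)) = X.mapG _ ((X.tw hg hf0 φ hs).σ _)
      rw [Tw.σ_x _ s, X.mapG_x, X.mapG_x, Alg.tw_x, Tw.σ_x]
      refine congrArg _ ((a0 ..).trans ?_)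
      change _ = algebraMap _ _ (φ _)
      rw [map_mul, map_intCast, map_mul, map_intCast, hφ, hk, map_pow, map_pow, pow_right_comm])) hF
    (fun s t => (b3 _).trans (Alg.tw_x ..)) h.inj h.mem fun g hg _ _ => h.lift hg)

theorem cz_ree (h0 : g.p = p) {m : ℕ} (hF : Fintype.card F = p ^ (2 * m + 1)) {φ : F →+* F} (hφ : ∀ t, φ t = t ^ p ^ m)
    {hs : Surjective φ} {hf0 : g.Fits F} {Γ : Type*} [Group Γ] {e : Γ →* D.group F} (h : (X.tw hg hf0 φ hs).Emb e)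
    (h1 : ∀ s : Fin D.nroots, g.gam s = 1 ∧ g.ex s = p ^ k s ∧ hg.rho (hg.rho s) = s ∧ k s + k (hg.rho s) = 1) : Cz p Γ := by
  subst h0
  have hf := GrD.fits_char (g := g) (AlgebraicClosure F) hp.1 fun x => IsAlgClosed.exists_pow_nat_eq x hp.1.pos
  refine cz_tw X hg hf (fun s => (h1 s).2.1) two_ne_zero (w := 1) (iter_eq _ fun s t => ?_) (add_comm 1 _ ▸ hF) hφ h
  have a1 := fun s => X.tw_f hg hf (.id _) surjective_id ⟨(h1 s).1, (h1 s).2.1⟩
  change Tw.σ _ (Tw.σ _ _) = _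
  rw [Tw.σ_x, Tw.σ_x, a1, a1]
  exact congrArg₂ _ (h1 s).2.2.1 (by rw [← (h1 s).2.2.2, pow_add, pow_mul]; rfl)

theorem cz_lie {G : Type*} [Group G] (hG : IsLieTypeChar p G) : IsoSuzuki G ∨ Cz p G := by
  rcases hG with ⟨F, _, _, _, n, hn, -, ⟨e⟩⟩ | ⟨F, _, _, _, m, hm, h, ⟨e⟩⟩ | ⟨F, _, _, _, n, q, hF, hn, -, ⟨e⟩⟩ |
    ⟨F, _, _, _, m, hm, h, ⟨e⟩⟩ | ⟨F, _, _, _, m, hm, ⟨e⟩⟩ | ⟨F, _, _, _, m, a, b, hm, h, ⟨e⟩⟩ |
    ⟨F, _, _, _, ⟨-, ⟨e⟩⟩ | ⟨⟨e⟩⟩ | ⟨⟨e⟩⟩ | ⟨⟨e⟩⟩ | ⟨⟨e⟩⟩⟩ | ⟨F, _, _, _, q, hq, ⟨hF, ⟨e⟩⟩ | ⟨hF, ⟨e⟩⟩⟩ |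
    ⟨-, h⟩ | ⟨rfl, F, _, _, m, hm, hF, ⟨e⟩⟩ | ⟨rfl, F, _, _, m, hm, hF, ⟨e⟩⟩
  rotate_left 13
  · exact .inl h
  all_goals refine .inr (Cz.congr ?_ e.symm)
  · obtain ⟨_, φ, h2, hφ, h, hc⟩ := out_F4 hm hF
    exact cz_ree (p := 2) goodF4 okgrF4 (k := fun s => if grF4.ex s = 1 then 0 else 1) rfl hF hφ h.emb (by decide +kernel)
  · obtain ⟨_, φ, h2, hφ, h, hc⟩ := out_G2 hm hF
    exact cz_ree (p := 3) goodG2 okgrG2 (k := fun s => if grG2.ex s = 1 then 0 else 1) rfl hF hφ h.emb (by decide +kernel)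
  · obtain ⟨n, rfl⟩ : ∃ m, n = m + 1 := ⟨n - 1, by omega⟩
    exact cz_psl
  · exact cz_psp
  · exact cz_psu hn hF
  · exact cz_omB hm h
  · exact cz_omD hm
  · exact cz_omM (by omega) h
  · exact cz_good goodG2
  · exact cz_good goodF4
  · exact cz_good goodE6
  · exact cz_good goodE7
  · exact cz_good goodE8
  · obtain ⟨φ, a1, hφ⟩ := E6.exists_hom hq hF
    have hT := (E6.isTw (h2 := a1) hφ).emb
    obtain ⟨f, rfl, hK⟩ := exists_pf (p := p) hF two_ne_zero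
    exact cz_tw goodE6 okgrE6 (GrD.fits_zero rfl rfl _) (k := 0) (fun _ => GrD.ex_eq_one rfl _) two_ne_zero
      (gt_pow _ _ _ rfl (by decide +kernel)) hK hφ hT
  · obtain ⟨φ, a1, hφ⟩ := D4.exists_hom hq hF
    have hT := (D4.isTw (h3 := a1) hφ).emb
    obtain ⟨f, rfl, hK⟩ := exists_pf (p := p) hF three_ne_zero
    exact cz_tw goodD4 okgrD4 (GrD.fits_zero rfl rfl _) (k := 0) (fun _ => GrD.ex_eq_one rfl _) three_ne_zero
      (gt_pow _ _ _ rfl (by decide +kernel)) hK hφ hT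

end H16.M7
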