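import Cfsg.Agent.H16.M7I
import Cfsg.Agent.H5.Burnside

/-! Small facts on `A7` and the alternating case of the survey. -/

set_option autoImplicit false
set_option linter.unusedSectionVars false
set_option maxRecDepth 100000

open Cfsg Subgroup Equiv
namespace H16.M7
open H19
open scoped commutatorElement

theorem all7 (P : (Fin 7 → Fin 7) → Bool)
    (h : (List.finRange 7).permutations'.all (fun l => P fun i => l.getD i 0) = true) (u : Perm (Fin 7)) : P u = true := by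
  have := List.all_eq_true.1 h _ (List.mem_permutations'.2 (Perm.map_finRange_perm u))
  rwa [show (fun i : Fin 7 => (List.map u (List.finRange 7)).getD i 0) = u from funext fun i => by simp] at this

/-- a product of two transpositions -/
def sw (i j k l : Fin 7) (h : i ≠ j ∧ k ≠ l := by decide) : A7 :=
  ⟨swap i j * swap k l, Perm.mem_alternatingGroup.2 (by rw [Perm.sign_mul, Perm.sign_swap h.1, Perm.sign_swap h.2]; rfl)⟩

theorem card_a7 : Nat.card A7 = 2520 := by rw [nat_card_alternatingGroup, Nat.card_fin]; rfl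
theorem pw_red {p k m : ℕ} {u : A7} (h : u ^ p ^ k = 1) (hp : p.Prime) (hm : ¬ p ^ (m + 1) ∣ 2520) : u ^ p ^ m = 1 := by
  obtain ⟨j, -, e⟩ := (Nat.dvd_prime_pow hp).1 (orderOf_dvd_of_pow_eq_one h)
  refine orderOf_dvd_iff_pow_eq_one.1 (e ▸ pow_dvd_pow p (not_lt.1 fun l => hm ?_))
  exact (pow_dvd_pow p l).trans (e ▸ card_a7 ▸ orderOf_dvd_natCard u)

def L2 : List (Perm (Fin 7)) := [1, swap 3 4, swap 3 5, swap 3 6, swap 4 5, swap 4 6, swap 5 6, swap 3 4 * swap 5 6,
  swap 3 5 * swap 4 6, swap 3 6 * swap 4 5, swap 3 4 * swap 4 5 * swap 5 6, swap 3 4 * swap 4 6 * swap 6 5,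
  swap 3 5 * swap 5 4 * swap 4 6, swap 3 5 * swap 5 6 * swap 6 4, swap 3 6 * swap 6 4 * swap 4 5, swap 3 6 * swap 6 5 * swap 5 4]
def L3 : List (Perm (Fin 7)) := [1, swap 4 5 * swap 5 6, swap 4 6 * swap 6 5]

def cmP (c : Perm (Fin 7)) (n : ℕ) (L : List (Perm (Fin 7))) (f : Fin 7 → Fin 7) : Bool :=
  !(List.finRange 7).all (fun i => c (f i) == f (c i)) || !(List.finRange 7).all (fun i => f^[n] i == i) ||
    L.any fun p => (List.finRange 7).all fun i => f i == p i

theorem mem_L {c u : A7} {n : ℕ} {L : List (Perm (Fin 7))} (h : cmP c.1 n L u.1 = true) (h1 : Commute c u) (h2 : u ^ n = 1) :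
    u.1 ∈ L := by
  simp only [cmP, Bool.or_eq_true, Bool.not_eq_true', List.any_eq_true, List.all_eq_true, List.mem_finRange, beq_iff_eq,
    forall_const, ← Bool.not_eq_true] at h
  rcases h with (e | e) | ⟨p, hp, e⟩
  · exact (e fun i => congrArg (·.1 i) h1.eq).elim
  · exact (e fun i => by rw [← Perm.coe_pow]; exact congrArg (·.1 i) h2).elim
  · exact Equiv.ext e ▸ hp

theorem c_2 : (List.finRange 7).permutations'.all (fun l => cmP (sw 0 1 1 2).1 8 L2 fun i => l.getD i 0) = true := by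
  decide +kernel
theorem c_3 : (List.finRange 7).permutations'.all (fun l => cmP (sw 0 1 2 3).1 9 L3 fun i => l.getD i 0) = true := by
  decide +kernel
theorem d_2 : (L2.all fun u => L2.all fun v => !(Perm.sign u == 1) || !(Perm.sign v == 1) || u * v == v * u) = true := by
  decide +kernel
theorem d_3 : (L3.all fun u => L3.all fun v => u * v == v * u) = true := by decide +kernel

theorem two_el {u v : A7} {k : ℕ} (h1 : Commute (sw 0 1 1 2) u) (h2 : Commute (sw 0 1 1 2) v) (h3 : u ^ 2 ^ k = 1)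
    (h4 : v ^ 2 ^ k = 1) : Commute u v := by
  have := List.all_eq_true.1 (List.all_eq_true.1 d_2 _ (mem_L (all7 _ c_2 _) h1 (pw_red (m := 3) h3 Nat.prime_two (by decide))))
    _ (mem_L (all7 _ c_2 _) h2 (pw_red (m := 3) h4 Nat.prime_two (by decide)))
  simp only [Perm.mem_alternatingGroup.1 u.2, Perm.mem_alternatingGroup.1 v.2, beq_self_eq_true, Bool.not_true, Bool.false_or,
    beq_iff_eq] at this
  exact Subtype.ext this

theorem three_el {u v : A7} {k : ℕ} (h1 : Commute (sw 0 1 2 3) u) (h2 : Commute (sw 0 1 2 3) v) (h3 : u ^ 3 ^ k = 1)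
    (h4 : v ^ 3 ^ k = 1) : Commute u v :=
  Subtype.ext (beq_iff_eq.1 (List.all_eq_true.1 (List.all_eq_true.1 d_3 _
    (mem_L (all7 _ c_3 _) h1 (pw_red (m := 2) h3 Nat.prime_three (by decide))))
    _ (mem_L (all7 _ c_3 _) h2 (pw_red (m := 2) h4 Nat.prime_three (by decide)))))

/-- centralizers of elements of order seven in alternating groups -/
theorem cent_alt {n : ℕ} {g : alternatingGroup (Fin n)} (h : g ^ 7 = 1) (h1 : g ≠ 1) : ∃ k, 7 * (k + 1) ≤ n ∧
    ((n - 7 * (k + 1)).factorial * 7 ^ (k + 1) * (k + 1).factorial = #C[g] ∨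
      (n - 7 * (k + 1)).factorial * 7 ^ (k + 1) * (k + 1).factorial = 2 * #C[g]) := by
  have o : orderOf g.1 = 7 := by rw [Subgroup.orderOf_coe, orderOf_of_pow p7 h h1]
  obtain ⟨k, hk⟩ := Perm.cycleType_prime_order (σ := g.1) (o ▸ p7)
  have h2 := Perm.sum_cycleType_le g.1
  have h4 := Perm.nat_card_centralizer g.1
  rw [hk, o] at h2 h4
  simp only [Multiset.sum_replicate, Fintype.card_fin, smul_eq_mul, Multiset.prod_replicate, Multiset.toFinset_replicate,
    Nat.succ_ne_zero, if_false, Finset.prod_singleton, Multiset.count_replicate_self, mul_comm (k + 1)] at h2 h4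
  have e : #C[g] = #(alternatingGroup (Fin n) ⊓ C[g.1]) := by
    rw [inf_comm, ← card_subgroupOf]
    exact congrArg (fun X : Subgroup _ => #X) (Subgroup.ext fun x => by rw [mem_subgroupOf, mem_cent1, mem_cent1, Subtype.ext_iff]; rfl)
  refine ⟨k, h2, ?_⟩
  rw [← h4, e, ← card_inf_mul_relIndex (alternatingGroup (Fin n)) C[g.1]]
  have : Nontrivial (Fin n) := Fin.nontrivial_iff_two_le.2 (by omega)
  rcases (Nat.dvd_prime Nat.prime_two).1 (alternatingGroup.index_eq_two (α := Fin n) ▸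
    relIndex_dvd_index_of_normal (alternatingGroup (Fin n)) C[g.1]) with e | e <;> rw [e]
  exacts [.inl (mul_one _), .inr (mul_comm _ _)]

theorem cent7 {g : A7} (h : g ^ 7 = 1) (h1 : g ≠ 1) : C[g] = zpowers g := by
  obtain ⟨k, a, b⟩ := cent_alt h h1
  obtain rfl : k = 0 := by omega
  refine (eq_of_le_of_card_eq (zpowers_le.2 (mem_cent1_self g)) ((card7 h h1).trans ?_)).symm
  have b' : 7 = #C[g] ∨ 7 = 2 * #C[g] := b
  omega

universe u
variable {M : Type u} [Group M] [Finite M] {z a u v x : M} {π : M → A7} {σ : A7} {n : ℕ}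

theorem cent_equiv {B : Type*} [Group B] (e : M ≃* B) (a : M) : #C[a] = #C[e a] := by
  rw [← card_map_of_injective (K := C[a]) (f := (e : M →* B)) e.injective]
  exact congrArg (fun X : Subgroup _ => #X) (Subgroup.ext fun x => by
    obtain ⟨x, rfl⟩ := e.surjective x
    refine (mem_map_iff_mem (f := (e : M →* B)) e.injective).trans ?_
    rw [mem_cent1, mem_cent1, ← e.injective.eq_iff]; simp)

theorem not_alt (h : IsAlternating M) (z7 : z ^ 7 = 1) (z1 : z ≠ 1) (c : #C[z] = 17640) (a7 : a ^ 7 = 1)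
    (h5 : ¬ 5 ∣ #C[a]) (ns : ¬ Sol C[a]) (h3 : ¬ 343 ∣ Nat.card M) : False := by
  obtain ⟨n, hn, ⟨e⟩⟩ := h
  have a1 : a ≠ 1 := by
    rintro rfl
    exact h5 (Dvd.dvd.trans (c ▸ by decide) (card_dvd (fun g _ => mem_cent1.2 (by simp) : C[z] ≤ C[(1 : M)])))
  have l : n < 21 := not_le.1 fun l => h3 (by
    have : Nontrivial (Fin n) := Fin.nontrivial_iff_two_le.2 (by omega)
    refine Nat.dvd_of_mul_dvd_mul_left two_pos ?_
    rw [Nat.card_congr e.toEquiv, two_mul_nat_card_alternatingGroup, Nat.card_perm, Nat.card_fin]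
    exact Dvd.dvd.trans (by decide) (Nat.factorial_dvd_factorial l))
  obtain ⟨k, a1, b1⟩ := cent_alt (g := e a) (by rw [← map_pow, a7, map_one]) (by simpa)
  obtain ⟨j, a2, b2⟩ := cent_alt (g := e z) (by rw [← map_pow, z7, map_one]) (by simpa)
  rw [← cent_equiv] at b1 b2
  rw [c] at b2
  obtain rfl : n = 14 := (by decide : ∀ n < 21, ∀ j < 2, (n - 7 * (j + 1)).factorial * 7 ^ (j + 1) * (j + 1).factorial = 17640 ∨
    (n - 7 * (j + 1)).factorial * 7 ^ (j + 1) * (j + 1).factorial = 2 * 17640 → n = 14) n l j (by omega) b2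
  obtain rfl | rfl : k = 0 ∨ k = 1 := by omega
  · simp only [Nat.factorial] at b1
    omega
  · refine ns (H5.isSolvable_of_card_dvd_prime_pow_mul (a := 1) (b := 2) Nat.prime_two p7 ?_)
    rcases b1 with b | b
    exacts [b ▸ by decide, Dvd.intro_left 2 (b.symm.trans (by decide))]

/-- a central extension of `A7` by `⟨z⟩` -/
structure Ex (z : M) (π : M → A7) : Prop where
  z7 : z ^ 7 = 1
  z1 : z ≠ 1
  ph : PH C[z] π
  s : ∀ σ, ∃ g ∈ C[z], π g = σ
  k : ∀ g ∈ C[z], π g = 1 ↔ g ∈ zpowers z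

namespace Ex
variable (h : Ex z π)
include h

theorem card : #C[z] = 17640 := by
  rw [h.ph.card le_rfl h.k, h.ph.im_top h.s, inf_eq_left.2 (zpowers_le.2 (mem_cent1_self z)), card7 h.z7 h.z1, card_top, card_a7]

theorem pw (hu : u ∈ zpowers z) : u ^ 7 = 1 := by
  obtain ⟨i, rfl⟩ := hu
  rw [← zpow_natCast, zpow_comm, zpow_natCast, h.z7, one_zpow]

theorem lift (h1 : σ ^ n = 1) (h2 : σ ^ 7 = σ) : ∃ x ∈ C[z], π x = σ ∧ x ^ n = 1 := by
  obtain ⟨g, hg, rfl⟩ := h.s σ
  exact ⟨_, pow_mem hg 7, (h.ph.pow hg 7).trans h2, by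
    rw [pow_right_comm]; exact h.pw ((h.k _ (pow_mem hg n)).1 ((h.ph.pow hg n).trans h1))⟩

theorem comm (hu : u ∈ C[z]) (hv : v ∈ C[z]) (e : Commute (π u) (π v)) (h1 : u ^ n = 1) (h2 : n.Coprime 7) : Commute u v := by
  have m : v * u * v⁻¹ * u⁻¹ ∈ zpowers z := (h.k _ (mul_mem (mul_mem (mul_mem hv hu) (inv_mem hv)) (inv_mem hu))).1
    (h.ph.div (mul_mem (mul_mem hv hu) (inv_mem hv)) hu (by rw [h.ph.conj hv hu, ← e.eq, mul_inv_cancel_right]))
  have c : Commute (v * u * v⁻¹ * u⁻¹) u := (mem_cent1.1 (cent1_le_cent1_of_mem_zpowers m hu)).symm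
  have := c.mul_pow n
  rw [inv_mul_cancel_right, conj_pow, h1, mul_one, mul_one, mul_inv_cancel] at this
  exact (comm_of_conj (mul_inv_eq_one.1 (eq_one_cop h2 this.symm (h.pw m)))).symm

theorem split (hx : x ∈ C[z]) (h1 : x ^ 36 = 1) (c : Commute (z * x) u) : u ∈ C[z] ∧ Commute (π x) (π u) := by
  have e : (z * x) ^ 36 = z := by
    rw [(show Commute z x from (mem_cent1.1 hx).symm).mul_pow, h1, mul_one, show 36 = 7 * 5 + 1 from rfl, pow_succ, pow_mul, h.z7,
      one_pow, one_mul]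
  have c1 : Commute z u := e ▸ c.pow_left 36
  have hu := mem_cent1.2 c1.symm.eq
  have c2 : Commute x u := by simpa using c1.inv_left.mul_left c
  exact ⟨hu, by rw [Commute, SemiconjBy, ← h.ph.mul hx hu, c2.eq, h.ph.mul hu hx]⟩

theorem not_charP : ¬ C[z] ⊓ C(Oc {7} C[z]) ≤ Oc {7} C[z] := fun c => by
  have n := ((Oc_normal {7} C[z]).im h.ph.hom)
  rw [h.ph.im_top h.s] at n
  have p := (Oc_pi {7} C[z]).im h.ph.hom
  have := alternatingGroup.isSimpleGroup (α := Fin 7) (by simp)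
  have e : im h.ph.hom (Oc {7} C[z]) = ⊥ := (n.normal.eq_bot_or_eq_top).resolve_right fun e => by
    rw [e, PiG, card_top, card_a7] at p
    exact absurd (p 2 Nat.prime_two (by decide)) (by decide)
  have l : Oc {7} C[z] ≤ zpowers z := fun g hg => (h.k g (Oc_le _ _ hg)).1
    (mem_bot.1 (e ▸ h.ph.mem_im.2 ⟨g, hg, Oc_le _ _ hg, rfl⟩))
  have := card_le ((le_inf le_rfl ((cent_zpowers z).ge.trans (cent_mono l))).trans (c.trans l))
  rw [h.card, card7 h.z7 h.z1] at this
  omega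

end Ex

theorem sol_of {K : Subgroup M} (h : PiG {2, 3, 7} K) (c : ∀ p, p = 2 ∨ p = 3 → ∀ u ∈ K, ∀ v ∈ K, PiE {p} u → PiE {p} v → Commute u v) :
    Sol K := by
  have k : ∀ p, p = 2 ∨ p = 3 → ∃ P, Syl p P K ∧ P ⊴ K ∧ Sol P := fun p hp =>
    have ⟨P, hP⟩ := exists_syl p K
    have c' : ∀ g ∈ K, cj g P ≤ C(P) := fun g hg u hu => mem_cent.2 fun v hv =>
      c p hp v (hP.le hv) u ((hP.Jmem hg).le hu) (hP.pi.elt hv) ((hP.pi.J g).elt hu)
    ⟨P, hP, ⟨hP.le, fun g hg => mem_norm_of_cj_le (hP.le_of_norm (hP.Jmem hg).le (hP.pi.J g) (norms_of_cents (c' g hg)))⟩,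
      sol_of_ab (comm_iff_le_cent.2 ((cj_of_mem P.one_mem).ge.trans (c' 1 K.one_mem)))⟩
  obtain ⟨P, a1, a2, a3⟩ := k 2 (.inl rfl)
  obtain ⟨Q, b1, b2, b3⟩ := k 3 (.inr rfl)
  obtain ⟨R, hR⟩ := exists_syl 7 K
  rw [← hR.sup_eq (a2.sup b2).le fun p hp hd => ?_]
  · exact sol_sup (sol_sup a3 b3 (a2.norms b1.le)) hR.pi.sol ((a2.sup b2).norms hR.le)
  rcases h p hp (hd.trans (relIndex_dvd_card _ _)) with rfl | rfl | e
  exacts [(a1.not_dvd_relIndex hp le_sup_left hd).elim, (b1.not_dvd_relIndex hp le_sup_right hd).elim, e]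

end H16.M7
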