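import Cfsg.Agent.H1.TT

/-! Two quadratic four-groups normalized by a `3 ^ 2`: the ring computation. -/

set_option autoImplicit false
set_option linter.unusedSectionVars false
set_option linter.unusedSimpArgs false

namespace H16.MA

theorem frob {A : Type*} [Ring A] (h2 : (2 : A) = 0) {a b : A} (c : Commute a b) (j : ℕ) :
    (a + b) ^ 2 ^ j = a ^ 2 ^ j + b ^ 2 ^ j := by
  induction j with
  | zero => simp
  | succ j ih =>
    rw [pow_succ, pow_mul, pow_mul, pow_mul, ih, (c.pow_pow _ _).add_sq, h2, zero_mul, zero_mul, add_zero]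

section
variable {Λ A : Type*} [CommRing Λ] [Ring A] [Algebra Λ A] {Γ : Submonoid A} {u n m φ ψ : A} {ρ τ σ T s ω : Λ}

/-- a unit of odd order -/
def Od (x : Λ) : Prop := ∃ N, Odd N ∧ x ^ N = 1

theorem Od.mul (h : Od σ) (k : Od τ) : Od (σ * τ) :=
  let ⟨N, h1, h2⟩ := h
  let ⟨M, k1, k2⟩ := k
  ⟨N * M, h1.mul k1, by rw [mul_pow, pow_mul, h2, pow_mul', k2, one_pow, one_pow, one_mul]⟩

theorem Od.pow (h : Od σ) (k : ℕ) : Od (σ ^ k) :=
  let ⟨N, h1, h2⟩ := h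
  ⟨N, h1, by rw [← pow_mul, pow_mul', h2, one_pow]⟩

theorem Od.inv (h : Od σ) (e : σ * ρ = 1) : Od ρ :=
  let ⟨N, h1, h2⟩ := h
  ⟨N, h1, by rw [← one_mul (ρ ^ N), ← h2, ← mul_pow, e, one_pow, h2]⟩

theorem Od.sqrt (h : Od σ) : ∃ r, Od r ∧ r ^ 2 = σ :=
  let ⟨_, ⟨k, rfl⟩, h2⟩ := id h
  ⟨σ ^ (k + 1), h.pow _, by rw [← pow_mul, show (k + 1) * 2 = 2 * k + 1 + 1 by ring, pow_succ, h2, one_mul]⟩

theorem Od.isqrt (h : Od τ) : ∃ r, Od r ∧ r ^ 2 * τ = 1 :=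
  let ⟨_, ⟨k, rfl⟩, h2⟩ := id h
  ⟨τ ^ k, h.pow _, by rw [← pow_mul, ← pow_succ, mul_comm, h2]⟩

theorem Od.om (h : ω ^ 2 + ω + 1 = 0) : Od ω := ⟨3, by decide, by linear_combination (ω - 1) * h⟩

theorem two (h2 : (2 : Λ) = 0) : (2 : A) = 0 := by
  rw [← map_ofNat (algebraMap Λ A) 2, h2, map_zero]

theorem sq_mem (h2 : (2 : Λ) = 0) (h : u * u = ρ • u + 1) (o : Od ρ) (k : u * u ∈ Γ) : u ∈ Γ := by
  obtain ⟨N, hN, e⟩ := o
  have t : (2 : A) = 0 := two h2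
  obtain ⟨j, hj⟩ : ∃ j, N.totient = j + 1 := Nat.exists_eq_succ_of_ne_zero (Nat.totient_pos.2 hN.pos).ne'
  obtain ⟨c, hc⟩ : ∃ c, 2 ^ (j + 1) = N * c + 1 := by
    obtain ⟨c, hc⟩ := (Nat.modEq_iff_dvd' Nat.one_le_two_pow).1
      (hj ▸ Nat.ModEq.pow_totient (Nat.coprime_two_left.2 hN)).symm
    exact ⟨c, by have := Nat.one_le_two_pow (n := j + 1); omega⟩
  have e1 : ρ ^ (N * c) = 1 := by rw [pow_mul, e, one_pow]
  have e2 : (u ^ 2 ^ (j + 1)) ^ 2 = ρ • u ^ 2 ^ (j + 1) + 1 := by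
    rw [← pow_mul, pow_mul', pow_two, h, frob t (Commute.one_right _), smul_pow, one_pow, hc, pow_succ ρ, e1, one_mul]
  have c1 : Commute (u ^ 2 ^ (j + 1)) u := Commute.pow_self _ _
  have e3 : (u ^ 2 ^ (j + 1) + u) ^ 2 = ρ • (u ^ 2 ^ (j + 1) + u) := by
    rw [c1.add_sq, t, zero_mul, zero_mul, add_zero, e2, pow_two, h, smul_add, add_add_add_comm, one_add_one_eq_two, t,
      add_zero]
  have e4 : ∀ k, (u ^ 2 ^ (j + 1) + u) ^ (k + 1) = ρ ^ k • (u ^ 2 ^ (j + 1) + u) := fun k => by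
    induction k with
    | zero => simp
    | succ k ih => rw [pow_succ, ih, smul_mul_assoc, ← pow_two, e3, smul_smul, pow_succ ρ]
  have e5 := frob t c1 (j + 1)
  have e6 := e4 (N * c)
  rw [← hc, e1, one_smul] at e6
  rw [e6, add_comm, add_left_inj, ← pow_mul, pow_succ', mul_assoc, pow_mul, pow_two] at e5
  exact e5 ▸ pow_mem k _

theorem swap (h2 : (2 : Λ) = 0) (hn : n * n = 0) (hm : m * m = 0) (h : m * n = n * m + τ • 1)
    (e : σ ^ 2 * τ = 1) (o : Od σ) (k1 : 1 + n ∈ Γ) (k2 : 1 + m ∈ Γ) : σ • (n + m) ∈ Γ := by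
  have hn' : ∀ x, n * (n * x) = 0 := fun x => by rw [← mul_assoc, hn, zero_mul]
  have hm' : ∀ x, m * (m * x) = 0 := fun x => by rw [← mul_assoc, hm, zero_mul]
  have h' : ∀ x, m * (n * x) = n * (m * x) + τ • x := fun x => by
    rw [← mul_assoc, h, add_mul, mul_assoc, smul_mul_assoc, one_mul]
  have k3 : σ • (1 + (1 + n) * (1 + m)) ∈ Γ := sq_mem (ρ := σ * τ) h2 (by
    simp only [mul_add, add_mul, smul_mul_assoc, mul_smul_comm, mul_assoc, hn, hm, h, hn', hm', h', mul_one, one_mul,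
      mul_zero, smul_add, smul_zero, add_zero, zero_add]
    match_scalars <;> grind) (o.inv (by linear_combination e)) (by
    convert mul_mem k1 k2 using 1
    simp only [mul_add, add_mul, smul_mul_assoc, mul_smul_comm, mul_assoc, hn, hm, h, hn', hm', h', mul_one, one_mul,
      mul_zero, smul_add, smul_zero, add_zero, zero_add]
    match_scalars <;> grind)
  convert mul_mem k3 k2 using 1
  simp only [mul_add, add_mul, smul_mul_assoc, mul_smul_comm, mul_assoc, hn, hm, h, hn', hm', h', mul_one, one_mul,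
    mul_zero, smul_add, smul_zero, add_zero, zero_add]
  match_scalars <;> grind

theorem xs (h2 : (2 : Λ) = 0) (hn : φ * φ = 0) (hm : ψ * ψ = 0) (h : ψ * φ = φ * ψ + T • 1)
    (e : s ^ 2 * T = 1) (o : Od s) (w : ω ^ 2 + ω + 1 = 0) (k1 : 1 + φ ∈ Γ) (k2 : 1 + ψ ∈ Γ)
    (k3 : 1 + ω • φ ∈ Γ) (k4 : 1 + ω • ψ ∈ Γ) : 1 + (ω * s) • φ ∈ Γ := by
  obtain ⟨r, o', rfl⟩ := o.sqrt
  have hn' : ∀ x, φ * (φ * x) = 0 := fun x => by rw [← mul_assoc, hn, zero_mul]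
  have hm' : ∀ x, ψ * (ψ * x) = 0 := fun x => by rw [← mul_assoc, hm, zero_mul]
  have h' : ∀ x, ψ * (φ * x) = φ * (ψ * x) + T • x := fun x => by
    rw [← mul_assoc, h, add_mul, mul_assoc, smul_mul_assoc, one_mul]
  have ow := Od.om w
  have w1 := swap h2 hn hm h e o k1 k2
  have w2 := swap (m := ω • ψ) (τ := ω * T) (σ := ω * r ^ 2) h2 hn (by simp [hm])
    (by simp [h, smul_smul]) (by grind) (ow.mul o) k1 k4
  have nn : (1 + r ^ 2 • (φ + ψ)) * (1 + r ^ 2 • (φ + ψ)) = 0 := by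
    simp only [mul_add, add_mul, smul_mul_assoc, mul_smul_comm, mul_assoc, hn, hm, h, hn', hm', h', mul_one, one_mul,
      mul_zero, smul_add, smul_zero, add_zero, zero_add]
    match_scalars <;> grind
  have nc : (1 + r ^ 2 • (φ + ψ)) * φ = φ * (1 + r ^ 2 • (φ + ψ)) + (r ^ 2 * T) • 1 := by
    simp only [mul_add, add_mul, smul_mul_assoc, mul_smul_comm, mul_assoc, hn, hm, h, hn', hm', h', mul_one, one_mul,
      mul_zero, smul_add, smul_zero, add_zero, zero_add]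
    match_scalars <;> grind
  have v1 := swap (σ := r) h2 hn nn nc (by grind) o' k1 (by
    rwa [← add_assoc, one_add_one_eq_two, two (Λ := Λ) h2, zero_add])
  have v2 := swap (m := ω • (1 + r ^ 2 • (φ + ψ))) (τ := ω * (r ^ 2 * T)) (σ := ω * r) h2 hn (by rw [smul_mul_smul_comm, nn, smul_zero])
    (by rw [smul_mul_assoc, nc, mul_smul_comm, smul_add, smul_smul]) (by grind) (ow.mul o') k1 (by
      convert mul_mem (mul_mem v1 k3) v1 using 1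
      simp only [mul_add, add_mul, smul_mul_assoc, mul_smul_comm, mul_assoc, hn, hm, h, hn', hm', h', mul_one, one_mul,
        mul_zero, smul_add, smul_zero, add_zero, zero_add]
      match_scalars <;> grind)
  have h0 := mul_mem w2 w1
  convert mul_mem (mul_mem (mul_mem v2 v1) h0) h0 using 1
  simp only [mul_add, add_mul, smul_mul_assoc, mul_smul_comm, mul_assoc, hn, hm, h, hn', hm', h', mul_one, one_mul,
    mul_zero, smul_add, smul_zero, add_zero, zero_add]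
  match_scalars <;> grind
end

section
variable {R : Type*} [Ring R] {ζ φ ψ e T : R}

/-- the relations -/
structure Rl (ζ φ ψ T : R) : Prop where
  two : (2 : R) = 0
  zz : ζ * ζ = ζ + 1
  ff : φ * φ = 0
  pp : ψ * ψ = 0
  zf : ζ * φ = φ * (ζ * ζ)
  zp : ζ * ψ = ψ * (ζ * ζ)
  tt : ψ * φ = φ * ψ + T

namespace Rl
variable (h : Rl ζ φ ψ T)
include h

theorem aa (x : R) : x + x = 0 := by rw [← two_mul, h.two, zero_mul]
theorem z3 : ζ * (ζ * ζ) = 1 := by rw [h.zz, mul_add, h.zz, mul_one, add_right_comm, h.aa, zero_add]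
theorem te : T = φ * ψ + ψ * φ := by rw [h.tt, ← add_assoc, h.aa, zero_add]
theorem symm : Rl ζ ψ φ T := ⟨h.two, h.zz, h.pp, h.ff, h.zp, h.zf, by rw [h.tt, add_assoc, h.aa, add_zero]⟩
theorem fz : φ * ζ = ζ * (ζ * φ) := by
  rw [h.zf, ← mul_assoc, h.zf, mul_assoc, mul_assoc, h.z3, mul_one]
theorem tf : T * φ = φ * (ψ * φ) := by rw [h.te, add_mul, mul_assoc ψ, h.ff, mul_zero, add_zero, mul_assoc]
theorem cf : Commute φ T := by
  rw [Commute, SemiconjBy, h.tf, h.te, mul_add, ← mul_assoc φ φ, h.ff, zero_mul, zero_add]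
theorem zfp : ζ * (φ * ψ) = φ * ψ * ζ := by
  rw [← mul_assoc, h.zf, mul_assoc, mul_assoc, ← h.symm.fz, mul_assoc]
theorem cz : Commute ζ T := by
  rw [Commute, SemiconjBy, h.te, mul_add, add_mul, h.zfp, h.symm.zfp]
theorem zpow (i : ℕ) : ζ ^ i * φ = φ * ζ ^ (2 * i) := by
  induction i with
  | zero => simp
  | succ i ih => rw [pow_succ', mul_assoc, ih, ← mul_assoc, h.zf, mul_assoc, mul_add, add_comm, pow_add]; simp [pow_two]
theorem map {S : Type*} [Ring S] (f : R →+* S) : Rl (f ζ) (f φ) (f ψ) (f T) :=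
  ⟨by rw [← map_ofNat f 2, h.two, map_zero], by simpa using congrArg f h.zz, by simpa using congrArg f h.ff,
    by simpa using congrArg f h.pp, by simpa using congrArg f h.zf, by simpa using congrArg f h.zp,
    by simpa using congrArg f h.tt⟩

theorem fl (c : ∀ x, x * T = T * x) : ∃ Γ : Submonoid R, (∀ i, 1 + φ * ζ ^ i ∈ Γ ∧ 1 + ψ * ζ ^ i ∈ Γ) ∧
    ∀ r ∈ Γ, ∃ e, (r + 1) ^ 3 = T * e := by
  refine ⟨⟨⟨{r | (∃ a b, r = 1 + (φ * a + ψ * b)) ∧ (∀ a b, ∃ c d, r * (φ * a + ψ * b) = φ * a + ψ * b +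
    (φ * ψ * c + T * d)) ∧ ∀ c d, ∃ e, r * (φ * ψ * c + T * d) = φ * ψ * c + T * d + T * e}, ?_⟩,
    ⟨0, 0, by simp⟩, fun a b => ⟨0, 0, by simp⟩, fun a b => ⟨0, by simp⟩⟩, fun i => ⟨⟨⟨ζ ^ i, 0, by simp⟩,
    fun a b => ⟨ζ ^ (2 * i) * b, 0, ?_⟩, fun a b => ⟨φ * ζ ^ i * b, ?_⟩⟩, ⟨0, ζ ^ i, by simp⟩,
    fun a b => ⟨ζ ^ (2 * i) * a, ζ ^ (2 * i) * a, ?_⟩, fun a b => ⟨ψ * ζ ^ (2 * (2 * i)) * a + ψ * ζ ^ i * b, ?_⟩⟩, ?_⟩
  · rintro r s ⟨⟨a, b, r1⟩, r2, r3⟩ ⟨⟨a', b', s1⟩, s2, s3⟩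
    refine ⟨?_, fun a b => ?_, fun a b => ?_⟩
    · obtain ⟨x, y, k⟩ := r2 a' b'
      exact ⟨a + a' + ψ * x + ψ * y, b + b' + φ * y, by rw [s1, mul_add, k, mul_one, r1, h.te]; noncomm_ring⟩
    · obtain ⟨x, y, k⟩ := s2 a b
      obtain ⟨x', y', k'⟩ := r2 a b
      obtain ⟨z, k''⟩ := r3 x y
      exact ⟨x + x', y + y' + z, by rw [mul_assoc, k, mul_add, k', k'']; noncomm_ring⟩
    · obtain ⟨x, k⟩ := s3 a b
      obtain ⟨y, k'⟩ := r3 a (b + x)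
      exact ⟨x + y, by rw [mul_assoc, k, add_assoc, ← mul_add T, k']; noncomm_ring⟩
  · have k1 : φ * ζ ^ i * φ = 0 := by rw [mul_assoc, h.zpow, ← mul_assoc, h.ff, zero_mul]
    have k2 : φ * ζ ^ i * ψ = φ * ψ * ζ ^ (2 * i) := by rw [mul_assoc, h.symm.zpow, ← mul_assoc]
    rw [add_mul, one_mul, mul_add, ← mul_assoc, ← mul_assoc, k1, k2]; noncomm_ring
  · have k1 : φ * ζ ^ i * φ = 0 := by rw [mul_assoc, h.zpow, ← mul_assoc, h.ff, zero_mul]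
    rw [add_mul, one_mul, mul_add, ← mul_assoc, ← mul_assoc, k1, ← mul_assoc _ T, c]; noncomm_ring
  · have k1 : ψ * ζ ^ i * ψ = 0 := by rw [mul_assoc, h.symm.zpow, ← mul_assoc, h.pp, zero_mul]
    have k2 : ψ * ζ ^ i * φ = (φ * ψ + T) * ζ ^ (2 * i) := by rw [mul_assoc, h.zpow, ← mul_assoc, h.tt]
    rw [add_mul, one_mul, mul_add, ← mul_assoc, ← mul_assoc, k1, k2]; noncomm_ring
  · have k2 : ψ * ζ ^ i * (φ * ψ) = T * ψ * ζ ^ (2 * (2 * i)) := by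
      rw [mul_assoc, ← mul_assoc (ζ ^ i), h.zpow, mul_assoc φ, h.symm.zpow, h.symm.tf]; noncomm_ring
    rw [add_mul, one_mul, mul_add, ← mul_assoc, k2, ← mul_assoc _ T, c (ψ * _)]; noncomm_ring
  · rintro r ⟨⟨a, b, r1⟩, r2, r3⟩
    obtain ⟨x, y, k⟩ := r2 a b
    obtain ⟨z, k'⟩ := r3 x y
    have k0 : r + 1 = φ * a + ψ * b := by rw [r1, add_right_comm, h.aa, zero_add]
    refine ⟨z, ?_⟩
    have k1 : (r + 1) * (φ * a + ψ * b) = φ * ψ * x + T * y := by rw [add_mul r, k, one_mul, add_right_comm, h.aa, zero_add]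
    rw [pow_three]
    nth_rewrite 3 [k0]
    rw [k1, add_mul r, k', one_mul, add_right_comm, h.aa, zero_add]

theorem om {s : R} (c2 : Commute s φ) (k : s * s * T = 1) :
    s * s * (ζ * (φ * ψ) + ζ * ζ * (ψ * φ)) * φ = ζ * φ ∧ φ * (s * s * (ζ * (φ * ψ) + ζ * ζ * (ψ * φ))) = ζ * φ := by
  have k1 : s * s * (ζ * (φ * (ψ * φ))) = ζ * φ := by
    rw [← h.tf, ← mul_assoc ζ, h.cz.eq, ← mul_assoc, ← mul_assoc, k, one_mul]
  constructor
  · rw [← k1, mul_assoc, add_mul, mul_assoc _ (ψ * φ), mul_assoc ψ, h.ff]; noncomm_ring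
  · rw [← mul_assoc, ← (c2.mul_left c2).eq, mul_assoc, mul_add, ← mul_assoc φ ζ, h.fz, ← mul_assoc φ, ← h.zf,
      mul_assoc ζ, mul_assoc ζ, mul_assoc ζ φ, ← mul_assoc φ φ, h.ff, zero_mul, mul_zero, mul_zero, zero_add, k1]

theorem q2 {Γ : Submonoid R} {k : ℕ} (o : T ^ (6 * k + 3) = 1) (g : ∀ i, 1 + φ * ζ ^ i ∈ Γ ∧ 1 + ψ * ζ ^ i ∈ Γ)
    (e1 : e * ζ = ζ * e) (e2 : e * φ = ζ * φ * e) (e3 : e * ψ = ζ * ζ * ψ * e) : ∃ c d, 1 + c * φ ∈ Γ ∧ 1 + d * ψ ∈ Γ ∧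
      Commute e (c * φ) ∧ Commute e (d * ψ) ∧ (c * φ = 0 → φ = 0) ∧ (d * ψ = 0 → ψ = 0) ∧ φ * (c * φ) = 0 ∧
      ψ * (d * ψ) = 0 := by
  obtain ⟨s, hs⟩ : ∃ s, s = T ^ (3 * k + 1) := ⟨_, rfl⟩
  have k0 : s * s * T = 1 := by rw [hs, ← pow_add, ← pow_succ, ← o]; congr 1; omega
  have c1 : Commute s ζ := hs ▸ h.cz.symm.pow_left _
  have c2 : Commute s φ := hs ▸ h.cf.symm.pow_left _
  have c3 : Commute s ψ := hs ▸ h.symm.cf.symm.pow_left _
  have c4 : Commute s T := hs ▸ Commute.pow_self _ _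
  obtain ⟨w1, w2⟩ := h.om c2 k0
  have h' : Rl (ζ * ζ) ψ φ T := ⟨h.two, by rw [mul_assoc, h.z3, mul_one, h.zz, add_assoc, h.aa, add_zero], h.pp, h.ff,
    by rw [mul_assoc, ← h.symm.fz, mul_assoc, h.z3, mul_one], by rw [mul_assoc, ← h.fz, mul_assoc, h.z3, mul_one], h.symm.tt⟩
  obtain ⟨w3, w4⟩ := h'.om c3 k0
  rw [mul_assoc ζ ζ (ζ * ζ), h.z3, mul_one, add_comm] at w3 w4
  have c5 : Commute ζ (s * s * (ζ * (φ * ψ) + ζ * ζ * (ψ * φ))) := (c1.symm.mul_right c1.symm).mul_right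
    (((Commute.refl _).mul_right h.zfp).add_right (((Commute.refl _).mul_right (Commute.refl _)).mul_right h.symm.zfp))
  generalize s * s * (ζ * (φ * ψ) + ζ * ζ * (ψ * φ)) = ω at w1 w2 w3 w4 c5
  have d1 : Commute ω φ := w1.trans w2.symm
  have d2 : Commute ω ψ := w3.trans w4.symm
  have d3 : Commute ω T := h.te ▸ (d1.mul_right d2).add_right (d2.mul_right d1)
  have d4 : Commute ω s := hs ▸ d3.pow_right _
  have w5 : ω * (ω * φ) = ζ * (ζ * φ) := by rw [w1, ← mul_assoc, ← c5.eq, mul_assoc, w1]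
  have w6 : ω * (ω * ψ) = ζ * ψ := by
    rw [w3, ← mul_assoc, ← (c5.mul_left c5).eq, mul_assoc, w3, ← mul_assoc, mul_assoc ζ ζ, h.z3, mul_one]
  have w7 : ω * ω * T = ζ * ζ * (φ * ψ) + ζ * (ψ * φ) := by
    rw [h.te, mul_add, ← mul_assoc, ← mul_assoc, mul_assoc ω ω, mul_assoc ω ω, w5, w6]; noncomm_ring
  have w8 : ω ^ 2 + ω + 1 = 0 := by
    have : (ω ^ 2 + ω + 1) * T = 0 := by
      rw [add_mul, add_mul, pow_two, w7, h.te, mul_add ω, ← mul_assoc ω, ← mul_assoc ω, w1, w3, h.zz]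
      rw [← h.aa (ζ * (φ * ψ) + ζ * (ψ * φ) + φ * ψ + ψ * φ)]; noncomm_ring
    generalize ω ^ 2 + ω + 1 = x at this
    rw [← mul_one x, ← k0, (c4.mul_left c4).eq, ← mul_assoc, this, zero_mul]
  have w9 : ω ^ 3 = 1 := by
    rw [← sub_eq_zero, show ω ^ 3 - 1 = (ω - 1) * (ω ^ 2 + ω + 1) by noncomm_ring, w8, mul_zero]
  have f1 : e * T = ω * ω * T * e := by
    have : e * (ζ * ζ) = ζ * ζ * e := by rw [← mul_assoc, e1, mul_assoc, e1, mul_assoc]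
    rw [w7, h.te, mul_add, ← mul_assoc, ← mul_assoc, e2, e3, mul_assoc _ e, mul_assoc _ e, e2, e3, add_mul,
      ← mul_assoc (ζ * φ), ← mul_assoc (ζ * φ), mul_assoc ζ φ, ← h.zf, ← mul_assoc (ζ * ζ * ψ), ← mul_assoc (ζ * ζ * ψ),
      mul_assoc _ ψ ζ, h.symm.fz, ← mul_assoc ζ ζ ψ, ← mul_assoc (ζ * ζ), mul_assoc ζ ζ (ζ * ζ), h.z3]
    noncomm_ring
  have f2 : e * s = ω * ω * s * e := by
    have := (show SemiconjBy e T (ω * ω * T) from f1).pow_right (3 * k + 1)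
    rwa [((d3.mul_left d3)).mul_pow, ← hs, pow_succ, pow_mul, (Commute.refl ω).mul_pow, w9, one_mul, one_pow, one_mul] at this
  let A := Subring.centralizer ({ω, T} : Set R)
  have m : ∀ {x}, Commute ω x → Commute x T → x ∈ A := fun a b y hy => by
    rcases hy with rfl | rfl
    exacts [a, b.symm]
  have m' : ∀ {x} (k : x ∈ A), (∀ y, Commute ω y → Commute T y → Commute x y) → (⟨x, k⟩ : A) ∈ Subring.center A :=
    fun _ a => Subring.mem_center_iff.2 fun y => Subtype.ext (a _ (y.2 _ (.inl rfl)) (y.2 _ (.inr rfl))).symm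
  have key : ∀ {φ ψ : R}, Commute ω φ → Commute φ T → Commute ω ψ → Commute ψ T → φ * φ = 0 → ψ * ψ = 0 →
      ψ * φ = φ * ψ + T → 1 + φ ∈ Γ → 1 + ψ ∈ Γ → 1 + ω * φ ∈ Γ → 1 + ω * ψ ∈ Γ → 1 + ω * s * φ ∈ Γ :=
    fun a1 a2 a3 a4 b1 b2 b3 => xs (Λ := Subring.center A) (Γ := Γ.comap A.subtype) (φ := ⟨_, m a1 a2⟩) (ψ := ⟨_, m a3 a4⟩)
      (T := ⟨⟨T, m d3 (.refl _)⟩, m' _ fun _ _ b => b⟩) (s := ⟨⟨s, m d4 c4⟩, m' _ fun _ _ b => hs ▸ b.pow_left _⟩)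
      (ω := ⟨⟨ω, m (.refl _) d3⟩, m' _ fun _ a _ => a⟩) (Subtype.ext (Subtype.ext h.two)) (Subtype.ext b1) (Subtype.ext b2)
      (Subtype.ext (b3.trans (congrArg _ (mul_one T).symm))) (Subtype.ext (Subtype.ext ((pow_two s).symm ▸ k0 :)))
      ⟨6 * k + 3, ⟨3 * k + 1, by ring⟩, Subtype.ext (Subtype.ext (by
        show s ^ _ = 1
        rw [hs, ← pow_mul, pow_mul', o, one_pow]))⟩ (Subtype.ext (Subtype.ext w8))
  have g1 := (g 0).1
  have g2 := (g 0).2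
  have g3 := (g 2).1
  have g4 := (g 1).2
  rw [pow_zero, mul_one] at g1 g2
  rw [pow_two, ← h.zf, ← w1] at g3
  rw [pow_one, h.symm.fz, ← mul_assoc, ← w3] at g4
  have u : ∀ x, ω * s * x = 0 → x = 0 := fun x a => by
    rw [← one_mul x, ← k0, (c4.mul_left c4).eq, ← one_mul (s * s), ← w9, show T * (ω ^ 3 * (s * s)) * x =
      T * (ω * ω) * (ω * s) * s * x by noncomm_ring, d4.eq, show T * (ω * ω) * (s * ω) * s * x =
      T * (ω * ω) * s * (ω * s * x) by noncomm_ring, a, mul_zero]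
  have v : ∀ x, Commute s x → Commute ω x → x * x = 0 → x * (ω * s * x) = 0 := fun x a b c => by
    rw [← mul_assoc, ← (b.mul_left a).eq, mul_assoc, c, mul_zero]
  refine ⟨ω * s, ω * s, key d1 h.cf d2 h.symm.cf h.ff h.pp h.tt g1 g2 g3 g4,
    key d2 h.symm.cf d1 h.cf h.pp h.ff h.symm.tt g2 g1 g4 g3, ?_, ?_, u _, u _, v _ c2 d1 h.ff, v _ c3 d2 h.pp⟩
  · rw [d4.eq, mul_assoc, w1, Commute, SemiconjBy, ← mul_assoc, f2, mul_assoc _ e, ← mul_assoc e, e1, mul_assoc ζ e, e2,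
      ← (d4.mul_left d4).symm.eq, ← mul_assoc ζ, ← w5]
    calc _ = s * (ω * ω ^ 3 * φ) * e := by noncomm_ring
      _ = _ := by rw [w9, mul_one, w1]
  · rw [d4.eq, mul_assoc, w3, Commute, SemiconjBy, ← mul_assoc, f2, mul_assoc _ e, mul_assoc ζ ζ ψ, ← mul_assoc e, e1,
      mul_assoc ζ e, ← mul_assoc e, e1, mul_assoc ζ e, e3, ← (d4.mul_left d4).symm.eq]
    calc _ = s * (ω * ω) * (ζ * (ζ * ζ) * (ζ * ψ)) * e := by noncomm_ring
      _ = s * (ω ^ 3 * (ω * ψ)) * e := by rw [h.z3, one_mul, ← w6]; noncomm_ring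
      _ = _ := by rw [w9, one_mul, w3, mul_assoc ζ]
end Rl
end

end H16.MA
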