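import Cfsg.Agent.H16.MA1

/-! Two quadratic four-groups normalized by a `3 ^ 2`: the invariant `2`-subgroups. -/

set_option autoImplicit false
set_option linter.unusedSectionVars false

namespace H16.MA
open Subgroup H19

variable {G : Type*} [Group G] [Finite G] {R : Type*} [Ring R] {L C K : Subgroup G} {ρ : G → R} {a b e g n z : G}
  {ζ η φ ψ T : R}

/-- a submonoid of a finite group -/
def sbg (P : G → Prop) (h1 : P 1) (hm : ∀ a b, P a → P b → P (a * b)) : Subgroup G where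
  carrier := {g | P g}
  one_mem' := h1
  mul_mem' := hm _ _
  inv_mem' := fun {x} hx => by
    have k : ∀ n : ℕ, P (x ^ n) := fun n => by
      induction n with
      | zero => simpa using h1
      | succ n ih => exact pow_succ x n ▸ hm _ _ ih hx
    have := k (orderOf x - 1)
    rwa [eq_inv_of_mul_eq_one_left (a := x ^ (orderOf x - 1)) (b := x) (by
      rw [← pow_succ, Nat.sub_add_cancel (orderOf_pos x), pow_orderOf_eq_one])] at this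

theorem nof (h : ∀ x ∈ K, g * x * g⁻¹ ∈ K) : g ∈ N(K) := mem_norm_of_cj_le fun _ j => by
  obtain ⟨x, hx, rfl⟩ := mem_cj'.1 j
  exact h x hx

theorem ncl {X : Set G} (h : ∀ x ∈ X, g * x * g⁻¹ ∈ X) : g ∈ N(closure X) := mem_norm_of_cj_le (by
  rw [cj_le_iff, closure_le]
  exact fun x hx => mem_cj_inv.2 (subset_closure (h x hx)))

/-- a multiplicative map on a subgroup -/
structure PH (L : Subgroup G) (ρ : G → R) : Prop where
  mul : ∀ g ∈ L, ∀ h ∈ L, ρ (g * h) = ρ g * ρ h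
  one : ρ 1 = 1

theorem PH.inv (h : PH L ρ) (hg : g ∈ L) : ρ g * ρ g⁻¹ = 1 := by rw [← h.mul _ hg _ (inv_mem hg), mul_inv_cancel, h.one]
theorem PH.inv' (h : PH L ρ) (hg : g ∈ L) : ρ g⁻¹ * ρ g = 1 := by rw [← h.mul _ (inv_mem hg) _ hg, inv_mul_cancel, h.one]
theorem PH.cj (h : PH L ρ) (hn : n ∈ L) (hg : g ∈ L) : ρ (n * g * n⁻¹) = ρ n * ρ g * ρ n⁻¹ := by
  rw [h.mul _ (mul_mem hn hg) _ (inv_mem hn), h.mul _ hn _ hg]
theorem PH.pow (h : PH L ρ) (hg : g ∈ L) (k : ℕ) : ρ (g ^ k) = ρ g ^ k := by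
  induction k with
  | zero => simpa using h.one
  | succ k ih => rw [pow_succ, h.mul _ (pow_mem hg k) _ hg, ih, pow_succ]
theorem PH.map {S : Type*} [Ring S] (h : PH L ρ) (f : R →+* S) : PH L fun g => f (ρ g) :=
  ⟨fun g a k b => by rw [h.mul g a k b, map_mul], by rw [h.one, map_one]⟩

/-- the elements acting trivially -/
def PH.J (h : PH L ρ) (l : K ≤ L) : Subgroup G := sbg (fun g => g ∈ K ∧ ρ g = 1) ⟨one_mem _, h.one⟩
  fun a b x y => ⟨mul_mem x.1 y.1, by rw [h.mul _ (l x.1) _ (l y.1), x.2, y.2, one_mul]⟩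
/-- the elements acting like transvections -/
def PH.P (h : PH L ρ) (l : K ≤ L) (φ : R) : Subgroup G := sbg (fun g => g ∈ K ∧ ρ g * φ = φ ∧ φ * ρ g = φ)
  ⟨one_mem _, by simp [h.one]⟩ fun a b x y => ⟨mul_mem x.1 y.1, by
    rw [h.mul _ (l x.1) _ (l y.1), mul_assoc, y.2.1, x.2.1, ← mul_assoc, x.2.2, y.2.2]; exact ⟨rfl, rfl⟩⟩

theorem PH.nJ (h : PH L ρ) (l : K ≤ L) (hn : n ∈ L) (k : n ∈ N(K)) : n ∈ N(h.J l) :=
  nof fun _ x => ⟨conj_mem_of_norm k x.1, by rw [h.cj hn (l x.1), x.2, mul_one, h.inv hn]⟩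
theorem PH.nP (h : PH L ρ) (l : K ≤ L) (hn : n ∈ L) (k : n ∈ N(K)) {u w : R} (e1 : ρ n⁻¹ * φ = φ * u)
    (e2 : φ * ρ n = w * φ) : n ∈ N(h.P l φ) :=
  nof fun _ x => ⟨conj_mem_of_norm k x.1, by
    rw [h.cj hn (l x.1), mul_assoc, e1, mul_assoc, ← mul_assoc _ φ, x.2.1, ← e1, ← mul_assoc, h.inv hn, one_mul], by
    rw [h.cj hn (l x.1), ← mul_assoc, ← mul_assoc, e2, mul_assoc w, x.2.2, ← e2, mul_assoc, h.inv hn, mul_one]⟩

theorem Rl.sqJ (r : Rl ζ φ ψ T) (h : PH L ρ) (l : K ≤ L) {k : ℕ} (o : T ^ (k + 1) = 1) (hg : g ∈ h.P l φ)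
    (c : Commute (ρ g) T) : g * g ∈ h.J l := by
  refine ⟨mul_mem hg.1 hg.1, ?_⟩
  have e1 : (ρ g + 1) * φ = 0 := by rw [add_mul, hg.2.1, one_mul, r.aa]
  have e2 : φ * (ρ g + 1) = 0 := by rw [mul_add, hg.2.2, mul_one, r.aa]
  have e3 : (ρ g + 1) * (ρ g + 1) = 0 := by
    have c' := c.add_left (.one_left T)
    generalize ρ g + 1 = x at e1 e2 c'
    rw [← one_mul (x * x), ← o, pow_succ, mul_assoc, ← mul_assoc T, ← c'.eq, r.te, mul_add,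
      ← mul_assoc x, e1, zero_mul, zero_add, mul_assoc, mul_assoc, e2]; simp
  rw [add_mul, mul_add, one_mul, mul_one, add_assoc, ← add_assoc (ρ g), r.aa, zero_add] at e3
  rw [h.mul _ (l hg.1) _ (l hg.1), ← add_left_inj 1, e3, r.aa]

theorem nil [Finite R] (h2 : (2 : R) = 0) (t : R) : ∃ k m, (t * (t ^ (2 * k + 1) + 1)) ^ m = 0 := by
  obtain ⟨i, j, ne, e⟩ := Finite.exists_ne_map_eq_of_infinite fun i : ℕ => t ^ i
  wlog l : i < j generalizing i j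
  · exact this j i ne.symm e.symm (by omega)
  obtain ⟨d, rfl⟩ := Nat.exists_eq_add_of_lt l
  obtain ⟨c, N, ⟨k, rfl⟩, hN⟩ := Nat.exists_eq_two_pow_mul_odd (n := d + 1) (by omega)
  refine ⟨k, i + 2 ^ c, ?_⟩
  have c1 : Commute t (t ^ (2 * k + 1) + 1) := (Commute.self_pow _ _).add_right (.one_right _)
  have e1 : t ^ i * (t ^ (2 * k + 1) + 1) ^ 2 ^ c = 0 := by
    rw [frob h2 (.one_right _), one_pow, ← pow_mul', ← hN, mul_add, ← pow_add, ← add_assoc, ← e, mul_one, ← two_mul, h2, zero_mul]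
  rw [pow_add, c1.mul_pow, c1.mul_pow, (c1.pow_pow _ _).eq, mul_assoc, ← mul_assoc (t ^ i), (Commute.pow_pow_self t _ _).eq,
    mul_assoc, e1, mul_zero, mul_zero]

/-- the conclusion -/
def Out (C : Subgroup G) (ρ : G → R) (a b e z : G) : Prop := ∃ J P Q : Subgroup G, J ≤ P ∧ J ≤ Q ∧ P ≤ C ∧ Q ≤ C ∧ a ∈ P ∧ b ∈ Q ∧
  (∀ g, g ∈ P ∨ g ∈ Q → ∃ k, ρ (g ^ 2 ^ k) = 1) ∧ (∀ n, n = e ∨ n = z → n ∈ N(J) ∧ n ∈ N(P) ∧ n ∈ N(Q)) ∧
  (∀ g ∈ C, ρ g = 1 → g ∈ J) ∧ (a ∈ J ∨ b ∈ J ∨ (∃ x ∈ P, x ∉ J ∧ e * x * e⁻¹ * x⁻¹ ∈ J) ∧ ∃ x ∈ Q, x ∉ J ∧ e * x * e⁻¹ * x⁻¹ ∈ J)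

theorem q3 [Finite R] (h : PH L ρ) (l : C ≤ L) (hz : z ∈ L) (he : e ∈ L) (zC : z ∈ N(C)) (eC : e ∈ N(C)) (ha : a ∈ C) (hb : b ∈ C)
    (r : Rl (ρ z) φ ψ T) (ea : ρ a = 1 + φ) (eb : ρ b = 1 + ψ) (e1 : ρ e * ρ z = ρ z * ρ e) (e2 : ρ e * φ = ρ z * φ * ρ e)
    (e3 : ρ e * ψ = ρ z * ρ z * ψ * ρ e) (ct : ∀ x, Commute x (T ^ 3)) : Out C ρ a b e z := by
  have zi : ρ z⁻¹ = ρ z * ρ z := by rw [← mul_one (ρ z⁻¹), ← r.z3, ← mul_assoc, h.inv' hz, one_mul]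
  have ei := h.inv he
  have ei' := h.inv' he
  set S := {g | g ∈ C ∧ ∃ i : ℕ, ρ g = 1 + φ * ρ z ^ i ∨ ρ g = 1 + ψ * ρ z ^ i} with hS
  have kz : ∀ {φ ψ}, Rl (ρ z) φ ψ T → ∀ i, ρ z * (1 + φ * ρ z ^ i) * ρ z⁻¹ = 1 + φ * ρ z ^ (i + 1) := fun {φ ψ} r i => by
    rw [mul_add, add_mul, mul_one, h.inv hz, zi, ← mul_assoc _ φ, r.zf, ← pow_two, mul_assoc, mul_assoc, ← pow_add, ← pow_add,
      show 2 + (i + 2) = i + 1 + 3 by ring, pow_add _ _ 3, pow_three, r.z3, mul_one]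
  have ke : ∀ {φ ψ} j, Rl (ρ z) φ ψ T → ρ e * φ = ρ z ^ j * φ * ρ e → ∀ i, ρ e * (1 + φ * ρ z ^ i) * ρ e⁻¹ =
      1 + φ * ρ z ^ (2 * j + i) := fun j r e2 i => by
    rw [mul_add, add_mul, mul_one, ei, ← mul_assoc, e2, r.zpow, mul_assoc _ (ρ e), ((show Commute _ _ from e1).pow_right i).eq,
      mul_assoc, mul_assoc (ρ z ^ i), ei, mul_one, mul_assoc, pow_add]
  have nK : ∀ n, n = e ∨ n = z → n ∈ L ∧ n ∈ N(closure S) := fun n hn => by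
    refine ⟨hn.elim (· ▸ he) (· ▸ hz), ncl fun g ⟨k, i, j⟩ => ?_⟩
    rcases hn with rfl | rfl
    · refine ⟨conj_mem_of_norm eC k, ?_⟩
      rw [h.cj he (l k)]
      rcases j with j | j
      exacts [⟨_, .inl (j ▸ ke 1 r (by rwa [pow_one]) i)⟩, ⟨_, .inr (j ▸ ke 2 r.symm (by rwa [pow_two]) i)⟩]
    · refine ⟨conj_mem_of_norm zC k, i + 1, ?_⟩
      rw [h.cj hz (l k)]
      exact j.imp (fun j => by rw [j, kz r]) fun j => by rw [j, kz r.symm]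
  have gS : ∀ i : ℕ, (∃ g ∈ S, ρ g = 1 + φ * ρ z ^ i) ∧ ∃ g ∈ S, ρ g = 1 + ψ * ρ z ^ i := fun i => by
    induction i with
    | zero => exact ⟨⟨a, ⟨ha, 0, .inl (by simpa using ea)⟩, by simpa using ea⟩, b, ⟨hb, 0, .inr (by simpa using eb)⟩, by simpa using eb⟩
    | succ i ih =>
      obtain ⟨⟨x, x1, x2⟩, y, y1, y2⟩ := ih
      have x3 := (h.cj hz (l x1.1)).trans (x2 ▸ kz r i)
      have y3 := (h.cj hz (l y1.1)).trans (y2 ▸ kz r.symm i)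
      exact ⟨⟨_, ⟨conj_mem_of_norm zC x1.1, _, .inl x3⟩, x3⟩, _, ⟨conj_mem_of_norm zC y1.1, _, .inr y3⟩, y3⟩
  have KC : closure S ≤ C := (closure_le _).2 fun _ k => k.1
  have aK : a ∈ closure S := subset_closure ⟨ha, 0, .inl (by simpa using ea)⟩
  have bK : b ∈ closure S := subset_closure ⟨hb, 0, .inr (by simpa using eb)⟩
  have kK : ∀ g ∈ C, ρ g = 1 → g ∈ closure S := fun g k1 k2 => (mul_mem_cancel_left aK).1
    (subset_closure ⟨mul_mem ha k1, 0, .inl (by rw [h.mul _ (l ha) _ (l k1), k2, ea]; simp)⟩)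
  have fK : ∀ g ∈ closure S, Commute (ρ g) T ∧ ∃ c, Commute c T ∧ (ρ g + 1) ^ 3 = T * c := by
    let B := Subring.centralizer ({T} : Set R)
    have m : ∀ {x}, Commute x T → x ∈ B := fun a y hy => hy ▸ a.symm
    have r' : Rl (R := B) ⟨_, m r.cz⟩ ⟨_, m r.cf⟩ ⟨_, m r.symm.cf⟩ ⟨_, m (.refl _)⟩ :=
      ⟨Subtype.ext r.two, Subtype.ext r.zz, Subtype.ext r.ff, Subtype.ext r.pp, Subtype.ext r.zf, Subtype.ext r.zp,
        Subtype.ext r.tt⟩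
    obtain ⟨Γ, g1, g2⟩ := r'.fl fun x => Subtype.ext (x.2 T rfl).symm
    have : closure S ≤ sbg (fun g => g ∈ L ∧ ρ g ∈ Γ.map B.subtype) ⟨one_mem _, h.one ▸ one_mem _⟩
        fun a b x y => ⟨mul_mem x.1 y.1, h.mul _ x.1 _ y.1 ▸ mul_mem x.2 y.2⟩ :=
      (closure_le _).2 fun g ⟨k, i, j⟩ => ⟨l k, j.elim (fun j => ⟨_, (g1 i).1, j.symm⟩) fun j => ⟨_, (g1 i).2, j.symm⟩⟩
    intro g hg
    obtain ⟨-, x, x1, x2⟩ := this hg
    obtain ⟨c, hc⟩ := g2 x x1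
    exact x2 ▸ ⟨(x.2 T rfl).symm, c, (c.2 T rfl).symm, congrArg Subtype.val hc⟩
  have l' := KC.trans l
  have sK : ∀ {g}, g ∈ S → g ∈ closure S := fun a => subset_closure a
  generalize closure S = K at *
  obtain ⟨k, m, hm⟩ := nil r.two (T ^ 3)
  have cu : ∀ x, Commute x ((T ^ 3) ^ (2 * k + 1) + 1) := fun x => ((ct x).pow_right _).add_right (.one_right _)
  let I := Ideal.span {(T ^ 3) ^ (2 * k + 1) + 1}
  have : I.IsTwoSided := ⟨fun b ha => by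
    obtain ⟨c, rfl⟩ := Ideal.mem_span_singleton'.1 ha
    exact Ideal.mem_span_singleton'.2 ⟨c * b, by rw [mul_assoc, (cu b).eq, mul_assoc]⟩⟩
  let π := Ideal.Quotient.mk I
  have h' := h.map π
  have r' := r.map π
  have o : π T ^ (6 * k + 3) = 1 := by
    have : π ((T ^ 3) ^ (2 * k + 1) + 1) = 0 := Ideal.Quotient.eq_zero_iff_mem.2 (Ideal.mem_span_singleton_self _)
    rw [map_add, map_one, ← pow_mul, map_pow, ← add_left_inj 1, add_assoc, r'.aa, add_zero, zero_add] at this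
    rwa [show 6 * k + 3 = 3 * (2 * k + 1) by ring]
  have J2 : ∀ g ∈ h'.J l', ∃ k, ρ (g ^ 2 ^ k) = 1 := fun g hg => by
    obtain ⟨c, hc⟩ : ∃ c, c * ((T ^ 3) ^ (2 * k + 1) + 1) = ρ g + 1 := Ideal.mem_span_singleton'.1
      (Ideal.Quotient.eq_zero_iff_mem.1 (by rw [map_add, map_one]; exact hg.2 ▸ r'.aa 1))
    obtain ⟨-, d, d1, d2⟩ := fK g hg.1
    have k1 : (ρ g + 1) ^ (10 * m) = 0 := by
      rw [show 10 * m = 3 * 3 * m + m by ring, pow_add, pow_mul, pow_mul, d2, ← hc, d1.symm.mul_pow, (ct _).symm.mul_pow,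
        (cu c).mul_pow, ((cu _).pow_right m).eq, mul_assoc, ← mul_assoc ((d ^ 3) ^ m), ((cu _).pow_right m).eq,
        mul_assoc, ← mul_assoc, ← (cu _).mul_pow, hm, zero_mul]
    refine ⟨10 * m, ?_⟩
    have k2 := frob r.two (Commute.one_right (ρ g + 1)) (10 * m)
    rwa [add_assoc, r.aa, add_zero, pow_eq_zero_of_le Nat.lt_two_pow_self.le k1, zero_add, one_pow, ← h.pow (l' hg.1)] at k2
  have P2 : ∀ {φ ψ}, Rl (π (ρ z)) φ ψ (π T) → ∀ g ∈ h'.P l' φ, ∃ k, ρ (g ^ 2 ^ k) = 1 := fun r g hg => by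
    obtain ⟨k, hk⟩ := J2 _ (r.sqJ h' l' (k := 6 * k + 2) o hg ((fK g hg.1).1.map π))
    exact ⟨k + 1, by rwa [pow_succ', pow_mul, pow_two]⟩
  have nP : ∀ {φ ψ} j, Rl (ρ z) φ ψ T → ρ e * φ = ρ z ^ j * φ * ρ e → ∀ n, n = e ∨ n = z → n ∈ N(h'.P l' (π φ)) :=
    fun {φ ψ} j r e2 n hn => by
      obtain ⟨n1, n2⟩ := nK n hn
      rcases hn with rfl | rfl
      · have c : ρ z ^ (2 * j) * (ρ n * φ) = φ * ρ n := by
          rw [e2, ← mul_assoc, ← mul_assoc, ← pow_add, ← Nat.succ_mul, pow_mul, pow_three, r.z3, one_pow, one_mul]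
        refine h'.nP l' n1 n2 (u := π (ρ z ^ (2 * (2 * j)) * ρ n⁻¹)) (w := π (ρ z ^ (2 * j) * ρ n)) ?_ ?_
        · rw [← map_mul, ← map_mul, ← mul_assoc, ← r.zpow, ← mul_one (ρ n⁻¹ * φ), ← ei, ← mul_assoc, mul_assoc _ φ, ← c,
            ← mul_assoc, ← mul_assoc, mul_assoc _ _ (ρ n), ← ((show Commute _ _ from e1).pow_right _).eq, ← mul_assoc, ei', one_mul]
        · rw [← map_mul, ← map_mul, ← c, mul_assoc]
      · exact h'.nP l' n1 n2 (u := π (ρ n)) (w := π (ρ n * ρ n)) (by rw [← map_mul, ← map_mul, zi, r.fz, mul_assoc])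
          (by rw [← map_mul, ← map_mul, r.fz, mul_assoc])
  obtain ⟨c, d, ⟨x, x1, x2⟩, ⟨y, y1, y2⟩, c1, d1, c2, d2, c3, d3⟩ := r'.q2 (e := π (ρ e))
    (Γ := ⟨⟨{s | ∃ g ∈ K, π (ρ g) = s}, by
      rintro _ _ ⟨x, x1, rfl⟩ ⟨y, y1, rfl⟩
      exact ⟨_, mul_mem x1 y1, h'.mul _ (l' x1) _ (l' y1)⟩⟩, 1, one_mem _, h'.one⟩) o
    (fun i => ⟨let ⟨g, a, b⟩ := (gS i).1; ⟨g, sK a, by simp [b]⟩, let ⟨g, a, b⟩ := (gS i).2; ⟨g, sK a, by simp [b]⟩⟩)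
    (by simpa using congrArg π e1) (by simpa using congrArg π e2) (by simpa using congrArg π e3)
  have fin : ∀ {φ c x a}, φ * φ = 0 → x ∈ K → π (ρ x) = 1 + c * φ → Commute (π (ρ e)) (c * φ) → (c * φ = 0 → φ = 0) →
      φ * (c * φ) = 0 → a ∈ K → π (ρ a) = 1 + φ → a ∉ h'.J l' → ∃ x ∈ h'.P l' φ, x ∉ h'.J l' ∧ e * x * e⁻¹ * x⁻¹ ∈ h'.J l' :=
    fun {φ c x a} f x1 x2 c1 c2 c3 a1 a2 a3 => ⟨x, ⟨x1, by simp [x2, add_mul, mul_assoc, f], by simp [x2, mul_add, c3]⟩,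
      fun k => a3 ⟨a1, a2.trans (by rw [c2 (by simpa [x2] using k.2), add_zero])⟩,
      mul_mem (conj_mem_of_norm (nK e (.inl rfl)).2 x1) (inv_mem x1), by
        show π (ρ _) = 1
        rw [h'.mul _ (mul_mem (mul_mem he (l' x1)) (inv_mem he)) _ (inv_mem (l' x1)), h'.cj he (l' x1),
          (x2 ▸ (Commute.one_right _).add_right c1 : Commute _ (π (ρ x))).eq, mul_assoc _ (π (ρ e)), h'.inv he, mul_one,
          h'.inv (l' x1)]⟩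
  refine ⟨h'.J l', h'.P l' (π φ), h'.P l' (π ψ), fun g k => ⟨k.1, by simp [k.2]⟩, fun g k => ⟨k.1, by simp [k.2]⟩,
    fun g k => KC k.1, fun g k => KC k.1, ⟨aK, by simp [ea, add_mul, mul_add, r'.ff]⟩, ⟨bK, by simp [eb, add_mul, mul_add, r'.pp]⟩,
    fun g k => k.elim (P2 r' g) (P2 r'.symm g), fun n hn => ⟨h'.nJ l' (nK n hn).1 (nK n hn).2,
      nP 1 r (by rwa [pow_one]) n hn, nP 2 r.symm (by rwa [pow_two]) n hn⟩, fun g k1 k2 => ⟨kK g k1 k2, by simp [k2]⟩,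
    or_iff_not_imp_left.2 fun a1 => or_iff_not_imp_left.2 fun b1 => ⟨fin r'.ff x1 x2 c1 c2 c3 aK (by simp [ea]) a1,
      fin r'.pp y1 y2 d1 d2 d3 bK (by simp [eb]) b1⟩⟩

theorem q4 [Finite R] (h : PH L ρ) (l : C ≤ L) (hz : z ∈ L) (he : e ∈ L) (zC : z ∈ N(C)) (eC : e ∈ N(C)) (ha : a ∈ C) (hb : b ∈ C)
    (r : Rl (ρ z) φ ψ T) (ea : ρ a = 1 + φ) (eb : ρ b = 1 + ψ) (e1 : ρ e * ρ z = ρ z * ρ e) (e2 : ρ e * φ = ρ z * φ * ρ e)
    (e3 : ρ e * ψ = ρ z * ρ z * ψ * ρ e) : Out C ρ a b e z := by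
  classical
  let B := Subring.centralizer ({T ^ 3} : Set R)
  have m : ∀ {x}, Commute x (T ^ 3) → x ∈ B := fun a y hy => hy ▸ a.symm
  have mz := m (r.cz.pow_right 3)
  have mf := m (r.cf.pow_right 3)
  have mp := m (r.symm.cf.pow_right 3)
  have me : ρ e ∈ B := m (by
    have cube : ∀ A B : R, A * B = 0 → B * A = 0 → (A + B) ^ 3 = A ^ 3 + B ^ 3 := fun A B a b => by
      simp [pow_three, mul_add, add_mul, a, b, ← mul_assoc]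
    have p1 : φ * ψ * (ψ * φ) = 0 := by rw [mul_assoc, ← mul_assoc ψ, r.pp, zero_mul, mul_zero]
    have p2 : ψ * φ * (φ * ψ) = 0 := by rw [mul_assoc, ← mul_assoc φ, r.ff, zero_mul, mul_zero]
    have c1 : Commute (ρ z) (φ * ψ) := r.zfp
    have c2 : Commute (ρ z) (ψ * φ) := r.symm.zfp
    have f1 : SemiconjBy (ρ e) T (ρ z * ρ z * (φ * ψ) + ρ z * (ψ * φ)) := by
      rw [SemiconjBy, r.te, mul_add, ← mul_assoc, ← mul_assoc, e2, e3, mul_assoc _ (ρ e), mul_assoc _ (ρ e), e2, e3, add_mul,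
        ← mul_assoc (ρ z * φ), ← mul_assoc (ρ z * φ), mul_assoc (ρ z) φ, ← r.zf, ← mul_assoc (ρ z * ρ z * ψ),
        ← mul_assoc (ρ z * ρ z * ψ), mul_assoc _ ψ (ρ z), r.symm.fz, ← mul_assoc (ρ z) (ρ z) ψ, ← mul_assoc (ρ z * ρ z),
        mul_assoc (ρ z) (ρ z) (ρ z * ρ z), r.z3]
      noncomm_ring
    have := f1.pow_right 3
    rwa [cube _ _ (by rw [mul_assoc, ← mul_assoc (φ * ψ), ← c1.eq, mul_assoc (ρ z) (φ * ψ), p1]; simp)
      (by rw [mul_assoc, ← mul_assoc (ψ * φ), ← (c2.mul_left c2).eq, mul_assoc _ (ψ * φ), p2]; simp),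
      (c1.mul_left c1).mul_pow, c2.mul_pow, (Commute.refl _).mul_pow, pow_three (ρ z), r.z3, one_mul, one_mul, one_mul,
      ← cube _ _ p1 p2, ← r.te] at this)
  let M := sbg (fun g => g ∈ L ∧ ρ g ∈ B) ⟨one_mem _, h.one ▸ one_mem _⟩
    fun a b x y => ⟨mul_mem x.1 y.1, h.mul _ x.1 _ y.1 ▸ mul_mem x.2 y.2⟩
  let σ : G → B := fun g => if k : ρ g ∈ B then ⟨_, k⟩ else 0
  have v : ∀ {g}, ρ g ∈ B → (σ g : R) = ρ g := fun k => by simp [σ, k]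
  have h' : PH M σ := ⟨fun a x b y => Subtype.ext (by
    rw [Subring.coe_mul, v x.2, v y.2, v (mul_mem x y : _ ∈ M).2, h.mul _ x.1 _ y.1]), Subtype.ext (by
      rw [v (one_mem M).2, h.one]; rfl)⟩
  have zM : z ∈ M := ⟨hz, mz⟩
  have eM : e ∈ M := ⟨he, me⟩
  have ma : ρ a ∈ B := ea ▸ add_mem (one_mem _) mf
  have mb : ρ b ∈ B := eb ▸ add_mem (one_mem _) mp
  have sz : σ z = ⟨_, mz⟩ := Subtype.ext (v mz)
  have se : σ e = ⟨_, me⟩ := Subtype.ext (v me)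
  obtain ⟨J, P, Q, j1, j2, j3, j4, j5, j6, j7, j8, j9, j10⟩ := q3 (C := C ⊓ M) (φ := ⟨_, mf⟩) (ψ := ⟨_, mp⟩)
    (T := ⟨T, m (Commute.self_pow _ _)⟩) h' inf_le_right zM eM (norms_inf (zpowers_le.2 zC) (norms_of_le (zpowers_le.2 zM)) (mem_zpowers z))
    (norms_inf (zpowers_le.2 eC) (norms_of_le (zpowers_le.2 eM)) (mem_zpowers e)) ⟨ha, l ha, ma⟩ ⟨hb, l hb, mb⟩
    (sz ▸ ⟨Subtype.ext r.two, Subtype.ext r.zz, Subtype.ext r.ff, Subtype.ext r.pp, Subtype.ext r.zf, Subtype.ext r.zp,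
      Subtype.ext r.tt⟩) (Subtype.ext ((v ma).trans ea)) (Subtype.ext ((v mb).trans eb))
    (sz ▸ se ▸ Subtype.ext e1) (sz ▸ se ▸ Subtype.ext e2) (sz ▸ se ▸ Subtype.ext e3)
    fun x => Subtype.ext (x.2 _ rfl).symm
  exact ⟨J, P, Q, j1, j2, j3.trans inf_le_left, j4.trans inf_le_left, j5, j6, fun g k => (j7 g k).imp fun i j =>
    (v (pow_mem (k.elim (fun k => (j3 k).2) fun k => (j4 k).2) _ : _ ∈ M).2).symm.trans (congrArg Subtype.val j), j8,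
    fun g k1 k2 => j9 g ⟨k1, l k1, k2 ▸ one_mem _⟩ (Subtype.ext ((v (k2 ▸ one_mem _)).trans k2)), j10⟩

end H16.MA
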