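import Cfsg.Agent.H16.N3Z
import Cfsg.Agent.H16.M.A12
import Cfsg.Agent.H0.TRX
import Cfsg.Agent.H1.Am1

/-! A model of the alternating group of degree twelve with the letters used for the Harada-Norton group. -/

set_option autoImplicit false
set_option maxRecDepth 100000

namespace H16.HN3
open H16 H0.TR Subgroup

def xx : A12 := sw 3 9 3 6 * sw 4 10 4 7 * sw 5 11 5 8
def mm : A12 := sw 0 9 1 11 * sw 1 2 1 10
def al (k : ℕ) : A12 := [cs 0, cs 1, cs 2, cs 3, cs 4, cs 5, cs 6, cs 7, 1, 1, a₁, a₁⁻¹, a₂, a₂⁻¹, a₃, a₃⁻¹, a₄, a₄⁻¹, xx, xx⁻¹, sw 3 6 4 8 * sw 5 7 10 11, sw 4 5 7 8, sw 3 6 4 5, mm, mm⁻¹].getD k 1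

namespace X
noncomputable def Pd : List ℕ := [nat_lit 0xba9876243501,
  nat_lit 0xba9875643201,
  nat_lit 0xba9867543201,
  nat_lit 0xba9786543201,
  nat_lit 0xba8976543201,
  nat_lit 0xb9a876543201,
  nat_lit 0xab9876543201,
  nat_lit 0xba9876510243,
  nat_lit 0xba9876543210,
  nat_lit 0xba9876543210,
  nat_lit 0xba9876543021,
  nat_lit 0xba9876543102,
  nat_lit 0xba9876354210,
  nat_lit 0xba9876435210,
  nat_lit 0xba9687543210,
  nat_lit 0xba9768543210,
  nat_lit 0x9ba876543210,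
  nat_lit 0xa9b876543210,
  nat_lit 0x543ba9876210,
  nat_lit 0x876543ba9210,
  nat_lit 0xab9453786210,
  nat_lit 0xba9786453210,
  nat_lit 0xba9873456210,
  nat_lit 0x120876543ba9,
  nat_lit 0x210876543ab9]
noncomputable def P (k u : ℕ) : ℕ := Nat.land (Nat.shiftRight (nth (nat_lit 0) Pd k) (Nat.mul u (nat_lit 4))) (nat_lit 15)
noncomputable def B : List ℕ := [nat_lit 0, nat_lit 1, nat_lit 2, nat_lit 3, nat_lit 4, nat_lit 5, nat_lit 6, nat_lit 7, nat_lit 8, nat_lit 10]
noncomputable def WA : List (List ℕ) := [[nat_lit 16],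
  [nat_lit 17],
  [nat_lit 6, nat_lit 4],
  [nat_lit 3, nat_lit 6],
  [nat_lit 6, nat_lit 2],
  [nat_lit 1, nat_lit 6],
  [nat_lit 18, nat_lit 21, nat_lit 19],
  [nat_lit 7, nat_lit 6, nat_lit 7],
  [nat_lit 6, nat_lit 13, nat_lit 0, nat_lit 12],
  [nat_lit 6, nat_lit 11],
  [nat_lit 6]]
theorem act : Act al (ptF 12) P 12 25 := by unfold Act; decide +kernel
theorem wa : ∀ k < 11, ltAll 25 (nth [] WA k) = 0 ∧ ∀ i < 12, apW P (nth [] WA k) i = H16.A12.P k i := by
  decide +kernel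
theorem md : Md al (ptF 12) P 12 25 B 239500800 where
  act := act
  inj := ptF_inj 12
  top := by
    refine Subgroup.map_injective (alternatingGroup (Fin 12)).subtype_injective ?_
    rw [← MonoidHom.range_eq_map, range_subtype]
    refine le_antisymm (map_subtype_le _) (H16.A12.eq.ge.trans (gen_le.2 fun k hk =>
      ⟨evA al (nth [] WA k), evA_mem_gen _ (ltAll_zero (wa k hk).1), Equiv.ext fun i => ?_⟩))
    have e : ptF 12 i = i := Fin.ext (ptF_val i.2)
    have h1 := (act.apW (ltAll_zero (wa k hk).1) i.2).2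
    have h2 := (H16.A12.act k hk i i.2).2
    rw [(wa k hk).2 i i.2, ← h2, e] at h1
    exact h1
  card := by rw [← H16.A12.card, H16.A12.eq]
  fin := inferInstance
  base := fun a _ h => Subtype.ext (H16.A12.isBase a.1 (H16.A12.eq.ge a.2) h)
  ltB := by decide +kernel
noncomputable def κ : List ℕ → ℕ := H15.CS.key (H1.Am.tot P 25) 12 B
theorem wd {G : Type*} [Group G] {ι : A12 →* G} (hi : Function.Injective ι) : H1.Am.Wd (fun k => ι (al k)) κ := by
  have := H1.Am.wd_of md.sm hi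
  rwa [show (fun k => ι (if k < 25 then al k else 1)) = fun k => ι (al k) from funext fun k => by
    split_ifs with h
    · rfl
    · rw [al, List.getD_eq_default _ _ (by simpa using h)]] at this
end X
end H16.HN3
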