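import Cfsg.Agent.H16.N3X1

/-! Conjugation tables and enumerations of centralisers in a group containing the model of `A12`. -/

set_option autoImplicit false
set_option maxRecDepth 100000

namespace H16.HN3
open Subgroup H0.TR H1.Am

variable {G : Type*} [Group G] {A : ℕ → G} {κ : List ℕ → ℕ} {g γ y : G} {Us Vs Vs' Ws Zs : Wl} {U V T : List ℕ}
  {ι : A12 →* G}

theorem in_all {p : List ℕ → Bool} (h : In A Ws y) (e : allB p Ws = true) :
    ∃ W, y = evA A W ∧ p W = true := let ⟨W, hW, k⟩ := h; ⟨W, k, allB_iff.1 e W hW⟩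

theorem en_of [Finite G] (w : Wd A κ) {n : ℕ} {E : Subgroup G}
    (hc : centralizer (gen (wds A Zs) Zs.length : Set G) = E ∧ Nat.card E = n)
    (h : Ws.length = n ∧ incr κ Ws 0 = true)
    (h' : allB (fun W => allB (fun Z => cjK κ W Z Z) Zs) Ws = true) : En A Zs Ws :=
  En.of_card w (by
    rw [← hc.2, ← hc.1, ← SetLike.coe_sort_coe, Nat.card_coe_set_eq]
    refine congrArg _ (Set.ext fun y => Iff.symm ?_)
    rw [SetLike.mem_coe, gen, centralizer_closure, mem_centralizer_iff]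
    refine ⟨fun h Z hZ => ?_, fun h _ ⟨k, hk, e⟩ => e ▸
      (mul_inv_eq_iff_eq_mul.1 (h _ (nth_mem_of_lt _ _ hk))).symm⟩
    obtain ⟨k, hk, rfl⟩ := List.getElem_of_mem hZ
    exact mul_inv_eq_iff_eq_mul.2 (h _ ⟨k, hk, by rw [wds, nth_eq_getD, List.getD_eq_getElem]⟩).symm) h h'

theorem cj_cos (w : Wd A κ) (h : CJ A g Us Vs) (E : En A Zs Ws) (L : List (List ℕ × List ℕ × List ℕ))
    (e : L.map (·.2.2) = Zs ∧ allB (fun p => cjK κ U (fl Us p.1) (fl Us p.2.1) &&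
      cjK κ V (fl Vs p.1) p.2.2 && eqK κ (fl Vs p.2.1) p.2.2) L = true) :
    In A (Ws.map (H1.Am.app V)) (g * evA A U * g⁻¹) := by
  obtain ⟨W, hW, k⟩ := E (g * evA A U * g⁻¹ * (evA A V)⁻¹) fun Z hZ => by
    obtain ⟨p, hp, rfl⟩ := List.mem_map.1 (e.1 ▸ hZ)
    have := allB_iff.1 e.2 p hp
    simp only [Bool.and_eq_true, w.cj, w.eq] at this
    conv_lhs => rw [← this.1.2, ← h.fl]
    rw [← this.2, ← h.fl, ← this.1.1]; group
  exact ⟨_, List.mem_map_of_mem hW, by rw [evA_app, ← k]; group⟩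

theorem cj_comp {g' : G} (h : CJ A g Us Vs) (h' : CJ A g' Vs Ws) : CJ A (g' * g) Us Ws := by
  induction h generalizing Ws with
  | nil => cases h'; exact .nil
  | cons e _ ih => cases h' with | cons e' h' => exact .cons (by rw [← e', ← e]; group) (ih h')

/-- an element seen through two tables -/
theorem cj_two (w : Wd A κ) (h : CJ A g Us Vs) (h' : CJ A γ Us Vs') (E : En A Zs Ws)
    (L : List (List ℕ × List ℕ × List ℕ)) (e : L.map (·.2.2) = Zs ∧ allB (fun p => eqK κ p.2.2 (fl Us p.2.1) &&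
      eqK κ (fl Vs' p.2.1) (fl Vs p.1) && cjK κ U (fl Us p.1) (fl Us p.1)) L = true) :
    In A Ws (γ⁻¹ * (g * evA A U * g⁻¹) * γ) := E _ fun Z hZ => by
  obtain ⟨p, hp, rfl⟩ := List.mem_map.1 (e.1 ▸ hZ)
  have := allB_iff.1 e.2 p hp
  simp only [Bool.and_eq_true, w.cj, w.eq] at this
  obtain ⟨⟨h1, h2⟩, h3⟩ := this
  rw [← h'.fl, ← h.fl, ← h1] at h2
  calc _ = γ⁻¹ * (g * (evA A U * (g⁻¹ * (γ * evA A p.2.2 * γ⁻¹) * g) * (evA A U)⁻¹) * g⁻¹) * γ := by group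
    _ = γ⁻¹ * (g * (evA A U * evA A (fl Us p.1) * (evA A U)⁻¹) * g⁻¹) * γ := by rw [h2]; group
    _ = _ := by rw [h3, ← h2]; group

theorem step1 (w : Wd A κ) (h : CJ A g Us Vs) (m : In A Ws (g * evA A U * g⁻¹)) (Rs Ns : Wl)
    (L : List (List ℕ × ℕ)) (e : dead κ (U :: Us) Rs Ns = false ∧ stepK κ Vs Rs Ns [V] Ws L = true) :
    ∃ g', CJ A g' (U :: Us) (V :: Vs) :=
  have ⟨g', _, hV, k⟩ := step w h m e; ⟨g', List.mem_singleton.1 hV ▸ k⟩

/-- the letters `8`, `9` replaced by `g`, `g⁻¹` -/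
def Fg (A : ℕ → G) (g : G) (k : ℕ) : G := if k = 8 then g else if k = 9 then g⁻¹ else A k

noncomputable def fr (W : List ℕ) : Bool := !mem W 8 && !mem W 9

theorem evA_Fg {W : List ℕ} (h : fr W = true) : evA (Fg A g) W = evA A W := by
  have h' : 8 ∉ W ∧ 9 ∉ W := by simpa [fr, ← mem_iff] using h
  clear h
  induction W with
  | nil => rfl
  | cons j W ih =>
    simp only [List.mem_cons, not_or] at h'
    rw [evA_cons, evA_cons, ih ⟨h'.1.2, h'.2.2⟩, Fg, if_neg (Ne.symm h'.1.1), if_neg (Ne.symm h'.2.1)]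

theorem evA_cjg {W : List ℕ} (h1 : fr U = true) :
    evA (Fg A g) (9 :: H1.Am.app U (8 :: W)) = evA (Fg A g) W * (g * evA A U * g⁻¹) := by
  rw [evA_cons, evA_app, evA_cons, evA_Fg h1]; simp [Fg, mul_assoc]

theorem relsF (w : Wd A κ) {R : Wl} (c : allB (fun r => fr r && eqK κ r []) R = true) : Rels (Fg A g) R :=
  fun r hr => by
    obtain ⟨c1, c2⟩ := Bool.and_eq_true_iff.1 (allB_iff.1 c r hr)
    rw [evA_Fg c1, w.one.1 c2]

theorem relsG (w : Wd A κ) (h : CJ A g Us Vs) (L : List (List ℕ × List ℕ × List ℕ)) {R : Wl}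
    (c : L.map (fun p => 9 :: H1.Am.app p.1 (8 :: p.2.1)) = R ∧ allB (fun p => fr p.1 && fr p.2.1 &&
      eqK κ p.1 (fl Us p.2.2) && eqK κ (H1.Am.app (fl Vs p.2.2) p.2.1) []) L = true) : Rels (Fg A g) R := fun r hr => by
  obtain ⟨p, hp, rfl⟩ := List.mem_map.1 (c.1 ▸ hr)
  have := allB_iff.1 c.2 p hp
  simp only [Bool.and_eq_true, w.eq] at this
  obtain ⟨⟨⟨c1, c2⟩, c3⟩, c4⟩ := this
  rw [evA_cjg c1, evA_Fg c2, c3, h.fl, ← evA_app, c4]; rfl

/-- the letters of the model inside `G` -/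
abbrev Al (ι : A12 →* G) (k : ℕ) : G := ι (al k)

theorem evAl (W : List ℕ) : evA (Al ι) W = ι (evA al W) := (map_evA _ _ _).symm

theorem w0 : Wd al X.κ := X.wd (ι := MonoidHom.id _) Function.injective_id

theorem en_up (hi : Function.Injective ι) (E : En al Zs Ws)
    (h : ∀ y, (∀ Z ∈ Zs, y * evA (Al ι) Z * y⁻¹ = evA (Al ι) Z) → y ∈ ι.range) : En (Al ι) Zs Ws := fun y hy => by
  obtain ⟨x, rfl⟩ := h y hy
  obtain ⟨W, hW, rfl⟩ := E x fun Z hZ => hi (by simpa [evAl] using hy Z hZ)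
  exact ⟨W, hW, (evAl W).symm⟩

theorem A0.wd (h : A0 ι) : Wd (Al ι) X.κ := X.wd h.inj

theorem A0.rng (h : A0 ι) (H : List ℕ) (e : cjK X.κ H [10] T = true)
    (hy : y * evA (Al ι) T * y⁻¹ = evA (Al ι) T) : y ∈ ι.range := by
  have e1 := h.wd.cj.1 e
  have e2 : evA (Al ι) [10] = ι a₁ := one_mul _
  rw [e2] at e1
  have m : evA (Al ι) H ∈ ι.range := ⟨_, (evAl H).symm⟩
  generalize evA (Al ι) H = k at e1 m
  have := h.ca (k⁻¹ * y * k) (mul_inv_eq_iff_eq_mul.1 (by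
    rw [← e1] at hy
    calc _ = k⁻¹ * (y * (k * ι a₁ * k⁻¹) * y⁻¹) * k := by group
      _ = _ := by rw [hy]; group))
  simpa [mul_assoc] using mul_mem (mul_mem m this) (inv_mem m)

theorem A0.en (h : A0 ι) (H : List ℕ) (E : En al Zs Ws) (e : 0 < Zs.length ∧ cjK X.κ H [10] (nth [] Zs 0) = true) :
    En (Al ι) Zs Ws := en_up h.inj E fun _ hy => h.rng H e.2 (hy _ (nth_mem_of_lt _ _ e.1))

namespace X
theorem e72 : En al e72x_W e72L := en_of w0 (e72c_eq md) e72a e72b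
theorem e81 : En al e81x_W e81L := en_of w0 (e81c_eq md) e81a e81b
theorem e8 : En al e8x_W e8L := en_of w0 (e8c_eq md) e8a e8b
theorem e16 : En al e16x_W e16L := en_of w0 (e16c_eq md) e16a e16b
theorem e4 : En al e4x_W e4L := en_of w0 (e4c_eq md) e4a e4b
theorem f72 : En al f72x_W f72L := en_of w0 (f72c_eq md) f72a f72b
end X

end H16.HN3
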