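import Cfsg.Agent.H9.RL0

/-! S3860, chunk CON: the reduced group has a component. -/

set_option autoImplicit false
set_option linter.unusedVariables false
set_option linter.unusedSectionVars false

namespace H16.RL
open Cfsg Subgroup H19 H17.GS H9.RL

universe u
variable {G : Type u} [Group G] [Finite G] {a b : ℕ} {x t c w y : G} {Q R : Subgroup G}

theorem odd_two (ho : Odd (orderOf x)) (h : PiE {2} x) : x = 1 :=
  h.e_eq_one ((piN_compl_singleton Nat.prime_two).2 fun d => (Nat.not_even_iff_odd.2 ho) (even_iff_two_dvd.2 d))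

theorem ox_nc (o : Ox x t) : x ∉ center G := fun h => by
  have e : x = x⁻¹ := by rw [← o.inv, mem_center_iff.1 h t, mul_inv_cancel_right]
  have : orderOf x ∣ 2 := orderOf_dvd_of_pow_eq_one (by rw [pow_two]; exact mul_eq_one_iff_eq_inv.2 e)
  exact o.ne (odd_two o.odd ((PiN.prime_pow Nat.prime_two 1).dvd this))

theorem ox_sq (o : Ox x t) : t * t ∈ C[x] := mem_cent1.2 (by
  have : t * t * x * (t * t)⁻¹ = x := by
    rw [show t * t * x * (t * t)⁻¹ = t * (t * x * t⁻¹) * t⁻¹ by group, o.inv,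
      show t * x⁻¹ * t⁻¹ = (t * x * t⁻¹)⁻¹ by group, o.inv, inv_inv]
  exact mul_inv_eq_iff_eq_mul.1 this)

theorem ox_norm (o : Ox x t) : t ∈ N(C[x]) := mem_norm_of_cj_le fun y hy => by
  have h := mem_cent1.1 (mem_cj.1 hy)
  have e : x = t * x⁻¹ * t⁻¹ := by rw [show t * x⁻¹ * t⁻¹ = (t * x * t⁻¹)⁻¹ by group, o.inv, inv_inv]
  have h' : Commute (t⁻¹ * y * t) x⁻¹ := Commute.inv_right h
  refine mem_cent1.2 ?_
  calc y * x = t * (t⁻¹ * y * t * x⁻¹) * t⁻¹ := by conv_lhs => rw [e]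
                                                   group
    _ = x * y := by rw [h'.eq]; conv_rhs => rw [e]
                    group

theorem ox_two (o : Ox x t) : ∃ s, Ox x s ∧ PiE {2} s := by
  obtain ⟨j, k, ⟨m, rfl⟩, e⟩ := Nat.exists_eq_two_pow_mul_odd (orderOf_pos t).ne'
  refine ⟨t ^ (2 * m + 1), ⟨o.ne, o.odd, ?_⟩, (PiN.prime_pow Nat.prime_two j).dvd
    (orderOf_dvd_of_pow_eq_one (by rw [← pow_mul, mul_comm, ← e, pow_orderOf_eq_one]))⟩
  have h : (t * t) ^ m * x = x * (t * t) ^ m := mem_cent1.1 (pow_mem (ox_sq o) m)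
  rw [pow_succ', pow_mul, pow_two, mul_assoc t, h, ← o.inv]
  group

theorem iter (h : y * c = c * y) (e : y * w * y⁻¹ = c * w) (n : ℕ) : y ^ n * w * (y ^ n)⁻¹ = c ^ n * w := by
  induction n with
  | zero => simp
  | succ n ih =>
    have k : y * c ^ n = c ^ n * y := (Commute.pow_right h n).eq
    rw [pow_succ', show y * y ^ n * w * (y * y ^ n)⁻¹ = y * (y ^ n * w * (y ^ n)⁻¹) * y⁻¹ by group, ih,
      ← mul_assoc, k, mul_assoc (c ^ n), mul_assoc (c ^ n), e, pow_succ, mul_assoc]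

theorem step (o : Ox x t) (hR : H19.PG 2 R) (hx : x ∈ N(R)) (ht : t ∈ N(R))
    (h : ∀ w ∈ R, t * w * t⁻¹ * w⁻¹ ∈ C[x]) : R ≤ C(zpowers x) := fun w hw => by
  have w1 : t⁻¹ * w * t ∈ R := conj_mem_of_norm' ht hw
  have w2 : x⁻¹ * (t⁻¹ * w * t) * x ∈ R := conj_mem_of_norm' hx w1
  have e : x * x = x * t * x⁻¹ * t⁻¹ := by
    rw [show x * t * x⁻¹ * t⁻¹ = x * (t * x * t⁻¹)⁻¹ by group, o.inv, inv_inv]
  have d : x * x * w * (x * x)⁻¹ * w⁻¹ ∈ C[x] := by
    have := mul_mem (mul_mem (mul_mem (mem_cent1_self x) (h _ w2)) (inv_mem (mem_cent1_self x))) (inv_mem (h _ w1))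
    convert this using 1
    rw [e]; group
  have dR : x * x * w * (x * x)⁻¹ * w⁻¹ ∈ R := mul_mem (conj_mem_of_norm (mul_mem hx hx) hw) (inv_mem hw)
  set c := x * x * w * (x * x)⁻¹ * w⁻¹ with hc
  have cx : Commute c x := mem_cent1.1 d
  have k := iter (y := x * x) (c := c) (w := w) (cx.mul_right cx).symm.eq (by rw [hc]; group) (orderOf x)
  rw [← pow_two, ← pow_mul, mul_comm 2, pow_mul, pow_orderOf_eq_one, one_pow, one_mul, inv_one, mul_one,
    eq_comm, mul_eq_right] at k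
  have c1 : c = 1 := odd_two (o.odd.of_dvd_nat (orderOf_dvd_of_pow_eq_one k)) (hR.elt dR)
  have cw : Commute (x * x) w := by
    rw [hc, mul_inv_eq_one, mul_inv_eq_iff_eq_mul] at c1
    exact c1
  obtain ⟨m, hm⟩ := o.odd
  have e2 : x = (x * x) ^ (m + 1) := by
    rw [← pow_two, ← pow_mul, show 2 * (m + 1) = orderOf x + 1 by omega, pow_succ, pow_orderOf_eq_one, one_mul]
  rw [cent_zpowers]
  exact mem_cent1.2 (e2 ▸ (cw.pow_left (m + 1)).symm.eq)

theorem con : CON.{u} := by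
  intro G _ _ a b x t h o
  have : Fact (Nat.Prime 2) := ⟨Nat.prime_two⟩
  by_contra hn
  have hL : Lay (⊤ : Subgroup G) = ⊥ := Lay_eq_bot.2 fun J hJ => hn ⟨J, hJ⟩
  obtain ⟨t, o, h2⟩ := ox_two o
  obtain ⟨S, hS, tS⟩ := (piG_zpowers.2 h2).exists_syl (le_sup_right : zpowers t ≤ C[x] ⊔ zpowers t)
  have nM : C[x] ⊴ C[x] ⊔ zpowers t := ⟨le_sup_left, sup_le le_normalizer (zpowers_le.2 (ox_norm o))⟩
  have hQ : Syl 2 (S ⊓ C[x]) C[x] := hS.inf_normal nM
  have tS' : t ∈ S := tS (mem_zpowers t)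
  have tQ : t ∈ N(S ⊓ C[x]) := zpowers_le.1 (norms_inf (tS.trans le_normalizer) (zpowers_le.2 (ox_norm o)))
  have t2 : t * t ∈ S ⊓ C[x] := ⟨mul_mem tS' tS', ox_sq o⟩
  set Q := S ⊓ C[x] with hQd
  have cQ : #Q = 2 ^ b := h.hy x ⟨t, o.inv⟩ (ox_nc o) Q hQ
  have xQ : zpowers x ≤ C(Q) := zpowers_le.2 (mem_cent.2 fun q hq => mem_cent1.1 hq.2)
  set R := Oc {2} (⊤ : Subgroup G) with hR
  have pR : H19.PG 2 R := Oc_pi _ _
  have nR : ∀ X : Subgroup G, X ≤ N(R) := fun X => le_top.trans (Oc_normal _ _).norm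
  have k : R ⊓ C(Q) ≤ C(zpowers x) := by
    have n1 : t ∈ N(R ⊓ C(Q)) := zpowers_le.1 (norms_inf (nR _) (norms_cent (zpowers_le.2 tQ)))
    refine step o (pR.of_le inf_le_left) (zpowers_le.1 (norms_inf (nR _) (xQ.trans le_normalizer))) n1 fun w hw => ?_
    have u0 : t * w * t⁻¹ * w⁻¹ ∈ R ⊓ C(Q) := mul_mem (conj_mem_of_norm n1 hw) (inv_mem hw)
    set v := t * w * t⁻¹ * w⁻¹ with hv
    by_cases hz : v ∈ center G
    · exact mem_cent1.2 (mem_center_iff.1 hz x).symm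
    have tw : t * t * w = w * (t * t) := mem_cent.1 hw.2 _ t2
    have re : Re v := ⟨t, by
      rw [hv, show t * (t * w * t⁻¹ * w⁻¹) * t⁻¹ = t * t * w * t⁻¹ * w⁻¹ * t⁻¹ by group, tw]; group⟩
    have vQ : zpowers v ≤ C(Q) := zpowers_le.2 u0.2
    obtain ⟨P, hP, l⟩ := (hQ.pi.sup (piG_zpowers.2 (pR.elt u0.1)) (norms_of_cents vQ)).exists_syl
      (sup_le (fun q hq => mem_cent1.2 (mem_cent.1 u0.2 q hq)) (zpowers_le.2 (mem_cent1_self v)) : _ ≤ C[v])
    have e : Q = P := eq_of_le_of_card_eq (le_sup_left.trans l) (cQ.trans (h.hy v re hz P hP).symm)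
    exact hQ.le (e ▸ l (mem_sup_right (mem_zpowers v)))
  have k2 : R ≤ C(zpowers x) := H1.AxB_of_coprime pR.isPGroup hQ.pi.isPGroup
    (by rw [Nat.card_zpowers]; exact Nat.coprime_two_right.2 o.odd) (nR _) (nR _) xQ k
  have xF : x ∈ Fit (⊤ : Subgroup G) := charF_of_lay hL ⟨mem_top x, by
    rw [fit_eq h.oo]; exact zpowers_le.1 (le_centralizer_iff.1 k2)⟩
  rw [fit_eq h.oo] at xF
  exact o.ne (odd_two o.odd (pR.elt xF))

end H16.RL
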