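import Cfsg.Agent.H16.RU1

/-! S2196, chunks SRG and KQ: the operator `opK` on twisted point functions. -/

set_option autoImplicit false
set_option linter.unusedSectionVars false

open Module H12 H11 H0.RU Finset

namespace H16.RU

universe u
variable {F : Type u} [Field F] [Fintype F] {q : ℕ} {hF : Fintype.card F = q ^ 2}
  {V : Type u} [AddCommGroup V] [Module F V] [Fintype V] {C : CForm (hermT hF) V}

theorem bl (C : CForm (hermT hF) V) (c : F) (x y : V) : C.B (c • x) y = frob hF c * C.B x y :=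
  C.B_smul_left c x y

theorem fr_ne {a : F} (h : a ≠ 0) : frob hF a ≠ 0 := (map_ne_zero _).2 h

theorem is_smul {a : F} (h : a ≠ 0) {v : V} : Is C (a • v) ↔ Is C v := by
  rw [Is, Is, bl, C.B_smul_right, smul_ne_zero_iff, mul_eq_zero, mul_eq_zero]
  simp only [h, fr_ne h, ne_eq, not_false_iff, true_and, false_or]

theorem sum_ite {α : Type*} [Fintype α] (P : α → Prop) [DecidablePred P] (c : ℂ) :
    ∑ u, (if P u then c else 0) = {u | P u}.ncard * c := by
  rw [← sum_filter, sum_const, nsmul_eq_mul, ← Set.ncard_coe_finset, coe_filter]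
  simp

theorem sum_sm {a : F} (h : a ≠ 0) (g : V → ℂ) : ∑ w, g (a • w) = ∑ w, g w :=
  Equiv.sum_comp (MulAction.toPerm (Units.mk0 a h)) g

open Classical in
theorem opK_ap (φ : V → ℂ) (v : V) :
    opK C φ v = ∑ u, if Is C v ∧ C.B u v = 1 then φ u else 0 := rfl

open Classical in
theorem opK_is (φ : V → ℂ) {v : V} (hv : Is C v) :
    opK C φ v = ∑ u, if C.B u v = 1 then φ u else 0 := by
  simp only [opK_ap, hv, true_and]

open Classical in
theorem split {v : V} (hv : Is C v) (g : V → ℂ) : ∑ w, g w = ∑ c : F, g (c • v) +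
    ∑ w, (if C.B w v = 0 ∧ w ∉ F ∙ v then g w else 0) +
    ∑ b : F, if b ≠ 0 then ∑ w, (if C.B w v = 1 then g (frob hF b • w) else 0) else 0 := by
  have h1 : ∑ c : F, g (c • v) = ∑ w, if w ∈ F ∙ v then g w else 0 := by
    rw [← sum_filter]
    exact sum_nbij (· • v) (fun c _ => mem_filter.2 ⟨mem_univ _, Submodule.smul_mem _ _
      (Submodule.mem_span_singleton_self v)⟩) (fun a _ b _ e => smul_left_injective F hv.1 e)
      (fun w hw => by
        obtain ⟨c, rfl⟩ := Submodule.mem_span_singleton.1 (mem_filter.1 (mem_coe.1 hw)).2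
        exact ⟨c, by simp, rfl⟩) fun _ _ => rfl
  have h2 : ∀ b : F, (if b ≠ 0 then ∑ w, (if C.B w v = 1 then g (frob hF b • w) else 0) else 0) =
      ∑ w, if C.B w v = b then (if C.B w v ≠ 0 then g w else 0) else 0 := fun b => by
    split_ifs with hb
    · rw [← sum_sm (fr_ne (hF := hF) hb) fun w => if C.B w v = b then _ else 0]
      refine sum_congr rfl fun w _ => ?_
      rw [bl, frob_frob]
      by_cases h : C.B w v = 1
      · simp [h, hb]
      · rw [if_neg h, if_neg fun e => h (mul_left_cancel₀ hb (e.trans (mul_one b).symm))]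
    · refine (sum_eq_zero fun w _ => ?_).symm
      split_ifs with h h'
      exacts [absurd (h ▸ h') hb, rfl, rfl]
  rw [h1, sum_congr rfl fun b _ => h2 b, sum_comm, ← sum_add_distrib, ← sum_add_distrib]
  refine sum_congr rfl fun w _ => ?_
  rw [sum_ite_eq, if_pos (mem_univ _)]
  by_cases h : w ∈ F ∙ v
  · obtain ⟨c, rfl⟩ := Submodule.mem_span_singleton.1 h
    simp [h, hv.2]
  · by_cases h' : C.B w v = 0 <;> simp [h, h']

variable {μ : F →* ℂ} {φ : V → ℂ}

theorem opK_mem (hμ : ∀ a, a ≠ 0 → μ (a * frob hF a) = 1) (h : φ ∈ PF C μ) : opK C φ ∈ PF C μ := by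
  classical
  refine ⟨fun v hv => by simp [opK_ap, hv], fun a v ha => ?_⟩
  have h1 := inv_ne_zero (fr_ne (hF := hF) ha)
  rw [opK_ap, opK_ap, ← sum_sm h1, mul_sum]
  refine sum_congr rfl fun u _ => ?_
  rw [is_smul ha, bl, C.B_smul_right, map_inv₀, frob_frob, inv_mul_cancel_left₀ ha, h.2 _ _ h1,
    show μ (frob hF a)⁻¹ = μ a by
      rw [← one_mul (μ _⁻¹), ← hμ a ha, ← map_mul, mul_inv_cancel_right₀ (fr_ne ha)],
    mul_ite, mul_zero]

open Classical in
theorem sq_gen (hC : C.Nondeg) (h4 : 4 ≤ finrank F V) (h : φ ∈ PF C μ) {v : V} (hv : Is C v) :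
    opK C (opK C φ) v = q ^ (2 * finrank F V - 3) * φ v +
      q ^ (2 * finrank F V - 5) * ∑ w, (if C.B w v = 0 ∧ w ∉ F ∙ v then φ w else 0) +
      (q ^ (finrank F V - 3) * aa q (finrank F V - 2) * (∑ b, if b ≠ 0 then μ b else 0) +
        (-q) ^ (finrank F V - 2) * Mu hF μ) * opK C φ v := by
  obtain ⟨-, c2, c3, c4, -⟩ := cnt hC h4
  have h1 : opK C (opK C φ) v =
      ∑ w, ({u | C.B u u = 0 ∧ C.B u v = 1 ∧ C.B w u = 1}.ncard : ℂ) * φ w := by
    simp only [opK_is _ hv, opK_ap φ, ← sum_ite]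
    rw [sum_comm]
    refine sum_congr rfl fun u _ => ?_
    by_cases e : C.B u v = 1
    · have : u ≠ 0 := fun e' => by simp [e'] at e
      simp only [e, Is, this, if_true, true_and, ne_eq, not_false_iff]
    · simp [e]
  rw [h1, split hv]
  congr 1; congr 1
  · rw [sum_eq_single 1 (fun c _ hc => ?_) (by simp), one_smul, ← Nat.cast_pow, ← c2 v hv]
    · exact congrArg (fun s : Set V => (s.ncard : ℂ) * φ v) (Set.ext fun u =>
        and_congr_right fun _ => and_iff_left_of_imp sw1.1)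
    · rw [Set.eq_empty_of_forall_notMem (s := {u | _}) fun u hu => hc ?_]
      · simp
      · have := hu.2.2
        rw [bl, sw1.1 hu.2.1, mul_one] at this
        rw [← frob_frob hF c, this, map_one]
  · rw [mul_sum]
    refine sum_congr rfl fun w _ => ?_
    split_ifs with e
    · by_cases hw : Is C w
      · rw [c4 v w 1 ⟨hv, hw.2, C.B_swap_zero e.1, e.2⟩, Nat.cast_pow]
      · rw [h.1 w hw, mul_zero, mul_zero]
    · rw [mul_zero]
  · let e : F ≃ F := Equiv.ofBijective (frob hF) (hermT hF).σ_bijective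
    rw [Mu, mul_sum, mul_sum, ← sum_add_distrib, sum_mul, ← e.sum_comp]
    refine sum_congr rfl fun b _ => ?_
    change (if frob hF b ≠ 0 then ∑ w, (if C.B w v = 1 then _ * φ (frob hF (frob hF b) • w)
      else 0) else 0) = _
    by_cases hb : b = 0
    · simp only [hb, map_zero, ne_eq, not_true, if_false, false_and, mul_zero, add_zero, zero_mul]
    rw [if_pos (fr_ne hb), if_pos hb, opK_is _ hv, mul_sum]
    refine sum_congr rfl fun w _ => ?_
    by_cases e1 : C.B w v = 1
    swap; · simp only [e1, if_false, mul_zero]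
    by_cases hw : Is C w
    swap; · simp only [h.1 w hw, h.1 _ (mt (is_smul (fr_ne (fr_ne hb))).1 hw), mul_zero, ite_self]
    have h2 := congrArg (Int.cast : ℤ → ℂ) (c3 v w (frob hF b)⁻¹ hv hw e1)
    have h3 : (frob hF b)⁻¹ + frob hF (frob hF b)⁻¹ = 0 ↔ b + frob hF b = 0 := by
      rw [map_inv₀, frob_frob, inv_add_inv (fr_ne hb) hb, div_eq_zero_iff, add_comm,
        or_iff_left (mul_ne_zero (fr_ne hb) hb)]
    have h5 : ∀ x, frob hF b * x = 1 ↔ x = (frob hF b)⁻¹ := fun x =>
      ⟨eq_inv_of_mul_eq_one_right, fun e => e ▸ mul_inv_cancel₀ (fr_ne hb)⟩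
    simp only [h3] at h2
    push_cast at h2
    change (if _ then (Set.ncard {u | _ ∧ _ ∧ C.B (frob hF (frob hF b) • w) u = 1} : ℂ) * _
      else 0) = _
    simp only [frob_frob, e1, if_true, bl, h.2 b w hb, h5, h2, hb,
      ne_eq, not_false_iff, true_and]
    split_ifs <;> ring

theorem theta (hF : Fintype.card F = q ^ 2) :
    ({a : F | a ≠ 0 ∧ a + frob hF a = 0}.ncard : ℂ) = q - 1 := by
  have h : Set.ncard {a : F | a + frob hF a = 0} = q := card_ker_hermT hF
  rw [show {a : F | a + frob hF a = 0} = insert 0 {a : F | a ≠ 0 ∧ a + frob hF a = 0} from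
    Set.ext fun a => by by_cases e : a = 0 <;> simp [-frob_apply, e],
    Set.ncard_insert_of_notMem fun h => h.1 rfl] at h
  exact eq_sub_of_add_eq (by exact_mod_cast h)

theorem mu_one : Mu hF 1 = q - 1 := by
  classical
  simp only [Mu, MonoidHom.one_apply]
  rw [sum_ite, theta, mul_one]

theorem sum_ne (hF : Fintype.card F = q ^ 2) [DecidableEq F] (c : ℂ) :
    ∑ b : F, (if b ≠ 0 then c else 0) = (q ^ 2 - 1) * c := by
  rw [← sum_filter, sum_const, filter_ne', card_erase_of_mem (mem_univ _), card_univ, nsmul_eq_mul,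
    Nat.cast_sub Fintype.card_pos, hF]
  simp

theorem srg : SRG C := by
  classical
  intro hC h4 φ h
  have c2 := (cnt hC h4).2.1
  have hK := opK_mem (μ := 1) (fun _ _ => rfl) h
  refine ⟨hK, fun hc => funext fun v => ?_, ?_, q ^ (2 * finrank F V - 5), fun v hv => ?_⟩
  · by_cases hv : Is C v
    · rw [Pi.smul_apply, smul_eq_mul, ← Nat.cast_pow, ← c2 v hv, ← sum_ite, opK_is _ hv]
      refine sum_congr rfl fun u _ => ?_
      by_cases e : C.B u v = 1
      · have : u ≠ 0 := fun e' => by simp [e'] at e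
        by_cases e' : C.B u u = 0
        · simp only [e, e', and_self, if_true, hc u v ⟨this, e'⟩ hv]
        · simp only [e, e', false_and, if_true, if_false, h.1 u fun k => e' k.2]
      · simp [e]
    · rw [hK.1 v hv, Pi.smul_apply, h.1 v hv, smul_zero]
  · simp only [opK_ap]
    rw [sum_comm, mul_sum]
    refine sum_congr rfl fun u _ => ?_
    by_cases hu : Is C u
    · rw [sum_ite, ← Nat.cast_pow, ← c2 u hu]
      exact congrArg (fun s : Set V => (s.ncard : ℂ) * φ u) (Set.ext fun v =>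
        ⟨fun k => ⟨k.1.2, sw1.1 k.2⟩, fun k => ⟨⟨fun e => by simpa [e] using k.2, k.1⟩, sw1.1 k.2⟩⟩)
    · simp [h.1 u hu]
  · have h1 : ∑ c : F, φ (c • v) = (q ^ 2 - 1) * φ v := by
      rw [← sum_ne hF]
      refine sum_congr rfl fun c _ => ?_
      split_ifs with e
      · rw [h.2 c v e, MonoidHom.one_apply, one_mul]
      · rw [not_not.1 e, zero_smul]; exact h.1 0 fun k => k.1 rfl
    have h2 : ∑ b : F, (if b ≠ 0 then ∑ w, (if C.B w v = 1 then φ (frob hF b • w) else 0) else 0) =
        (q ^ 2 - 1) * opK C φ v := by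
      rw [← sum_ne hF, opK_is _ hv]
      refine sum_congr rfl fun c _ => ?_
      split_ifs with e
      · simp only [h.2 _ _ (fr_ne e), MonoidHom.one_apply, one_mul]
      · rfl
    rw [sq_gen hC h4 h hv, split hv φ, h1, h2, mu_one]
    simp only [MonoidHom.one_apply]
    rw [sum_ne hF]
    obtain ⟨n, hn⟩ : ∃ n, finrank F V = n + 4 := ⟨_, (Nat.sub_add_cancel h4).symm⟩
    rw [hn, show 2 * (n + 4) - 3 = 2 * n + 5 by omega, show 2 * (n + 4) - 5 = 2 * n + 3 by omega,
      show n + 4 - 3 = n + 1 by omega, show n + 4 - 2 = n + 2 by omega, aa]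
    push_cast
    simp only [neg_pow (q : ℂ), pow_add, pow_mul, neg_one_sq, one_pow]
    ring

theorem kq : KQ C := by
  classical
  intro hG μ ⟨⟨a, a0, a1⟩, h1, _⟩
  have h4 : 4 ≤ finrank F V := by have := hG.n6; omega
  refine ⟨?_, fun φ h => ?_⟩
  · obtain ⟨t, t0, ht⟩ := exists_trace_zero hF
    have ht' : frob hF t = -t := eq_neg_of_add_eq_zero_right ht
    have : Mu hF μ = (q - 1) * μ t := by
      rw [← theta hF, ← sum_ite, Mu]
      refine sum_congr rfl fun b _ => ?_
      split_ifs with e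
      · rw [← div_mul_cancel₀ b t0, map_mul, h1 _ (div_ne_zero e.1 t0), one_mul]
        rw [map_div₀, ht', eq_neg_of_add_eq_zero_right e.2, neg_div_neg_eq]
      · rfl
    rw [this, mul_pow, ← map_pow, h1 _ (pow_ne_zero 2 t0) (by rw [map_pow, ht', neg_sq]), mul_one]
  have hK := fun φ => opK_mem (C := C) (φ := φ) fun a ha => h1 _ (mul_ne_zero ha (fr_ne ha))
    (by rw [map_mul, frob_frob, mul_comm])
  refine ⟨hK φ h, funext fun v => ?_⟩
  by_cases hv : Is C v
  swap; · simp [(hK _ (hK φ h)).1 v hv, (hK φ h).1 v hv, h.1 v hv]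
  have z : ∀ x : ℂ, x = μ a * x → x = 0 := fun x e => by
    by_contra e'
    exact a1 (mul_right_cancel₀ e' (e.symm.trans (one_mul x).symm))
  rw [sq_gen hG.nd h4 h hv, z (∑ b, if b ≠ 0 then μ b else 0), z (∑ w, ite _ _ _)]
  · simp
  · rw [mul_sum, ← sum_sm a0]
    refine sum_congr rfl fun w _ => ?_
    simp only [bl, mul_eq_zero, fr_ne a0, false_or, Submodule.smul_mem_iff _ a0, h.2 a w a0,
      mul_ite, mul_zero]
  · rw [mul_sum, ← Equiv.sum_comp (Equiv.mulLeft₀ a a0)]
    refine sum_congr rfl fun w _ => ?_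
    simp [a0]

end H16.RU
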