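import Cfsg.Agent.H16.RU3

/-! S2196, chunks FO1 and FO3: the flag operators. -/

set_option autoImplicit false
set_option linter.unusedSectionVars false

open Module H12 H0.RU Finset H13.R3
open H11 (hermT frob)

namespace H16.RU

universe u
attribute [-simp] H11.frob_apply
variable {F : Type u} [Field F] [Fintype F] {q : ℕ} {hF : Fintype.card F = q ^ 2}
  {V : Type u} [AddCommGroup V] [Module F V] [Fintype V] {C : CForm (hermT hF) V}
  {G : Type u} [Group G] [Fintype G] [DistribMulAction G V] [SMulCommClass G F V]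
  {φ : V × V → ℂ} {x y z : V}

theorem sumQ (hF : Fintype.card F = q ^ 2) (c : ℂ) : ∑ _a : F, c = q ^ 2 * c := by
  rw [sum_const, card_univ, hF, nsmul_eq_mul, Nat.cast_pow]

theorem fl_add (c : F) : Fl C x (y + c • x) ↔ Fl C x y := by
  simpa using fl_tr (C := C) (x := x) (y := y) c one_ne_zero one_ne_zero

theorem opS_fl (φ : V × V → ℂ) (hb : Fl C x y) : opS C φ (x, y) = ∑ c : F, φ (y + c • x, x) := by
  simp only [opS_ap, hb, if_true]

theorem opS_eq (h : φ ∈ FF C) (x y : V) : opS C φ (x, y) = ∑ c : F, φ (y + c • x, x) := by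
  classical
  rw [opS_ap]
  refine sum_congr rfl fun c _ => ?_
  split_ifs with k
  exacts [rfl, (h.1 _ _ fun m => k ((fl_add c).1 m.symm)).symm]

theorem opS_mem (h : φ ∈ FF C) : opS C φ ∈ FF C := by
  refine ⟨fun x y n => by simp [opS_ap, n], fun a b c x y ha hb => ?_⟩
  rw [opS_eq h, opS_eq h, ← Equiv.sum_comp ((Equiv.mulRight₀ a ha).trans ((Equiv.addLeft c).trans
    (Equiv.mulLeft₀ b⁻¹ (inv_ne_zero hb)))) fun d => φ (y + d • x, x)]
  refine sum_congr rfl fun d _ => ?_
  rw [ff2 h _ _ ha, ← ff1 h _ _ (inv_ne_zero hb)]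
  simp [smul_smul, hb, add_smul, mul_add, add_assoc]

/-- the sum over the points of a line -/
theorem lsum (h : φ ∈ FF C) (x y : V) (c : F) :
    opS C φ (y + c • x, x) + φ (y + c • x, x) = opS C φ (x, y) + φ (x, y) := by
  classical
  rw [opS_eq h, opS_eq h, ← Equiv.sum_comp (Equiv.addLeft c) fun d => φ (y + d • x, x),
    ← Equiv.sum_comp (Equiv.inv F) fun d => φ (y + Equiv.addLeft c d • x, x),
    ← add_sum_erase _ _ (mem_univ 0), ← add_sum_erase _ (fun d => φ (y + _ • x, x)) (mem_univ 0),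
    sum_congr rfl (g := fun d => φ (y + (c + d⁻¹) • x, x)) fun d hd => ?_]
  · simp [ff3 h]; ring
  · have d0 := ne_of_mem_erase hd
    rw [← ff1 h _ _ (inv_ne_zero d0), ← ff3 h _ _ (-1), ← ff2 h _ x (neg_ne_zero.2 (inv_ne_zero d0))]
    congr 2 <;> simp [d0, add_smul] <;> abel

theorem ex_z (hG : Ge C) (x y : V) : ∃ z, C.B z z = 0 ∧ C.B x z = 0 ∧ C.B y z = 0 ∧ z ∉ ln F x y := by
  obtain ⟨z, h1, h2, h3⟩ := ex_is_off (C := C) (C.perp (ln F x y)) (ln F x y) (by
    have := fr_pp hG.nd (ln F x y); have := finrank_ln_le (F := F) x y; have := hG.n6; omega)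
  exact ⟨z, h3, (mem_pp_ln.1 h1).1, (mem_pp_ln.1 h1).2, h2⟩

theorem fo1 : FO1 C := by
  classical
  intro hG
  have Q1 : (q : ℂ) ^ 2 + 1 ≠ 0 := by exact_mod_cast Nat.succ_ne_zero (q ^ 2)
  refine ⟨⟨fun x y n => if_neg n, fun a b c x y ha hb => by simp only [e1, fl_tr c ha hb]⟩,
    fun φ h => ?_⟩
  have hL : Lx C φ → opS C φ = (q : ℂ) ^ 2 • φ := fun hL => funext fun ⟨x, y⟩ => by
    by_cases k : Fl C x y
    · simp only [opS_fl _ k, hL x y _ k, sumQ hF, Pi.smul_apply, smul_eq_mul]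
    · rw [(opS_mem h).1 x y k, Pi.smul_apply, h.1 x y k, smul_zero]
  refine ⟨opS_mem h, opA_mem h, funext fun ⟨x, y⟩ => ?_, ⟨fun e x y c _ => ?_, hL⟩, fun hP hL => ?_,
    fun hP e => ?_, ?_⟩
  · rw [opS_eq (opS_mem h), sum_congr rfl fun c _ => eq_sub_of_add_eq (lsum h x y c),
      sum_sub_distrib, sumQ hF, ← opS_eq h]
    simp only [Pi.add_apply, Pi.smul_apply, smul_eq_mul]; ring
  · have := lsum h x y c
    simp only [e, Pi.smul_apply, smul_eq_mul] at this
    exact mul_left_cancel₀ Q1 (by linear_combination this)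
  · have s : ∀ x y, Fl C x y → φ (y, x) = φ (x, y) := fun x y k => by simpa using hL x y 0 k
    by_cases ex : ∃ x y, Fl C x y
    · obtain ⟨x, y, k⟩ := ex
      refine ⟨φ (x, y), funext fun ⟨x', y'⟩ => ?_⟩
      by_cases k' : Fl C x' y'
      · obtain ⟨z, h1, h2, h3, h4⟩ := ex_z hG x x'
        have f1 : Fl C x z := ⟨k.1, h1, h2, fun m => h4 (sp_le_ln m)⟩
        have f2 : Fl C x' z := ⟨k'.1, h1, h3, fun m => h4 (ln_comm (F := F) x' x ▸ sp_le_ln m)⟩
        simp only [Pi.smul_apply, e1, k', if_true, smul_eq_mul, mul_one]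
        rw [hP _ _ _ k' f2, ← s _ _ f2, hP _ _ _ f2.symm f1.symm, s _ _ f1, hP _ _ _ f1 k]
      · simp [e1, k', h.1 _ _ k']
    · exact ⟨0, funext fun ⟨x, y⟩ => by simp [h.1 x y fun k => ex ⟨x, y, k⟩]⟩
  · have t : ∀ x y z, Fl C x y → C.B z z = 0 → C.B x z = 0 → C.B y z = 0 → z ∉ ln F x y →
        (∀ b c : F, Fl C x (z + b • y + c • x)) ∧
        ∑ b : F, ∑ c : F, φ (z + b • y + c • x, x) = q ^ 2 * -φ (x, y) := fun x y z k h1 h2 h3 h4 => by
      have f : ∀ b : F, Fl C x (z + b • y) := fun b => ⟨k.1, by simp [h1, h3, Bsw h3, k.2.1],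
        by simp [h2, k.2.2.1], fun m => h4 ((Submodule.add_mem_iff_left _
          (Submodule.smul_mem _ b r_ln)).1 (sp_le_ln m))⟩
      refine ⟨fun b c => (f b).add c, ?_⟩
      rw [← sumQ hF]
      exact sum_congr rfl fun b _ => by rw [← opS_eq h, e, Pi.neg_apply, hP _ _ _ (f b) k]
    have s : ∀ x y, Fl C x y → φ (y, x) = φ (x, y) := fun x y k => by
      obtain ⟨z, h1, h2, h3, h4⟩ := ex_z hG x y
      obtain ⟨t1, t2⟩ := t x y z k h1 h2 h3 h4
      obtain ⟨t3, t4⟩ := t y x z k.symm h1 h3 h2 (ln_comm (F := F) x y ▸ h4)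
      refine neg_injective (mul_left_cancel₀ (qq hF) ?_)
      rw [← t2, ← t4, sum_comm]
      refine sum_congr rfl fun b _ => sum_congr rfl fun c _ => ?_
      rw [add_right_comm]
      exact hP _ _ _ (add_right_comm z _ _ ▸ (t3 c b).symm) (t1 b c).symm
    have := hL fun x y c k => by rw [s _ _ (k.add c), ff3 h]
    rw [e] at this
    refine smul_right_injective _ Q1 ?_
    simp only [add_smul, ← this, one_smul, neg_add_cancel, smul_zero]
  · simp only [Fintype.sum_prod_type, opS_eq h]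
    rw [sum_comm (f := fun x y => φ (x, y)), mul_sum]
    refine sum_congr rfl fun x _ => ?_
    rw [sum_comm, ← sumQ hF]
    exact sum_congr rfl fun c _ => Equiv.sum_comp (Equiv.addRight (c • x)) fun y => φ (y, x)

open Classical in
theorem sas (h : φ ∈ FF C) (hb : Fl C x y) : opS C (opA C (opS C φ)) (x, y) =
    ∑ z, if C.B z x = 1 then φ (z, y - C.B z y • x) else 0 := by
  have h1 : ∀ c : F, opA C (opS C φ) (y + c • x, x) =
      ∑ z, if C.B z x = 1 then φ (z, y + c • x) else 0 := fun c => by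
    refine mul_left_cancel₀ (qq hF) ?_
    rw [opA_fl _ (hb.add c).symm, ← sumQ hF, ← sum_congr rfl fun d _ => Equiv.sum_comp
      (Equiv.addRight (d • (y + c • x))) fun z => if C.B z x = 1 then φ (z, y + c • x) else 0,
      sum_comm]
    refine sum_congr rfl fun z _ => ?_
    simp [opS_eq h, Bsw hb.2.2.1, hb.1.2, add_assoc]
  rw [opS_fl _ hb, sum_congr rfl fun c _ => h1 c, sum_comm]
  refine sum_congr rfl fun z _ => ?_
  split_ifs with e
  · rw [sum_eq_single (-C.B z y) (fun c _ n => h.1 _ _ fun k => n ?_) (by simp), neg_smul,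
      sub_eq_add_neg]
    have := k.2.2.1
    simp only [map_add, map_smul, e, smul_eq_mul, mul_one] at this
    exact eq_neg_of_add_eq_zero_right this
  · simp

theorem fo3 : FO3 C G := by
  classical
  intro un φ h
  have n6 := un.n6
  refine ⟨fun g => ⟨⟨fun x y n => h.1 _ _ (mt un.fl_smul.1 n), fun a b c x y ha hb => ?_⟩,
    funext fun ⟨x, y⟩ => ?_, funext fun ⟨x, y⟩ => ?_⟩, fun ⟨x, y⟩ => ?_⟩
  · simp only [Prod.smul_mk, smul_add, smul_comm g, h.2 a b c _ _ ha hb]
  · simp only [Prod.smul_mk, opS_ap, smul_add, smul_comm g, un.fl_smul]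
  · rw [Prod.smul_mk, opA_ap, opA_ap, eq_comm, ← Equiv.sum_comp (MulAction.toPerm g)]
    simp only [Prod.smul_mk, MulAction.toPerm_apply, un.fl_smul, un.iso]
  by_cases hb : Fl C x y
  swap
  · simp [h.1 x y hb, h.1 _ _ (mt un.fl_smul.1 hb), (opA_mem h).1 x y hb,
      (opS_mem (opA_mem (opS_mem h))).1 x y hb]
  have s1 := tn un y (fun t => if t • x = x then φ (x, y) - φ (t • x, t • y) else 0)
    (fun z a => if C.B x z = 0 then φ (x, y) - φ (x, z + a⁻¹ • y) else 0) (fun t z a _ ht e => by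
      split_ifs with k
      exacts [by rw [k, ht.fix e, sub_self], rfl]) fun t z a hz a0 ht e => by
        by_cases k : C.B x z = 0
        · rw [if_pos k, ht.fix (Bsw k), if_pos rfl, ht y, e, mul_one, ← ff2 h _ (y + _) (inv_ne_zero a0),
            smul_add, inv_smul_smul₀ a0, add_comm]
        · rw [if_neg k, if_neg fun m => k (Bsw ?_)]
          simpa [a0, hz.1] using (ht x).symm.trans m
  have s2 := tn un x (fun t => if t • x = x then 0 else φ (x, y) - φ (t • x, t • y))
    (fun z a => φ (x, y) - φ (z + a⁻¹ • x, y - C.B z y • x)) (fun t z a _ ht e => if_pos (ht.fix e))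
    fun t z a hz a0 ht e => by
      rw [if_neg fun m => by simpa [a0, hz.1, e] using (ht x).symm.trans m, ht x, ht y, e, mul_one,
        ← ff3 h (x + _) _ (-C.B z y), ← ff1 h (x + _) _ (inv_ne_zero a0)]
      congr 3
      · rw [smul_add, inv_smul_smul₀ a0, add_comm]
      · module
  have s3 := congrArg₂ (· + ·) s1 s2
  simp only [← sum_add_distrib (s := TS C G), ite_add_ite, add_zero, zero_add, ite_self] at s3
  refine s3.trans ?_
  rw [← sum_add_distrib, ← sum_th (hF := hF)]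
  refine sum_congr rfl fun a _ => ?_
  split_ifs with ha
  swap; · simp
  have c2 := sum_ite (fun u => C.B u u = 0 ∧ C.B u x = 1) (φ (x, y))
  rw [cnt2 un.nd (by omega) hb.1, show 2 * finrank F V - 3 = 4 + (2 * finrank F V - 7) by omega,
    Nat.cast_pow, pow_add] at c2
  rw [add_mul, add_mul, ← cnt4 un.toGe hb, ← c2, opA_fl _ hb, sas h hb, add_sub_right_comm,
    add_sub_assoc, ← Equiv.sum_comp (Equiv.addRight (a⁻¹ • y)) fun z => ite (C.B z y = 1) _ _,
    ← Equiv.sum_comp (Equiv.addRight (a⁻¹ • x)) fun z => ite (C.B z x = 1) _ _,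
    ← sum_sub_distrib, ← sum_sub_distrib]
  congr 1 <;> refine sum_congr rfl fun z _ => ?_
  · rw [Equiv.coe_addRight, show C.B (z + a⁻¹ • y) y = C.B z y by simp [hb.2.1]]
    by_cases e : C.B z y = 1
    · by_cases k : C.B z z = 0 ∧ C.B x z = 0
      · simp only [e, k, and_self, if_true]
      · rw [h.1 _ _ fun m => k ⟨(iso_sh hb.2.1 e ha.2).symm.trans m.2.1, by
          simpa [hb.2.2.1] using m.2.2.1⟩]
        rcases not_and_or.1 k with k | k <;> simp [k]
    · simp [e]
  · rw [Equiv.coe_addRight, show C.B (z + a⁻¹ • x) x = C.B z x by simp [hb.1.2],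
      show C.B (z + a⁻¹ • x) y = C.B z y by simp [hb.2.2.1]]
    by_cases e : C.B z x = 1
    · by_cases e' : C.B z z = 0
      · simp only [e, e', and_self, if_true]
      · simp [e', h.1 _ _ fun k => e' ((iso_sh hb.1.2 e ha.2).symm.trans k.1.2)]
    · simp [e]

end H16.RU
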