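import Cfsg.Agent.H16.RU3
import Cfsg.Agent.H19.RU1
import Cfsg.Agent.H25.RU1

/-! S2196, chunks DP and PT. -/

set_option autoImplicit false
set_option linter.unusedSectionVars false

open Module H12 H0.RU Finset H13.R3 ComplexConjugate
open H11 (hermT frob)
open H11.RS (PO)

namespace H16.RU

universe u
attribute [-simp] H11.frob_apply
variable {F : Type u} [Field F] [Fintype F] {q : ℕ} {hF : Fintype.card F = q ^ 2}
  {V : Type u} [AddCommGroup V] [Module F V] [Fintype V] {C : CForm (hermT hF) V}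
  {G : Type u} [Group G] [Fintype G] [DistribMulAction G V] [SMulCommClass G F V] {H : Subgroup G}
  {μ : F →* ℂ}

theorem mu_sq (h : Qd hF μ) {a : F} (ha : a ≠ 0) : μ a * μ a = 1 := by
  have s := H0.RU.fr_ne (hF := hF) ha
  rw [← map_mul, show a * a = a * frob hF a * (a / frob hF a) by field_simp, map_mul,
    h.2.1 _ (mul_ne_zero ha s) (by rw [map_mul, ff, mul_comm]), h.2.2 _ (by
      rw [map_div₀, ff]; field_simp), mul_one]

open Classical in
theorem opK_g (un : Un C G) (ψ : V → ℂ) (g : G) {u : V} (hu : Is C u) :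
    ∑ w, (if C.B w u = 1 then ψ (g • w) else 0) = opK C ψ (g • u) := by
  rw [opK_is _ (un.is_smul.2 hu), eq_comm, ← Equiv.sum_comp (MulAction.toPerm g)]
  simp only [MulAction.toPerm_apply, un.iso]

theorem card_is (hG : Ge C) : ({v | Is C v}.ncard : ℂ) = Np q (finrank F V) * (q ^ 2 - 1) := by
  have := hG.n6
  exact_mod_cast (ncard_is hG.nd (by omega)).trans (Np_mul (by omega)).symm

theorem q21 (hG : Ge C) : (q : ℂ) ^ 2 - 1 ≠ 0 := by
  have := hG.q3
  exact_mod_cast (show (q : ℤ) ^ 2 - 1 ≠ 0 by nlinarith)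

theorem dp : DP C G := by
  classical
  intro un μ hμ ψ h ψ0 κ hκ hK
  have n6 := un.n6
  have q0 : (q : ℂ) ≠ 0 := by exact_mod_cast q_ne hF
  have cκ : conj κ = κ := by
    rw [show 2 * finrank F V - 2 = (finrank F V - 1) * 2 by omega, pow_mul] at hκ
    rcases sq_eq_sq_iff_eq_or_eq_neg.1 hκ with e | e <;> simp [e]
  have cμ : ∀ a, a ≠ 0 → conj (μ a) = μ a := fun a ha => by
    rcases mul_self_eq_one_iff.1 (mu_sq hμ ha) with e | e <;> simp [e]
  let Γ : V → V → ℂ := fun u w => ∑ g : G, ψ (g • u) * conj (ψ (g • w))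
  have g1 : ∀ (g : G) u w, Γ (g • u) (g • w) = Γ u w := fun g u w => by
    simp only [Γ, smul_smul]
    exact Equiv.sum_comp (Equiv.mulRight g) fun k => ψ (k • u) * conj (ψ (k • w))
  have g2 : ∀ u w (a : F), a ≠ 0 → Γ u (a • w) = μ a * Γ u w := fun u w a ha => by
    simp only [Γ, smul_comm _ a, h.2 a _ ha, map_mul, cμ a ha, mul_sum, mul_left_comm]
  have z : ∀ (g : G) w, ¬ Is C w → ψ (g • w) = 0 := fun g w n => h.1 _ (mt un.is_smul.1 n)
  obtain ⟨v, hv⟩ := Function.ne_iff.1 ψ0
  have iv : Is C v := by_contra fun n => hv (h.1 v n)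
  have g0 : ∀ u, Is C u → Γ u u = Γ v v := fun u hu => by
    obtain ⟨g, rfl⟩ := un.wis iv hu
    exact g1 g v v
  have γ0 : Γ v v ≠ 0 := fun e => by
    simp only [Γ, Complex.mul_conj] at e
    rw [← Complex.ofReal_sum, Complex.ofReal_eq_zero,
      sum_eq_zero_iff_of_nonneg fun _ _ => Complex.normSq_nonneg _] at e
    exact hv (by simpa using e 1 (mem_univ _))
  set c := (q ^ 2 - 1) * (q + 1) * Γ v v with hc
  have q1 : (q : ℂ) + 1 ≠ 0 := by exact_mod_cast Nat.succ_ne_zero q
  have c0 : c ≠ 0 := mul_ne_zero (mul_ne_zero (q21 un.toGe) q1) γ0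
  have key : ∀ (g : G) u, ∑ w, Γ u w * ψ (g • w) = c * ψ (g • u) := fun g u => by
    by_cases hu : Is C u
    swap; · simp [Γ, z _ u hu]
    obtain ⟨u', iu, e⟩ := ex_par un.nd hu
    have k1 : ∀ w, Is C w → C.B w u = 1 → Γ u w = Γ u u' := fun w hw e' => by
      obtain ⟨k, h1, h2⟩ := un.witt2 (ind_of_ne hu.2 (by rw [Bone e]; exact one_ne_zero))
        (ind_of_ne hu.2 (by rw [Bone e']; exact one_ne_zero)) rfl (hw.2.trans iu.2.symm)
        ((Bone e').trans (Bone e).symm)
      rw [← g1 k u u', h1, h2]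
    have k2 : q ^ (2 * finrank F V - 3) * Γ u u' = κ * Γ v v := by
      rw [← Nat.cast_pow, ← cnt2 un.nd (by omega) hu, ← sum_ite, ← g0 u hu]
      trans ∑ w, if C.B w u = 1 then Γ u w else 0
      · refine sum_congr rfl fun w _ => ?_
        by_cases e1 : C.B w u = 1
        · have : w ≠ 0 := fun e' => by simp [e'] at e1
          by_cases e2 : C.B w w = 0
          · simp only [e1, e2, and_self, if_true, k1 w ⟨this, e2⟩ e1]
          · simp [e2, Γ, z _ w fun k => e2 k.2]
        · simp [e1]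
      · simp only [Γ, ite_sum_zero, mul_sum]
        rw [sum_comm]
        refine sum_congr rfl fun k _ => ?_
        rw [mul_left_comm, ← cκ, ← map_mul, ← smul_eq_mul κ, ← Pi.smul_apply κ, ← hK, ← opK_g un ψ k hu,
          map_sum, mul_sum]
        exact sum_congr rfl fun w _ => by split_ifs <;> simp
    have t1 : ∑ a : F, Γ u (a • u) * ψ (g • a • u) = (q ^ 2 - 1) * (Γ v v * ψ (g • u)) := by
      rw [← sum_ne hF]
      refine sum_congr rfl fun a _ => ?_
      split_ifs with e
      · rw [g2 _ _ _ e, smul_comm g, h.2 _ _ e, g0 u hu, mul_mul_mul_comm, mu_sq hμ e, one_mul]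
      · rw [z _ _ fun k => k.1 (by rw [not_not.1 e, zero_smul]), mul_zero]
    have t2 : ∑ w, (if C.B w u = 0 ∧ w ∉ F ∙ u then Γ u w * ψ (g • w) else 0) = 0 :=
      sum_eq_zero fun w _ => by
        split_ifs with e
        swap; · rfl
        by_cases hw : Is C w
        swap; · rw [z _ w hw, mul_zero]
        obtain ⟨a, a0, a1⟩ := hμ.1
        obtain ⟨k, h1, h2⟩ := un.witt2 (x' := u) (y' := a • w) ⟨hu.1, e.2⟩ ⟨hu.1,
          mt (Submodule.smul_mem_iff _ a0).1 e.2⟩ rfl (by simp [hw.2]) (by simp [Bsw e.1])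
        have := g1 k u w
        rw [h1, h2, g2 _ _ _ a0] at this
        rw [by_contra fun n => a1 ((mul_eq_right₀ n).1 this), zero_mul]
    have t3 : ∑ b : F, (if b ≠ 0 then ∑ w, (if C.B w u = 1 then
        Γ u (frob hF b • w) * ψ (g • frob hF b • w) else 0) else 0) =
        (q ^ 2 - 1) * (Γ u u' * (κ * ψ (g • u))) := by
      rw [← sum_ne hF, ← smul_eq_mul κ, ← Pi.smul_apply, ← hK, ← opK_g un ψ g hu, mul_sum]
      refine sum_congr rfl fun b _ => ?_
      split_ifs with e
      swap; · rfl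
      have e := H0.RU.fr_ne (hF := hF) e
      refine sum_congr rfl fun w _ => ?_
      split_ifs with e1
      swap; · rw [mul_zero]
      rw [g2 _ _ _ e, smul_comm g, h.2 _ _ e, mul_mul_mul_comm, mu_sq hμ e, one_mul]
      by_cases hw : Is C w
      · rw [k1 w hw e1]
      · rw [z _ w hw, mul_zero, mul_zero]
    rw [split hu, t1, t2, t3]
    refine mul_left_cancel₀ (pow_ne_zero (2 * finrank F V - 3) q0) ?_
    rw [show 2 * finrank F V - 2 = 2 * finrank F V - 3 + 1 by omega, pow_succ] at hκ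
    linear_combination (q ^ 2 - 1) * κ * ψ (g • u) * k2 + (q ^ 2 - 1) * Γ v v * ψ (g • u) * hκ
  let M : Matrix G G ℂ := Matrix.of fun g k => c⁻¹ * ∑ w, ψ (g • w) * conj (ψ (k • w))
  have pr : LinearMap.IsProj (Yo G ψ) (Matrix.toLin' M) := by
    refine ⟨fun f => ?_, fun f hf => ?_⟩
    · rw [show Matrix.toLin' M f = ∑ w, (c⁻¹ * ∑ k, conj (ψ (k • w)) * f k) • fun g : G => ψ (g • w)
        from funext fun g => ?_]
      · exact Submodule.sum_mem _ fun w _ => Submodule.smul_mem _ _ (Submodule.subset_span ⟨w, rfl⟩)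
      · simp only [M, Matrix.toLin'_apply, Matrix.mulVec, dotProduct, Matrix.of_apply, Finset.sum_apply,
          Pi.smul_apply, smul_eq_mul, mul_sum, sum_mul]
        rw [sum_comm]
        exact sum_congr rfl fun _ _ => sum_congr rfl fun _ _ => by ring
    · refine LinearMap.eqOn_span' (g := LinearMap.id) ?_ hf
      rintro _ ⟨u, rfl⟩
      funext g
      refine mul_left_cancel₀ c0 (Eq.trans ?_ (key g u))
      simp only [M, Γ, Matrix.toLin'_apply, Matrix.mulVec, dotProduct, Matrix.of_apply, mul_assoc,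
        ← mul_sum, mul_inv_cancel_left₀ c0]
      simp only [sum_mul]
      rw [sum_comm]
      exact sum_congr rfl fun _ _ => sum_congr rfl fun _ _ => by ring
  have tr := pr.trace
  rw [Matrix.trace_toLin'_eq, Matrix.trace] at tr
  simp only [M, Matrix.diag, Matrix.of_apply, ← mul_sum] at tr
  rw [sum_comm, sum_congr rfl (g := fun w => if Is C w then Γ v v else 0) fun w _ => by
    split_ifs with e
    exacts [g0 w e, by simp [z _ w e]], sum_ite, card_is un.toGe] at tr
  have : (finrank ℂ (Yo G ψ) : ℂ) * (q + 1) = Np q (finrank F V) := by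
    have := q21 un.toGe
    rw [← tr, hc]; field_simp
  exact_mod_cast this

theorem pt : PT C H := by
  classical
  intro un npp le
  have n6 := un.n6
  have q3 := un.q3
  have q0 : (q : ℂ) ≠ 0 := by exact_mod_cast q_ne hF
  have Q1 := q21 un.toGe
  have N0 : (Np q (finrank F V) : ℂ) ≠ 0 := by exact_mod_cast (Np_pos (by omega) (by omega)).ne'
  have main : ∀ z, Is C z → ∃ φ ∈ PF C 1, ∃ α : ℤ, φ ≠ 0 ∧ (∀ h ∈ H, ∀ v, φ (h • v) = φ v) ∧
      opK C φ = (α : ℂ) • φ ∧ (α = -(-q) ^ (finrank F V - 2) ∨ α = -(-q) ^ (finrank F V - 3)) ∧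
      ({v | v ∈ Ob F H z ∧ C.B z v ≠ 0}.ncard : ℤ) * Np q (finrank F V) -
        (Ob F H z).ncard * q ^ (2 * finrank F V - 3) =
        α * (Np q (finrank F V) * (q ^ 2 - 1) - (Ob F H z).ncard) := fun z hz => by
    obtain ⟨x, hx, nx⟩ : ∃ x, Is C x ∧ ¬ PO F H z x := by_contra fun n => npp fun v w hv hw => by
      push Not at n
      exact ((n v hv).symm hz.1).trans (n w hw)
    set ρ : ℂ := (Ob F H z).ncard / (Np q (finrank F V) * (q ^ 2 - 1)) with hρ
    let φ : V → ℂ := fun v => (if v ∈ Ob F H z then 1 else 0) - if Is C v then ρ else 0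
    have sm : ∀ (a : F) v, a ≠ 0 → (a • v ∈ Ob F H z ↔ v ∈ Ob F H z) := fun a v ha => by
      simp only [mem_Ob, po_sml ha, ne_eq, smul_eq_zero, ha, false_or]
    have h : φ ∈ PF C 1 := ⟨fun v n => by simp [φ, n, mt (un.is_ob hz) n], fun a v ha => by
      simp only [φ, sm a v ha, is_sml ha, MonoidHom.one_apply, one_mul]⟩
    have inv : ∀ h ∈ H, ∀ v, φ (h • v) = φ v := fun h hh v => by
      simp only [φ, mem_Ob, po_smul hh, un.is_smul, ne_eq, smul_eq_zero_iff_eq]
    have s0 : ∑ v, φ v = 0 := by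
      simp only [φ, sum_sub_distrib, sum_ite]
      rw [card_is un.toGe, hρ, mul_div_cancel₀ _ (mul_ne_zero N0 Q1), mul_one]
      exact sub_self _
    have zz : z ∈ Ob F H z := ⟨hz.1, PO.refl z⟩
    have φz : φ z = 1 - ρ := by simp only [φ, zz, hz, if_true]
    have φx : φ x = -ρ := by simp [φ, hx, mem_Ob, nx]
    have φ0 : φ ≠ 0 := fun e => by
      rw [e] at φz φx
      exact one_ne_zero (α := ℂ) (by linear_combination φx - φz)
    obtain ⟨hK, -, sK, c, hc⟩ := srg un.nd (by omega) φ h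
    have iK : ∀ v w, Is C v → Is C w → PO F H v w → opK C φ w = opK C φ v := fun v w hv hw p => by
      obtain ⟨k, hk, a, a0, e⟩ := p.ex hv.1
      rw [← one_mul (opK C φ w), ← MonoidHom.one_apply (M := F) a, ← hK.2 a w a0, ← e,
        ← opK_g un φ k hv, opK_is _ hv]
      simp only [inv k hk]
    set α := opK C φ z - opK C φ x with hα
    have e1 : ∀ v, opK C φ v = α * φ v + if Is C v then opK C φ x + α * ρ else 0 := fun v => by
      by_cases hv : Is C v
      · by_cases p : PO F H z v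
        · rw [iK z v hz hv p, if_pos hv, show φ v = 1 - ρ by simp [φ, mem_Ob, p, hv, hv.1], hα]
          ring
        · rw [iK x v hx hv (((le z x v hz hx hv).resolve_left nx).resolve_left p), if_pos hv,
            show φ v = -ρ by simp [φ, mem_Ob, p, hv]]
          ring
      · rw [hK.1 v hv, h.1 v hv, if_neg hv, mul_zero, add_zero]
    rw [sum_congr rfl fun v _ => e1 v, sum_add_distrib, ← mul_sum, s0, mul_zero, mul_zero, zero_add,
      sum_ite, card_is un.toGe, mul_eq_zero, or_iff_right (mul_ne_zero N0 Q1)] at sK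
    have e2 : opK C φ = α • φ := funext fun v => by rw [e1, sK, ite_self, add_zero]; rfl
    obtain ⟨v, hv⟩ := Function.ne_iff.1 φ0
    have e3 := hc v (by_contra fun n => hv (h.1 v n))
    rw [e2, map_smul, e2, s0, mul_zero, show 2 * finrank F V - 5 = finrank F V - 2 + (finrank F V - 3)
      by omega, pow_add] at e3
    simp only [Pi.smul_apply, smul_eq_mul] at e3
    obtain ⟨β, hβ, e4⟩ : ∃ β : ℤ, (β = -(-q) ^ (finrank F V - 2) ∨ β = -(-q) ^ (finrank F V - 3)) ∧
        α = β := by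
      rcases mul_eq_zero.1 (mul_right_cancel₀ hv (show (α + (-q) ^ (finrank F V - 2)) *
        (α + (-q) ^ (finrank F V - 3)) * φ v = 0 * φ v by linear_combination e3)) with e | e
      · exact ⟨_, .inl rfl, by push_cast; exact eq_neg_of_add_eq_zero_left e⟩
      · exact ⟨_, .inr rfl, by push_cast; exact eq_neg_of_add_eq_zero_left e⟩
    refine ⟨φ, h, β, φ0, inv, e4 ▸ e2, hβ, Int.cast_injective (α := ℂ) ?_⟩
    have e5 := split hz fun v => if v ∈ Ob F H z ∧ C.B z v ≠ 0 then (1 : ℂ) else 0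
    rw [sum_ite, sum_eq_zero fun c _ => by simp [hz.2], sum_eq_zero fun w _ => by
      split_ifs with k k'
      exacts [absurd (Bsw k.1) k'.2, rfl, rfl], sum_congr rfl (g := fun b : F => if b ≠ 0 then
        ∑ w, (if C.B w z = 1 then (if w ∈ Ob F H z then 1 else 0) else 0) else 0) fun b _ => by
      split_ifs with k
      swap; · rfl
      refine sum_congr rfl fun w _ => ?_
      by_cases k' : C.B w z = 1
      · simp [k', Bone k', H0.RU.fr_ne k, sm]
      · simp only [k', if_false], sum_ne hF] at e5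
    have e6 := congrFun e2 z
    rw [opK_is _ hz, Pi.smul_apply, φz, e4, smul_eq_mul, sum_congr rfl (g := fun w =>
      (if C.B w z = 1 then (if w ∈ Ob F H z then 1 else 0) else 0) -
        if C.B w w = 0 ∧ C.B w z = 1 then ρ else 0) fun w _ => by
      by_cases k : C.B w z = 1
      · have : w ≠ 0 := fun e' => by simp [e'] at k
        simp [φ, k, Is, this]
      · simp [k], sum_sub_distrib, sum_ite (fun w => _ ∧ _), cnt2 un.nd (by omega) hz] at e6
    have e7 : ρ * (Np q (finrank F V) * (q ^ 2 - 1)) = (Ob F H z).ncard :=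
      div_mul_cancel₀ _ (mul_ne_zero N0 Q1)
    push_cast at e6 ⊢
    linear_combination Np q (finrank F V) * e5 + Np q (finrank F V) * (q ^ 2 - 1) * e6 +
      (q ^ (2 * finrank F V - 3) - β) * e7
  refine ⟨?_, fun z hz => (main z hz).elim fun _ ⟨_, α, _, _, _, h⟩ => ⟨α, h⟩⟩
  obtain ⟨z, -, hz⟩ := ex_is (C := C) (U := ⊤) (by rw [finrank_top]; omega)
  obtain ⟨φ, h, α, φ0, inv, hK, hα, -⟩ := main z hz
  have q1 : (q : ℂ) - 1 ≠ 0 := fun e => Q1 (by linear_combination (q + 1) * e)
  obtain ⟨j, i, hj, hi, ji, e⟩ : ∃ j i, j + 2 ≤ finrank F V ∧ 1 ≤ i ∧ α = -(-q) ^ j ∧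
      (q : ℤ) ^ (2 * finrank F V - 3) - α = q ^ j * aa q i := by
    obtain ⟨n, hn⟩ : ∃ n, finrank F V = n + 3 := ⟨finrank F V - 3, by omega⟩
    rw [hn] at hα ⊢
    rw [show 2 * (n + 3) - 3 = 2 * n + 3 by omega]
    rcases hα with rfl | rfl
    · exact ⟨n + 1, n + 2, le_rfl, by omega, rfl, by
        rw [aa, show n + 3 - 2 = n + 1 from rfl, neg_pow (q : ℤ)]; ring⟩
    · exact ⟨n, n + 3, by omega, by omega, rfl, by
        rw [aa, show n + 3 - 3 = n from rfl, neg_pow (q : ℤ)]; ring⟩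
  have e' : (q : ℂ) ^ (2 * finrank F V - 3) - α = q ^ j * aa q i := by exact_mod_cast e
  have ty := H19.RU.ty G V H (TS C G) ((q - 1) * q ^ j * aa q i) φ (fun t ht g => un.ts_conj ht g) φ0
    (mul_ne_zero (mul_ne_zero q1 (pow_ne_zero _ q0)) (by exact_mod_cast (aa_pos (by omega) hi).ne'))
    inv fun v => by
      by_cases hv : Is C v
      · rw [pop un 1 φ h v hv, mu_one, hK, mul_assoc _ (_ ^ j), ← e', Pi.smul_apply, smul_eq_mul]
        ring
      · simp [h.1 v hv, h.1 _ (mt un.is_smul.1 hv)]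
  refine ⟨_, _, ty, (H25.RU.heis H19.RU.ha H un _ _ ty).2 j _ hj (aa_cop hi) rfl, fun k => ?_,
    fun k => ?_, .inr ⟨φ, h, rfl⟩⟩
  · rw [mul_assoc, ← e', mul_right_inj' q1, sub_eq_self, ji] at k
    simp [q0] at k
  · rw [mul_assoc, mul_assoc, mul_right_inj' q1] at k
    replace k : (q : ℤ) ^ j * aa q i = q ^ (finrank F V - 1) * aa q (finrank F V - 2) := by
      exact_mod_cast k
    rw [show finrank F V - 1 = j + (finrank F V - 2 - j + 1) by omega, pow_add, mul_assoc,
      mul_right_inj' (pow_ne_zero _ (q_ne hF)), pow_succ', mul_assoc] at k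
    have := (aa_cop (q := q) hi).isUnit_of_dvd' ⟨_, k⟩ dvd_rfl
    rw [Int.isUnit_iff] at this
    omega

end H16.RU
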