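import Cfsg.Agent.H1.SN0

/-! Simple groups with few Sylow `p`-subgroups: the Sylow subgroup is self-centralizing. -/

set_option autoImplicit false
set_option linter.unusedVariables false

open Cfsg
open H5 H7 H8 H21

namespace H16.SN

open Subgroup Finset H1.SN
open scoped ComplexConjugate

universe u

local notation "𝐍" x:max => normalizer (SetLike.coe (zpowers x))
local notation "𝐂" x:max => centralizer ({x} : Set _)

variable {G : Type u} [Group G] [Finite G]

theorem hom_V {A : Type*} [Group A] [Finite A] (R : Ideal AlgInt) (ν : A →* ℂˣ) (a : A) : (ν a : ℂ) ∈ V R :=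
  mem_V_of_isIntegral R (IsIntegral.of_pow (Nat.card_pos (α := A)) (by
    rw [← Units.val_pow_eq_pow_val, ← map_pow, pow_card_eq_one', map_one, Units.val_one]; exact isIntegral_one))

open Classical in
theorem cs_sum (x : G) (w v : zpowers x) :
    ∑ ν, cs x ν w * (ν v⁻¹ : ℂˣ) = if IsConj (w : G) v then (Nat.card (zpowers x) : ℂ) else 0 := by
  simp only [H1.SN.cs, sum_mul]
  rw [sum_comm]
  simp only [← Units.val_mul, ← map_mul, sum_unitsHom_apply, mul_inv_eq_one, sum_ite_eq', mem_filter, mem_univ, true_and]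

open Classical in
theorem cs_red (R : Ideal AlgInt) {x : G} {w v : zpowers x} (hv : v ≠ 1) {c : kk R} (h : ∀ ν, ν ≠ 1 → red R (cs x ν w) = c) :
    red R (cs x 1 w) - c = if IsConj (w : G) v then (Nat.card (zpowers x) : kk R) else 0 := by
  have m : ∀ ν, cs x ν w ∈ V R := fun ν => sum_mem fun k _ => hom_V R ν k
  have a := congrArg (red R) (cs_sum x w v)
  have b := congrArg (red R) (sum_unitsHom_apply_eq_zero (inv_ne_one.2 hv))
  rw [red_sum _ _ fun ν _ => mul_mem (m ν) (hom_V R ν _), apply_ite (red R), red_natCast, red_zero] at a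
  rw [red_sum _ _ fun ν _ => hom_V R ν _, red_zero] at b
  have e : ∑ ν : zpowers x →* ℂˣ, (red R (cs x ν w) - c) * red R (ν v⁻¹ : ℂˣ) = red R (cs x 1 w) - c := by
    rw [sum_eq_single 1 (fun ν _ n => by rw [h ν n, sub_self, zero_mul]) (by simp)]; simp
  simp only [sub_mul, sum_sub_distrib, ← mul_sum, b, mul_zero, sub_zero] at e
  rw [← e, ← a]
  exact sum_congr rfl fun ν _ => (red_mul (m ν) (hom_V R ν _)).symm

variable [DecidableEq (IrrCharacter G)] (D : Dat G)

theorem core (g1 : GEO1.{u}) (g2 : GEO2.{u}) (py : PY.{u}) (sec : SEC.{u}) {r : ℕ} {y : G} (hr : r.Prime) (rp : r ≠ D.p)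
    (o : orderOf y = r) (hy : y ∈ 𝐂 D.x) {χ : IrrCharacter G} (hχ : χ ∈ principalBlock D.M G) {ε : ℂ}
    (v : ∀ u : zpowers D.x, u ≠ 1 → χ.1 u = ε) (n : χ.1 y ≠ ε) :
    χ.1 y = ε * (1 - D.p) ∧ ∀ u : zpowers D.x, u ≠ 1 → IsConj D.x u := by
  classical
  have h := D.pd
  have := D.simple
  have hp := h.prime
  have np : ¬ D.p ∣ orderOf y := fun e => rp ((Nat.prime_dvd_prime_iff_eq hp hr).1 (o ▸ e)).symm
  have cN : 𝐂 y ≤ 𝐍 D.x := by
    by_contra c
    obtain ⟨L, w, l, s⟩ := g1 G D.p D.x y D.perf hp h.ord h.index (by have := D.np; have := hp.two_le; rw [D.hN]; nlinarith)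
      (fun e => hr.one_lt.ne (by rw [← o, e, orderOf_one])) hy c
    exact g2 G D.p r D.x y L w hp h.ord h.index hr rp o l s
  obtain ⟨R, hR⟩ := exists_isPModular hr
  obtain ⟨c, hc⟩ := sec G R D.p r D.x y χ hp h.ord h.index hR rp o hy cN _ h.gen_ne_one
  have S : ∀ ν : zpowers D.x →* ℂˣ, ∑ u : zpowers D.x, χ.1 (y * u) * conj (ν u : ℂ) =
      χ.1 y - ε + ε * if 1 = ν then (D.p : ℂ) else 0 := fun ν => by
    have := sum_unitsHom_mul_conj 1 ν
    rw [Nat.card_zpowers, h.ord] at this
    rw [← this, mul_sum, ← sub_eq_iff_eq_add, ← sum_sub_distrib, sum_eq_single 1 (fun u _ e => by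
      rw [py G D.M D.p D.x y χ h.hM h.ord h.index hχ hy np u e, v u e]; simp) (by simp)]
    simp
  have k := fun u (e : u ≠ 1) => cs_red R e fun ν e => hc ν (by rw [S, if_neg e.symm]; simpa [sub_eq_zero] using n)
  have := charP_kk hR
  have p0 : (Nat.card (zpowers D.x) : kk R) ≠ 0 := fun e => by
    rw [Nat.card_zpowers, h.ord, CharP.cast_eq_zero_iff _ r] at e
    exact rp ((Nat.prime_dvd_prime_iff_eq hr hp).1 e)
  have k1 := k _ h.gen_ne_one
  rw [if_pos (IsConj.refl _)] at k1
  refine ⟨by_contra fun e => p0 ?_, fun u e => by_contra fun c => p0 (by rw [← k1, k u e, if_neg c])⟩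
  rw [← k1, hc 1 (by rw [S, if_pos rfl]; exact fun f => e (by linear_combination f)), sub_self]

theorem t_one (c : ∀ u : zpowers D.x, u ≠ 1 → IsConj D.x u) : D.t = 1 := by
  classical
  have h := D.pd
  have := Fintype.ofFinite (aE D.x)
  have k : (univ.erase 1 : Finset (zpowers D.x)) ⊆ univ.image fun φ : aE D.x => φ.1 ⟨D.x, mem_zpowers _⟩ := fun u hu => by
    obtain ⟨g, e⟩ := isConj_iff.1 (c u (ne_of_mem_erase hu))
    have m : g ∈ 𝐍 D.x := mem_normalizer_fintype fun z ⟨n, q⟩ => by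
      simp only [← q, ← conj_zpow, e]; exact zpow_mem u.2 n
    exact mem_image.2 ⟨⟨_, ⟨g, m⟩, rfl⟩, mem_univ _, Subtype.ext e⟩
  have a := (card_le_card k).trans card_image_le
  rw [card_erase_of_mem (mem_univ _), card_univ, card_univ, ← Nat.card_eq_fintype_card, ← Nat.card_eq_fintype_card, card_aE,
    Nat.card_zpowers, h.ord, ← h.card, Nat.add_sub_cancel] at a
  exact le_antisymm (Nat.le_of_mul_le_mul_right (by rwa [one_mul]) (aq_pos D.x)) h.card_Y_pos

theorem kv (g1 : GEO1.{u}) (g2 : GEO2.{u}) (py : PY.{u}) (sec : SEC.{u}) : KV.{u} := fun G _ _ _ D r y hr rp o hy => by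
  have k := fun χ a => core D g1 g2 py sec hr rp o hy ((D.pd.memB χ).2 (.inr a)) (D.pd.nonexc χ a)
  refine ⟨fun t χ a => by_contra fun n => by have := t_one D (k χ a n).2; omega,
    fun t => ⟨fun χ a => (em _).imp_right fun n => (k χ a n).1, fun η hη => (em _).imp_right fun n =>
      (core D g1 g2 py sec hr rp o hy ((D.pd.memB η).2 (.inl hη)) (fun u e => ?_) n).1⟩⟩
  obtain ⟨_, e1⟩ := card_eq_one.1 t
  have := D.pd.sum_Y e
  rw [e1] at this hη
  rwa [sum_singleton, ← mem_singleton.1 hη] at this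

theorem ar2 {p u m n t e j a k d : ℕ} {δ : ℤ} (u0 : 0 < u) (mv : m * (u + 1) + 1 = p) (nm : n + m = p + u) (np : n < p)
    (te : t * e + 1 = p) (t2 : 2 ≤ t) (j2 : 2 ≤ j) (c : 1 + a + k + d = e) (r : δ * j = a * u + k * n - d * (m + 1))
    (cas : δ = 1 ∧ t * j = m ∨ δ = -1 ∧ (t * j = u + 1 ∨ t * j = n + 1)) (h : d = 0 ∨ a + k = 0) : False := by
  have n0 : 0 < n := by nlinarith
  have := Nat.le_mul_of_pos_right a u0
  have := Nat.le_mul_of_pos_right k n0
  rcases cas with ⟨rfl, q⟩ | ⟨rfl, q⟩ <;> rcases h with rfl | h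
  · have : e = j * (u + 1) := Nat.eq_of_mul_eq_mul_left (by omega : 0 < t) (by rw [← mul_assoc, q]; omega)
    have : j = a * u + k * n := by zify; simpa using r
    nlinarith
  · obtain ⟨rfl, rfl⟩ : a = 0 ∧ k = 0 := by omega
    have : (0 : ℤ) ≤ d * (m + 1) := by positivity
    omega
  · have : (0 : ℤ) ≤ a * u + k * n := by positivity
    omega
  · obtain ⟨rfl, rfl⟩ : a = 0 ∧ k = 0 := by omega
    obtain rfl : j = d * (m + 1) := by zify; linear_combination -r
    have d0 : 0 < d := Nat.pos_of_ne_zero fun e => by simp [e] at j2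
    have : m + 1 ≤ p := by nlinarith
    have : t * (d * (m + 1)) ≤ p := by omega
    have : t * (d * 3) ≤ t * (d * (m + 1)) := by gcongr; omega
    have := Nat.le_mul_of_pos_right t d0
    subst c
    nlinarith

theorem ar1 {p u m n j a k d : ℕ} {δ : ℤ} (u0 : 0 < u) (mv : m * (u + 1) + 1 = p) (nm : n + m = p + u) (np : n < p)
    (j2 : 2 ≤ j) (c : 1 + a + k + d + 1 = p) (r : δ * j = a * u + k * n - d * (m + 1))
    (cas : δ = 1 ∧ j = m ∧ (d = 0 ∨ a + k ≤ 1) ∨ δ = -1 ∧ j ≤ p ∧ (d ≤ 1 ∨ a + k = 0)) : False := by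
  have n0 : 0 < n := by nlinarith
  have := Nat.le_mul_of_pos_right a u0
  have := Nat.le_mul_of_pos_right k n0
  have m2 : 2 * m + 1 ≤ p := by nlinarith
  have : d * 3 ≤ d * (m + 1) := by gcongr; omega
  rcases cas with ⟨rfl, rfl, rfl | h⟩ | ⟨rfl, q, h | h⟩
  · have : j = a * u + k * n := by zify; simpa using r
    omega
  · have : j + d * (j + 1) = a * u + k * n := by zify; linear_combination r
    have : a * u + k * n ≤ n := by
      obtain ⟨rfl, rfl⟩ | ⟨rfl, rfl⟩ | ⟨rfl, rfl⟩ : a = 0 ∧ k = 0 ∨ a = 1 ∧ k = 0 ∨ a = 0 ∧ k = 1 := by omega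
      all_goals omega
    omega
  · have : j + a * u + k * n = d * (m + 1) := by zify; linear_combination -r
    obtain rfl | rfl : d = 0 ∨ d = 1 := by omega
    all_goals omega
  · obtain ⟨rfl, rfl⟩ : a = 0 ∧ k = 0 := by omega
    have : j = d * (m + 1) := by zify; linear_combination -r
    omega

theorem scn (kv : KV.{u}) (ba : BA.{u}) : SCN.{u} := fun G _ _ _ D _ => by
  classical
  have h := D.pd
  have := D.simple
  have hp := h.prime
  have := Fact.mk hp
  refine ⟨hp, h.ord, (((isPGroup_zpowers_of_orderOf h.ord).toSylow h.index).3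
    (IsPGroup.of_card (Nat.eq_prime_pow_of_unique_prime_dvd Nat.card_pos.ne' fun {r} hr e => ?_))
    (zpowers_le.2 (mem_centralizer_singleton_iff.2 rfl)))⟩
  by_contra rp
  have := Fact.mk hr
  obtain ⟨⟨y, hy⟩, o⟩ := exists_prime_orderOf_dvd_card' r e
  rw [← orderOf_coe] at o
  dsimp only at o
  have np : ¬ D.p ∣ orderOf y := fun e => rp ((Nat.prime_dvd_prime_iff_eq hp hr).1 (o ▸ e)).symm
  have big : ∀ χ ∈ principalBlock D.M G, χ ≠ irrOne G → 2 * D.p ≤ charDegree χ.1 := fun χ m n => not_lt.1 fun l =>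
    ne_one_of_orderOf_prime hr o (mem_bot.1 (χ.2.charKer_eq_bot_of_simple (fun e => n (Subtype.ext e)) ▸ χ.2.mem_charKer_iff.2
      (eq_one_of_principal_small h.hM D.perf m l np fun e => h.index (e.trans (index_dvd_of_le (zpowers_le.2
        (mem_centralizer_singleton_iff.2 (mem_centralizer_singleton_iff.1 hy).symm)))))))
  obtain ⟨b1, b2, -⟩ := ba G D
  have c0 : D.nC = 0 := card_eq_zero.2 (filter_eq_empty_iff.2 fun χ _ ⟨a, d⟩ => by
    have := big χ ((h.memB χ).2 (.inr (by omega))) fun e => by have := h.one; rw [← e] at this; omega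
    omega)
  obtain ⟨η, hη⟩ := card_pos.1 h.card_Y_pos
  have te := h.card
  have t0 := h.card_Y_pos
  have dη := (D.exc η hη).1
  have j2 : 2 ≤ D.j := not_lt.1 fun l => by
    have := big η ((h.memB η).2 (.inl hη)) (h.ne_irrOne hη)
    have := Nat.le_mul_of_pos_left (aq D.x) t0
    have : (D.p : ℤ) * D.j ≤ D.p * 1 := by gcongr; omega
    rcases h.sign with e | e <;> rw [e] at dη <;> omega
  obtain ⟨R, hR⟩ := exists_isPModular hr
  have cg : ∀ (χ : IrrCharacter G) (ε k : ℤ), χ.1 y = ε → charDegree χ.1 = k * D.p + ε → (r : ℤ) ∣ k := fun χ ε k a b => by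
    have := dvd_sub_of_isPElt hR χ.2.isCharacter isPElt_one ⟨1, by rw [o, pow_one]⟩ (a := charDegree χ.1)
      (by rw [irr_apply_one]; simp) a
    rw [b, add_sub_cancel_right] at this
    exact (Int.Prime.dvd_mul' hr this).resolve_right fun e => rp ((Nat.prime_dvd_prime_iff_eq hr hp).1 (by exact_mod_cast e))
  have mv := D.mv
  have nm := D.nm
  have u0 := D.upos
  have nlt := D.np
  set Sp : Finset (IrrCharacter G) := {χ | D.a χ ≠ 0 ∧ χ.1 y ≠ D.a χ} with hS
  have dich : D.nD ≤ #Sp ∧ (D.t = 1 → D.δ = 1 → η.1 y ≠ -D.δ) ∨ D.nA + D.nN ≤ #Sp ∧ (D.t = 1 → D.δ = -1 → η.1 y ≠ -D.δ) := by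
    by_cases q : (r : ℤ) ∣ D.m + 1
    · have qu : ¬ (r : ℤ) ∣ D.u := fun e => rp ((Nat.prime_dvd_prime_iff_eq hr hp).1 (by
        zify at mv ⊢; rw [show (D.p : ℤ) = D.u * D.m + (D.m + 1) by linear_combination -mv]; exact (e.mul_right _).add q))
      have qn : ¬ (r : ℤ) ∣ D.n := fun e => hr.one_lt.ne' (by
        zify at mv nm
        rw [show (D.n : ℤ) = (D.m + 1) * D.u + 1 by linear_combination nm - mv, Int.dvd_add_right (q.mul_right _)] at e
        exact_mod_cast Int.eq_one_of_dvd_one (by positivity) e)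
      refine .inr ⟨?_, fun t d e => ?_⟩
      · rw [Dat.nA, Dat.nN, ← card_union_of_disjoint (disjoint_filter.2 fun χ _ a b => by
          have := Nat.eq_of_mul_eq_mul_right hp.pos (Nat.add_right_cancel (a.2.symm.trans b.2))
          nlinarith)]
        refine card_le_card fun χ m => ?_
        simp only [hS, mem_union, mem_filter, mem_univ, true_and] at m ⊢
        rcases m with ⟨a, b⟩ | ⟨a, b⟩ <;> refine ⟨by omega, fun e => ?_⟩
        exacts [qu (cg χ _ _ e (by rw [a, b]; simp)), qn (cg χ _ _ e (by rw [a, b]; simp))]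
      · have e : η.1 y = (-D.δ : ℤ) := by rw [e]; simp
        dsimp only [Dat.t] at t
        rw [t] at te
        rcases D.cas with c | ⟨-, c | c⟩
        · omega
        · exact qu (cg η _ _ e (by rw [t] at c; zify at c te; rw [dη, d]; linear_combination D.p * c - te))
        · exact qn (cg η _ _ e (by rw [t] at c; zify at c te; rw [dη, d]; linear_combination D.p * c - te))
    · refine .inl ⟨card_le_card fun χ m => ?_, fun t d e => ?_⟩
      · simp only [hS, mem_filter, mem_univ, true_and] at m ⊢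
        exact ⟨by omega, fun e => q (cg χ _ _ e (by have := m.2; zify at this; rw [m.1]; linear_combination this))⟩
      · have e : η.1 y = (-D.δ : ℤ) := by rw [e]; simp
        dsimp only [Dat.t] at t
        rw [t] at te
        rcases D.cas with ⟨-, c | c⟩ | c
        · omega
        · exact q (cg η _ _ e (by rw [t] at c; zify at c te; rw [dη, d]; linear_combination D.p * c + te))
        · omega
  obtain ⟨k2, k1⟩ := kv G D r y hr rp o hy
  rw [c0] at b1 b2
  rcases (show 1 ≤ #D.Y from t0).eq_or_lt with t | t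
  · obtain ⟨k1, k2⟩ := k1 t.symm
    have p0 : (D.p : ℂ) ≠ 0 := Nat.cast_ne_zero.2 hp.ne_zero
    have s : D.δ * η.1 y = aq D.x - D.p * #Sp := by
      rw [h.reg η hη y np, ← h.cardX, hS, card_filter, card_filter]
      push_cast
      rw [mul_sum, ← sum_sub_distrib]
      refine sum_congr rfl fun χ _ => ?_
      by_cases a : D.a χ = 0
      · simp [a]
      have a2 : (D.a χ : ℂ) * D.a χ = 1 := by rcases h.pm χ with e | e | e <;> simp [e] at a ⊢
      by_cases b : χ.1 y = D.a χ
      · simp [a, b, a2]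
      · rw [if_pos a, if_pos ⟨a, b⟩, (k1 χ a).resolve_left b]; linear_combination (1 - D.p) * a2
    rw [← t] at te
    have te' : (aq D.x : ℂ) + 1 = D.p := by exact_mod_cast (by omega : aq D.x + 1 = D.p)
    have s' : #Sp ≤ 1 ∧ (η.1 y ≠ -D.δ → #Sp = 0) := by
      by_cases e : η.1 y = -D.δ
      · have : (#Sp : ℂ) = 1 := mul_left_cancel₀ p0 (by rw [e] at s; linear_combination s + h.sign_sq + te')
        have : #Sp = 1 := by exact_mod_cast this
        exact ⟨this.le, fun n => (n e).elim⟩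
      · have : (#Sp : ℂ) = 0 := mul_left_cancel₀ p0 (by
          rw [(k2 η hη).resolve_left e] at s; linear_combination s + (1 - D.p) * h.sign_sq + te')
        have : #Sp = 0 := by exact_mod_cast this
        exact ⟨by omega, fun _ => this⟩
    refine ar1 u0 mv nm nlt j2 (a := D.nA) (k := D.nN) (d := D.nD) (by dsimp only [Dat.e] at b1; omega) (by simpa using b2) ?_
    have c := D.cas
    have : D.m + 1 ≤ D.p := mv ▸ Nat.succ_le_succ (Nat.le_mul_of_pos_right _ D.u.succ_pos)
    rw [← t] at c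
    rcases c with ⟨d, c⟩ | ⟨d, c⟩
    · exact .inl ⟨d, by omega, dich.imp (fun a => by have := s'.2 (a.2 t.symm d); omega) fun a => by omega⟩
    · exact .inr ⟨d, by omega, dich.imp (fun a => by omega) fun a => by have := s'.2 (a.2 t.symm d); omega⟩
  · have : #Sp = 0 := card_eq_zero.2 (filter_eq_empty_iff.2 fun χ _ ⟨a, b⟩ => b (k2 t χ a))
    exact ar2 u0 mv nm nlt te t j2 (a := D.nA) (k := D.nN) (d := D.nD) b1 (by simpa using b2)
      (D.cas.imp_left fun c => ⟨c.1, c.2.resolve_left (by omega)⟩) (by omega)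

end H16.SN
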