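import Cfsg.Agent.H1.SN0

/-! Simple groups with few Sylow `p`-subgroups: an induced character equal to the sum of the exceptional characters. -/

set_option autoImplicit false
set_option linter.unusedVariables false

open Cfsg
open H5 H7 H8 H21

namespace H16.SN

open Subgroup Finset H1.SN MulAction
open scoped ComplexConjugate commutatorElement

universe u

local notation "𝐍" x:max => normalizer (SetLike.coe (zpowers x))
local notation "𝐂" x:max => centralizer ({x} : Set _)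

variable {G : Type u} [Group G] [Finite G] {p : ℕ} {x y : G}

open Classical in
theorem fix (h : SCent p x) (hy : y ∈ 𝐍 x) (hy' : y ∉ zpowers x) [Fintype G] : ∃ s, #{k : G | k⁻¹ * y * k ∈ 𝐍 x} = p * aq x * s ∧
    s ∣ p * (𝐍 x).index ∧ ∀ k : G, k⁻¹ * y * k ∈ 𝐍 x → k⁻¹ * y * k ∉ zpowers x := by
  have nP : ∀ k : G, k⁻¹ * y * k ∈ 𝐍 x → k⁻¹ * y * k ∉ zpowers x := fun k hk m =>
    have n : k⁻¹ * y * k ≠ 1 := fun e => hy' (by rw [show y = 1 by simpa [mul_eq_one_iff_eq_inv] using e]; exact one_mem _)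
    hy' (h.mem_of_orderOf hy (by simpa [mul_assoc] using ((MulAut.conj k).orderOf_eq _).trans (h.of_mem m n).ord))
  obtain ⟨c1, c2⟩ := h.card_inf_cent hy hy'
  have l : 𝐂 y ⊓ 𝐍 x ≤ 𝐍 y ⊓ 𝐍 x := inf_le_inf_right _ (cent_le_norm y)
  refine ⟨(𝐍 x).relIndex (𝐍 y), ?_, Nat.dvd_of_mul_dvd_mul_left (aq_pos x) ?_, nP⟩
  · have e : (𝐍 x).subgroupOf (𝐍 y) = stabilizer (𝐍 y) ((1 : G) : G ⧸ 𝐍 x) := by
      ext c; exact (smul_one_eq_iff (𝐍 x) (c : G)).symm
    rw [relIndex, e, ← card_orbit_eq_index, ← h.card_normalizer', ← QuotientGroup.card_preimage_mk, Nat.card_coe_set_eq,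
      ← Set.ncard_coe_finset]
    congr 1
    ext k
    simp only [coe_filter, mem_univ, true_and, Set.mem_ofPred_eq, Set.mem_preimage]
    constructor
    · intro hk
      obtain ⟨v, hv, e⟩ := h.isConj_mul' hy hy' (h.commutator_mem (inv_mem hy) hk)
      set g := k⁻¹ * y * k with hg
      have m : v⁻¹ * g ∈ 𝐂 y ⊓ 𝐍 x := ⟨mem_centralizer_singleton_iff.2 (by
        calc v⁻¹ * g * y = v⁻¹ * (y * ⁅y⁻¹, g⁆) * g := by rw [commutatorElement_def]; group
          _ = _ := by rw [← e]; group), (𝐍 x).mul_mem ((𝐍 x).inv_mem (le_normalizer hv)) hk⟩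
      obtain ⟨w, hw, e⟩ := h.isConj_mul' m.2 (fun q => nP k hk ((mul_mem_cancel_left (inv_mem hv)).1 q))
        (u := (v⁻¹ * g)⁻¹ * v * (v⁻¹ * g)) ((mem_normalizer_iff''.1 m.2 v).1 hv)
      have e : (k * w)⁻¹ * y * (k * w) = v⁻¹ * g := by
        calc _ = w⁻¹ * ((v⁻¹ * g) * ((v⁻¹ * g)⁻¹ * v * (v⁻¹ * g))) * w := by rw [hg]; group
          _ = _ := by rw [← e]; group
      have z : zpowers (v⁻¹ * g) = zpowers y := H19.cyc_eq_of_card (h.isCyclic_of_le inf_le_right c1) (zpowers_le.2 m)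
        (zpowers_le.2 ⟨mem_centralizer_singleton_iff.2 rfl, hy⟩) (by
          rw [Nat.card_zpowers, Nat.card_zpowers, ← e]; simpa [mul_assoc] using (MulAut.conj (k * w)⁻¹).orderOf_eq y)
      refine ⟨⟨k * w, inv_mem_iff.1 (mem_normalizer_fintype fun _ ⟨n, q⟩ => ?_)⟩, QuotientGroup.eq.2 ?_⟩
      · simp only [← q, ← conj_zpow]; rw [inv_inv, e]; exact zpow_mem (z ▸ mem_zpowers _) n
      · simpa using le_normalizer hw
    · rintro ⟨c, hc⟩
      have hc' : (c : G)⁻¹ * k ∈ 𝐍 x := by simpa using QuotientGroup.eq.1 hc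
      have := mul_mem (mul_mem (inv_mem hc') (zpowers_le.2 hy ((mem_normalizer_iff''.1 c.2 y).1 (mem_zpowers y)))) hc'
      convert this using 1
      group
  · rw [← mul_assoc, mul_comm _ p, ← h.card_normalizer', card_mul_index, ← c2]
    refine (Nat.mul_dvd_mul_right (card_dvd_of_le l) _).trans ?_
    rw [← inf_relIndex_right, inf_comm, H19.card_mul_relIndex inf_le_right]
    exact card_subgroup_dvd_card _

theorem inn (ikx : IKX.{u}) : IN.{u} := fun G _ _ _ D K d c um => by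
  classical
  have := Fintype.ofFinite G
  have h := D.pd
  have hp := h.prime
  obtain ⟨l, I⟩ := ikx G D K
  obtain ⟨η, hη⟩ := card_pos.1 h.card_Y_pos
  have te := h.card
  have tz : #D.Y * charDegree η.1 = D.n * D.p + 1 := by
    have := (D.exc η hη).1
    dsimp only [Dat.t] at c
    zify at c te ⊢
    rw [this, d]; linear_combination D.p * c - te
  have eq : ∀ μ, ∀ θ ∈ D.Y, l θ μ = l η μ := fun μ θ m => by
    have := (I.rel μ θ m).trans (I.rel μ η hη).symm
    rw [d] at this; omega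
  have key : ∀ μ, l η μ ≠ 0 → l η μ = 1 ∧ ∀ χ ∉ D.Y, l χ μ = 0 := fun μ n => by
    have := I.deg μ
    rw [← sum_add_sum_compl D.Y, sum_congr rfl fun θ m => by rw [eq μ θ m, h.degree_eq m hη], sum_const, smul_eq_mul,
      mul_left_comm, tz] at this
    have o : l η μ = 1 := le_antisymm (Nat.le_of_mul_le_mul_right (by omega) (Nat.add_one_pos (D.n * D.p))) (Nat.pos_of_ne_zero n)
    rw [o, one_mul, add_eq_left, sum_eq_zero_iff] at this
    exact ⟨o, fun χ m => (mul_eq_zero.1 (this χ (mem_compl.2 m))).resolve_right (charDegree_pos χ).ne'⟩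
  have l1 : l η 1 = 0 := by_contra fun n => by
    have := (key 1 n).2 _ fun m => h.ne_irrOne m rfl
    rw [I.one, if_pos rfl] at this; omega
  have M0 : (Nat.card (𝐍 D.x) : ℂ) ≠ 0 := Nat.cast_ne_zero.2 Nat.card_pos.ne'
  obtain ⟨y, yP, y0⟩ : ∃ y : 𝐍 D.x, (y : G) ∉ zpowers D.x ∧ η.1 y ≠ 0 := by
    by_contra! q
    have : ∀ μ, l η μ = 0 := fun μ => by
      have : (l η μ : ℂ) = l η 1 := mul_left_cancel₀ M0 (by
        rw [I.inner, I.inner]
        exact sum_congr rfl fun y _ => (em _).elim (fun m => by rw [I.triv μ y m, I.triv 1 y m]) fun m => by simp [q y m])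
      rw [l1] at this; exact_mod_cast this
    have j := I.sumY η hη
    simp only [this, sum_const_zero] at j
    rw [← j] at c; omega
  obtain ⟨s, s1, s2, s3⟩ := fix K y.2 yP
  have np : ¬ D.p ∣ orderOf (y : G) := fun e => yP (K.mem_of_orderOf y.2 (K.orderOf_eq_of_dvd e))
  have a : ∑ μ, l η μ * (Nat.card (𝐍 D.x) * ∑ χ, l χ μ * χ.1 y) = (Nat.card (𝐍 D.x) * (D.n + 1) : ℂ) * η.1 y := by
    have : ∀ μ, l η μ * (Nat.card (𝐍 D.x) * ∑ χ, l χ μ * χ.1 y) = (l η μ * (Nat.card (𝐍 D.x) * (#D.Y * η.1 y)) : ℂ) := fun μ => by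
      by_cases n : l η μ = 0
      · simp [n]
      rw [← sum_add_sum_compl D.Y, sum_congr rfl fun θ m => by rw [eq μ θ m, (key μ n).1, h.eq_reg m hη np],
        sum_eq_zero (s := D.Yᶜ) fun χ m => by simp [(key μ n).2 χ (mem_compl.1 m)]]
      simp
    have c : (#D.Y * D.j : ℂ) = D.n + 1 := by exact_mod_cast c
    simp only [this]
    rw [← sum_mul, ← Nat.cast_sum, I.sumY η hη, ← c]; ring
  simp only [I.ind, finsum_eq_sum_of_fintype, mul_sum] at a
  rw [sum_comm, sum_congr rfl (g := fun k : G => if k⁻¹ * y * k ∈ 𝐍 D.x then η.1 y else 0) fun k _ => by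
    split_ifs with m
    · rw [← I.val η ⟨_, m⟩ (s3 k m)]; simpa using η.2.isClassFunction y k⁻¹
    · simp, ← sum_filter, sum_const, nsmul_eq_mul, s1, ← K.card_normalizer'] at a
  have a := mul_right_cancel₀ y0 a
  push_cast at a
  obtain rfl : s = D.n + 1 := by exact_mod_cast mul_left_cancel₀ M0 a
  have mv := D.mv
  have nm := D.nm
  have u0 := D.upos
  have m2 : 2 * D.m + 1 ≤ D.p := by nlinarith
  rw [D.hN] at s2
  have s2 := (Nat.Coprime.symm (Nat.coprime_of_lt_prime D.n.succ_ne_zero (by omega) hp)).dvd_of_dvd_mul_left s2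
  obtain ⟨k, e⟩ : D.n + 1 ∣ D.p - 1 := (Nat.dvd_add_right s2).1 ⟨D.p, by rw [Nat.succ_mul]; omega⟩
  obtain rfl | rfl | k2 : k = 0 ∨ k = 1 ∨ 2 ≤ k := by omega
  · omega
  · omega
  · have := Nat.mul_le_mul_left (D.n + 1) k2
    omega

end H16.SN
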