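/-
S3159, case `F₄`: facts about the model of `Sp₆(2)` used for the chunks FB, FC.
-/
import Cfsg.Agent.H26.SX4

set_option autoImplicit false
set_option synthInstance.maxSize 4096
set_option synthInstance.maxHeartbeats 200000
set_option linter.unusedSectionVars false
open Cfsg Subgroup H19 H23.F4 H26.SX
namespace H16.SX

abbrev U := Fin 32
def ux (a b : U) : U := ⟨a.1 ^^^ b.1, Nat.xor_lt_two_pow (n := 5) a.2 b.2⟩
def aa : V := e1 + e2
def cc : V := f1 + f2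
/-- `d1 ↔ d2⁻¹` -/
def kk : Sp := T e1 * T e2 * sw12
/-- the elements of `ZW`; `zw 1 = sw12 * T aa`, `zw 2 = sw12 * T cc`, `zw 4 = sw12` -/
def zw (n : ℕ) : Sp := Tb (xor (n.testBit 1) (n.testBit 2)) aa * Tb (xor (n.testBit 0) (n.testBit 2)) cc *
  Tb (xor (n.testBit 0) (xor (n.testBit 1) (n.testBit 2))) (aa + cc)

theorem zw_add8 : ∀ a < 8, ∀ b < 8, zw (a ^^^ b) = zw a * zw b := by decide +kernel
theorem zw_mod (n : ℕ) : zw (n % 8) = zw n := by
  have : ∀ i < 3, (n % 2 ^ 3).testBit i = n.testBit i := fun i h => by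
    rw [Nat.testBit_mod_two_pow, decide_eq_true h, Bool.true_and]
  simp only [zw, show n % 8 = n % 2 ^ 3 from rfl, this 0 (by decide), this 1 (by decide), this 2 (by decide)]
theorem zw_add (a b : ℕ) : zw (a ^^^ b) = zw a * zw b := by
  rw [← zw_mod, ← zw_mod a, ← zw_mod b, ← zw_add8 _ (Nat.mod_lt _ (by decide)) _ (Nat.mod_lt _ (by decide))]
  exact congrArg zw (Nat.xor_mod_two_pow (n := 3))
theorem zw0 : zw 0 = 1 := by decide +kernel
theorem zw4 : zw 4 = sw12 := by decide +kernel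
theorem zw_sq (n : ℕ) : zw n * zw n = 1 := by rw [← zw_add, Nat.xor_self, zw0]
theorem zw_mem (n : ℕ) : zw n ∈ ZW := by
  have : ∀ b p, T p ∈ ZW → Tb b p ∈ ZW := fun b p h => by cases b; exacts [one_mem _, h]
  exact mul_mem (mul_mem (this _ _ (subset_closure (by simp [aa]))) (this _ _ (subset_closure (by simp [cc]))))
    (this _ _ (subset_closure (by simp [aa, cc])))
theorem ZW_ex {k : Sp} (h : k ∈ ZW) : ∃ n < 8, k = zw n := by
  induction h using closure_induction with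
  | mem x hx => rcases hx with rfl | rfl | rfl; exacts [⟨5, by decide +kernel⟩, ⟨6, by decide +kernel⟩, ⟨7, by decide +kernel⟩]
  | one => exact ⟨0, by decide +kernel⟩
  | mul x y _ _ hx hy =>
    obtain ⟨a, ha, rfl⟩ := hx
    obtain ⟨b, hb, rfl⟩ := hy
    exact ⟨_, Nat.xor_lt_two_pow (n := 3) ha hb, (zw_add a b).symm⟩
  | inv x _ hx => obtain ⟨a, ha, rfl⟩ := hx; exact ⟨a, ha, inv_eq_of_mul_eq_one_right (zw_sq a)⟩
theorem ZW_le {G : Type*} [Group G] {χ : Sp →* G} {H : Subgroup G} (h1 : χ (zw 1) ∈ H) (h2 : χ (zw 2) ∈ H)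
    (h4 : χ (zw 4) ∈ H) : ZW.map χ ≤ H := by
  rintro _ ⟨k, hk, rfl⟩
  obtain ⟨n, hn, rfl⟩ := ZW_ex hk
  have m : ∀ a b, χ (zw a) ∈ H → χ (zw b) ∈ H → χ (zw (a ^^^ b)) ∈ H := fun a b x y => by
    rw [zw_add, map_mul]; exact mul_mem x y
  interval_cases n
  exacts [m 1 1 h1 h1, h1, h2, m 1 2 h1 h2, h4, m 1 4 h1 h4, m 2 4 h2 h4, m 3 4 (m 1 2 h1 h2) h4]
theorem ZW_cm {k k' : Sp} (h : k ∈ ZW) (h' : k' ∈ ZW) : Commute k k' := by
  obtain ⟨a, -, rfl⟩ := ZW_ex h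
  obtain ⟨b, -, rfl⟩ := ZW_ex h'
  rw [commute_iff_eq, ← zw_add, ← zw_add, Nat.xor_comm]
theorem ZW_d3 {k : Sp} (h : k ∈ ZW) : Commute k d3 := by
  obtain ⟨a, ha, rfl⟩ := ZW_ex h
  clear h; revert a; decide +kernel
theorem ZW_norm {k : Sp} (h : ∀ n < 8, ∃ m < 8, k * zw n * k⁻¹ = zw m) : k ∈ N(ZW) := mem_norm_of_cj_le fun _ hx => by
  obtain ⟨_, hy, rfl⟩ := mem_cj'.1 hx
  obtain ⟨a, ha, rfl⟩ := ZW_ex hy
  obtain ⟨m, -, e⟩ := h a ha
  exact e ▸ zw_mem m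
theorem ww_norm : ww ∈ N(ZW) := ZW_norm (by decide +kernel)
theorem ww3 : ww ^ 3 = 1 := by decide +kernel

theorem kk_cj {y : Sp} (yy : y * y = 1) (h1 : y * ww * y⁻¹ = ww⁻¹) (h2 : Commute y bb) (h3 : Commute y d3) :
    ∃ j : Fin 3, y = ww ^ j.1 * kk * (ww ^ j.1)⁻¹ := by
  obtain ⟨t, rfl, e⟩ := refl_gen (n := kk) (a := ww) (b := bb) (c := d3) (D := dA) (fun a b c => centA
    ((show (ww * bb)⁻¹ = d1 by decide +kernel) ▸ (a.mul_right b).inv_right)
    ((show (ww * bb⁻¹)⁻¹ = d2 by decide +kernel) ▸ (a.mul_right b.inv_right).inv_right) c) yy (by decide +kernel)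
    (h1.trans (by decide +kernel)) ((cjc h2).trans (by decide +kernel)) ((cjc h3).trans (by decide +kernel))
  clear * - e; revert t; decide +kernel

/-- three vectors -/
def I3 (a b x : V) : Prop := x = a ∨ x = b ∨ x = a + b
instance (a b x : V) : Decidable (I3 a b x) := by unfold I3; infer_instance
theorem pw3 {k : Sp} (h : Commute k ww) {v : V} (hv : I3 e3 f3 v) : I3 e3 f3 (k • v) :=
  have a : v ≠ 0 ∧ ww • v = v := by revert v; decide +kernel
  (by decide +kernel : ∀ p, p ≠ 0 → ww • p = p → I3 e3 f3 p) _ (smul_ne_zero_v a.1) (cm_fix h a.2)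
theorem pd3 {k : Sp} (h : Commute k d3) {v : V} (hv : I3 e3 f3 v) : I3 e3 f3 (k • v) :=
  have a : v ≠ 0 ∧ d3 • d3 • v = v + d3 • v := by revert v; decide +kernel
  (by decide +kernel : ∀ p, p ≠ 0 → d3 • d3 • p = p + d3 • p → I3 e3 f3 p) _ (smul_ne_zero_v a.1)
    (by rw [cm h, cm h, ← smul_add, a.2])
theorem ps3 {k : Sp} (h : Commute k sw12) {v : V} (hv : I3 aa cc v) : I3 aa cc (k • v) := by
  obtain ⟨a, u, e⟩ : v ≠ 0 ∧ ∃ u, v = u + sw12 • u := by revert v; decide +kernel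
  refine (by decide +kernel : ∀ p u, p ≠ 0 → p = u + sw12 • u → I3 aa cc p) _ (k • u) (smul_ne_zero_v a) ?_
  rw [cm h, ← smul_add, ← e]
theorem fix3 {K : Subgroup Sp} (p : PiG {3}ᶜ K) {t : Sp} (n : t ∈ N(K)) {a b : V} (e : t • a = b ∧ t • b = a + b ∧
    t • (a + b) = a ∧ a ≠ b ∧ b ≠ a + b) (h : ∀ k ∈ K, ∀ v, I3 a b v → I3 a b (k • v)) {k : Sp} (hk : k ∈ K) :
    k • a = a ∧ k • b = b :=
  ⟨tri3 p n e.1 e.2.1 e.2.2.1 e.2.2.2.1 (fun g hg => h g hg a (.inl rfl)) k hk,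
    tri3 p n e.2.1 e.2.2.1 e.1 e.2.2.2.2 (fun g hg => by have := h g hg b (.inr (.inl rfl)); unfold I3 at this; tauto) k hk⟩
theorem toZW {k : Sp} (h1 : k • aa = aa) (h2 : k • cc = cc) (h3 : k • e3 = e3) (h4 : k • f3 = f3) : k ∈ ZW := by
  have a : k • e2 = k • e1 + aa := by rw [← h1, ← smul_add]; rfl
  have c : k • f2 = k • f1 + cc := by rw [← h2, ← smul_add]; rfl
  obtain ⟨n, -, e⟩ := (by decide +kernel : ∀ p q, SB p q (p + aa) (q + cc) e3 f3 → ∃ n < 8,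
    (p, q, p + aa, q + cc, e3, f3) = tup (zw n)) (k • e1) (k • f1) (by simpa only [a, c, h3, h4] using sb_smul k)
  exact (tup_inj (by rw [← e, tup, a, c, h3, h4]) : k = zw n) ▸ zw_mem n
/-- `C(sw12, ww) = ⟨ww⟩ × ⟨sw12⟩ × S₃` -/
theorem cb1 {k : Sp} (h1 : Commute k sw12) (h2 : Commute k ww) : ∃ (j : Fin 3) (l : Bool),
    Fx [f2, e2, f1, e1] (ww ^ j.1 * rb sw12 l * k) := by
  have w : ∀ {g : Sp}, Commute k g → ω (k • e1) (g • k • e1) = ω e1 (g • e1) := fun h => by rw [cm h, ω_smul]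
  obtain ⟨j, l, e⟩ := (by decide +kernel : ∀ p, ω p (ww • p) = true → ω p (sw12 • p) = false →
    ω p ((ww * sw12) • p) = false → ww • ww • p = p + ww • p → ∃ (j : Fin 3) (l : Bool), (ww ^ j.1 * rb sw12 l) • p = e1)
    (k • e1) ((w h2).trans (by decide +kernel)) ((w h1).trans (by decide +kernel))
    ((w (h2.mul_right h1)).trans (by decide +kernel))
    (by rw [cm h2, cm h2, ← smul_add]; exact congrArg _ (by decide +kernel))
  rw [← mul_smul] at e
  have c : Commute ww sw12 := by decide +kernel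
  have c1 : Commute (ww ^ j.1 * rb sw12 l * k) sw12 :=
    ((c.pow_left _).mul_left (rb_comm (.refl _) l).symm).mul_left h1
  have c2 : Commute (ww ^ j.1 * rb sw12 l * k) ww :=
    (((Commute.refl _).pow_left _).mul_left (rb_comm c l).symm).mul_left h2
  have e' := cm_eq c2 (show ww • e1 = f1 by decide +kernel)
  refine ⟨j, l, ?_⟩
  simp only [Fx, List.forall_mem_cons, List.not_mem_nil, IsEmpty.forall_iff, implies_true, and_true]
  rw [cm_eq c1 (show sw12 • f1 = f2 by decide +kernel), cm_eq c1 (show sw12 • e1 = e2 by decide +kernel), e', e]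
  decide +kernel
/-- `C(sw12, d3) = ⟨d3⟩ × 2 × S₄` -/
theorem cs2 {k : Sp} (h1 : Commute k sw12) (h2 : Commute k d3) {H : Subgroup Sp} (hz : ZW ≤ H) (hw : ww ∈ H) (hk : kk ∈ H) :
    ∃ j : Fin 3, d3 ^ j.1 * k ∈ H := by
  obtain ⟨j, e⟩ := (by decide +kernel : ∀ p, I3 e3 f3 p → ∃ j : Fin 3, d3 ^ j.1 • p = e3) _ (pd3 h2 (.inl rfl))
  obtain ⟨i, l, a, c⟩ := (by decide +kernel : ∀ p, I3 aa cc p → ∀ q, I3 aa cc q → p ≠ q → ∃ (i : Fin 3) (l : Bool),
    (ww ^ i.1 * rb kk l) • p = aa ∧ (ww ^ i.1 * rb kk l) • q = cc) _ (ps3 h1 (.inl rfl)) _ (ps3 h1 (.inr (.inl rfl)))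
    (fun e => absurd (smul_left_cancel _ e) (by decide))
  have m : ww ^ i.1 * rb kk l ∈ H := mul_mem (pow_mem hw _) (by cases l; exacts [one_mem _, hk])
  obtain ⟨x1, x2, x3, x4⟩ : d3 ^ j.1 • aa = aa ∧ d3 ^ j.1 • cc = cc ∧ (ww ^ i.1 * rb kk l) • e3 = e3 ∧
      Commute (ww ^ i.1 * rb kk l) d3 := by clear * -; revert i j l; decide +kernel
  have e' : (ww ^ i.1 * rb kk l * (d3 ^ j.1 * k)) • e3 = e3 := by rw [mul_smul, mul_smul (d3 ^ _), e, x3]
  have := hz (toZW (k := ww ^ i.1 * rb kk l * (d3 ^ j.1 * k))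
    (by rw [← mul_assoc, (x4.pow_right _).eq, mul_assoc, mul_smul, mul_smul, a, x1])
    (by rw [← mul_assoc, (x4.pow_right _).eq, mul_assoc, mul_smul, mul_smul, c, x2]) e'
    (by rw [cm_eq (x4.mul_left (((Commute.refl _).pow_left _).mul_left h2)) (show d3 • e3 = f3 by decide +kernel), e']
        decide +kernel))
  exact ⟨j, (mul_mem_cancel_left m).1 this⟩

theorem mS4 {k : Sp} {a c : V} : k ∈ S4 a c ↔ k • a = a ∧ k • c = c := Iff.rfl
instance (k : Sp) (a c : V) : Decidable (k ∈ S4 a c) := inferInstanceAs (Decidable (k • a = a ∧ k • c = c))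
theorem S4_d2 {k : Sp} (h : k ∈ S4 e2 f2) : Commute k d2 := (comm_T_iff.2 h.1).mul_right (comm_T_iff.2 h.2)
theorem S4_le {H : Subgroup Sp} (h : ∀ p, ω p e2 = false → ω p f2 = false → T p ∈ H) : S4 e2 f2 ≤ H := fun k hk => by
  have a : sw12 • e1 = e2 ∧ sw12 • f1 = f2 := by decide +kernel
  have := TG_le (M := cj sw12⁻¹ H) (fun p hp => mem_cj_inv.2 (by
      rw [conj_T]
      exact h _ (by rw [← a.1, ω_smul]; exact hp _ (by simp)) (by rw [← a.2, ω_smul]; exact hp _ (by simp))))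
    (gen2 (sw12⁻¹ * k * sw12) (by simp [Fx, mul_smul, a.1, a.2, (mS4.1 hk).1, (mS4.1 hk).2, inv_smul_eq_iff]))
  simpa [mul_assoc] using mem_cj_inv.1 this
theorem S4_le5 {H : Subgroup Sp} (h : ∀ n ∈ [1, 2, 16, 32, 17], T (vv n) ∈ H) : S4 e2 f2 ≤ H := S4_le fun p a c => by
  obtain ⟨l, -, e, m⟩ := (by decide +kernel : ∀ p, ω p e2 = false → ω p f2 = false → ∃ l ∈ [[], [1], [2], [2, 1, 2], [16],
    [17], [17, 2, 1, 2, 17], [17, 2, 17], [32], [17, 32, 16, 32, 17], [16, 32, 17, 2, 1, 2, 17, 32, 16],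
    [16, 32, 17, 2, 17, 32, 16], [32, 16, 32], [17, 32, 17], [32, 17, 2, 1, 2, 17, 32], [32, 17, 2, 17, 32]],
    T p = wd l ∧ ∀ n ∈ l, n ∈ [1, 2, 16, 32, 17]) p a c
  exact e ▸ list_prod_mem fun x hx => by obtain ⟨n, hn, rfl⟩ := List.mem_map.1 hx; exact h n (m n hn)
theorem card_S4 : 720 ≤ #(S4 e2 f2) := by
  have e : S4 e2 f2 = MulAction.stabilizer Sp (e2, f2) := Subgroup.ext fun k => by simp [mS4]
  have h := (MulAction.stabilizer Sp (e2, f2)).card_mul_index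
  rw [MulAction.index_stabilizer, card_Sp, ← e] at h
  have : (MulAction.orbit Sp (e2, f2)).ncard ≤ 2016 := by
    refine (Set.ncard_le_ncard (t := ↑((vs ×ˢ vs).filter fun p => ω p.1 p.2).toFinset) ?_).trans ?_
    · rintro _ ⟨g, rfl⟩
      simp [mem_vs, List.mem_product]; rfl
    · rw [Set.ncard_coe_finset]; exact (List.toFinset_card_le _).trans (by decide +kernel)
  nlinarith
theorem pin {k : Sp} (kk : k * k = 1) (br : k * T f1 * k = T f1 * k * T f1) (h1 : Commute k (T e1)) (h3 : Commute k (T e3))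
    (h2 : Commute k d2) (n1 : ¬ Commute k (T f1)) (n3 : ¬ Commute k (T f3)) : k = T (e1 + e3) := by
  have e : k = T (T f1 • k • f1) := by
    rw [← conj_T, ← conj_T, inv_eq_of_mul_eq_one_right kk, br, T_inv]
    simp only [← mul_assoc, T_mul_self, one_mul]
    rw [mul_assoc, T_mul_self, mul_one]
  generalize T f1 • k • f1 = u at e
  subst e
  clear kk br; revert u; decide +kernel
theorem nosq {m : Sp} (h : m ∈ S4 e2 f2) : m * m ≠ sw13 := fun e => by
  have c : Commute m sw13 := e ▸ (Commute.refl m).mul_right (.refl m)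
  have a1 := cm_eq c (show sw13 • e1 = e3 by decide +kernel)
  have a2 := cm_eq c (show sw13 • f1 = f3 by decide +kernel)
  obtain ⟨b1, b2⟩ := mS4.1 h
  refine (by decide +kernel : ∀ p q, SB p q e2 f2 (sw13 • p) (sw13 • q) → lin p q e2 f2 (sw13 • p) (sw13 • q) p = e3 →
    lin p q e2 f2 (sw13 • p) (sw13 • q) q = f3 → False) (m • e1) (m • f1)
    (by simpa only [b1, b2, a1, a2] using sb_smul m) ?_ ?_ <;>
  rw [← a1, ← a2, ← b1, ← b2, ← ap_lin, ← mul_smul, e] <;> decide +kernel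

end H16.SX
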