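/-
S3159, case `F₄`: the group `O = 2⁵` and the centralizers of elements of order three in `C_M(τ)`.
-/
import Cfsg.Agent.H16.SX1

set_option autoImplicit false
set_option synthInstance.maxSize 4096
set_option synthInstance.maxHeartbeats 200000
set_option linter.unusedSectionVars false
open Cfsg Subgroup H19 H23.F4 H26.SX
namespace H16.SX
variable {G : Type*} [Group G] {b r g θ x y a : G} {φ ψ χ : Sp →* G} {M : Subgroup G} {k : Sp}

/-- the three charts; `χ` is normalized so that `χ kk = ψ sw13` -/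
structure Dt (b r θ : G) (φ ψ χ : Sp →* G) (M : Subgroup G) : Prop where
  F : Fc b r φ ⊥
  P : Wc (φ d1) ψ ⊥
  C : Wc θ χ ⊥
  pr : ψ (T e1) = r
  pb : ψ d1 = b
  ag : ∀ k : Sp, k • e1 = e1 → k • f1 = f1 → ψ k = φ k
  th : θ = φ ww * ψ (d1 * d3)
  c3 : χ d3 = θ * φ ww
  cw : χ ww = ψ (d1⁻¹ * d3)
  cb : χ bb = (φ bb)⁻¹
  ct : χ sw12 = φ sw12
  ck : χ kk = ψ sw13
  zq : ZW.map χ ≤ Q1 (φ sw12)
  mz : Mz (φ ww) M

abbrev O1 (φ : Sp →* G) : Subgroup G := Q1 (φ sw12) ⊓ C[φ ww]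
abbrev O5 (r : G) (χ : Sp →* G) : Subgroup G := ZW.map χ ⊔ ZW.map (lc r χ)
abbrev S6 (ψ : Sp →* G) : Subgroup G := (S4 e2 f2).map ψ
abbrev YY (φ : Sp →* G) (M : Subgroup G) : Subgroup G := M ⊓ C[φ sw12]
/-- coordinates in `O`: `1, 2, 4, 8, 16` are `x12, x23, τ, x45, x56` -/
def xx (r : G) (χ : Sp →* G) (o : U) : G := χ (zw o.1) * lc r χ (zw (o.1 / 8))

theorem cji (c : Commute g y) : Commute (g * x * g⁻¹) y ↔ Commute x y := by
  rw [← Commute.conj_iff (a := x) g, c.eq, mul_inv_cancel_right]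
theorem map_cj (φ : Sp →* G) (k y : Sp) : φ k * φ y * (φ k)⁻¹ = φ (k * y * k⁻¹) := by simp
theorem map_cf (h : k ∈ N(ZW)) : ZW.map (cf χ k) = ZW.map χ := by
  rw [cf, ← map_map]; exact congrArg _ (cj_of_mem_norm h)
variable [Finite G]

theorem dt (h : FX b r g φ ψ M) : ∃ θ χ, Dt b r θ φ ψ χ M ∧ ZW.map χ = ZW.map (lc g φ) ∧ O5 r χ = OO r g φ := by
  have W := h.f4.toFc.toWc
  have P : Wc (φ d1) ψ ⊥ := h.co.fc.toWc
  have C := cj_bot g ▸ W.wlc g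
  have pb : ψ d1 = ea b φ (1, 0, 0, 0) := h.co.hc.trans ea0.symm
  have p2 := h.co.ag d2 (by decide +kernel) (by decide +kernel)
  have p3 : ψ d3 = ea b φ (0, 0, 0, 1) := by rw [h.co.ag d3 (by decide +kernel) (by decide +kernel), ea1, dA3]
  have q1 : φ d1 = ea b φ (0, 1, 0, 0) := by rw [ea1, dA1]
  have q2 : φ d2 = ea b φ (0, 0, 1, 0) := by rw [ea1, dA2]
  have th : g * b * g⁻¹ = φ ww * ψ (d1 * d3) := by
    rw [Wc.a0 h.ac, ww, map_mul, map_mul, pb, p3, q1, q2, ← W.add, ← W.add, ← W.add]; rfl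
  have c3 : lc g φ d3 = g * b * g⁻¹ * φ ww := by
    rw [lc_apply, Wc.a0 h.ac, Wc.a3 h.ac, ww, map_mul, q1, q2, ← W.add, ← W.add]; rfl
  have cw : lc g φ ww = ψ (d1⁻¹ * d3) := by
    rw [ww, map_mul, lc_apply, lc_apply, Wc.a1 h.ac, Wc.a2 h.ac, map_mul, map_inv, pb, p3, ← W.neg, ← W.add, ← W.add]; rfl
  have cb : lc g φ bb = (φ bb)⁻¹ := by
    rw [bb, map_mul, map_inv, lc_apply, lc_apply, Wc.a1 h.ac, Wc.a2 h.ac, map_mul, map_inv, q1, q2, ← W.neg, ← W.neg,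
      ← W.add, ← W.add, ← W.neg]; rfl
  have ct : lc g φ sw12 = φ sw12 := by rw [lc_apply, h.gt.eq, mul_inv_cancel_right]
  have s1 := (P.cb sw13).symm
  have s2 : Commute (ψ sw13) (φ d2) := p2 ▸ Commute.map (by decide +kernel) ψ
  have sw : Commute (ψ sw13) (φ ww) := by rw [ww, map_mul]; exact s1.mul_right s2
  have st : Commute (ψ sw13) (g * b * g⁻¹) := th ▸ sw.mul_right (Commute.map (by decide +kernel) ψ)
  obtain ⟨k, e⟩ := C.m2 _ st (pe2 (map_sq (by decide +kernel)))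
  obtain ⟨j, rfl⟩ := kk_cj (y := k) (C.inj (by rw [map_mul, ← e, map_sq (by decide +kernel), map_one]))
    (C.inj (by rw [← map_cj, map_inv, cw, ← e, map_cj, ← map_inv]; exact congrArg ψ (by decide +kernel)))
    (C.cm.1 (by rw [← e, cb, bb, map_mul, map_inv]; exact (s1.mul_right s2.inv_right).inv_right))
    (C.cm.1 (by rw [← e, c3]; exact st.mul_right sw))
  have c : ∀ y, Commute ww y → cf (lc g φ) (ww ^ j.1) y = lc g φ y := fun y c => cf_eq (cjc (c.pow_left _))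
  have n := pow_mem ww_norm j.1
  refine ⟨_, cf (lc g φ) (ww ^ j.1), ⟨h.f4.toFc, P, C.wcf _, h.co.ha, h.co.hc, h.co.ag, th, (c _ (by decide +kernel)).trans c3,
    (c _ (.refl _)).trans cw, (c _ (by decide +kernel)).trans cb, (c _ (by decide +kernel)).trans ct, e.symm, ?_, h.mz⟩,
    map_cf n, ?_⟩
  · rw [map_cf n]
    rintro _ ⟨k, hk, rfl⟩
    exact conj_mem_of_norm (Oc_norm _ _ (mem_cent1.2 h.gt)) (h.zq (mem_map_of_mem _ hk))
  · have : lc r (cf (lc g φ) (ww ^ j.1)) = cf (lc (r * g) φ) (ww ^ j.1) := by ext; simp [cf_apply, mul_assoc]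
    rw [O5, this, map_cf n, map_cf n]

theorem nO1 (c1 : Commute x (φ sw12)) (c2 : Commute x (φ ww)) : x ∈ N(O1 φ) :=
  norm_inf (Oc_norm _ _ (mem_cent1.2 c1)) (norm_c1 c2)
theorem pO1 : PG 2 (O1 φ) := (Oc_pi _ _).infl _
theorem tO1 (h : x ∈ O1 φ) : Commute x (φ sw12) := mem_cent1.1 (Oc_le _ _ h.1)
theorem wO1 (h : x ∈ O1 φ) : Commute x (φ ww) := mem_cent1.1 h.2

namespace Dt
variable (D : Dt b r θ φ ψ χ M)
include D
theorem inM (x2 : x * x = 1) (c : Commute x (φ ww)) : x ∈ M := by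
  obtain ⟨i, h⟩ := D.mz.sup x (mem_cent1.2 c)
  have := pow_mem h 3
  rwa [(c.symm.pow_left _).mul_pow, ← pow_mul, mul_comm, pow_mul, map3 ww3, one_pow, one_mul, pow_succ, sq, x2, one_mul] at this
theorem wM (hy : y ∈ zpowers (φ ww)) (hM : y ∈ M) : y = 1 := by
  rcases zp3 (map3 ww3) hy with e | rfl | rfl
  exacts [e, absurd hM D.mz.nw, absurd (inv_mem_iff.1 hM) D.mz.nw]
theorem p2 : ψ d2 = φ d2 := D.ag d2 (by decide +kernel) (by decide +kernel)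
theorem p3 : ψ d3 = φ d3 := D.ag d3 (by decide +kernel) (by decide +kernel)
theorem sw (hk : k ∈ S4 e2 f2) : Commute (ψ k) (φ ww) := by
  rw [ww, map_mul, ← D.p2]; exact (D.P.cb k).symm.mul_right ((S4_d2 hk).map ψ)
theorem sM : S6 ψ ≤ M := map_le_iff_le_comap.2 (S4_le fun p a c =>
  D.inM (mapT p) (D.sw ⟨T_fix (ω_comm _ _ ▸ a), T_fix (ω_comm _ _ ▸ c)⟩))
theorem st : S6 ψ ≤ C[φ sw12] := by
  have t1 : Commute (φ sw12) (ψ (T e1)) := D.pr ▸ (D.F.rL _).symm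
  have t2 : Commute (φ sw12) (ψ (T f1)) := by
    rw [show T f1 = T e1 * d1 by decide +kernel, map_mul, D.pb]; exact t1.mul_right (D.F.cb _).symm
  have t3 : Commute (φ sw12) (ψ (T e3)) := D.ag (T e3) rfl rfl ▸ Commute.map (by decide +kernel) φ
  have t4 : Commute (φ sw12) (ψ (T f3)) := D.ag (T f3) rfl rfl ▸ Commute.map (by decide +kernel) φ
  have t5 : Commute (φ sw12) (ψ (T (e1 + e3))) := by
    obtain ⟨k, e⟩ := D.P.m2 (φ sw12 * ψ (T (e1 + e3)) * (φ sw12)⁻¹) (by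
      rw [show d1 = sw12 * d2 * sw12⁻¹ by decide +kernel, ← map_cj, Commute.conj_iff, ← D.p2]
      exact Commute.map (by decide +kernel) ψ) (pe2 (by rw [conj_mul, mapT, mul_one, mul_inv_cancel]))
    have c : ∀ {y}, Commute (φ sw12) (ψ y) → (Commute k y ↔ Commute (T (e1 + e3)) y) := fun h => by
      rw [← D.P.cm, ← e, cji h, D.P.cm]
    have := pin (k := k) (D.P.inj (by rw [map_mul, ← e, conj_mul, mapT, mul_one, mul_inv_cancel, map_one])) (D.P.inj (by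
        have e' : φ sw12 * ψ (T f1) * (φ sw12)⁻¹ = ψ (T f1) := by rw [t2.eq, mul_inv_cancel_right]
        rw [map_mul, map_mul, map_mul, map_mul, ← e, ← e', conj_mul, conj_mul, conj_mul, conj_mul, ← map_mul ψ, ← map_mul ψ,
          ← map_mul ψ, ← map_mul ψ, show T (e1 + e3) * T f1 * T (e1 + e3) = T f1 * T (e1 + e3) * T f1 by decide +kernel]))
      ((c t1).2 (by decide +kernel)) ((c t3).2 (by decide +kernel)) (D.P.cm.1 (by
        rw [← e, D.p2, show d2 = sw12 * d1 * sw12⁻¹ by decide +kernel, ← map_cj, Commute.conj_iff]; exact (D.P.cb _).symm))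
      (mt (c t2).1 (by decide +kernel)) (mt (c t4).1 (by decide +kernel))
    exact mul_inv_eq_iff_eq_mul.1 (this ▸ e)
  refine map_le_iff_le_comap.2 (S4_le5 ?_)
  simp only [List.forall_mem_cons, List.not_mem_nil, IsEmpty.forall_iff, implies_true, and_true]
  exact ⟨mem_cent1.2 t1.symm, mem_cent1.2 t2.symm, mem_cent1.2 t3.symm, mem_cent1.2 t4.symm, mem_cent1.2 t5.symm⟩
theorem stc (hk : k ∈ S4 e2 f2) : Commute (ψ k) (φ sw12) := mem_cent1.1 (D.st (mem_map_of_mem _ hk))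
theorem sN (hk : k ∈ S4 e2 f2) : ψ k ∈ N(O1 φ) := nO1 (D.stc hk) (D.sw hk)
theorem rN : r ∈ N(O1 φ) := nO1 (D.F.rL _) (D.F.rL _)
theorem xw (h : Commute k d3) : Commute (χ k) (φ ww) := by
  rw [eq_inv_mul_of_mul_eq D.c3.symm]; exact (D.C.cb k).symm.inv_right.mul_right (h.map χ)
theorem xs (h : Commute k d3) : Commute (χ k) (ψ (d1 * d3)) := by
  rw [eq_inv_mul_of_mul_eq D.th.symm]; exact (D.xw h).inv_right.mul_right (D.C.cb k).symm
theorem v3 : ZW.map χ ≤ O1 φ := le_inf D.zq (by rintro _ ⟨k, hk, rfl⟩; exact mem_cent1.2 (D.xw (ZW_d3 hk)))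
theorem v2 : ZW.map (lc r χ) ≤ O1 φ := by
  rintro _ ⟨k, hk, rfl⟩; exact conj_mem_of_norm D.rN (D.v3 (mem_map_of_mem _ hk))
theorem t4 : χ (zw 4) = φ sw12 := zw4 ▸ D.ct
theorem r4 : lc r χ (zw 4) = φ sw12 := by rw [lc_apply, D.t4, (D.F.rL _).eq, mul_inv_cancel_right]
theorem rs : r * ψ (d1 * d3) * r⁻¹ = χ ww := by rw [D.cw, ← D.pr, map_cj]; exact congrArg ψ (by decide +kernel)
theorem o1b (hx : x ∈ O1 φ) (c : Commute x (ψ d1)) : x = 1 ∨ x = φ sw12 := by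
  have W := D.F.toWc
  obtain ⟨k, rfl⟩ := W.m2 x (D.pb ▸ c) (pO1.elt hx)
  have p : PiG {3}ᶜ ((O1 φ).comap φ) := (pi_comap W.inj pO1).sing_ne (by decide)
  obtain ⟨a1, a2⟩ := fix3 p (t := d3) (norm_comap (D.p3 ▸ D.sN (by decide +kernel))) (by decide +kernel)
    (fun k hk v => pw3 (W.cm.1 (wO1 hk))) hx
  obtain ⟨j, l, e⟩ := cb1 (W.cm.1 (tO1 hx)) (W.cm.1 (wO1 hx))
  obtain ⟨x1, x2, x3, x4⟩ : (ww ^ j.1 * rb sw12 l) • e3 = e3 ∧ (ww ^ j.1 * rb sw12 l) • f3 = f3 ∧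
      ((ww ^ j.1 * rb sw12 l)⁻¹ ^ 2) ^ 3 = 1 ∧ ((ww ^ j.1 * rb sw12 l)⁻¹ ^ 2 = 1 → (ww ^ j.1 * rb sw12 l)⁻¹ = 1 ∨
      (ww ^ j.1 * rb sw12 l)⁻¹ = sw12) := by clear * -; revert j l; decide +kernel
  obtain rfl := eq_inv_of_mul_eq_one_right (ext6 (h := 1) (e _ (by simp)) (e _ (by simp)) (e _ (by simp)) (e _ (by simp))
    (by rw [mul_smul, a1, x1, one_smul]) (by rw [mul_smul, a2, x2, one_smul]))
  exact (x4 (not_mem3 p x3 (pow_mem (mem_comap.2 hx) 2))).imp (fun e => by rw [e, map_one]) fun e => by rw [e]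
theorem o1d (hx : x ∈ O1 φ) (c : Commute x (ψ d3)) : x = 1 ∨ x = φ sw12 := by
  have m : sw13 ∈ S4 e2 f2 := by decide +kernel
  refine (D.o1b (conj_mem_of_norm (D.sN m) hx) (by
    rwa [show d1 = sw13 * d3 * sw13⁻¹ by decide +kernel, ← map_cj, Commute.conj_iff])).imp (by simp) fun e => ?_
  rwa [mul_inv_eq_iff_eq_mul, ← (D.stc m).eq, mul_right_inj] at e
theorem o1s (hx : x ∈ O1 φ) (c : Commute x (ψ (d1 * d3))) : x ∈ ZW.map χ := by
  have t : ∀ {x}, x ∈ O1 φ ⊓ C[ψ (d1 * d3)] → Commute x θ := fun h => D.th ▸ (wO1 h.1).mul_right (mem_cent1.1 h.2)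
  have hx' : x ∈ O1 φ ⊓ C[ψ (d1 * d3)] := ⟨hx, mem_cent1.2 c⟩
  obtain ⟨k, rfl⟩ := D.C.m2 x (t hx') (pO1.elt hx)
  have p : PiG {3}ᶜ ((O1 φ ⊓ C[ψ (d1 * d3)]).comap χ) := (pi_comap D.C.inj (pO1.infl _)).sing_ne (by decide)
  obtain ⟨a1, a2⟩ := fix3 p (t := d3) (norm_comap (norm_inf (nO1 (D.ct ▸ Commute.map (by decide +kernel) χ) (D.xw (.refl _)))
    (norm_c1 (D.xs (.refl _))))) (by decide +kernel) (fun k hk v => pd3 (D.C.cm.1 (D.c3 ▸ (t hk).mul_right (wO1 hk.1)))) hx'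
  obtain ⟨a3, a4⟩ := fix3 p (t := ww) (norm_comap (norm_inf (D.cw ▸ D.sN (by decide +kernel))
    (norm_c1 (D.xs (by decide +kernel))))) (by decide +kernel) (fun k hk v => ps3 (D.C.cm.1 (D.ct ▸ tO1 hk.1))) hx'
  exact mem_map_of_mem _ (toZW a3 a4 a1 a2)
theorem o1t (hx : x ∈ O1 φ) (c : Commute x (ψ d1 * (ψ d3)⁻¹)) : x ∈ ZW.map (lc r χ) := by
  obtain ⟨k, hk, e⟩ := D.o1s (conj_mem_of_norm' D.rN hx) (by
    rw [← Commute.conj_iff r, D.rs, D.cw, map_mul, map_inv]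
    have := c.inv_right
    rw [mul_inv_rev, inv_inv, ((show Commute d3 d1 by decide +kernel).map ψ).inv_right.eq] at this
    simpa [mul_assoc] using this)
  exact ⟨k, hk, by rw [lc_apply, e]; group⟩
theorem tV : φ sw12 ∈ ZW.map χ := D.t4 ▸ mem_map_of_mem _ (zw_mem 4)
theorem e9' {X Y : Subgroup G} (l : X ≤ O1 φ) (n1 : ψ d1 ∈ N(X)) (n3 : ψ d3 ∈ N(X)) (h3 : ZW.map χ ≤ Y)
    (h2 : X ⊓ ZW.map (lc r χ) ≤ Y) : X ≤ Y :=
  have t : ∀ {x}, x = 1 ∨ x = φ sw12 → x ∈ Y := by rintro _ (rfl | rfl); exacts [one_mem _, h3 D.tV]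
  e9 ((pO1.of_le l).sing_ne (by decide)) (map3 (by decide +kernel)) (map3 d3_3) (Commute.map (by decide +kernel) ψ) n1 n3
    (fun _ h => t (D.o1b (l h.1) (mem_cent1.1 h.2))) (fun _ h => t (D.o1d (l h.1) (mem_cent1.1 h.2)))
    (fun _ h => h3 (D.o1s (l h.1) (map_mul ψ d1 d3 ▸ mem_cent1.1 h.2))) fun _ h => h2 ⟨h.1, D.o1t (l h.1) (mem_cent1.1 h.2)⟩
theorem o1 : O5 r χ = O1 φ := (sup_le D.v3 D.v2).antisymm (D.e9' le_rfl (D.sN (by decide +kernel)) (D.sN (by decide +kernel))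
  le_sup_left (inf_le_right.trans le_sup_right))
theorem nV (n : x ∈ N(O1 φ)) (n' : x ∈ N(C[ψ (d1 * d3)])) : x ∈ N(ZW.map χ) := by
  have : ZW.map χ = O1 φ ⊓ C[ψ (d1 * d3)] := (le_inf D.v3 (by
    rintro _ ⟨k, hk, rfl⟩; exact mem_cent1.2 (D.xs (ZW_d3 hk)))).antisymm fun _ h => D.o1s h.1 (mem_cent1.1 h.2)
  exact this ▸ norm_inf n n'
theorem cenV (a2 : a * a = 1) (n : a ∈ N(ZW.map χ)) (c : Commute a (χ ww)) : ZW.map χ ≤ C[a] := by
  have ex : ∀ i, ∃ m < 8, a * χ (zw i) * a⁻¹ = χ (zw m) := fun i => by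
    obtain ⟨k, hk, e⟩ := conj_mem_of_norm n (mem_map_of_mem χ (zw_mem i))
    obtain ⟨m, hm, rfl⟩ := ZW_ex hk
    exact ⟨m, hm, e.symm⟩
  have f : ∀ {y z}, a * χ y * a⁻¹ = χ z → a * χ (ww * y * ww⁻¹) * a⁻¹ = χ (ww * z * ww⁻¹) := fun e => by
    rw [← map_cj, ← map_cj, ← e, ← conj_mul, ← conj_mul, ← conj_inv, c.eq, mul_inv_cancel_right]
  have iv : ∀ {y z z'}, a * χ y * a⁻¹ = χ z → a * χ z * a⁻¹ = χ z' → y = z' := fun {y z z'} e e' => D.C.inj (by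
    rw [← e', ← e]
    calc _ = a * a * χ y * (a * a)⁻¹ := by rw [a2]; group
      _ = _ := by group)
  have i0 : ∀ {y}, a * χ y * a⁻¹ = χ (zw 0) → y = zw 0 := fun e => iv e (by simp [zw0])
  obtain ⟨m, hm, e1⟩ := ex 1
  obtain ⟨m', hm', e4⟩ := ex 4
  have e2 := f e1
  have e3 := f e2
  have e5 := f e4
  rw [show ww * zw 1 * ww⁻¹ = zw 2 by decide +kernel] at e2 e3
  rw [show ww * zw 4 * ww⁻¹ = zw 4 by decide +kernel, e4] at e5
  rw [show ww * zw 2 * ww⁻¹ = zw 3 by decide +kernel] at e3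
  have e6 := e3
  rw [show zw 3 = zw 1 * zw 2 by decide +kernel, map_mul, ← conj_mul, e1, e2, ← map_mul] at e6
  obtain rfl : m' = 4 := by
    rcases (by decide +kernel : ∀ m < 8, zw m = ww * zw m * ww⁻¹ → m = 0 ∨ m = 4) m' hm' (D.C.inj e5) with rfl | e
    exacts [absurd (i0 e4) (by decide +kernel), e]
  obtain rfl : m = 1 := by
    rcases (by decide +kernel : ∀ m < 8, zw m * (ww * zw m * ww⁻¹) = ww * (ww * zw m * ww⁻¹) * ww⁻¹ →
      m = 0 ∨ m = 1 ∨ m = 2 ∨ m = 3) m hm (D.C.inj e6) with rfl | e | rfl | rfl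
    exacts [absurd (i0 e1) (by decide +kernel), e, absurd (iv e1 e2) (by decide +kernel), absurd (iv e1 e3) (by decide +kernel)]
  rw [show ww * zw 1 * ww⁻¹ = zw 2 by decide +kernel] at e2
  exact ZW_le (mem_cent1.2 (mul_inv_eq_iff_eq_mul.1 e1).symm) (mem_cent1.2 (mul_inv_eq_iff_eq_mul.1 e2).symm)
    (mem_cent1.2 (mul_inv_eq_iff_eq_mul.1 e4).symm)
theorem n23 : ZW.map (lc r χ) ≤ N(ZW.map χ) := by
  have nn : ∀ {k}, k ∈ S4 e2 f2 → Commute k (d1 * d3) → ψ k ∈ N(O1 φ ⊓ N(ZW.map χ)) := fun h c =>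
    norm_inf (D.sN h) (norm_le_norm_norm _ (D.nV (D.sN h) (norm_c1 (c.map ψ))))
  have t : lc r χ (zw 4) ∈ O1 φ ⊓ N(ZW.map χ) := D.r4 ▸ ⟨D.v3 D.tV, le_normalizer D.tV⟩
  by_cases h : ∃ n < 8, n ≠ 0 ∧ n ≠ 4 ∧ lc r χ (zw n) ∈ O1 φ ⊓ N(ZW.map χ)
  · obtain ⟨n, hn, n0, n4, h⟩ := h
    have w : ww ∈ N((O1 φ ⊓ N(ZW.map χ)).comap (lc r χ)) := norm_comap (by
      rw [lc_apply, D.cw, ← D.pr, map_cj]; exact nn (by decide +kernel) (by decide +kernel))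
    obtain ⟨j, l, e⟩ := (by decide +kernel : ∀ n < 8, n ≠ 0 → n ≠ 4 → ∃ (j : Fin 3) (l : Bool),
      zw 1 = ww ^ j.1 * zw n * (ww ^ j.1)⁻¹ * rb (zw 4) l) n hn n0 n4
    have h1 : zw 1 ∈ (O1 φ ⊓ N(ZW.map χ)).comap (lc r χ) :=
      e ▸ mul_mem (conj_mem_of_norm (pow_mem w _) h) (by cases l; exacts [one_mem _, t])
    have h2 := conj_mem_of_norm w h1
    rw [show ww * zw 1 * ww⁻¹ = zw 2 by decide +kernel] at h2
    exact (ZW_le h1 h2 t).trans inf_le_right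
  · refine D.v2.trans ((nil_eq_of_norm_le pO1.nil D.v3 (D.e9' inf_le_left (nn (by decide +kernel) (by decide +kernel))
      (nn (by decide +kernel) (by decide +kernel)) le_rfl ?_)).ge.trans le_normalizer)
    rintro _ ⟨hx, k, hk, rfl⟩
    obtain ⟨n, hn, rfl⟩ := ZW_ex hk
    by_cases n0 : n = 0
    · rw [n0, zw0, map_one]; exact one_mem _
    by_cases n4 : n = 4
    · rw [n4, D.r4]; exact D.tV
    exact absurd ⟨n, hn, n0, n4, hx⟩ h
theorem c32 {k' : Sp} (hk : k ∈ ZW) (hk' : k' ∈ ZW) : Commute (χ k) (lc r χ k') := by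
  obtain ⟨n, -, rfl⟩ := ZW_ex hk'
  exact mem_cent1.1 (D.cenV (map_sq (zw_sq n)) (D.n23 (mem_map_of_mem _ hk'))
    (by rw [← D.rs, lc_apply, Commute.conj_iff]; exact D.xs (ZW_d3 hk')) (mem_map_of_mem _ hk))
theorem xmul (o o' : U) : xx r χ (ux o o') = xx r χ o * xx r χ o' := by
  rw [xx, xx, xx, show (ux o o').1 / 8 = o.1 / 8 ^^^ o'.1 / 8 from Nat.xor_div_two_pow (n := 3), ux, zw_add, zw_add, map_mul,
    map_mul, (D.c32 (zw_mem _) (zw_mem _)).mul_mul_mul_comm]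
omit D in
theorem x0 : xx r χ 0 = 1 := by simp [xx, zw0]
theorem xsq (o : U) : xx r χ o * xx r χ o = 1 := by
  rw [← D.xmul, show ux o o = 0 from Fin.ext (Nat.xor_self _), x0]
omit D in
theorem xmem (o : U) : xx r χ o ∈ O5 r χ :=
  mul_mem_sup (mem_map_of_mem _ (zw_mem _)) (mem_map_of_mem _ (zw_mem _))
omit D in
theorem xlo (o : U) (h : o.1 < 8) : xx r χ o = χ (zw o.1) := by rw [xx, Nat.div_eq_of_lt h, zw0, map_one, mul_one]
omit D in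
theorem xhi (o : U) (h : o.1 % 8 = 0) : xx r χ o = lc r χ (zw (o.1 / 8)) := by rw [xx, ← zw_mod, h, zw0, map_one, one_mul]
theorem x4 : xx r χ 4 = φ sw12 := (xlo 4 (by decide)).trans D.t4
theorem xex (hx : x ∈ O5 r χ) : ∃ o, x = xx r χ o :=
  let H : Subgroup G :=
    { carrier := {x | ∃ o, x = xx r χ o}
      one_mem' := ⟨0, x0.symm⟩
      mul_mem' := by rintro _ _ ⟨o, rfl⟩ ⟨o', rfl⟩; exact ⟨_, (D.xmul o o').symm⟩
      inv_mem' := by rintro _ ⟨o, rfl⟩; exact ⟨o, inv_eq_of_mul_eq_one_right (D.xsq o)⟩ }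
  (sup_le (ZW_le ⟨1, (xlo 1 (by decide)).symm⟩ ⟨2, (xlo 2 (by decide)).symm⟩ ⟨4, (xlo 4 (by decide)).symm⟩)
    (ZW_le ⟨8, (xhi 8 rfl).symm⟩ ⟨16, (xhi 16 rfl).symm⟩ ⟨4, D.r4.trans D.x4.symm⟩) : _ ≤ H) hx
theorem xinj : Function.Injective (xx r χ) := fun o o' e => by
  have e' : xx r χ (ux o o') = 1 := by rw [D.xmul, e, D.xsq]
  refine (by decide +kernel : ∀ o o' : U, ux o o' = 0 → o = o') _ _ ?_
  generalize ux o o' = u at e'
  have c : Commute (lc r χ (zw (u.1 / 8))) (lc r χ ww) := by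
    rw [eq_inv_of_mul_eq_one_right e', lc_apply, ← D.rs, ← mul_assoc, ← mul_assoc, D.F.rr, one_mul, mul_assoc, ← mul_inv_rev,
      D.F.rr, inv_one, mul_one]
    exact (D.xs (ZW_d3 (zw_mem _))).inv_left
  have h := (by decide +kernel : ∀ u : U, Commute (zw (u.1 / 8)) ww → u.1 < 8) u ((D.C.wlc r).cm.1 c)
  rw [xlo u h, ← map_one χ] at e'
  exact (by decide +kernel : ∀ u : U, u.1 < 8 → zw u.1 = 1 → u = 0) u h (D.C.inj e')
theorem xcm (o o' : U) : Commute (xx r χ o) (xx r χ o') := by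
  rw [commute_iff_eq, ← D.xmul, ← D.xmul]; exact congrArg _ (Fin.ext (Nat.xor_comm _ _))
theorem ab : Ab (O5 r χ) := comm_iff_le_cent.2 fun _ hx => mem_cent.2 fun _ hy => by
  obtain ⟨o, rfl⟩ := D.xex hx
  obtain ⟨o', rfl⟩ := D.xex hy
  exact D.xcm _ _
theorem card : #(O5 r χ) = 32 := by
  rw [← Nat.card_eq_of_bijective (fun o : U => (⟨_, xmem o⟩ : O5 r χ)) ⟨fun _ _ e => D.xinj (congrArg Subtype.val e),
    fun ⟨_, h⟩ => let ⟨o, e⟩ := D.xex h; ⟨o, Subtype.ext e.symm⟩⟩, Nat.card_fin]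
theorem nm : S6 ψ ≤ N(O5 r χ) := by rintro _ ⟨k, hk, rfl⟩; exact D.o1 ▸ D.sN hk
theorem dis1 (hk : k ∈ S4 e2 f2) (h : ψ k ∈ O5 r χ) : k = 1 := by
  have n : ∀ {d}, d ∈ S4 e2 f2 → d ∈ N((O1 φ).comap ψ ⊓ S4 e2 f2) := fun h => norm_inf (norm_comap (D.sN h)) (le_normalizer h)
  exact mem_bot.1 ((sig _ ((pi_comap D.P.inj pO1).infl _) (AM_le (n (by decide +kernel))
    (cent_le_norm _ (mem_cent.2 fun _ h => S4_d2 h.2)) (n (by decide +kernel)))).le ⟨D.o1 ▸ h, hk⟩)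
theorem dis : O5 r χ ⊓ S6 ψ = ⊥ := eq_bot_iff.2 (by
  rintro _ ⟨h, k, hk, rfl⟩; rw [D.dis1 hk h, map_one]; exact one_mem _)
theorem oY : O5 r χ ≤ YY φ M := fun _ h => by
  have h' := D.o1 ▸ h
  obtain ⟨o, rfl⟩ := D.xex h
  exact ⟨D.inM (D.xsq o) (wO1 h'), mem_cent1.2 (tO1 h')⟩
theorem leY : O5 r χ ⊔ S6 ψ ≤ YY φ M := sup_le D.oY (le_inf D.sM D.st)
theorem nY : YY φ M ≤ N(O5 r χ) := fun _ h => D.o1 ▸ nO1 (mem_cent1.1 h.2) (mem_cent1.1 (D.mz.le h.1))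
theorem wz (hx : x ∈ M) (hy : y ∈ zpowers (φ ww)) (h : y * x ∈ O5 r χ ⊔ S6 ψ) : x ∈ O5 r χ ⊔ S6 ψ := by
  rwa [D.wM hy ((mul_mem_cancel_right hx).1 (D.leY h).1), one_mul] at h
theorem mS (hk : k ∈ S4 e2 f2) : ψ k ∈ O5 r χ ⊔ S6 ψ := mem_sup_right (mem_map_of_mem _ hk)
theorem mV (hx : x ∈ ZW.map χ) : x ∈ O5 r χ ⊔ S6 ψ := mem_sup_left (mem_sup_left hx)
theorem cYb (hx : x ∈ YY φ M) (c : Commute x (ψ d1)) : x ∈ O5 r χ ⊔ S6 ψ := by
  have W := D.F.toWc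
  obtain ⟨i, _, k, rfl, e⟩ := W.cent x (D.pb ▸ c)
  rw [mul_one] at e
  have f : ∀ {y}, Commute x (φ y) → Commute k y := fun {y} h => W.cm.1 (by
    rw [eq_inv_mul_of_mul_eq e.symm]; exact ((W.cb y).pow_left _).inv_left.mul_left h)
  obtain ⟨j, l, m⟩ := cb1 (f (mem_cent1.1 hx.2)) (f (mem_cent1.1 (D.mz.le hx.1)))
  have h := D.mS (k := ww ^ j.1 * rb sw12 l * k) ⟨m _ (by simp), m _ (by simp)⟩
  rw [D.ag _ (m _ (by simp)) (m _ (by simp)), (rb_comm (show Commute (ww ^ j.1) sw12 by clear * -; revert j; decide +kernel) l).eq,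
    mul_assoc, map_mul, mul_mem_cancel_left (by cases l; exacts [map_one φ ▸ one_mem _, D.mV D.tV])] at h
  refine D.wz hx.1 (pow_mem (mem_zpowers _) j.1) ?_
  rw [e, ← mul_assoc, ← ((W.cb ww).pow_pow _ _).eq, mul_assoc, ← map_pow, ← map_mul]
  exact mul_mem (pow_mem (D.pb ▸ D.mS (by decide +kernel)) _) h
theorem cYs (hx : x ∈ YY φ M) (c : Commute x (ψ (d1 * d3))) : x ∈ O5 r χ ⊔ S6 ψ := by
  have w : Commute x (φ ww) := mem_cent1.1 (D.mz.le hx.1)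
  have t : Commute x θ := D.th ▸ w.mul_right c
  obtain ⟨i, _, k, rfl, e⟩ := D.C.cent x t
  rw [mul_one] at e
  have f : ∀ {y}, Commute x (χ y) → Commute k y := fun {y} h => D.C.cm.1 (by
    rw [eq_inv_mul_of_mul_eq e.symm]; exact ((D.C.cb y).pow_left _).inv_left.mul_left h)
  obtain ⟨j, h⟩ := cs2 (f (D.ct ▸ mem_cent1.1 hx.2)) (f (D.c3 ▸ t.mul_right w)) (H := (O5 r χ ⊔ S6 ψ).comap χ)
    (fun _ h => D.mV (mem_map_of_mem _ h)) (mem_comap.2 (D.cw ▸ D.mS (by decide +kernel)))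
    (mem_comap.2 (D.ck ▸ D.mS (by decide +kernel)))
  have m : d1 * d3 ∈ S4 e2 f2 := by decide +kernel
  have s := (D.sw m).symm
  have e3 : χ d3 = ψ (d1 * d3) * (φ ww * φ ww) := by rw [D.c3, D.th, s.eq, mul_assoc]
  rw [mem_comap, map_mul, map_pow, e3, (s.mul_left s).symm.mul_pow, mul_assoc, mul_mem_cancel_left (pow_mem (D.mS m) _)] at h
  refine D.wz hx.1 (y := (φ ww * φ ww) ^ j.1 * (φ ww ^ i.1)⁻¹)
    (mul_mem (pow_mem (mul_mem (mem_zpowers _) (mem_zpowers _)) _) (inv_mem (pow_mem (mem_zpowers _) _))) ?_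
  rw [e, D.th, s.mul_pow, mul_assoc, mul_assoc, inv_mul_cancel_left, ← mul_assoc, ((s.mul_left s).pow_pow _ _).eq, mul_assoc]
  exact mul_mem (pow_mem (D.mS m) _) h
end Dt
end H16.SX
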